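import Cfsg.Agent.H1.FP0
import Cfsg.Agent.H2.Coprime

/-! Chunks CD, PS, W2 of the interface `H1.FP0`. -/

set_option autoImplicit false

namespace H8.FQ
open MulAction Subgroup H1.FP
open scoped Pointwise
universe u

theorem nd_cent {G : Type u} [Group G] [Finite G] {A N R : Subgroup G}
    (hAN : A ≤ normalizer (N : Set G)) (hcop : (Nat.card A).Coprime (Nat.card N))
    (hs : Group.IsSolvable A) {r : ℕ} [Fact r.Prime] (hRN : R ≤ N) (hR : IsPGroup r R)
    (hR2 : ¬ r ∣ R.relIndex N) (hRA : A ≤ normalizer (R : Set G)) :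
    ¬ r ∣ (centralizer (A : Set G) ⊓ R).relIndex (centralizer (A : Set G) ⊓ N) := by
  obtain ⟨S, hS1, hS2, hS3⟩ := H2.exists_ambient_sylow r (centralizer (A : Set G) ⊓ N)
  obtain ⟨c, hc, hle⟩ := H2.exists_centralizer_conj_le_sylow hAN hcop (Or.inl hs)
    (hS1.trans inf_le_right) hS2
    (H2.le_normalizer_of_le_centralizer (le_centralizer_iff.1 (hS1.trans inf_le_left)))
    hRN hR hR2 hRA
  have hc' : c⁻¹ ∈ centralizer (A : Set G) ⊓ N := inv_mem ⟨hc.2, hc.1⟩
  intro h
  apply hS3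
  rw [← H2.relIndex_conj_smul_of_mem_normalizer (g := c⁻¹) (le_normalizer hc')]
  refine h.trans (relIndex_dvd_of_le_left _ ?_)
  intro z hz
  rw [H2.mem_conj_smul] at hz
  have h1 := hle hz
  rw [H2.mem_conj_smul] at h1
  have h2 := hS1 hz
  refine mem_inf.2 ⟨?_, by simpa [mul_assoc] using h1⟩
  have := mul_mem (mul_mem (mem_inf.1 hc').1 (mem_inf.1 h2).1) (mem_inf.1 hc).2
  simpa [mul_assoc] using this

theorem idx_eq {G : Type u} [Group G] {C R N : Subgroup G} (hRN : R ≤ N) :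
    (C ⊓ R).relIndex (C ⊓ N) * C.relIndex N = C.relIndex R * R.relIndex N := by
  rw [← inf_relIndex_right C N, ← inf_relIndex_right C R,
    relIndex_mul_relIndex _ _ _ (inf_le_inf_left C hRN) inf_le_right,
    relIndex_mul_relIndex _ _ _ inf_le_right hRN]

theorem cd_core {G : Type u} [Group G] [Finite G] {A N H : Subgroup G}
    (hAN : A ≤ normalizer (N : Set G)) (hAH : A ≤ normalizer (H : Set G)) (hHN : H ≤ N)
    (hcop : (Nat.card A).Coprime (Nat.card N)) (hs : Group.IsSolvable A) :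
    (centralizer (A : Set G)).relIndex H ∣ (centralizer (A : Set G)).relIndex N := by
  rw [Nat.dvd_iff_prime_pow_dvd_dvd]
  intro r k hr hk
  haveI := Fact.mk hr
  obtain ⟨Q, hQH, hQ, hQ2, hQA⟩ := H2.exists_invariant_sylow hAH
    (hcop.coprime_dvd_right (card_dvd_of_le hHN)) (Or.inl hs) r
  obtain ⟨R, hQR, hRN, hR, hR2, hRA⟩ := H2.exists_invariant_sylow_ge hAN hcop (Or.inl hs)
    (hQH.trans hHN) hQ hQA
  have h1 : r ^ k ∣ (centralizer (A : Set G)).relIndex Q := by
    have e := idx_eq (C := centralizer (A : Set G)) hQH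
    refine Nat.Coprime.dvd_of_dvd_mul_right
      (((Nat.Prime.coprime_iff_not_dvd hr).2 hQ2).pow_left k) ?_
    rw [← e]; exact hk.mul_left _
  have h2 : r ^ k ∣ (centralizer (A : Set G)).relIndex R := by
    obtain ⟨b, hb⟩ := hR.index ((centralizer (A : Set G)).subgroupOf R)
    have hle : (centralizer (A : Set G)).relIndex Q ≤ (centralizer (A : Set G)).relIndex R :=
      relIndex_le_of_le_right hQR index_ne_zero_of_finite
    have h3 : r ^ k ≤ r ^ b := by
      rw [← hb]
      exact (Nat.le_of_dvd (Nat.pos_of_ne_zero index_ne_zero_of_finite) h1).trans hle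
    rw [relIndex, hb]
    exact pow_dvd_pow r ((Nat.pow_le_pow_iff_right hr.one_lt).1 h3)
  have e := idx_eq (C := centralizer (A : Set G)) hRN
  refine Nat.Coprime.dvd_of_dvd_mul_left
    (((Nat.Prime.coprime_iff_not_dvd hr).2 (nd_cent hAN hcop hs hRN hR hR2 hRA)).pow_left k) ?_
  rw [e]; exact h2.mul_right _

theorem cd : CD.{u} := by
  intro G _ _ N H y q hq hy hN hHN hyN hyH
  have e : centralizer ({y} : Set G) = centralizer ((zpowers y : Subgroup G) : Set G) := by
    rw [zpowers_eq_closure, centralizer_closure]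
  rw [e]
  refine cd_core (zpowers_le.2 hyN) (zpowers_le.2 hyH) hHN ?_ (H2.isSolvable_zpowers y)
  rw [Nat.card_zpowers]
  exact (((Nat.Prime.coprime_iff_not_dvd hq).2 hN)).coprime_dvd_left (orderOf_dvd_of_pow_eq_one hy)

theorem rel_stab {G : Type u} [Group G] {Δ : Type u} [MulAction G Δ] (L : Subgroup G) (a : Δ) :
    (stabilizer G a).relIndex L = (orbit L a).ncard := by
  rw [← index_stabilizer]; rfl

theorem ps_core {G : Type u} [Group G] [Finite G] {Δ : Type u} [Finite Δ] [MulAction G Δ]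
    {N : Subgroup G} {y : G} {q : ℕ} (hq : q.Prime) (hyN : y ∈ normalizer (N : Set G))
    (hN : ¬ q ∣ Nat.card N) (hy : y ^ q = 1) (hm : ∃ u : Δ, y • u ≠ u)
    (ht : IsPretransitive N Δ) : (q + 1) * fx y Δ ≤ Nat.card Δ := by
  rcases Nat.eq_zero_or_pos (fx y Δ) with h0 | h0
  · rw [h0]; exact Nat.zero_le _
  obtain ⟨⟨a, ha⟩⟩ : Nonempty (fixedBy Δ y) := (Nat.card_pos_iff.1 h0).1
  have ha : y ∈ stabilizer G a := ha
  haveI := Fact.mk hq
  have hyH : y ∈ normalizer ((stabilizer G a ⊓ N : Subgroup G) : Set G) :=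
    inf_normalizer_le_normalizer_inf ⟨le_normalizer ha, hyN⟩
  have hcd := cd G N (stabilizer G a ⊓ N) y q hq hy hN inf_le_right hyN hyH
  set C := centralizer ({y} : Set G) with hC
  have hn : (stabilizer G a).relIndex N = Nat.card Δ := by
    rw [rel_stab, orbit_eq_univ, Set.ncard_univ]
  have hcop : (Nat.card (zpowers y)).Coprime (Nat.card (stabilizer G a ⊓ N : Subgroup G)) := by
    rw [Nat.card_zpowers]
    exact ((((Nat.Prime.coprime_iff_not_dvd hq).2 hN)).coprime_dvd_left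
      (orderOf_dvd_of_pow_eq_one hy)).coprime_dvd_right (card_dvd_of_le inf_le_right)
  have hf : (stabilizer G a).relIndex (C ⊓ N) = fx y Δ := by
    rw [rel_stab, fx_eq]
    congr 1
    ext b
    constructor
    · rintro ⟨⟨c, hc⟩, rfl⟩
      have h1 : y * c = c * y := (mem_inf.1 hc).1 y rfl
      show y • c • a = c • a
      rw [← mul_smul, h1, mul_smul, ha]
    · intro hb
      obtain ⟨⟨k, hk⟩, rfl⟩ := ht.exists_smul_eq a b
      have hb : y • k • a = k • a := hb
      obtain ⟨m, hm, hc⟩ := H2.exists_mul_mem_centralizer' (zpowers_le.2 hyH) hcop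
        (Or.inl (H2.isSolvable_zpowers y)) (k := k) (fun z hz => by
          refine mem_inf.2 ⟨?_, mul_mem (inv_mem hk)
            (H2.conj_mem_of_le_normalizer (zpowers_le.2 hyN) hz hk)⟩
          show (k⁻¹ * (z * k * z⁻¹)) • a = a
          rw [mul_smul, mul_smul, fix_zpow ha (inv_mem hz), mul_smul, fix_zpow hb hz, inv_smul_smul])
      refine ⟨⟨k * m, mem_inf.2 ⟨?_, mul_mem hk (mem_inf.1 hm).2⟩⟩, ?_⟩
      · rintro _ rfl
        exact hc _ (mem_zpowers _)
      · show (k * m) • a = k • a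
        rw [mul_smul, (mem_inf.1 hm).1]
  have e : fx y Δ * C.relIndex N = C.relIndex (stabilizer G a ⊓ N) * Nat.card Δ := by
    rw [← hf, ← hn, ← inf_relIndex_right (stabilizer G a) N, ← idx_eq (C := C) inf_le_right]
    congr 1
    rw [← inf_relIndex_right (stabilizer G a) (C ⊓ N), inf_left_comm]
  obtain ⟨t, htt⟩ := hcd
  have hpos : 0 < C.relIndex (stabilizer G a ⊓ N) := Nat.pos_of_ne_zero index_ne_zero_of_finite
  have e2 : fx y Δ * t = Nat.card Δ := by
    apply Nat.eq_of_mul_eq_mul_left hpos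
    rw [← e, htt]; ring
  have hy1 : y ≠ 1 := by
    rintro rfl
    obtain ⟨u, hu⟩ := hm
    exact hu (one_smul _ _)
  have hc := card_eq (Δ := Δ) hq (orderOf_eq_prime hy hy1)
  have hlt : fx y Δ < Nat.card Δ := by
    obtain ⟨u, hu⟩ := hm
    rw [fx_eq, ← Set.ncard_univ]
    exact Set.ncard_lt_ncard ⟨Set.subset_univ _, fun h => hu (h (Set.mem_univ u))⟩
  have hqn : ¬ q ∣ fx y Δ := fun h => hN ((h.trans (Dvd.intro _ e2)).trans
    (hn ▸ relIndex_dvd_card _ _))
  have ht2 : 2 ≤ t := by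
    by_contra h
    have : t = 0 ∨ t = 1 := by omega
    rcases this with rfl | rfl <;> omega
  obtain ⟨s, rfl⟩ : ∃ s, t = s + 1 := ⟨t - 1, by omega⟩
  have hd : q ∣ fx y Δ * s := ⟨lx q y Δ, by rw [mul_add, mul_one] at e2; omega⟩
  have hs : q ≤ s := Nat.le_of_dvd (by omega) ((hq.dvd_mul.1 hd).resolve_left hqn)
  rw [← e2, mul_comm]
  exact Nat.mul_le_mul_left _ (by omega)

theorem ps : PS.{u} := by
  intro G _ _ Δ _ _ N y q hq hyN hN hy hm ht
  refine ps_core (G := Equiv.Perm Δ) (N := N.map (toPermHom G Δ)) (y := toPermHom G Δ y) hq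
    (le_normalizer_map _ (mem_map_of_mem _ hyN)) hN ?_ hm ⟨fun a b => ?_⟩
  · rw [← map_pow]
    ext u
    exact hy u
  · obtain ⟨⟨k, hk⟩, rfl⟩ := ht.exists_smul_eq a b
    exact ⟨⟨_, mem_map_of_mem _ hk⟩, rfl⟩

theorem w2 : W2.{u} := by
  intro K _ _ x Δ _ _ s ht h2
  rcases Nat.eq_zero_or_pos (fx x Δ) with h0 | h0
  · rw [h0]; exact Nat.zero_le _
  obtain ⟨⟨a, ha⟩⟩ : Nonempty (fixedBy Δ x) := (Nat.card_pos_iff.1 h0).1
  have ha : x • a = a := ha
  have hP : IsPGroup 2 (zpowers x) :=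
    IsPGroup.of_card (n := 1) (by rw [Nat.card_zpowers, s.ord, pow_one])
  have hi : ¬ 2 ∣ (zpowers x).index := fun h => s.sq (by
    rw [← card_mul_index (zpowers x), Nat.card_zpowers, s.ord, pow_two]
    exact Nat.mul_dvd_mul_left _ h)
  have hd : 2 ∣ Nat.card K := s.ord ▸ orderOf_dvd_natCard x
  have hmin : (Nat.card K).minFac = 2 := (Nat.minFac_eq_two_iff _).2 hd
  let P : Sylow 2 K := hP.toSylow hi
  haveI : IsCyclic (P : Subgroup K) := inferInstanceAs (IsCyclic (zpowers x))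
  have hc := IsCyclic.isComplement' hmin (P := P) inferInstance
  set N := (MonoidHom.transferSylow P (IsCyclic.normalizer_le_centralizer hmin inferInstance)).ker
  have hN : ¬ 2 ∣ Nat.card N := by
    rw [← hc.index_eq_card]; exact hi
  have htN : IsPretransitive N Δ := by
    refine (isPretransitive_iff_base a).2 fun b => ?_
    obtain ⟨g, rfl⟩ := ht.exists_smul_eq a b
    obtain ⟨⟨n, z⟩, h⟩ := (hc.existsUnique g).exists
    refine ⟨n, ?_⟩
    rw [← h, mul_smul, fix_zpow ha z.2]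
    rfl
  have h := ps_core (N := N) (y := x) Nat.prime_two (by rw [normalizer_eq_top]; trivial) hN
    (s.ord ▸ pow_orderOf_eq_one x) (s.moves ht h2) htN
  have h3 := card_eq (Δ := Δ) s.hp s.ord
  omega

end H8.FQ
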