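/-
S3139, chunk `K2`: the model `SL₃(3)` with its inverse-transpose automorphism.
-/
import Cfsg.Agent.H2.LS0
import Cfsg.Agent.S0813
import Cfsg.Agent.H11.SL

set_option autoImplicit false
open Cfsg Subgroup H2.LS Matrix
open scoped MatrixGroups
namespace H8.LS
universe u v
abbrev S3 := SL(3, ZMod 3)

theorem cS3 : Nat.card S3 = 5616 := by
  have h := H11.card_units_mul_card_sl (ι := Fin 3) (F := ZMod 3)
  rw [Matrix.card_GL_field, Fin.prod_univ_three] at h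
  simp only [Nat.card_units, Nat.card_zmod, ZMod.card, Fin.val_zero, Fin.val_one, Fin.val_two] at h
  exact Nat.eq_of_mul_eq_mul_left two_pos h
theorem zS3 : center S3 = ⊥ := card_eq_one.1 (H11.card_center_sl.trans (by simp))
/-- the projective group is the special linear group -/
noncomputable def eS3 {K : Type*} [Field K] [Fintype K] (h : Fintype.card K = 3) : PSL(3, K) ≃* S3 :=
  (H11.pslCongr (.refl _) (ZMod.ringEquivOfPrime K Nat.prime_three h).symm).trans (H11.quotCenterEquivOfBot zS3)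
theorem sS3 : IsSimpleGroup S3 :=
  haveI := H11.psl_simple (ι := Fin 3) (F := ZMod 3) (by simp); (eS3 (K := ZMod 3) rfl).symm.isSimpleGroup
theorem cAut3 : Nat.card (MulAut S3) = 2 * 5616 := by
  have := Agent.S0813.result (F := ZMod 3) 3 1 le_rfl rfl 3 (by omega) (by omega)
  rw [Nat.card_congr (MulAut.congr (eS3 (K := ZMod 3) rfl)).toEquiv, H11.card_pgl_eq_card_sl, cS3] at this
  simpa using this
/-- inverse transpose -/
def γ0 (g : S3) : S3 := ⟨(g⁻¹).1ᵀ, by rw [det_transpose, (g⁻¹).2]⟩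
theorem γ0_mul (g h : S3) : γ0 (g * h) = γ0 g * γ0 h := Subtype.ext (by
  change ((g * h)⁻¹).1ᵀ = (g⁻¹).1ᵀ * (h⁻¹).1ᵀ
  rw [_root_.mul_inv_rev]
  exact transpose_mul (h⁻¹).1 (g⁻¹).1)
theorem γ0_γ0 (g : S3) : γ0 (γ0 g) = g := Subtype.ext (by
  change (adjugate (adjugate g.1)ᵀ)ᵀ = g.1
  rw [← adjugate_transpose, transpose_transpose]
  exact congrArg Subtype.val (inv_inv g))
/-- inverse transpose as an automorphism -/
def γ : MulAut S3 := ⟨⟨γ0, γ0, γ0_γ0, γ0_γ0⟩, γ0_mul⟩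
theorem γγ : γ * γ = 1 := MulEquiv.ext γ0_γ0
/-- inner automorphisms -/
abbrev Inn : Subgroup (MulAut S3) := (MulAut.conj : S3 →* _).range
theorem conj_inj {G : Type*} [Group G] (h : center G = ⊥) : Function.Injective (MulAut.conj : G →* _) :=
  (injective_iff_map_eq_one _).2 fun _ hg =>
    h.le (mem_center_iff.2 fun a => (mul_inv_eq_iff_eq_mul.1 (DFunLike.congr_fun hg a)).symm)
theorem iInn : Inn.index = 2 := by
  have h := Inn.index_mul_card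
  rw [cAut3, ← Nat.card_congr (MonoidHom.ofInjective (conj_inj zS3)).toEquiv, cS3] at h
  exact Nat.eq_of_mul_eq_mul_right (by decide) h
theorem γInn : γ ∉ Inn := fun ⟨g, hg⟩ => by
  let x : S3 := ⟨!![0, 0, 1; 0, 1, 1; 2, 1, 0], by decide +kernel⟩
  have h0 : g * x * g⁻¹ = γ0 x := DFunLike.congr_fun hg x
  have h : trace (g.1 * x.1 * (g⁻¹).1) = trace (γ0 x).1 := by rw [← h0]; rfl
  rw [trace_mul_cycle, show (g⁻¹).1 * g.1 = 1 from congrArg Subtype.val (inv_mul_cancel g), one_mul] at h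
  revert h
  decide +kernel
def z0 : S3 := ⟨!![2, 0, 0; 0, 2, 0; 0, 0, 1], by decide +kernel⟩
def u0 : S3 := ⟨!![1, 0, 0; 0, 2, 0; 0, 0, 2], by decide +kernel⟩
def v0 : S3 := ⟨!![0, 1, 0; 1, 0, 0; 0, 0, 2], by decide +kernel⟩
def w0 : S3 := ⟨!![1, 1, 0; 1, 2, 0; 0, 0, 1], by decide +kernel⟩
def a0 : S3 := ⟨!![0, 0, 1; 1, 0, 0; 0, 1, 0], by decide +kernel⟩
def c0 : S3 := ⟨!![0, 1, 0; 2, 2, 0; 0, 0, 1], by decide +kernel⟩
theorem r0 : (z0 * z0 = 1 ∧ u0 * u0 = 1 ∧ v0 * v0 = 1 ∧ w0 * w0 = z0 ∧ u0 * z0 = z0 * u0 ∧ v0 * z0 = z0 * v0 ∧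
    v0 * u0 = z0 * u0 * v0 ∧ w0 * u0 = v0 * w0 ∧ w0 * v0 = u0 * w0) ∧ z0 ≠ 1 ∧ a0 * z0 * a0⁻¹ = u0 ∧ a0 * u0 * a0⁻¹ = z0 * u0 ∧
    c0 * (u0 * v0) * c0⁻¹ = w0 ∧ c0 * w0 * c0⁻¹ = u0 * v0 * w0 ∧ γ0 u0 = u0 ∧ γ0 v0 = v0 ∧ γ0 w0 = z0 * w0 ∧ γ0 a0 = a0 ∧
    c0 * (u0 * v0) = u0 * v0 * γ0 c0 := by decide +kernel

theorem k2 : K2.{u, v} := fun Y _ X _ K _ _ hK ⟨e0⟩ => by
  let e := e0.trans (eS3 hK)
  let ι : S3 →* Y := X.subtype.comp e.symm.toMonoidHom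
  let ρ : Y →* MulAut S3 := (MulAut.congr e).toMonoidHom.comp (MulAut.conjNormal (H := X))
  have m : ∀ s, ι s ∈ X := fun s => (e.symm s).2
  have ii : Function.Injective ι := X.subtype_injective.comp e.symm.injective
  have a : ∀ y s, y * ι s * y⁻¹ = ι (ρ y s) := fun y s => by simp [ι, ρ]
  have b : ∀ s, ρ (ι s) = MulAut.conj s := fun s => MulEquiv.ext fun r => ii (by rw [← a]; simp)
  have sx : ∀ x ∈ X, ∃ s, ι s = x := fun x hx => ⟨e ⟨x, hx⟩, by simp [ι]⟩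
  have k : ∀ y, y ∈ centralizer (X : Set Y) ↔ ρ y = 1 := fun y => ⟨fun h => MulEquiv.ext fun s => ii (by
    rw [← a, ← h _ (m s), mul_inv_cancel_right]; rfl), fun h x hx => by
      obtain ⟨s, rfl⟩ := sx x hx
      have := a y s
      rw [h] at this
      exact (mul_inv_eq_iff_eq_mul.1 this).symm⟩
  obtain ⟨h, f, f1, f2, f3⟩ : ∃ (h : Bool) (f : Y), (h = false → f = 1) ∧ ρ f = cond h γ 1 ∧ (h = false → ∀ y, ρ y ∈ Inn) := by
    by_cases c : ∀ y, ρ y ∈ Inn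
    · exact ⟨false, 1, fun _ => rfl, map_one _, fun _ => c⟩
    obtain ⟨y, hy⟩ := not_forall.1 c
    obtain ⟨s, hs⟩ := (mul_mem_iff_of_index_two iInn).2 (iff_of_false hy γInn)
    exact ⟨true, (ι s)⁻¹ * y, nofun, by
      rw [map_mul, map_inv, b, hs, _root_.mul_inv_rev, inv_mul_cancel_right, inv_eq_of_mul_eq_one_right γγ]; rfl, nofun⟩
  have fs : ∀ s, f * ι s = ι (cond h (γ0 s) s) * f := fun s => by
    rw [← mul_inv_eq_iff_eq_mul, a, f2]; cases h <;> rfl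
  obtain ⟨⟨r1, r2, r3, r4, r5, r6, r7, r8, r9⟩, s1, s2, s3, s4, s5, g1, g2, g3, g4, g5⟩ := r0
  haveI := sS3
  refine ⟨h, ι z0, ι u0, ι v0, ι w0, f, ι a0, ι c0, e.isSimpleGroup, m _, m _, m _, m _, m _,
    by constructor <;> simp [← map_mul, *], fun c => s1 (ii (c.trans ι.map_one.symm)),
    by rw [Nat.card_congr e.toEquiv, cS3]; decide, by simp [← s2], by simp only [← map_inv, ← map_mul, s3],
    by simp [← s4], by simp only [← map_inv, ← map_mul, s5], f1, by rw [fs, g1, Bool.cond_self], by rw [fs, g2, Bool.cond_self],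
    by rw [fs, g3]; cases h <;> simp, by rw [fs, g4, Bool.cond_self], ?_, (k _).2 (by rw [map_mul, f2]; cases h <;> simp [γγ]),
    ?_, fun y => ?_⟩
  · rintro rfl
    rw [mul_assoc _ f, fs, ← mul_assoc, ← mul_assoc, ← mul_assoc]
    simp only [← map_mul, mul_assoc, g5, cond_true]
  · rintro rfl x hx c
    obtain ⟨s, rfl⟩ := sx x hx
    rw [k, map_mul, b, f2] at c
    exact γInn ⟨s⁻¹, by rw [map_inv]; exact inv_eq_of_mul_eq_one_right c⟩
  by_cases c : ρ y ∈ Inn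
  · obtain ⟨s, hs⟩ := c
    exact ⟨_, m s⁻¹, .inl ((k _).2 (by rw [map_mul, b, map_inv, hs, mul_inv_cancel]))⟩
  · cases h
    · exact absurd (f3 rfl y) c
    obtain ⟨s, hs⟩ := (mul_mem_iff_of_index_two iInn).2 (iff_of_false γInn c)
    exact ⟨_, m s⁻¹, .inr ((k _).2 (by rw [map_mul, map_mul, b, map_inv, hs, f2]; simp))⟩
end H8.LS
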