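import Cfsg.Agent.H8.E8G
import Cfsg.Agent.H0.BC.L32
import Cfsg.Agent.H0.BC.F
import Cfsg.Agent.H18.E7b

/-! Subgroups of `E₈(3)` whose socle fixes a vector of the adjoint module: the interface. -/

set_option autoImplicit false
set_option linter.unusedSectionVars false
set_option maxRecDepth 100000

open Cfsg H5 H7 H8 H21 H14 H23.Sec Cfsg.Lie Matrix Module H0.BC Subgroup

namespace H8.E8

/-- a Brauer character of the adjoint module -/
structure Cx where
  M : Ideal AlgInt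
  δ : Kb 3 →+* kk M
  β : E83 → ℂ
  hM : IsPModular 3 M
  h : IsBC (ρ3 δ) β
  h3 : ∀ g, 3 ∣ orderOf g → β g = 0

theorem ex_cx : Nonempty Cx := by
  obtain ⟨M, δ, β, h1, h2, h3⟩ := ex_bc8
  exact ⟨⟨M, δ, β, h1, h2, h3⟩⟩

namespace Cx
variable (c : Cx) {S : Type*} [Group S] (f : S →* E83)

/-- the representation -/
noncomputable def ρ : S →* End (kk c.M) (I → kk c.M) := (ρ3 c.δ).comp f

/-- fixed vectors -/
def fx (A : Subgroup S) : Submodule (kk c.M) (I → kk c.M) where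
  carrier := {v | ∀ a ∈ A, c.ρ f a v = v}
  add_mem' ha hb a h := by rw [map_add, ha a h, hb a h]
  zero_mem' a _ := map_zero _
  smul_mem' t v hv a h := by rw [map_smul, hv a h]

/-- dimension of the fixed space -/
noncomputable def dm (A : Subgroup S) : ℕ := finrank (kk c.M) (c.fx f A)

variable {c f}

theorem mem_fx {A : Subgroup S} {v : I → kk c.M} : v ∈ c.fx f A ↔ ∀ a ∈ A, c.ρ f a v = v := Iff.rfl

theorem fx_anti {A B : Subgroup S} (h : A ≤ B) : c.fx f B ≤ c.fx f A := fun _ hv a ha => hv a (h ha)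

theorem dm_anti {A B : Subgroup S} (h : A ≤ B) : c.dm f B ≤ c.dm f A :=
  Submodule.finrank_mono (fx_anti h)

theorem mem_fx_closure {s : Set S} {v : I → kk c.M} (h : ∀ a ∈ s, c.ρ f a v = v) :
    v ∈ c.fx f (closure s) := fun a ha => by
  induction ha using closure_induction with
  | mem a ha => exact h a ha
  | one => simp
  | mul a b _ _ h1 h2 => rw [map_mul, End.mul_apply, h2, h1]
  | inv a _ h1 =>
    conv_lhs => rw [← h1, ← End.mul_apply, ← map_mul]
    simp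

theorem fx_sup (A B : Subgroup S) : c.fx f (A ⊔ B) = c.fx f A ⊓ c.fx f B :=
  le_antisymm (le_inf (fx_anti le_sup_left) (fx_anti le_sup_right)) fun v hv => by
    rw [sup_eq_closure]
    exact mem_fx_closure fun a ha => ha.elim (hv.1 a) (hv.2 a)

/-- the amalgam inequality -/
theorem dm_sup {A B D : Subgroup S} (h1 : D ≤ A) (h2 : D ≤ B) :
    c.dm f A + c.dm f B ≤ c.dm f D + c.dm f (A ⊔ B) := by
  rw [dm, dm, dm, dm, fx_sup, ← Submodule.finrank_sup_add_finrank_inf_eq]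
  exact Nat.add_le_add_right (Submodule.finrank_mono (sup_le (fx_anti h1) (fx_anti h2))) _

theorem dm_map {S' : Type*} [Group S'] (φ : S' →* S) (A : Subgroup S') :
    c.dm f (A.map φ) = c.dm (f.comp φ) A := by
  have : c.fx f (A.map φ) = c.fx (f.comp φ) A := Submodule.ext fun v =>
    ⟨fun h a ha => h _ ⟨a, ha, rfl⟩, fun h _ ⟨a, ha, e⟩ => e ▸ h a ha⟩
  rw [dm, this, dm]

theorem dm_conj (g : S) (A : Subgroup S) :
    c.dm f (A.map (MulAut.conj g).toMonoidHom) = c.dm f A := by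
  have key : ∀ (g : S) (A B : Subgroup S), (∀ b ∈ B, g⁻¹ * b * g ∈ A) → c.dm f A ≤ c.dm f B := by
    intro g A B h
    refine le_trans (Submodule.finrank_mono (t := (c.fx f B).map (c.ρ f g⁻¹)) fun v hv =>
      ⟨c.ρ f g v, fun b hb => ?_, ?_⟩) (Submodule.finrank_map_le _ _)
    · conv_rhs => rw [← hv _ (h b hb)]
      simp only [← End.mul_apply, ← map_mul, mul_assoc, mul_inv_cancel_left]
    · rw [← End.mul_apply, ← map_mul, inv_mul_cancel, map_one, End.one_apply]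
  refine le_antisymm (key g⁻¹ _ _ fun b hb => ⟨b, hb, by simp⟩) (key g _ _ ?_)
  rintro _ ⟨b, hb, rfl⟩
  simpa [mul_assoc] using hb

/-- dimension of the fixed space of a `3'`-subgroup -/
theorem sum_eq (A : Subgroup S) [Fintype A] (hA : ¬ 3 ∣ Nat.card A) :
    ∑ a : A, c.β (f a) = Nat.card A * c.dm f A := by
  rw [Nat.card_eq_fintype_card] at hA ⊢
  have := c.h.lin c.hM hA (f.comp A.subtype) 1
  simp only [MonoidHom.one_apply, one_mul, red_one, one_smul] at this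
  refine this.trans (congrArg _ (congrArg _ (congrArg
    (fun p : Submodule (kk c.M) (I → kk c.M) => finrank (kk c.M) p) (le_antisymm ?_ fun v hv => ?_))))
  · rintro _ ⟨v, rfl⟩ a ha
    simp only [LinearMap.sum_apply, map_sum]
    refine Fintype.sum_equiv (Equiv.mulLeft ⟨a, ha⟩) _ _ fun b => ?_
    simp [ρ]
  · refine ⟨(Fintype.card A : kk c.M)⁻¹ • v, ?_⟩
    have e : ∀ a : A, ρ3 c.δ ((f.comp A.subtype) a) v = v := fun a => hv a a.2
    rw [map_smul, LinearMap.sum_apply, Finset.sum_congr rfl fun a _ => e a, Finset.sum_const,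
      Finset.card_univ, ← Nat.cast_smul_eq_nsmul (kk c.M), smul_smul,
      inv_mul_cancel₀ (natCast_ne c.hM hA), one_smul]

variable (c)

theorem cyc {l : ℕ} (hl : ¬ 3 ∣ l) {n : ℕ} (h : alcB [2, 3, 4, 6, 5, 4, 3, 2] l
    (fun L => !invB l 3 (cvec l L) || Nat.ble n (8 + cn l (vs l L) 0)) = true) {x : E83}
    (hx : x ^ l = 1) : ∃ m : ℕ, n ≤ m ∧ ∑ k ∈ Finset.range l, c.β (x ^ k) = l * m := by
  have l0 : l ≠ 0 := fun h => hl (h ▸ dvd_zero 3)
  have hζ := Complex.isPrimitiveRoot_exp l l0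
  obtain ⟨L, h1, h2, h3, -⟩ := c.h.mult8 c.hM hl hζ hx
  generalize Complex.exp _ = ζ at hζ h2
  have := h1 _ h
  simp only [invB_cvec h3, Bool.not_true, Bool.false_or, Nat.ble_eq] at this
  refine ⟨_, this, ?_⟩
  simp only [h2, Finset.sum_add_distrib, Finset.sum_const, Finset.card_range]
  rw [Finset.sum_comm, Finset.sum_eq_single_of_mem 0 (Finset.mem_range.2 (Nat.pos_of_ne_zero l0))]
  · simp; ring
  · intro j hj j0
    have e : ζ ^ j ≠ 1 := hζ.pow_ne_one_of_pos_of_lt j0 (Finset.mem_range.1 hj)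
    simp only [pow_mul]
    rw [← Finset.mul_sum, geom_sum_eq e, ← pow_mul, mul_comm j, pow_mul, hζ.pow_eq_one]
    simp

theorem cyc5 {x : E83} (hx : x ^ 5 = 1) :
    ∃ m : ℕ, 48 ≤ m ∧ ∑ k ∈ Finset.range 5, c.β (x ^ k) = (5 : ℕ) * m :=
  c.cyc (by norm_num) (by decide +kernel) hx

theorem cyc13 {x : E83} (hx : x ^ 13 = 1) :
    ∃ m : ℕ, 20 ≤ m ∧ ∑ k ∈ Finset.range 13, c.β (x ^ k) = (13 : ℕ) * m :=
  c.cyc (by norm_num) (by decide +kernel) hx

theorem b7 {x : E83} (hx : x ^ 7 = 1) (h1 : x ≠ 1) : c.β x = 3 ∨ c.β x = 52 :=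
  (key7 c.h c.hM hx h1).imp And.left And.left

theorem b2 {x : E83} (hx : x ^ 2 = 1) (h1 : x ≠ 1) : c.β x = -8 ∨ c.β x = 24 := c.h.tab2 c.hM hx h1

theorem b1 : c.β 1 = 248 := c.h.one8

end Cx

/-- the hypotheses on the socle -/
def Gd (S : Type*) [Group S] : Prop := center S = ⊥ ∧ Nat.card (MulAut S) ∣ 6 * Nat.card S ∧
  ∃ x : S, x ^ 7 = 1 ∧ x ≠ 1 ∧ Nat.card (centralizer {x}) ≤ 7 ∧
    ∀ (c : Cx) (f : S →* E83), Function.Injective f → 0 < c.dm f ⊤ ∧
      (Nat.card (MulAut S) ∣ 2 * Nat.card S ∨ c.β (f x) ≠ 52)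

/-- the symplectic group -/
abbrev Sp := Matrix.symplecticGroup (Fin 3) (ZMod 2)

/-- the orthogonal group -/
abbrev Om := Cfsg.Omega (ZMod 2) (Cfsg.quadFormPlus 4 (ZMod 2))

/-- chunk: the Suzuki group -/
def SZ.{u} : Prop := ∀ (F : Type u) [Field F] [Fintype F], Fintype.card F = 8 → Gd (Cfsg.Lie.Sz F 4)

/-- chunk: fixed vectors of the symplectic group -/
def SP1 : Prop := ∃ T : Subgroup Sp, Nat.card T = 512 ∧
  ∀ (c : Cx) (f : Sp →* E83), Function.Injective f → c.dm f T < 2 * c.dm f ⊤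

/-- chunk: elements of order seven of the symplectic group -/
def SP2 : Prop := ∃ x : Sp, x ^ 7 = 1 ∧ x ≠ 1 ∧
  ∀ (c : Cx) (f : Sp →* E83), Function.Injective f → c.β (f x) ≠ 52

/-- chunk: group theory of the symplectic group -/
def SP3 : Prop := center Sp = ⊥ ∧ Nat.card Sp = 1451520 ∧ Nat.card (MulAut Sp) ∣ 2 * Nat.card Sp ∧
  ∀ x : Sp, x ^ 7 = 1 → x ≠ 1 → Nat.card (centralizer {x}) ≤ 7

/-- chunk: the symplectic group in the orthogonal group -/
def OM1 : Prop := ∃ A : Subgroup Om, IsCoatom A ∧ Nonempty (A ≃* Sp)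

/-- chunk: group theory of the orthogonal group -/
def OM2 : Prop := IsSimpleGroup Om ∧ Nat.card Om = 174182400 ∧
  Nat.card (MulAut Om) ∣ 6 * Nat.card Om ∧
  ∀ x : Om, x ^ 7 = 1 → x ≠ 1 → Nat.card (centralizer {x}) ≤ 7

end H8.E8
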