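import Cfsg.Agent.H8.Ab
import Cfsg.Agent.H17.PermMod
import Cfsg.Agent.H21.Mod4

/-! Blocks of minimal dimension are nilpotent. -/

open Cfsg MonoidAlgebra
open H5

namespace H8
open H28 H7 MulAction

section Abs

variable {k V Γ Ω : Type*} [Field k] {p : ℕ} [Fact p.Prime] [CharP k p] [AddCommGroup V]
  [Module k V] [Group Γ] [MulAction Γ Ω] [Fintype Ω] {ρ : Representation k Γ V} {T : Ω → V}

theorem linInd_of_sum_ne_zero [Finite Γ] (hΓ : IsPGroup p Γ) [IsPretransitive Γ Ω]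
    (hT : ∀ γ ω, T (γ • ω) = ρ γ (T ω)) (h : ∑ ω, T ω ≠ 0) : LinearIndependent k T := by
  let σ : Representation k Γ (Ω → k) :=
    { toFun := fun γ => LinearMap.funLeft k k (γ⁻¹ • ·)
      map_one' := by ext; simp
      map_mul' := fun a b => by ext; simp [mul_smul] }
  rw [linearIndependent_iff_injective_fintypeLinearCombination, ← LinearMap.ker_eq_bot]
  by_contra h1
  obtain ⟨v, h2, h3, h4⟩ := H17.exists_fixed_vec σ ⊤ (hΓ.to_subgroup ⊤) _ (fun γ _ v hv => by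
    rw [LinearMap.mem_ker, Fintype.linearCombination_apply] at hv ⊢
    rw [← Equiv.sum_comp (toPerm γ), ← map_zero (ρ γ), ← hv, map_sum]
    exact Finset.sum_congr rfl fun ω _ => by simp [σ, hT]) h1
  obtain ⟨ω₀, h5⟩ := Function.ne_iff.1 h3
  rw [LinearMap.mem_ker, Fintype.linearCombination_apply, Finset.sum_congr rfl
    (g := fun ω => v ω₀ • T ω) fun ω _ => by
      obtain ⟨γ, rfl⟩ := exists_smul_eq Γ ω₀ ω
      rw [← congrFun (h4 γ trivial) (γ • ω₀)]; simp [σ], ← Finset.smul_sum] at h2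
  exact smul_ne_zero h5 h h2

theorem exists_fixed_of_linInd (hT : ∀ γ ω, T (γ • ω) = ρ γ (T ω)) (hi : LinearIndependent k T)
    {U : Subgroup Γ} (hU : IsPGroup p U) {w : V} (hw : w ∈ Submodule.span k (Set.range T))
    (h1 : ∀ γ ∈ U, ρ γ w = w) (l : V →ₗ[k] k) (hl : ∀ γ ∈ U, ∀ v, l (ρ γ v) = l v) (h : l w ≠ 0) :
    ∃ ω : Ω, ∀ γ ∈ U, γ • ω = ω := by
  classical
  obtain ⟨f, rfl⟩ := (Submodule.mem_span_range_iff_exists_fun k).1 hw
  have h2 : ∀ γ ∈ U, ∀ ω, f (γ • ω) = f ω := fun γ hγ ω => by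
    refine congrFun (linearIndependent_iff_injective_fintypeLinearCombination.1 hi (a₁ := fun ω => f (γ • ω)) ?_) ω
    rw [Fintype.linearCombination_apply, Fintype.linearCombination_apply, ← h1 _ (inv_mem hγ),
      ← Equiv.sum_comp (toPerm γ) fun ω => f ω • T ω, map_sum]
    exact Finset.sum_congr rfl fun ω _ => by simp [← hT]
  rw [map_sum, sum_eq_sum_fixed p_smul_eq_zero hU (· • ·) _ (by simp) (by simp [mul_smul])
    (by simp) _ fun γ hγ ω _ => by rw [h2 γ hγ, map_smul, map_smul, hT, hl γ hγ]] at h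
  obtain ⟨ω, h3, -⟩ := Finset.exists_ne_zero_of_sum_ne_zero h
  exact ⟨ω, (Finset.mem_filter.1 h3).2⟩

variable (Γ) in
theorem exists_orbit_sum_ne_zero {V : Type*} [AddCommMonoid V] {T : Ω → V} (h : ∑ ω, T ω ≠ 0) :
    ∃ ω₀ : Ω, ∀ [Fintype (orbit Γ ω₀)], ∑ ω : orbit Γ ω₀, T ω ≠ 0 := by
  classical
  have := Fintype.ofFinite (orbitRel.Quotient Γ Ω)
  rw [← Finset.sum_fiberwise _ (Quotient.mk (orbitRel Γ Ω))] at h
  obtain ⟨q, -, h1⟩ := Finset.exists_ne_zero_of_sum_ne_zero h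
  obtain ⟨ω₀, rfl⟩ := Quotient.exists_rep q
  refine ⟨ω₀, fun {_} => ?_⟩
  rwa [Finset.sum_subtype (p := (· ∈ orbit Γ ω₀)) _ fun ω => by
    rw [Finset.mem_filter, and_iff_right (Finset.mem_univ _), Quotient.eq, orbitRel_apply]] at h1

end Abs

variable {k : Type*} [Field k] {G : Type*} [Group G] [Finite G] {p : ℕ} [Fact p.Prime] [CharP k p]

theorem exists_conj_of_finrank {b : k[G]} (hb : b ∈ Fix k ⊤) (hi : IsIdempotentElem b)
    {D S : Subgroup G} (hD : IsDef p ⊤ b D) (hS : IsPGroup p S) (hDS : D ≤ S)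
    (h : Module.finrank k (LinearMap.range (LinearMap.mulLeft k b)) * Nat.card D ≤ Nat.card S ^ 2)
    {R : Subgroup G} (hR : R ≤ D) {y : G} (hy : y ∈ 𝐍 R) : ∃ w ∈ S, y * w⁻¹ ∈ 𝐂 R := by
  classical
  have := Fintype.ofFinite G
  let ρ : Representation k (S × S) k[G] :=
    { toFun := fun γ => LinearMap.mulLeftRight k (single (γ.1 : G) 1, single (γ.2 : G)⁻¹ 1)
      map_one' := LinearMap.ext fun a => by simp [← one_def]
      map_mul' := fun γ δ => LinearMap.ext fun a => by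
        simp only [LinearMap.mulLeftRight_apply, Module.End.mul_apply, ← mul_assoc,
          single_mul_single, mul_one, Prod.fst_mul, Subgroup.coe_mul]
        simp only [mul_assoc, single_mul_single, mul_one, Prod.snd_mul, Subgroup.coe_mul,
          mul_inv_rev] }
  have hρ : ∀ γ a, ρ γ a = single (γ.1 : G) 1 * a * single (γ.2 : G)⁻¹ 1 := fun _ _ => rfl
  have hρ' : ∀ γ a g, (ρ γ a).coeff g = a.coeff ((γ.1 : G)⁻¹ * g * γ.2) := fun γ a g => by
    simp [hρ, mul_assoc]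
  let _ : MulAction (S × S) (G × G) :=
    { smul := fun γ ω => (γ.1 * ω.1 * (γ.1 : G)⁻¹, γ.1 * ω.2 * (γ.2 : G)⁻¹)
      one_smul := fun ω => by change (_, _) = ω; simp
      mul_smul := fun a b ω => Prod.ext
        (show _ * _ * _ = _ * (_ * _ * _) * _ by simp [mul_assoc])
        (show _ * _ * _ = _ * (_ * _ * _) * _ by simp [mul_assoc]) }
  have hs : ∀ (γ : S × S) (ω : G × G),
    γ • ω = (γ.1 * ω.1 * (γ.1 : G)⁻¹, γ.1 * ω.2 * (γ.2 : G)⁻¹) := fun _ _ => rfl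
  have hΓ : IsPGroup p (S × S) := fun γ => by
    obtain ⟨m, hm⟩ := hS γ.1
    obtain ⟨n, hn⟩ := hS γ.2
    exact ⟨m + n, Prod.ext (by simp [pow_add, pow_mul, hm])
      (by simp [pow_add, mul_comm (p ^ m), pow_mul, hn])⟩
  have hc : ∀ a, b * a = a * b := fun a => (commute_of_Supp_Fix (mem_Supp_top a) hb).symm
  have hb' : ∀ γ a, ρ γ (b * a) = b * ρ γ a := fun γ a => by
    rw [hρ, hρ, ← mul_assoc, ← hc, mul_assoc b, mul_assoc b]
  obtain ⟨v, ⟨v, rfl⟩, h1, h2⟩ := H17.exists_fixed_vec ρ ⊤ (hΓ.to_subgroup ⊤)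
    (LinearMap.range (LinearMap.mulLeft k b)) (by rintro γ - _ ⟨a, rfl⟩; exact ⟨_, (hb' γ a).symm⟩)
    fun h0 => hD.ne (by
      rw [show b = 0 by simpa using h0.le (LinearMap.mem_range_self _ 1), map_zero])
  rw [LinearMap.mulLeft_apply] at h1 h2
  obtain ⟨T, hT⟩ : ∃ T : G × G → k[G], ∀ ω,
    T ω = (b.coeff ω.1 * (b * v).coeff ω.2) • (b * single (ω.1 * ω.2) 1) := ⟨_, fun _ => rfl⟩
  have h3 : ∀ γ ω, T (γ • ω) = ρ γ (T ω) := fun γ ω => by
    rw [hT, hT, hs, map_smul, hb', coeff_conj_of_mem_Fix hb trivial, hρ]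
    conv_lhs => rw [← h2 γ trivial, hρ']
    simp [single_mul_single, mul_assoc]
  obtain ⟨ω₀, h4⟩ := exists_orbit_sum_ne_zero (S × S) (T := T) (by
    rwa [show ∑ ω, T ω = b * ((∑ g, single g (b.coeff g)) * ∑ g, single g ((b * v).coeff g)) by
      rw [Finset.sum_mul_sum]
      simp only [Fintype.sum_prod_type, hT, Finset.mul_sum, single_mul_single,
        ← mul_smul_comm, smul_single, smul_eq_mul, mul_one], ← eq_sum_single, ← eq_sum_single,
      ← mul_assoc, hi.eq, ← mul_assoc, hi.eq])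
  have := Fintype.ofFinite (orbit (S × S) ω₀)
  have h5 : ∀ γ (ω : orbit (S × S) ω₀), T (γ • ω).1 = ρ γ (T ω) := fun γ ω => h3 γ ω
  have h6 := linInd_of_sum_ne_zero (T := fun ω : orbit (S × S) ω₀ => T ω) hΓ h5 h4
  have h7 : ∀ ω : orbit (S × S) ω₀, Br (S ⊓ Subgroup.centralizer {ω.1.1}) b ≠ 0 := fun ω =>
    Br_ne_zero_iff.2 ⟨_, le_centralizer_singleton_iff.1 inf_le_right, fun h0 =>
      h6.ne_zero ω (by rw [hT, h0, zero_mul, zero_smul])⟩
  have h8 : ∀ (γ : S × S) (ω : G × G), γ • ω = ω →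
      (γ.1 : G) ∈ S ⊓ Subgroup.centralizer {ω.1} ∧ γ.1 * ω.2 = ω.2 * γ.2 := fun γ ω h =>
    ⟨⟨γ.1.2, Subgroup.mem_centralizer_singleton_iff.2 (mul_inv_eq_iff_eq_mul.1
      (congrArg Prod.fst h))⟩, mul_inv_eq_iff_eq_mul.1 (congrArg Prod.snd h)⟩
  have h9 : Submodule.span k (Set.range fun ω : orbit (S × S) ω₀ => T ω) =
      LinearMap.range (LinearMap.mulLeft k b) := by
    refine Submodule.eq_of_le_of_finrank_le (Submodule.span_le.2 ?_) ?_
    · rintro _ ⟨ω, rfl⟩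
      exact ⟨_, ((hT _).trans (mul_smul_comm _ _ _).symm).symm⟩
    rw [finrank_span_eq_card h6, ← Nat.card_eq_fintype_card]
    refine Nat.le_of_mul_le_mul_right (h.trans ?_) (Nat.card_pos (α := D))
    rw [sq, ← Nat.card_prod, ← (stabilizer (S × S) ω₀).index_mul_card, index_stabilizer,
      ← Nat.card_coe_set_eq]
    refine Nat.mul_le_mul_left _ ((Nat.card_le_card_of_injective
      (fun γ => (⟨γ.1.1, (h8 γ.1 ω₀ γ.2).1⟩ : (S ⊓ Subgroup.centralizer {ω₀.1} : Subgroup G)))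
      fun γ δ h => ?_).trans (hD.card_le le_top (hS.to_le inf_le_left) (h7 ⟨ω₀, mem_orbit_self _⟩)))
    have h10 : (γ.1.1 : G) = δ.1.1 := (congrArg Subtype.val h :)
    exact Subtype.ext (Prod.ext (Subtype.ext h10) (Subtype.ext (mul_left_cancel
      ((h8 γ.1 ω₀ γ.2).2.symm.trans (h10 ▸ (h8 δ.1 ω₀ δ.2).2)))))
  have key : ∀ Q ≤ D, ∀ x ∈ 𝐍 Q, ∃ ω : orbit (S × S) ω₀, ∀ γ : S × S, (γ.1 : G) ∈ Q →
      γ.1 * x = x * γ.2 → γ • ω = ω := fun Q hQ x hx => by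
    obtain ⟨c, h10, h11⟩ := Br_ne_zero_iff.1 (hD.Br_ne_zero hQ)
    let U : Subgroup (S × S) :=
      { carrier := {γ | (γ.1 : G) ∈ Q ∧ γ.1 * x = x * γ.2}
        mul_mem' := fun {γ δ} h h' => ⟨mul_mem h.1 h'.1, by
          simp only [Prod.fst_mul, Prod.snd_mul, Subgroup.coe_mul]
          rw [mul_assoc, h'.2, ← mul_assoc, h.2, mul_assoc]⟩
        one_mem' := ⟨one_mem _, by simp⟩
        inv_mem' := fun {γ} h => ⟨inv_mem h.1, by
          simp only [Prod.fst_inv, Prod.snd_inv, Subgroup.coe_inv]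
          rw [inv_mul_eq_iff_eq_mul, ← mul_assoc, h.2, mul_inv_cancel_right]⟩ }
    obtain ⟨ω, hω⟩ := exists_fixed_of_linInd h5 h6 (hΓ.to_subgroup U) (w := b * single x 1)
      (h9 ▸ ⟨_, rfl⟩) (fun γ hγ => by rw [hb', hρ]; simp [single_mul_single, hγ.2])
      (Finsupp.lapply (c * x) ∘ₗ (coeffLinearEquiv k).toLinearMap) (fun γ hγ a => by
        change (ρ γ a).coeff _ = a.coeff _
        rw [hρ', mul_assoc, mul_assoc, ← hγ.2, ← mul_assoc c, ← h10 _ hγ.1, mul_assoc,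
          inv_mul_cancel_left]) (by simpa using h11)
    exact ⟨ω, fun γ h h' => hω γ ⟨h, h'⟩⟩
  obtain ⟨ω₁, h10⟩ := key D le_rfl 1 (one_mem _)
  obtain ⟨ω₂, h11⟩ := key R hR y hy
  obtain ⟨γ, rfl⟩ := exists_smul_eq (S × S) ω₁ ω₂
  have h12 := fun d (hd : d ∈ D) => h8 _ _ (congrArg Subtype.val
    (h10 (⟨d, hDS hd⟩, ⟨d, hDS hd⟩) hd (by simp)))
  have h13 := hD.eq_of_le (fun d hd => (h12 d hd).1) le_top (hS.to_le inf_le_left) (h7 ω₁)
  refine ⟨γ.1 * γ.2⁻¹, mul_mem γ.1.2 (inv_mem γ.2.2), fun q hq => ?_⟩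
  have h14 := h11 (⟨q, hDS (hR hq)⟩, ⟨y⁻¹ * q * y, hDS (hR (conj_mem_of_mem_normalizer' hy hq))⟩)
    hq (by simp [mul_assoc])
  rw [← inv_smul_eq_iff, ← mul_smul, ← mul_smul] at h14
  have h15 := h8 _ _ (congrArg Subtype.val h14)
  have h16 := mul_left_cancel ((h12 _ (h13 ▸ h15.1)).2.symm.trans h15.2)
  simp only [Prod.fst_mul, Prod.snd_mul, Prod.fst_inv, Prod.snd_inv, Subgroup.coe_mul,
    Subgroup.coe_inv] at h16 ⊢
  calc _ = y * γ.2 * ((γ.2 : G)⁻¹ * (y⁻¹ * q * y) * γ.2) * (γ.1 : G)⁻¹ := by group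
    _ = _ := by rw [← h16]; group

omit [CharP k p] in
theorem mem_cent_of_mul_inv {R : Subgroup G} {x w : G} (hx : x ∈ 𝐍 R) (hw : IsPElt p w)
    (h : x * w⁻¹ ∈ 𝐂 R) (h1 : ¬ p ∣ orderOf x) : x ∈ 𝐂 R := by
  have h2 : ∀ n : ℕ, x ^ n * (w ^ n)⁻¹ ∈ 𝐂 R := fun n => by
    induction n with
    | zero => simp
    | succ n ih =>
      simpa [pow_succ', mul_assoc] using mul_mem
        (conj_mem_of_mem_normalizer (normalizer_le_normalizer_centralizer R hx) ih) h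
  obtain ⟨n, hn⟩ := hw
  have h3 := h2 (p ^ n)
  rw [← hn, pow_orderOf_eq_one, inv_one, mul_one, hn] at h3
  exact mem_of_pow_mem_of_regular h3 h1

theorem anil_of_finrank {b : k[G]} (hb : b ∈ Fix k ⊤) (hi : IsIdempotentElem b) {D : Subgroup G}
    (hD : IsDef p ⊤ b D) (h : Module.finrank k (LinearMap.range (LinearMap.mulLeft k b)) *
      Nat.card D ≤ p ^ (2 * (Nat.card G).factorization p)) : ANil p ⊤ ⊤ b := by
  intro R g hg h1 x _ hx _ h2
  obtain ⟨D', h3, h4⟩ := hD.exists_ge hb le_top hg.isP fun h0 =>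
    hg.prim.ne (by rw [← h1, h0, zero_mul])
  obtain ⟨S, hS⟩ := h3.isP.exists_le_sylow
  obtain ⟨w, h5, h6⟩ := exists_conj_of_finrank hb hi h3 S.isPGroup' hS
    (by rwa [h3.card_eq hD, S.card_eq_multiplicity, ← pow_mul, mul_comm _ 2]) h4 hx
  exact mem_cent_of_mul_inv hx (isPElt_of_mem S.isPGroup' h5) h6 h2

omit [Fact p.Prime] in
theorem finrank_eB_le {M : Ideal AlgInt} {B : Set (IrrCharacter G)} (hB : fB B ∈ VG M G) :
    Module.finrank (kk M) (LinearMap.range (LinearMap.mulLeft (kk M) (eB M B))) ≤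
      ∑ᶠ χ ∈ B, charDegree χ.1 ^ 2 := by
  classical
  refine (H21.finrank_redG_le hB).trans (Nat.cast_injective (R := ℂ) ?_).le
  rw [H21.finrank_range_mulLeft_idem (fB_mul_self B), coeff_fB, blockCoeff_eq_sum,
    mul_inv_cancel_left₀ (card_ne_zero_complex G), finsum_mem_eq_finite_toFinset_sum _ B.toFinite,
    Nat.cast_sum]
  exact Finset.sum_congr (by ext; simp) fun χ _ => by rw [conj_irr_one, irr_apply_one]; simp [sq]

end H8
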