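import Cfsg.Agent.H8.BF2
import Cfsg.Agent.H8.MinDim
import Cfsg.Agent.H7.Quot
import Cfsg.Agent.H6.Degree

/-! Faithful complex characters of bounded degree for `p'`-groups of matrices in
characteristic `p`. -/

open Cfsg MonoidAlgebra H5

namespace H8
namespace BF
open Module Finset H7

variable {G : Type*} [Group G] [Finite G] {p n : ℕ} {M : Ideal AlgInt}

theorem fB_mem_of_coprime (hM : IsPModular p M) (hG : ¬ p ∣ Nat.card G)
    (B : Set (IrrCharacter G)) : fB B ∈ VG M G := by
  classical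
  refine mem_VG.2 fun g => ?_
  rw [coeff_fB, blockCoeff_eq_sum]
  refine mul_mem (inv_mem_V_of_val_eq_one ((val_natCast_eq_one_iff hM _).2 hG))
    (sum_mem fun χ _ => mul_mem ?_ (mem_V_of_isIntegral M
      (H6.isIntegral_star_char χ.2.isCharacter g)))
  rw [irr_apply_one]; exact natCast_mem _ _

theorem sum_fB_singleton (B : Set (IrrCharacter G)) [DecidablePred (· ∈ B)] :
    ∑ χ with χ ∈ B, fB {χ} = fB B := by
  classical
  refine Zc_ext (sum_mem fun _ _ => fB_mem_Zc _) (fB_mem_Zc _) fun ψ => ?_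
  simp [map_sum, omega_fB]

theorem mul_eB_singleton (h : ∀ B : Set (IrrCharacter G), fB B ∈ VG M G) {z : (kk M)[G]}
    (hz : z ∈ Zc (kk M) G) (χ : IrrCharacter G) :
    z * eB M {χ} = H7.lam M χ.1 z • eB M {χ} := by
  classical
  have h1 : liftG M z * fB {χ} = omega χ.1 (liftG M z) • fB {χ} := by
    refine Zc_ext (mul_mem (liftG_mem_Zc hz) (fB_mem_Zc _))
      (Subalgebra.smul_mem _ (fB_mem_Zc _) _) fun ψ => ?_
    rw [omega_mul ψ (liftG_mem_Zc hz), map_smul, omega_fB]
    split_ifs with h2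
    · rw [Set.mem_singleton_iff.1 h2, smul_eq_mul]
    · simp
  have h2 := congrArg (redG M) h1
  rwa [redG_mul (liftG_mem_VG z) (h _), redG_liftG, redG_smul
    (omega_mem_V χ (liftG_mem_VG z) (liftG_mem_Zc hz)) (h _),
    ← lam_eq_red_omega_liftG χ hz] at h2

theorem exists_char (hM : IsPModular p M) (hG : ¬ p ∣ Nat.card G)
    (σ : G →* Matrix (Fin n) (Fin n) (kk M)) (hσ : Function.Injective σ) :
    ∃ χ, IsCharacter G χ ∧ (∀ g, χ g = χ 1 → g = 1) ∧ charDegree χ ≤ n * n := by
  classical
  have := Fintype.ofFinite G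
  have := charP_kk hM
  have hV := fB_mem_of_coprime hM hG
  let T := MonoidAlgebra.lift (kk M) _ G σ
  let X : Set (IrrCharacter G) := {χ | T (eB M {χ}) ≠ 0}
  have hsum : ∀ (B : Set (IrrCharacter G)) [DecidablePred (· ∈ B)],
      ∑ χ with χ ∈ B, eB M {χ} = eB M B := fun B _ => by
    rw [eB, ← sum_fB_singleton, redG_sum _ _ fun χ _ => hV _]; rfl
  have hXc : eB M X + eB M Xᶜ = 1 := by
    rw [eB, eB, ← redG_add (hV _) (hV _), ← fB_union disjoint_compl_right, Set.union_compl_self,
      fB_univ, redG_one]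
  have hT0 : T (eB M Xᶜ) = 0 := by
    rw [← hsum, map_sum]
    exact sum_eq_zero fun χ hχ => not_not.1 (mem_filter.1 hχ).2
  have hT1 : T (eB M X) = 1 := by rw [← map_one T, ← hXc, map_add, hT0, add_zero]
  have hk0 : ∀ a, T a = 0 → eB M X * a = 0 := fun a ha => by
    by_contra h
    obtain ⟨g, hg⟩ : ∃ g, (eB M X * a).coeff g ≠ 0 := by
      by_contra h1; push Not at h1; exact h (by ext g; simpa using h1 g)
    let z := ∑ x : G, ca x (eB M X * a * single g⁻¹ 1)
    have hz : z ∈ Zc (kk M) G := mem_Zc_iff_Fix.2 (mem_Fix.2 fun y _ => by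
      simp only [z, map_sum, ca_ca]
      exact Equiv.sum_comp (Equiv.mulLeft y) fun x => ca x (eB M X * a * single g⁻¹ 1))
    have hTz : T z = 0 := by simp [z, ca_eq_mul, ha]
    have hez : eB M X * z = z := by
      simp only [z, mul_sum]
      refine sum_congr rfl fun x _ => ?_
      have h1 := congrArg (fun b => ca x (b * a * single g⁻¹ 1)) (eB_idem (hV X)).eq
      simpa only [map_mul, ca_eB, mul_assoc] using h1
    have h0 : z = 0 := by
      rw [← hez, (commute_of_Supp_Fix (H := ⊤) (by simp [mem_Supp])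
        (mem_Zc_iff_Fix.1 hz)).eq, ← hsum, mul_sum]
      refine sum_eq_zero fun χ hχ => ?_
      have h1 := congrArg T (mul_eB_singleton hV hz χ)
      rw [map_mul, hTz, zero_mul, map_smul, eq_comm, smul_eq_zero] at h1
      rw [mul_eB_singleton hV hz, h1.resolve_right (mem_filter.1 hχ).2, zero_smul]
    have h1 : z.coeff 1 = (Nat.card G : kk M) * (eB M X * a).coeff g := by
      simp only [z, coeff_finset_sum, coeff_ca]
      simp
    rw [h0] at h1
    exact mul_ne_zero (by rwa [Ne, CharP.cast_eq_zero_iff _ p]) hg h1.symm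
  have hdim : ∑ χ with χ ∈ X, charDegree χ.1 ^ 2 ≤ n * n := by
    have h1 := T.toLinearMap.finrank_range_add_finrank_ker
    have h2 : finrank (kk M) (LinearMap.ker T.toLinearMap) ≤
        finrank (kk M) (LinearMap.range (LinearMap.mulLeft (kk M) (eB M Xᶜ))) :=
      Submodule.finrank_mono fun a ha => ⟨a, by
        have := congrArg (· * a) hXc
        simpa only [add_mul, hk0 a ha, zero_add, one_mul, LinearMap.mulLeft_apply] using this⟩
    have h3 := finrank_eB_le (hV Xᶜ)
    have h4 := (LinearMap.range T.toLinearMap).finrank_le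
    rw [finsum_mem_irr] at h3
    have h5 : ∑ χ : IrrCharacter G, charDegree χ.1 ^ 2 = Nat.card G := by
      have h := sum_irr_mul_conj (1 : G) 1
      rw [if_pos (IsConj.refl _), show Subgroup.centralizer ({1} : Set G) = ⊤ by
        ext g; simp [Subgroup.mem_centralizer_singleton_iff], Subgroup.card_top] at h
      simp only [irr_apply_one, map_natCast] at h
      simp only [sq]; exact_mod_cast h
    have h6 := sum_filter_add_sum_filter_not univ (· ∈ X) fun χ => charDegree χ.1 ^ 2
    simp only [finrank_matrix, Fintype.card_fin, finrank_self, mul_one] at h4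
    rw [(MonoidAlgebra.coeffLinearEquiv _).finrank_eq, finrank_finsupp_self,
      ← Nat.card_eq_fintype_card] at h1
    simp only [Set.mem_compl_iff] at h3
    omega
  have hc : IsCharacter G (∑ χ with χ ∈ X, χ.1) := isCharacter_sum _ _ fun χ _ => χ.2.isCharacter
  refine ⟨_, hc, fun g hg => hσ ?_, ?_⟩
  · have h1 : ∀ χ ∈ X, g⁻¹ ∈ charKer χ.1 := fun χ hχ => inv_mem <|
      χ.2.isCharacter.mem_charKer_iff_re.2 <| by
        have h2 := congrArg Complex.re hg
        simp only [Finset.sum_apply, Complex.re_sum] at h2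
        exact ((sum_eq_sum_iff_of_le fun ψ _ => ψ.2.isCharacter.re_apply_le g).1 h2 χ
          (by simpa using hχ)).ge
    have h2 : single g 1 * fB X = fB X := by
      ext x
      rw [coeff_single_mul_apply, one_mul, coeff_fB, coeff_fB, blockCoeff_eq_sum, blockCoeff_eq_sum]
      exact congrArg _ (sum_congr rfl fun χ hχ => by rw [h1 χ (mem_filter.1 hχ).2])
    have h3 := congrArg (fun a => T (redG M a)) h2
    simp only [redG_mul (single_one_mem_VG g) (hV X), redG_single, red_one, map_mul] at h3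
    rw [← eB, hT1] at h3
    simpa [T] using h3
  · refine le_trans ?_ hdim
    rw [show charDegree (∑ χ with χ ∈ X, χ.1) = ∑ χ with χ ∈ X, charDegree χ.1 from
      Nat.cast_injective (R := ℂ) (by
        rw [← char_apply_one hc]; simp [irr_apply_one])]
    exact sum_le_sum fun χ _ => Nat.le_self_pow two_ne_zero _

theorem exists_hom_alg {R A k : Type*} [Field R] [CommRing A] [Nontrivial A] [Field k]
    [IsAlgClosed k] [Algebra R A] [Algebra R k] [Algebra.FiniteType R A] : Nonempty (A →+* k) := by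
  obtain ⟨m, hm⟩ := Ideal.exists_maximal A
  letI := Ideal.Quotient.field m
  have := finite_of_finite_type_of_isJacobsonRing R (A ⧸ m)
  exact ⟨(IsAlgClosed.lift (R := R) (S := A ⧸ m) (M := k)).toRingHom.comp (Ideal.Quotient.mk m)⟩

theorem exists_spec {F k : Type*} [Field F] [Field k] [IsAlgClosed k] [Fact p.Prime] [CharP F p]
    [CharP k p] (σ : G →* Matrix (Fin n) (Fin n) F) (hσ : Function.Injective σ) :
    ∃ τ : G →* Matrix (Fin n) (Fin n) k, Function.Injective τ := by
  classical
  have := Fintype.ofFinite G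
  letI := ZMod.algebra F p
  letI := ZMod.algebra k p
  let s : Finset F := univ.image fun x : G × Fin n × Fin n => σ x.1 x.2.1 x.2.2
  let t : Finset F := s ∪ (s ×ˢ s).image fun x => (x.1 - x.2)⁻¹
  let A := Algebra.adjoin (ZMod p) (t : Set F)
  have hs : ∀ g i j, σ g i j ∈ s := fun g i j => mem_image.2 ⟨(g, i, j), mem_univ _, rfl⟩
  have hA : ∀ g i j, σ g i j ∈ A := fun g i j =>
    Algebra.subset_adjoin (mem_union_left _ (hs g i j))
  have : Algebra.FiniteType (ZMod p) A := (Subalgebra.fg_iff_finiteType _).1 ⟨t, rfl⟩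
  obtain ⟨φ⟩ := exists_hom_alg (R := ZMod p) (A := A) (k := k)
  let σ' : G →* Matrix (Fin n) (Fin n) A :=
    { toFun := fun g => Matrix.of fun i j => ⟨σ g i j, hA g i j⟩
      map_one' := by ext i j; simp [Matrix.one_apply]; split_ifs <;> rfl
      map_mul' := fun a b => by ext i j; simp [Matrix.mul_apply] }
  refine ⟨φ.mapMatrix.toMonoidHom.comp σ', fun a b h => hσ ?_⟩
  ext i j
  by_contra h1
  have h2 : φ ⟨σ a i j, hA a i j⟩ = φ ⟨σ b i j, hA b i j⟩ := congrFun (congrFun h i) j
  have h3 : (σ a i j - σ b i j)⁻¹ ∈ A := Algebra.subset_adjoin (mem_union_right _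
    (mem_image.2 ⟨(σ a i j, σ b i j), mem_product.2 ⟨hs _ _ _, hs _ _ _⟩, rfl⟩))
  have h4 : (⟨σ a i j, hA a i j⟩ - ⟨σ b i j, hA b i j⟩ : A) * ⟨_, h3⟩ = 1 :=
    Subtype.ext (mul_inv_cancel₀ (sub_ne_zero.2 h1))
  have h5 := congrArg φ h4
  simp [h2] at h5

end BF
end H8
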