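import Mathlib

/-! Zero sets of positive density in a finite group give subgroups of bounded index. -/

namespace H8
namespace BF
open Module Finset
open scoped Pointwise

variable {k G : Type*} [Field k] [Group G] [Fintype G] {W : Submodule k (G → k)}

/-- two-sided translation of functions -/
def tr (x y : G) : (G → k) →ₐ[k] (G → k) := Pi.algHom k _ fun g => Pi.evalAlgHom k _ (x * g * y)

omit [Fintype G] in
@[simp] theorem tr_apply (x y : G) (f : G → k) (g : G) : tr x y f g = f (x * g * y) := rfl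

open Classical in
/-- common zeros in `H` -/
noncomputable def zs (H : Subgroup G) (U : Submodule k (G → k)) : Finset G :=
  univ.filter fun g => g ∈ H ∧ ∀ f ∈ U, f g = 0

theorem mem_zs {H : Subgroup G} {U : Submodule k (G → k)} {g : G} :
    g ∈ zs H U ↔ g ∈ H ∧ ∀ f ∈ U, f g = 0 := by simp [zs]

/-- the bound -/
def bd (t c : ℕ) : ℕ := (fun c => 2 * c ^ 2)^[t + 1] c

theorem le_bd (t c : ℕ) : 2 * c ^ 2 ≤ bd t c := by
  induction t generalizing c with
  | zero => exact le_rfl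
  | succ t ih =>
    refine le_trans ?_ (ih (2 * c ^ 2))
    nlinarith [Nat.zero_le (c ^ 2), sq_nonneg (c ^ 2), Nat.le_self_pow two_ne_zero (c ^ 2)]

open Classical in
theorem sum_inter (H : Subgroup G) {Z : Finset G} (hZ : ∀ z ∈ Z, z ∈ H) :
    ∑ h ∈ univ.filter (· ∈ H), (Z.filter fun z => h * z ∈ Z).card = Z.card ^ 2 := by
  simp_rw [card_filter]
  rw [sum_comm, sq, ← smul_eq_mul, ← sum_const]
  refine sum_congr rfl fun z hz => ?_
  rw [← card_filter]
  refine card_nbij' (· * z) (· * z⁻¹) (fun h hh => ?_) (fun h hh => ?_) (fun h _ => by simp)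
    (fun h _ => by simp)
  · simp only [coe_filter, mem_filter, Set.mem_setOf_eq] at hh
    exact hh.2
  · simp only [coe_filter, mem_filter, mem_univ, true_and, Set.mem_setOf_eq,
      inv_mul_cancel_right]
    exact ⟨H.mul_mem (hZ h hh) (H.inv_mem (hZ z hz)), hh⟩

theorem exists_sub (hW : ∀ x y, ∀ f ∈ W, tr x y f ∈ W) (H : Subgroup G) (t : ℕ) :
    ∀ (c : ℕ) (U : Submodule k (G → k)), U ≤ W → finrank k W ≤ finrank k U + t →
      Nat.card H ≤ c * (zs H U).card → (∃ f ∈ U, ∃ g ∈ H, f g ≠ 0) →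
      ∃ K ≤ H, Nat.card H ≤ bd t c * Nat.card K ∧
        ∃ f ∈ W, (∀ g ∈ K, f g = 0) ∧ ∃ g ∈ H, f g ≠ 0 := by
  classical
  induction t using Nat.strong_induction_on with | _ t ih => ?_
  intro c U hU hr hc ⟨f, hf, g, hg, hfg⟩
  set Z := zs H U with hZ
  have hH : 0 < Nat.card H := Nat.card_pos
  have hZ0 : 0 < Z.card := by
    rcases Nat.eq_zero_or_pos Z.card with h | h
    · rw [h] at hc; omega
    · exact h
  let K : Subgroup G := H ⊓ MulAction.stabilizer G (Z : Set G)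
  have hK : ∀ h ∈ H, (∀ z ∈ Z, h * z ∈ Z) → h ∈ K := fun h hh h1 => by
    refine ⟨hh, (MulAction.mem_stabilizer_set_iff_smul_set_subset Z.finite_toSet).2 ?_⟩
    rintro _ ⟨z, hz, rfl⟩
    exact h1 z hz
  by_cases h1 : Nat.card H ≤ 2 * c ^ 2 * Nat.card K
  · obtain ⟨z, hz⟩ := card_pos.1 hZ0
    refine ⟨K, inf_le_left, h1.trans (Nat.mul_le_mul_right _ (le_bd t c)), tr 1 z f,
      hW _ _ _ (hU hf), fun x hx => ?_, g * z⁻¹,
      H.mul_mem hg (H.inv_mem (mem_zs.1 hz).1), by simpa using hfg⟩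
    have h2 : x * z ∈ (Z : Set G) := by
      have h3 := MulAction.mem_stabilizer_iff.1 hx.2
      rw [← h3]; exact ⟨z, hz, rfl⟩
    simpa using (mem_zs.1 h2).2 f hf
  have hc1 : 1 ≤ c := by
    rcases Nat.eq_zero_or_pos c with h | h
    · rw [h] at hc; omega
    · exact h
  have hcH : (univ.filter (· ∈ H)).card = Nat.card H := by
    rw [Nat.card_eq_fintype_card, Fintype.card_subtype]
  have hcK : (univ.filter (· ∈ K)).card = Nat.card K := by
    rw [Nat.card_eq_fintype_card, Fintype.card_subtype]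
  obtain ⟨h, hh, hhK, h2⟩ : ∃ h ∈ H, h ∉ K ∧
      Nat.card H ≤ 2 * c ^ 2 * (Z.filter fun z => h * z ∈ Z).card := by
    by_contra h2
    push Not at h2
    have h3 := sum_inter H (Z := Z) fun z hz => (mem_zs.1 hz).1
    have h4 : ∑ h ∈ univ.filter (· ∈ H), 2 * c ^ 2 * (Z.filter fun z => h * z ∈ Z).card ≤
        ∑ h ∈ univ.filter (· ∈ H), ((if h ∈ K then 2 * c ^ 2 * Z.card else 0) + Nat.card H) := by
      refine sum_le_sum fun h hh => ?_
      split_ifs with h5
      · exact le_add_right (Nat.mul_le_mul_left _ (card_filter_le _ _))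
      · simpa using (h2 h (by simpa using hh) h5).le
    rw [← mul_sum, h3, sum_add_distrib, ← sum_filter, filter_filter, sum_const, sum_const, hcH,
      show (univ.filter fun a => a ∈ H ∧ a ∈ K) = univ.filter (· ∈ K) from
        filter_congr fun a _ => ⟨fun h => h.2, fun h => ⟨h.1, h⟩⟩, hcK, smul_eq_mul,
      smul_eq_mul] at h4
    have h5 : Nat.card K * (2 * c ^ 2 * Z.card) < Nat.card H * Z.card := by
      calc _ = 2 * c ^ 2 * Nat.card K * Z.card := by ring
        _ < _ := Nat.mul_lt_mul_of_pos_right (not_le.1 h1) hZ0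
    have h6 : Nat.card H * Nat.card H ≤ c ^ 2 * Z.card ^ 2 := by
      calc _ ≤ (c * Z.card) * (c * Z.card) := Nat.mul_le_mul hc hc
        _ = _ := by ring
    have h7 : Nat.card H * Z.card ≤ c ^ 2 * Z.card ^ 2 := by
      calc _ ≤ (c * Z.card) * (c * Z.card) :=
            Nat.mul_le_mul hc (Nat.le_mul_of_pos_left _ hc1)
        _ = _ := by ring
    nlinarith
  let U' := U ⊔ U.map (tr h 1).toLinearMap
  have hU' : U' ≤ W := sup_le hU (by rintro _ ⟨f', hf', rfl⟩; exact hW _ _ _ (hU hf'))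
  have hZ' : zs H U' = Z.filter fun z => h * z ∈ Z := by
    ext z
    simp only [mem_zs, mem_filter, hZ]
    refine ⟨fun ⟨h3, h4⟩ => ⟨⟨h3, fun f' hf' => h4 _ (Submodule.mem_sup_left hf')⟩,
      H.mul_mem hh h3, fun f' hf' => ?_⟩, fun ⟨⟨h3, h4⟩, _, h5⟩ => ⟨h3, fun f' hf' => ?_⟩⟩
    · simpa using h4 _ (Submodule.mem_sup_right ⟨f', hf', rfl⟩)
    · obtain ⟨a, ha, _, ⟨b, hb, rfl⟩, rfl⟩ := Submodule.mem_sup.1 hf'
      simp [h4 a ha, h5 b hb]
  have hlt : U < U' := by
    refine lt_of_le_of_ne le_sup_left fun h3 => hhK (hK h hh fun z hz => ?_)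
    have h4 : z ∈ zs H U' := h3 ▸ hz
    rw [hZ'] at h4
    exact (mem_filter.1 h4).2
  have h3 := Submodule.finrank_lt_finrank_of_lt hlt
  have h4 := Submodule.finrank_mono hU'
  obtain ⟨t, rfl⟩ : ∃ s, t = s + 1 := ⟨t - 1, by omega⟩
  exact ih t (by omega) (2 * c ^ 2) U' hU' (by omega) (hZ' ▸ h2)
    ⟨f, Submodule.mem_sup_left hf, g, hg, hfg⟩

/-- functions in `W` vanishing on `H` -/
def van (W : Submodule k (G → k)) (H : Subgroup G) : Submodule k (G → k) where
  carrier := {f | f ∈ W ∧ ∀ g ∈ H, f g = 0}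
  add_mem' := fun ha hb => ⟨W.add_mem ha.1 hb.1, fun g hg => by simp [ha.2 g hg, hb.2 g hg]⟩
  zero_mem' := ⟨W.zero_mem, fun _ _ => rfl⟩
  smul_mem' := fun c _ ha => ⟨W.smul_mem c ha.1, fun g hg => by simp [ha.2 g hg]⟩

/-- descent: a property failing only in the presence of a dense zero set holds for a subgroup
of bounded index -/
theorem exists_good (hW : ∀ x y, ∀ f ∈ W, tr x y f ∈ W) {E c : ℕ} (hE : finrank k W ≤ E)
    (hc : 1 ≤ c) (P : Subgroup G → Prop) (hP : ∀ H, ¬ P H → ∃ f ∈ W, (∃ g ∈ H, f g ≠ 0) ∧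
      Nat.card H ≤ c * Nat.card {g // g ∈ H ∧ f g = 0}) :
    ∃ K, P K ∧ Nat.card G ≤ bd E c ^ E * Nat.card K := by
  classical
  have hb : 1 ≤ bd E c := le_trans (by nlinarith) (le_bd E c)
  suffices h : ∀ t (H : Subgroup G), finrank k W ≤ finrank k (van W H) + t →
      ∃ K, P K ∧ Nat.card H ≤ bd E c ^ t * Nat.card K by
    simpa using h E ⊤ (by omega)
  intro t
  induction t using Nat.strong_induction_on with | _ t ih => ?_
  intro H hr
  by_cases h0 : P H
  · exact ⟨H, h0, Nat.le_mul_of_pos_left _ (Nat.pow_pos hb)⟩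
  obtain ⟨f, hf, h1, h2⟩ := hP H h0
  obtain ⟨K, hKH, h3, f', hf', h4, g, hg, h5⟩ := exists_sub hW H E c (Submodule.span k {f})
    (by simpa using hf) (by omega) (by
      refine h2.trans (le_of_eq ?_)
      rw [Nat.card_eq_fintype_card, Fintype.card_subtype]
      congr 2
      ext g
      simp only [mem_filter, mem_univ, true_and, mem_zs, Submodule.mem_span_singleton]
      exact and_congr_right fun _ => ⟨by rintro h _ ⟨a, rfl⟩; simp [h],
        fun h => h f ⟨1, one_smul _ _⟩⟩) ⟨f, Submodule.mem_span_singleton_self f, h1⟩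
  have hlt : van W H < van W K := lt_of_le_of_ne (fun a ha => ⟨ha.1, fun x hx => ha.2 x (hKH hx)⟩)
    fun h => h5 ((show f' ∈ van W H from h ▸ ⟨hf', h4⟩).2 g hg)
  have h6 := Submodule.finrank_lt_finrank_of_lt hlt
  have h7 := Submodule.finrank_mono (show van W K ≤ W from fun a ha => ha.1)
  obtain ⟨t, rfl⟩ : ∃ s, t = s + 1 := ⟨t - 1, by omega⟩
  obtain ⟨L, hL, h8⟩ := ih t (by omega) K (by omega)
  refine ⟨L, hL, h3.trans ?_⟩
  rw [pow_succ', mul_assoc]
  exact Nat.mul_le_mul_left _ h8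

end BF
end H8
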