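import Cfsg.Agent.H8.BF1
import Cfsg.Agent.H23.FrobThm

/-! A finite linear group in characteristic `p` has a `p'`-subgroup of bounded index. -/

namespace H8
namespace BF
open Module Finset Polynomial

section Deg
variable {k A : Type*} [Field k] [Ring A] [Algebra k A] [Module.Finite k A]

theorem finrank_range_aeval (a : A) :
    finrank k (aeval (R := k) a).range = (minpoly k a).natDegree := by
  rw [← finrank_quotient_span_eq_natDegree, Ideal.span, ← minpoly.ker_aeval_eq_span_minpoly]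
  exact (Ideal.quotientKerEquivRange (aeval (R := k) a)).toLinearEquiv.finrank_eq.symm

theorem range_aeval_le {a b : A} (h : b ∈ (aeval (R := k) a).range) :
    (aeval (R := k) b).range ≤ (aeval (R := k) a).range := by
  obtain ⟨f, rfl⟩ := h
  rintro _ ⟨g, rfl⟩
  exact ⟨g.comp f, by simp [aeval_comp]⟩

theorem deg_le {a b : A} (h : b ∈ (aeval (R := k) a).range) :
    (minpoly k b).natDegree ≤ (minpoly k a).natDegree := by
  rw [← finrank_range_aeval, ← finrank_range_aeval]
  exact Submodule.finrank_mono (R := k) (s := (aeval (R := k) b).range.toSubmodule)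
    (t := (aeval (R := k) a).range.toSubmodule) (range_aeval_le h)

theorem deg_lt {a b u : A} (h : b ∈ (aeval (R := k) a).range) (hu : u ∈ (aeval (R := k) a).range)
    {m q : ℕ} (hm : (m : k) ≠ 0) (hb : b ^ m = 1) (hq : u ^ q = 0) (h0 : u ≠ 0) :
    (minpoly k b).natDegree < (minpoly k a).natDegree := by
  rw [← finrank_range_aeval, ← finrank_range_aeval]
  refine Submodule.finrank_lt_finrank_of_lt (K := k) (s := (aeval (R := k) b).range.toSubmodule)
    (t := (aeval (R := k) a).range.toSubmodule) (lt_of_le_of_ne (range_aeval_le h) fun h1 => h0 ?_)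
  obtain ⟨g, hg⟩ : u ∈ (aeval (R := k) b).range.toSubmodule := h1 ▸ hu
  have h2 : minpoly k b ∣ X ^ m - 1 := minpoly.dvd k b (by simp [hb])
  have h3 : Squarefree (minpoly k b) :=
    (X_pow_sub_one_separable_iff.2 hm).squarefree.squarefree_of_dvd h2
  have hg' : aeval b g = u := hg
  obtain ⟨r, hr⟩ := h3.isRadical q g (minpoly.dvd k b (by rw [map_pow, hg', hq]))
  rw [← hg', hr, map_mul, minpoly.aeval, zero_mul]

theorem exists_det (a : A) : ∃ l : Fin (minpoly k a).natDegree → Dual k A,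
    (Matrix.of fun i j : Fin (minpoly k a).natDegree => l i (a ^ (j : ℕ))).det ≠ 0 ∧
    ∀ b : A, (minpoly k b).natDegree < (minpoly k a).natDegree →
      (Matrix.of fun i j : Fin (minpoly k a).natDegree => l i (b ^ (j : ℕ))).det = 0 := by
  classical
  obtain ⟨L, hL⟩ := LinearMap.exists_leftInverse_of_injective
    (Fintype.linearCombination k fun j : Fin (minpoly k a).natDegree => a ^ (j : ℕ))
    (LinearMap.ker_eq_bot.2 (linearIndependent_iff_injective_fintypeLinearCombination.1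
      (linearIndependent_pow a)))
  refine ⟨fun i => (LinearMap.proj i).comp L, ?_, fun b hb => ?_⟩
  · rw [show (Matrix.of fun i j : Fin (minpoly k a).natDegree =>
      ((LinearMap.proj i).comp L) (a ^ (j : ℕ))) = 1 from ?_]
    · simp
    ext i j
    have := congrFun (LinearMap.congr_fun hL (Pi.single j 1)) i
    simpa [Matrix.one_apply, Pi.single_apply] using this
  · refine Matrix.exists_mulVec_eq_zero_iff.1 ⟨fun j => (minpoly k b).coeff j, fun h => ?_, ?_⟩
    · have h1 := congrFun h ⟨_, hb⟩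
      simp only [coeff_natDegree, Pi.zero_apply] at h1
      rw [(minpoly.monic (Algebra.IsIntegral.isIntegral b)).leadingCoeff] at h1
      exact one_ne_zero h1
    · ext i
      have h1 := minpoly.aeval k b
      rw [aeval_eq_sum_range' hb, ← Fin.sum_univ_eq_sum_range
        (fun j => (minpoly k b).coeff j • b ^ j)] at h1
      have h2 := congrArg (fun v => L v i) h1
      simpa [Matrix.mulVec, dotProduct, mul_comm] using h2

end Deg

section Poly
variable {k G : Type*} [Field k] [Group G] {n : ℕ} (σ : G →* Matrix (Fin n) (Fin n) k)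

/-- matrix coefficients and constants -/
def L1 : Submodule k (G → k) :=
  Submodule.span k (Set.range fun o : Option (Fin n × Fin n) => fun g => o.elim 1 fun ij =>
    σ g ij.1 ij.2)

theorem one_mem_L1 : (1 : G → k) ∈ L1 σ := Submodule.subset_span ⟨none, rfl⟩

theorem ent_mem_L1 (i j : Fin n) : (fun g => σ g i j) ∈ L1 σ :=
  Submodule.subset_span ⟨some (i, j), rfl⟩

theorem L1_pow_mono {a b : ℕ} (h : a ≤ b) : L1 σ ^ a ≤ L1 σ ^ b :=
  pow_right_monotone (Submodule.one_le.2 (one_mem_L1 σ)) h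

theorem finrank_L1_pow [Fintype G] (D : ℕ) : finrank k (L1 σ ^ D :) ≤ (n * n + 1) ^ D := by
  classical
  let s : Finset (G → k) := univ.image fun o : Option (Fin n × Fin n) => fun g =>
    o.elim 1 fun ij => σ g ij.1 ij.2
  have h1 : L1 σ = Submodule.span k s := by simp [L1, s]
  rw [h1, Submodule.span_pow, ← Finset.coe_pow]
  refine (finrank_span_finset_le_card _).trans (card_pow_le.trans (Nat.pow_le_pow_left ?_ _))
  exact card_image_le.trans (by simp)

theorem tr_mem (D : ℕ) (x y : G) (f : G → k) (hf : f ∈ L1 σ ^ D) : tr x y f ∈ L1 σ ^ D := by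
  have h : (L1 σ).map (tr x y).toLinearMap ≤ L1 σ := by
    rw [L1, Submodule.map_span_le]
    rintro _ ⟨_ | ⟨i, j⟩, rfl⟩
    · exact one_mem_L1 σ
    · have : (tr x y).toLinearMap (fun g => σ g i j) =
          ∑ b, ∑ a, (σ x i a * σ y b j) • fun g => σ g a b := by
        ext g
        simp only [AlgHom.toLinearMap_apply, tr_apply, map_mul, Matrix.mul_apply, sum_mul,
          Finset.sum_apply, Pi.smul_apply, smul_eq_mul]
        exact sum_congr rfl fun _ _ => sum_congr rfl fun _ _ => by ring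
      exact this ▸ Submodule.sum_mem _ fun b _ => Submodule.sum_mem _ fun a _ =>
        Submodule.smul_mem _ _ (ent_mem_L1 σ a b)
  refine pow_le_pow_left' h D ?_
  rw [← Submodule.map_pow]
  exact ⟨f, hf, rfl⟩

theorem ent_pow_mem (r : ℕ) (i j : Fin n) : (fun g => (σ g ^ r) i j) ∈ L1 σ ^ r := by
  induction r generalizing j with
  | zero =>
    rw [pow_zero, Submodule.mem_one]
    exact ⟨(1 : Matrix (Fin n) (Fin n) k) i j, by ext; simp⟩
  | succ r ih =>
    have : (fun g => (σ g ^ (r + 1)) i j) = ∑ a, (fun g => (σ g ^ r) i a) * fun g => σ g a j := by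
      ext g; simp [pow_succ, Matrix.mul_apply]
    rw [this, pow_succ]
    exact Submodule.sum_mem _ fun a _ => Submodule.mul_mem_mul (ih a) (ent_mem_L1 σ a j)

theorem dual_pow_mem (r : ℕ) (l : Dual k (Matrix (Fin n) (Fin n) k)) :
    (fun g => l (σ g ^ r)) ∈ L1 σ ^ r := by
  have : (fun g => l (σ g ^ r)) =
      ∑ i, ∑ j, l (Matrix.single i j 1) • fun g => (σ g ^ r) i j := by
    ext g
    conv_lhs => rw [Matrix.matrix_eq_sum_single (σ g ^ r)]
    simp only [map_sum, Finset.sum_apply, Pi.smul_apply, smul_eq_mul]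
    refine sum_congr rfl fun i _ => sum_congr rfl fun j _ => ?_
    rw [mul_comm, ← smul_eq_mul, ← map_smul, Matrix.smul_single, smul_eq_mul, mul_one]
  exact this ▸ Submodule.sum_mem _ fun i _ => Submodule.sum_mem _ fun j _ =>
    Submodule.smul_mem _ _ (ent_pow_mem σ r i j)

theorem prod_mem_pow {ι : Type*} {P : Submodule k (G → k)} (s : Finset ι) {f : ι → G → k}
    (h : ∀ i, f i ∈ P) : ∏ i ∈ s, f i ∈ P ^ s.card := by
  classical
  induction s using Finset.induction_on with
  | empty => simp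
  | insert a s ha ih =>
    rw [prod_insert ha, card_insert_of_notMem ha, pow_succ']
    exact Submodule.mul_mem_mul (h a) ih

theorem exists_fun {e q : ℕ} (he : e ≤ q) (x : G) : ∃ f ∈ L1 σ ^ (q * n * n), f x ≠ 0 ∧
    ∀ y, (minpoly k (σ y ^ e)).natDegree < (minpoly k (σ x ^ e)).natDegree → f y = 0 := by
  classical
  obtain ⟨l, h1, h2⟩ := exists_det (k := k) (σ x ^ e)
  have hd : (minpoly k (σ x ^ e)).natDegree ≤ n := by
    simpa using natDegree_le_of_dvd (Matrix.minpoly_dvd_charpoly (σ x ^ e))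
      (Matrix.charpoly_monic _).ne_zero
  refine ⟨fun y => (Matrix.of fun i (j : Fin _) => l i ((σ y ^ e) ^ (j : ℕ))).det, ?_, h1,
    fun y hy => h2 _ hy⟩
  have : (fun y => (Matrix.of fun i j : Fin _ => l i ((σ y ^ e) ^ (j : ℕ))).det) =
      ∑ π : Equiv.Perm (Fin _), ((Equiv.Perm.sign π : ℤ) : k) •
        ∏ j, fun y => l (π j) (σ y ^ (e * j)) := by
    ext y; simp [Matrix.det_apply', pow_mul]
  rw [this]
  refine Submodule.sum_mem _ fun π _ => Submodule.smul_mem _ _ ?_
  have h3 := prod_mem_pow (P := L1 σ ^ (q * n)) univ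
    (f := fun j : Fin _ => fun y => l (π j) (σ y ^ (e * j))) fun j =>
      L1_pow_mono σ (Nat.mul_le_mul he (j.2.le.trans hd)) (dual_pow_mem σ _ _)
  rw [← pow_mul] at h3
  exact L1_pow_mono σ (Nat.mul_le_mul_left _ (by simpa using hd)) h3

end Poly

section Main
variable {k G : Type*} [Field k] [Group G] [Fintype G] {n p m m0 : ℕ} [hp : Fact p.Prime]
  [CharP k p] {σ : G →* Matrix (Fin n) (Fin n) k}

theorem card_reg (hG : Nat.card G = p ^ m * m0) (h0 : ¬ p ∣ m0) {H : Subgroup G}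
    (hH : p ∣ Nat.card H) : Nat.card H ≤ p ^ m * {x : H | x ^ m0 = 1}.ncard ∧
      Nat.card H ≤ p ^ m * {x : H | x ^ m0 ≠ 1}.ncard := by
  have h1 := H23.frobenius_dvd (G := H) (Nat.gcd_dvd_right m0 (Nat.card H))
  simp_rw [pow_gcd_eq_one, pow_card_eq_one', and_true] at h1
  have h2 : Nat.card H ≤ p ^ m * m0.gcd (Nat.card H) := by
    refine Nat.le_of_dvd (Nat.mul_pos (Nat.pow_pos hp.out.pos)
      (Nat.gcd_pos_of_pos_right _ Nat.card_pos)) ?_
    rw [← Nat.gcd_mul_left]
    exact Nat.dvd_gcd (hG ▸ H.card_subgroup_dvd_card) (Dvd.intro_left _ rfl)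
  have h3 := Set.ncard_add_ncard_compl {x : H | x ^ m0 = 1}
  have h4 : m0.gcd (Nat.card H) ∣ {x : H | x ^ m0 ≠ 1}.ncard :=
    (Nat.dvd_add_right h1).1 (h3 ▸ Nat.gcd_dvd_right _ _)
  obtain ⟨y, hy⟩ := exists_prime_orderOf_dvd_card' p hH
  refine ⟨h2.trans (Nat.mul_le_mul_left _ (Nat.le_of_dvd ?_ h1)),
    h2.trans (Nat.mul_le_mul_left _ (Nat.le_of_dvd ?_ h4))⟩
  · exact (Set.ncard_pos (Set.toFinite _)).2 ⟨1, by simp⟩
  · exact (Set.ncard_pos (Set.toFinite _)).2 ⟨y, fun h => h0 (hy ▸ orderOf_dvd_of_pow_eq_one h)⟩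

theorem step (hσ : Function.Injective σ) (hG : Nat.card G = p ^ m * m0) (h0 : ¬ p ∣ m0)
    {H : Subgroup G} (hH : p ∣ Nat.card H) : ∃ f ∈ L1 σ ^ (p ^ m * n * n), (∃ g ∈ H, f g ≠ 0) ∧
      Nat.card H ≤ 2 * p ^ m * Nat.card {g // g ∈ H ∧ f g = 0} := by
  obtain ⟨hR, hS⟩ := card_reg hG h0 hH
  obtain ⟨x1, hx1⟩ := Finite.exists_max fun x : H => (minpoly k (σ x ^ 1)).natDegree
  obtain ⟨x2, hx2⟩ := Finite.exists_max fun x : H => (minpoly k (σ x ^ p ^ m)).natDegree
  obtain ⟨f1, hf1, a1, b1⟩ := exists_fun σ (Nat.one_le_pow m p hp.out.pos) (x1 : G)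
  obtain ⟨f2, hf2, a2, b2⟩ := exists_fun σ (le_refl (p ^ m)) (x2 : G)
  by_contra hc
  push Not at hc
  have e : ∀ f : G → k, Nat.card {g // g ∈ H ∧ f g = 0} = {x : H | f x = 0}.ncard := fun f =>
    Nat.card_congr (Equiv.subtypeSubtypeEquivSubtypeInter (· ∈ H) (f · = 0)).symm
  have c1 := hc f1 hf1 ⟨x1, x1.2, a1⟩
  have c2 := hc f2 hf2 ⟨x2, x2.2, a2⟩
  rw [e] at c1 c2
  have key : ∀ T : Set H, Nat.card H ≤ p ^ m * T.ncard → ∃ x ∈ T,
      (minpoly k (σ x ^ 1)).natDegree = (minpoly k (σ x1 ^ 1)).natDegree ∧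
      (minpoly k (σ x ^ p ^ m)).natDegree = (minpoly k (σ x2 ^ p ^ m)).natDegree := fun T hT => by
    by_contra h
    push Not at h
    have h1 : T ⊆ {x : H | f1 x = 0} ∪ {x : H | f2 x = 0} := fun x hx => by
      by_cases h2 : (minpoly k (σ x ^ 1)).natDegree = (minpoly k (σ x1 ^ 1)).natDegree
      · exact Or.inr (b2 _ (lt_of_le_of_ne (hx2 x) (h x hx h2)))
      · exact Or.inl (b1 _ (lt_of_le_of_ne (hx1 x) h2))
    have h2 := (Set.ncard_le_ncard h1).trans (Set.ncard_union_le _ _)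
    have h3 := Nat.mul_le_mul_left (p ^ m) h2
    nlinarith
  obtain ⟨r, hr, r1, r2⟩ := key _ hR
  obtain ⟨s, hs, s1, s2⟩ := key _ hS
  have hpow : ∀ (a : Matrix (Fin n) (Fin n) k) (t : ℕ), a ^ t ∈ (aeval (R := k) (a ^ 1)).range :=
    fun a t => ⟨X ^ t, by simp⟩
  have h1 : (minpoly k (σ r ^ 1)).natDegree ≤ (minpoly k (σ r ^ p ^ m)).natDegree := by
    obtain ⟨t, ht⟩ := exists_pow_eq_self_of_coprime (x := r) (n := p ^ m)
      (Nat.Coprime.pow_left _ (Nat.Coprime.coprime_dvd_right (orderOf_dvd_of_pow_eq_one hr)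
        ((Nat.Prime.coprime_iff_not_dvd hp.out).2 h0)))
    refine deg_le ⟨X ^ t, ?_⟩
    have := congrArg (fun x : H => σ x) ht
    simpa using this
  have hs1 : σ s ^ (p ^ m * m0) = 1 := by rw [← hG, ← map_pow, pow_card_eq_one', map_one]
  have h2 : (minpoly k (σ s ^ p ^ m)).natDegree < (minpoly k (σ s ^ 1)).natDegree := by
    refine deg_lt (u := σ s ^ m0 - 1) (m := m0) (q := p ^ m) (hpow _ _)
      (sub_mem (hpow _ _) (one_mem _)) (by rwa [Ne, CharP.cast_eq_zero_iff k p])
      (by rw [← pow_mul, hs1]) ?_ fun h => hs ?_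
    · have h3 := congrArg (aeval (σ s)) (sub_pow_char_pow (p := p) (n := m) (X ^ m0 : k[X]) 1)
      simpa [← pow_mul, mul_comm m0, hs1] using h3
    · refine Subtype.ext (hσ ?_)
      simpa [sub_eq_zero] using h
  omega

/-- the bound -/
def bd2 (q n : ℕ) : ℕ := bd ((n * n + 1) ^ (q * n * n)) (2 * q) ^ (n * n + 1) ^ (q * n * n)

theorem exists_coprime (hσ : Function.Injective σ) :
    ∃ K : Subgroup G, ¬ p ∣ Nat.card K ∧
      K.index ≤ bd2 (p ^ (Nat.card G).factorization p) n := by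
  obtain ⟨K, h1, h2⟩ := exists_good (tr_mem σ _) (finrank_L1_pow σ _)
    (c := 2 * p ^ (Nat.card G).factorization p)
    (Nat.mul_pos two_pos (Nat.pow_pos hp.out.pos)) (fun K => ¬ p ∣ Nat.card K) fun H hH =>
      step hσ (Nat.ordProj_mul_ordCompl_eq_self _ p).symm
        (Nat.not_dvd_ordCompl hp.out Nat.card_pos.ne') (not_not.1 hH)
  refine ⟨K, h1, Nat.le_of_mul_le_mul_right ?_ (Nat.card_pos (α := K))⟩
  rwa [K.index_mul_card]

end Main
end BF
end H8
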