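import Cfsg.Agent.H0.BC.E

/-! The invariant form on the adjoint module of a simply laced Chevalley group. -/

set_option autoImplicit false
set_option linter.unusedSectionVars false

open H14 H14.RootSys H14.PreSt H14.St H23.Sec Cfsg.Lie Matrix Module

namespace H8.E8

section gen
variable {ι κ : Type*} [Fintype κ] [DecidableEq κ] [Fintype ι] [DecidableEq ι] {R : RootSys ι κ}

/-- the Gram matrix -/
def gram (R : RootSys ι κ) : Matrix (κ ⊕ ι) (κ ⊕ ι) ℤ :=
  fromBlocks R.A 0 0 (Matrix.of fun r s => if s = R.neg r then 1 else 0)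

variable (hd : ∀ r, R.d r = 1)
include hd

theorem co_cf (r : ι) : R.co r = R.cf r := funext fun j => by simpa [hd] using R.d_co r j

theorem A_symm (i j : κ) : R.A i j = R.A j i := by simpa [hd] using R.A_symm i j

theorem pair_comm (r s : ι) : R.pair r s = R.pair s r := by simpa [hd] using R.d_pair r s

theorem pair_sum {r s : ι} (h : R.IsSum r s) : R.pair r s = -1 := by
  have := h.norm; simp only [hd] at this; omega

theorem N_cyc (C : Chev R) {r s : ι} (h : R.IsSum r s) :
    C.N r (R.neg (R.plus r s)) = -C.N r s := by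
  have h1 : R.cf (R.neg r) = R.cf s + R.cf (R.neg (R.plus r s)) := by
    rw [R.cf_neg, R.cf_neg, h.cf_plus]; abel
  have h2 : R.cf (R.neg s) = R.cf r + R.cf (R.neg (R.plus r s)) := by
    rw [R.cf_neg, R.cf_neg, h.cf_plus]; abel
  have a1 : R.neg (R.plus r s) ≠ R.neg s := fun e => h.plus_ne_right (R.neg_inj e)
  have a2 : R.neg (R.plus r s) ≠ R.neg r := fun e => h.plus_ne_left (R.neg_inj e)
  have e := congrArg (· *ᵥ ev κ ℤ (R.neg (R.plus r s))) (C.jac r s h.ne_neg)
  simp only [sub_mulVec, ← mulVec_mulVec, smul_mulVec, C.ad1_ev a1, C.ad1_ev a2, mulVec_smul,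
    plus_eq h1, plus_eq h2, C.ad1_ev_neg] at e
  have e' : ∀ k, C.N s (R.neg (R.plus r s)) * R.pair r k - C.N r (R.neg (R.plus r s)) * R.pair s k =
      C.N r s * (R.pair r k + R.pair s k) := fun k => by
    have : C.N s (R.neg (R.plus r s)) • R.co r - C.N r (R.neg (R.plus r s)) • R.co s =
        C.N r s • R.co (R.plus r s) := funext fun i => congrFun e (Sum.inl i)
    have := congrArg (· ⬝ᵥ R.wt k) this
    simp only [sub_dotProduct, smul_dotProduct, smul_eq_mul] at this
    rw [pair_comm hd r k, pair_comm hd s k, ← h.pair_plus, pair_comm hd k, pair_comm hd k,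
      pair_comm hd k]
    exact this
  have b1 := e' r
  have b2 := e' s
  rw [pair_self, pair_comm hd s r, pair_sum hd h] at b1
  rw [pair_self, pair_sum hd h] at b2
  omega

theorem ad1_gram (C : Chev R) (r : ι) : (C.ad1 r)ᵀ * gram R = -(gram R * C.ad1 r) := by
  ext a b
  rcases a with i | s <;> rcases b with j | u <;>
    simp only [mul_apply, Fintype.sum_sum_type, transpose_apply, gram, PreChev.ad1, of_apply,
      Sum.elim_inl, Sum.elim_inr, fromBlocks_apply₁₁, fromBlocks_apply₁₂, fromBlocks_apply₂₁,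
      fromBlocks_apply₂₂, Matrix.neg_apply, Matrix.zero_apply, mul_zero, zero_mul,
      Finset.sum_const_zero, add_zero, zero_add, neg_zero, ite_mul, mul_ite, mul_one, one_mul,
      Finset.sum_ite_eq', Finset.mem_univ, if_true, ite_self]
  · rw [Finset.sum_eq_single r (by simp +contextual) (by simp)]
    split_ifs with h
    · simp [wt, mulVec, dotProduct, co_cf hd]
    all_goals simp_all
  · by_cases h : s = R.neg r
    · subst h
      simp [wt, mulVec, dotProduct, co_cf hd, A_symm hd j, mul_comm]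
    · simp [h, R.neg_eq_iff, eq_comm (a := r), R.neg_eq_iff]
  · rw [Finset.sum_eq_single (R.plus r s) (by simp +contextual) (by simp)]
    by_cases h : R.IsSum r s
    · by_cases e : u = R.neg (R.plus r s)
      · subst e
        have h2 : R.cf (R.neg s) = R.cf r + R.cf (R.neg (R.plus r s)) := by
          rw [R.cf_neg, R.cf_neg, h.cf_plus]; abel
        simp [plus_eq h2, N_cyc hd C h]
      · rw [if_neg e]
        split_ifs with e'
        · rw [C.N_zero, neg_zero]
          intro h'
          refine e (R.cf_inj ?_)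
          have := h'.cf_plus
          rw [e', R.cf_neg] at this
          rw [R.cf_neg, h.cf_plus, neg_add, this]; abel
        · simp
    · rw [C.N_zero _ _ h]
      simp only [ite_self]
      split_ifs with e'
      · rw [C.N_zero, neg_zero]
        intro h'
        refine h ⟨R.neg u, ?_⟩
        have := h'.cf_plus
        rw [e', R.cf_neg] at this
        rw [R.cf_neg, ← _root_.neg_neg (R.cf s), this]; abel
      · simp

theorem Xad_gram (C : Chev R) {S : Type*} [CommRing S] (r : ι) (t : S) :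
    (C.Xad r t)ᵀ * cm S (gram R) * C.Xad r t = cm S (gram R) := by
  have h1 := ad1_gram hd C r
  have h2 : (C.ad2 r)ᵀ * gram R = gram R * C.ad2 r := by
    apply nsmul_right_injective (n := 2) (by norm_num)
    have := congrArg transpose (C.ad_dp2 r)
    rw [transpose_mul, transpose_smul] at this
    simp only
    rw [← smul_mul_assoc, ← this, mul_assoc, h1, mul_neg, ← mul_assoc, h1, neg_mul, _root_.neg_neg,
      mul_assoc, C.ad_dp2, mul_smul_comm]
  have h3 : (C.ad3 r)ᵀ * gram R = -(gram R * C.ad3 r) := by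
    apply nsmul_right_injective (n := 3) (by norm_num)
    have := congrArg transpose (C.ad_dp3 r)
    rw [transpose_mul, transpose_smul] at this
    simp only
    rw [← smul_mul_assoc, ← this, mul_assoc, h1, mul_neg, ← mul_assoc, h2, mul_assoc,
      (dp_coeffs _ _ _ (C.ad_dp2 r) (C.ad_dp3 r) (C.ad_dp4 r)).1, mul_smul_comm, smul_neg]
  have c : ∀ M : Matrix (κ ⊕ ι) (κ ⊕ ι) ℤ, (cm S M)ᵀ = cm S Mᵀ := fun _ => rfl
  have : (C.Xad r t)ᵀ * cm S (gram R) = cm S (gram R) * C.Xad r (-t) := by
    simp only [PreChev.Xad, xexp, transpose_add, transpose_smul, transpose_one, c, add_mul, mul_add,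
      smul_mul_assoc, mul_smul_comm, ← map_mul, h1, h2, h3, map_neg, one_mul, mul_one]
    module
  rw [this, mul_assoc, ← C.adRep_X, ← C.adRep_X, Rep.X_neg_mul, mul_one]

end gen

/-- index set -/
abbrev I := chevE8.Idx
/-- the root system -/
noncomputable abbrev R8 := goodE8.R

theorem hd8 : ∀ r, R8.d r = 1 := by decide +kernel

/-- the Gram matrix of `E₈` -/
noncomputable def Γ (K : Type*) [CommRing K] : Matrix I I K := cm K (gram R8)

theorem Γ_symm (K : Type*) [CommRing K] : (Γ K)ᵀ = Γ K := by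
  ext a b
  rcases a with i | s <;> rcases b with j | u
  · simp [Γ, gram, A_symm hd8 j]
  · simp [Γ, gram]
  · simp [Γ, gram]
  · simp [Γ, gram, ← R8.neg_eq_iff (s := u), eq_comm (a := u)]

theorem Γ_unit (K : Type*) [CommRing K] : IsUnit (Γ K) := by
  refine IsUnit.map _ (IsUnit.of_mul_eq_one (fromBlocks (lmat _ tabE8.invT) 0 0
    (Matrix.of fun r s => if s = R8.neg r then 1 else 0)) ?_)
  rw [gram, fromBlocks_multiply, ← fromBlocks_one]
  congr 1
  · simp only [Matrix.mul_zero, add_zero]; decide +kernel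
  · simp
  · simp
  · ext r s
    rw [Matrix.zero_mul, zero_add, mul_apply, Finset.sum_eq_single (R8.neg r) (by simp +contextual) (by simp)]
    simp [one_apply, eq_comm]

variable {K : Type} [Field K]

/-- the matrix of a group element -/
abbrev mt (g : chevE8.group K) : Matrix I I K := (g.1 : Matrix I I K)

theorem mt_x (r : Fin chevE8.nroots) (t : K) : mt ((goodE8.SG K).x r t) = goodE8.C.Xad r t :=
  (goodE8.coe_SG_x r t).trans (goodE8.x_eq r t)

theorem mt_mul (g h : chevE8.group K) : mt (g * h) = mt g * mt h := rfl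

theorem mt_Γ (g : chevE8.group K) : (mt g)ᵀ * Γ K * mt g = Γ K := by
  refine U_induction (S := (goodE8.SG K).toPreSt) (A := Set.univ)
    (P := fun g => (mt g)ᵀ * Γ K * mt g = Γ K) (by simp [mt]) (fun r _ t g _ h => ?_)
    (goodE8.SG_top K ▸ Subgroup.mem_top g)
  have := Xad_gram hd8 goodE8.C r t
  rw [mt_mul, mt_x, transpose_mul, Matrix.mul_assoc (mt g)ᵀ, Matrix.mul_assoc (mt g)ᵀ,
    ← Matrix.mul_assoc _ _ (mt g), Γ, this, ← Matrix.mul_assoc]
  exact h

/-- the invariant form -/
noncomputable def bf (K : Type*) [CommRing K] : LinearMap.BilinForm K (I → K) := Matrix.toBilin' (Γ K)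

theorem bf_apply {K : Type*} [CommRing K] (u v : I → K) : bf K u v = u ⬝ᵥ Γ K *ᵥ v :=
  Matrix.toBilin'_apply' _ _ _

theorem bf_symm {K : Type*} [CommRing K] (u v : I → K) : bf K u v = bf K v u := by
  rw [bf_apply, bf_apply, dotProduct_mulVec, ← mulVec_transpose, Γ_symm, dotProduct_comm]

theorem bf_mt (g : chevE8.group K) (u v : I → K) : bf K (mt g *ᵥ u) (mt g *ᵥ v) = bf K u v := by
  rw [bf_apply, bf_apply, ← vecMul_transpose, ← dotProduct_mulVec, mulVec_mulVec, mulVec_mulVec,
    mt_Γ]

theorem bf_map {K' : Type*} [CommRing K'] {K : Type*} [CommRing K] (f : K →+* K') (u v : I → K) :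
    bf K' (f ∘ u) (f ∘ v) = f (bf K u v) := by
  simp [bf_apply, mulVec, dotProduct, Γ, map_sum]

theorem bf_ev {K : Type*} [CommRing K] (u : I → K) (r : Fin chevE8.nroots) :
    bf K u (H14.ev _ K (R8.neg r)) = u (Sum.inr r) := by
  simp [bf_apply, H14.ev, Γ, gram, dotProduct, Fintype.sum_sum_type, eq_comm (a := R8.neg r),
    neg_eq_iff]

/-- the adjoint anti-automorphism -/
noncomputable def adj (a : End K (I → K)) : End K (I → K) :=
  Matrix.toLinAlgEquiv' ((Γ K)⁻¹ * (LinearMap.toMatrixAlgEquiv' a)ᵀ * Γ K)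

theorem adj_mul (a b : End K (I → K)) : adj (a * b) = adj b * adj a := by
  rw [adj, adj, adj, ← map_mul, map_mul LinearMap.toMatrixAlgEquiv', transpose_mul]
  simp only [Matrix.mul_assoc,
    Matrix.mul_nonsing_inv_cancel_left _ _ ((isUnit_iff_isUnit_det _).1 (Γ_unit K))]

theorem adj_add (a b : End K (I → K)) : adj (a + b) = adj a + adj b := by
  simp [adj, transpose_add, Matrix.mul_add, Matrix.add_mul]

theorem adj_smul (c : K) (a : End K (I → K)) : adj (c • a) = c • adj a := by
  simp [adj]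

theorem adj_ρ8 (g : chevE8.group K) : adj (ρ8 K g) = ρ8 K g⁻¹ := by
  have h1 : mt g * mt g⁻¹ = 1 := by rw [← mt_mul, mul_inv_cancel]; rfl
  have h2 : (mt g)ᵀ * Γ K = Γ K * mt g⁻¹ := by
    conv_rhs => rw [← mt_Γ g, Matrix.mul_assoc, h1, Matrix.mul_one]
  have h3 : ∀ g, ρ8 K g = Matrix.toLinAlgEquiv' (mt g) := fun _ => rfl
  have h4 : LinearMap.toMatrixAlgEquiv' (Matrix.toLinAlgEquiv' (mt g)) = mt g :=
    LinearMap.toMatrixAlgEquiv'.apply_symm_apply _
  rw [adj, h3, h3, h4, Matrix.mul_assoc, h2,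
    Matrix.nonsing_inv_mul_cancel_left _ _ ((isUnit_iff_isUnit_det _).1 (Γ_unit K))]

theorem rnk_adj (a : End K (I → K)) : H0.BC.rnk (adj a) = H0.BC.rnk a := by
  have h1 : ∀ M : Matrix I I K, H0.BC.rnk (Matrix.toLinAlgEquiv' M) = M.rank := fun M => rfl
  have h2 := (isUnit_iff_isUnit_det _).1 (Γ_unit K)
  rw [adj, h1, rank_mul_eq_left_of_isUnit_det _ _ h2,
    rank_mul_eq_right_of_isUnit_det _ _ (isUnit_nonsing_inv_det _ h2), rank_transpose, ← h1]
  congr 1
  exact LinearMap.toMatrixAlgEquiv'.symm_apply_apply _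

end H8.E8
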