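import Cfsg.Agent.H8.E8A

/-! Level sets of quadratic functions over `F₃` and rational points of subspaces. -/

set_option autoImplicit false
set_option linter.unusedSectionVars false

open H14 H23.Sec Cfsg.Lie Matrix Module Finset

namespace H8.E8

theorem fib3 {U : Type*} [AddCommGroup U] [Fintype U] {ℓ : U →+ ZMod 3} (h : ℓ ≠ 0) (c : ZMod 3) :
    3 * #{w | ℓ w = c} = Fintype.card U := by
  obtain ⟨u, hu⟩ := DFunLike.ne_iff.1 h
  have h1 : ∀ c, c ∈ Set.range ℓ := fun c => by
    have : ∀ a c : ZMod 3, a ≠ 0 → c = 0 • a ∨ c = 1 • a ∨ c = 2 • a := by decide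
    rcases this _ c hu with e | e | e <;> exact ⟨_, (map_nsmul ℓ _ u).trans e.symm⟩
  rw [← card_univ, card_eq_sum_card_fiberwise (f := ℓ) (s := univ) (t := univ) (by simp),
    sum_congr rfl fun a _ => AddMonoidHom.card_fiber_eq_of_mem_range ℓ (h1 a) (h1 c)]
  simp

theorem level {U : Type*} [AddCommGroup U] [Fintype U] (f a : U → ZMod 3) (ℓ : U → U →+ ZMod 3)
    [DecidablePred fun h => ℓ h = 0] (hf : ∀ w h, f (w + h) = f w + (a h + ℓ h w)) (c : ZMod 3) :
    (3 * (#{w | f w = c} : ℤ) - Fintype.card U) ^ 2 ≤ 4 * Fintype.card U * #{h | ℓ h = 0} := by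
  classical
  set n := Fintype.card U with hn
  let N : ZMod 3 → ℕ := fun c => #{w | f w = c}
  have h1 : ∑ d, N d = n := (card_eq_sum_card_fiberwise (f := f) (t := univ) (by simp)).symm
  have h2 : ∑ d, N d * N d = ∑ w, N (f w) := by
    rw [← sum_fiberwise (s := univ) (g := f) (f := fun w => N (f w))]
    refine sum_congr rfl fun d _ => ?_
    rw [sum_congr rfl fun w hw => by rw [(mem_filter.1 hw).2], sum_const, smul_eq_mul]
  have h3 : ∑ w, N (f w) = ∑ h, #{w | ℓ h w = -a h} := by
    simp only [N, card_filter]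
    rw [sum_comm (s := univ) (t := univ) (f := fun h w => if ℓ h w = -a h then 1 else 0)]
    refine sum_congr rfl fun w _ => ?_
    rw [← Equiv.sum_comp (Equiv.addLeft w)]
    simp [hf, add_eq_zero_iff_eq_neg']
  have h4 : 3 * ∑ h, #{w | ℓ h w = -a h} ≤ n * n + 2 * n * #{h | ℓ h = 0} := by
    rw [mul_sum, card_filter (p := fun h => ℓ h = 0), mul_sum,
      show n * n = ∑ _h : U, n by simp [hn], ← sum_add_distrib]
    refine sum_le_sum fun h _ => ?_
    split_ifs with e
    · have := card_le_univ (univ.filter fun w => ℓ h w = -a h)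
      omega
    · rw [fib3 e]; omega
  have h5 : ∀ g : ZMod 3 → ℕ, ∑ d, g d = g c + g (c + 1) + g (c + 2) := fun g => by
    rw [← Equiv.sum_comp (Equiv.addLeft c)]
    refine (Fin.sum_univ_three _).trans ?_
    change g (c + 0) + g (c + 1) + g (c + 2) = _
    rw [add_zero]
  rw [← h3, ← h2, h5] at h4
  rw [h5] at h1
  change (3 * (N c : ℤ) - n) ^ 2 ≤ _
  rw [← h1] at h4 ⊢
  zify at h4
  push_cast
  nlinarith [sq_nonneg ((N (c + 1) : ℤ) - N (c + 2))]

variable {K : Type} [Field K] [Algebra (ZMod 3) K] {ι : Type} [Fintype ι] [DecidableEq ι]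

/-- extension of scalars -/
def ε (K : Type) [Field K] [Algebra (ZMod 3) K] : (ι → ZMod 3) →ₗ[ZMod 3] (ι → K) :=
  Pi.algebraMap ι (ZMod 3) K

theorem ε_def (v : ι → ZMod 3) : ε K v = algebraMap (ZMod 3) K ∘ v := rfl

/-- rational points -/
def rat (m : Submodule K (ι → K)) : Submodule (ZMod 3) (ι → ZMod 3) :=
  (m.restrictScalars (ZMod 3)).comap (ε K)

theorem mem_rat {m : Submodule K (ι → K)} {v : ι → ZMod 3} : v ∈ rat m ↔ ε K v ∈ m := Iff.rfl

theorem rat_span (m : Submodule K (ι → K)) :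
    finrank (ZMod 3) (rat m) ≤ finrank K (Submodule.span K (ε K '' (rat m : Set (ι → ZMod 3)))) := by
  let b := Module.finBasis (ZMod 3) (rat m)
  have h1 : LinearIndependent K fun i => algebraMap (ZMod 3) K ∘ (b i).1 :=
    (linearIndependent_algebraMap_comp_iff (v := fun i => (b i).1)).2
      (b.linearIndependent.map' (rat m).subtype (rat m).ker_subtype)
  rw [← Fintype.card_fin (finrank (ZMod 3) (rat m)), ← finrank_span_eq_card h1]
  exact Submodule.finrank_mono (Submodule.span_mono (by rintro _ ⟨i, rfl⟩; exact ⟨_, (b i).2, rfl⟩))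

theorem span_rat_le (m : Submodule K (ι → K)) : Submodule.span K (ε K '' (rat m : Set (ι → ZMod 3))) ≤ m :=
  Submodule.span_le.2 (by rintro _ ⟨v, h, rfl⟩; exact h)

theorem card_rat (m : Submodule K (ι → K)) : Nat.card (rat m) = 3 ^ finrank (ZMod 3) (rat m) := by
  rw [Module.natCard_eq_pow_finrank (K := ZMod 3), Nat.card_zmod]

/-- the part of a level set inside an affine subspace -/
def Lev (B : LinearMap.BilinForm (ZMod 3) (ι → ZMod 3)) (m : Submodule K (ι → K))
    (v : ι → ZMod 3) : Set (ι → ZMod 3) := {u | ε K u - ε K v ∈ m ∧ B u u = B v v}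

theorem card_Lev {B : LinearMap.BilinForm (ZMod 3) (ι → ZMod 3)} {B' : LinearMap.BilinForm K (ι → K)}
    (hB : ∀ u v, B' (ε K u) (ε K v) = algebraMap (ZMod 3) K (B u v)) (hs : ∀ u v, B u v = B v u)
    {m t : Submodule K (ι → K)} {D d k : ℕ} (hm : finrank K m ≤ D)
    (ht : finrank K t ≤ d) (h : ∀ y ∈ m, (∀ y' ∈ m, B' y y' = 0) → y ∈ t)
    (hk : 3 ^ (D + d) ≤ k ^ 2) (v : ι → ZMod 3) :
    3 * Nat.card (Lev B m v) ≤ 3 ^ D + 2 * k := by
  classical
  haveI : Fintype (rat m) := Fintype.ofFinite _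
  let f : rat m → ZMod 3 := fun w => B (v + w.1) (v + w.1)
  have h1 : Nat.card (Lev B m v) = #{w | f w = B v v} := by
    rw [← Fintype.card_subtype, ← Nat.card_eq_fintype_card]
    refine Nat.card_congr ⟨fun u => ⟨⟨u - v, by rw [mem_rat, map_sub]; exact u.2.1⟩, by
      simpa only [f, add_sub_cancel] using u.2.2⟩, fun w => ⟨v + w.1.1, by
        rw [map_add, add_sub_cancel_left]; exact w.1.2, w.2⟩, fun u => by simp, fun w => by simp⟩
  have h2 := card_rat m
  have h3 := (rat_span m).trans (Submodule.finrank_mono (span_rat_le m))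
  rw [Nat.card_eq_fintype_card] at h2
  rcases (h3.trans hm).lt_or_eq with e | e
  · have := card_le_univ (univ.filter fun w => f w = B v v)
    have h4 : 3 ^ (finrank (ZMod 3) (rat m) + 1) ≤ 3 ^ D := Nat.pow_le_pow_right (by norm_num) e
    rw [pow_succ] at h4
    omega
  have h4 : Submodule.span K (ε K '' (rat m : Set (ι → ZMod 3))) = m :=
    Submodule.eq_of_le_of_finrank_le (span_rat_le m) (hm.trans (e ▸ rat_span m))
  let ℓ : rat m → rat m →+ ZMod 3 := fun h =>
    (((2 : ZMod 3) • B h.1).comp (rat m).subtype).toAddMonoidHom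
  have h5 := level f (fun h => 2 * B v h + B h.1 h) ℓ (fun w h => by
    simp only [f, ℓ, Submodule.coe_add, map_add, LinearMap.add_apply, hs h.1 v, hs w.1 h.1,
      LinearMap.toAddMonoidHom_coe, LinearMap.comp_apply, Submodule.subtype_apply,
      LinearMap.smul_apply, smul_eq_mul]
    ring) (B v v)
  have h6 : #{h | ℓ h = 0} ≤ 3 ^ d := by
    refine le_trans ?_ ((card_rat t).le.trans (Nat.pow_le_pow_right (by norm_num)
      ((rat_span t).trans ((Submodule.finrank_mono (span_rat_le t)).trans ht))))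
    rw [← Fintype.card_subtype, ← Nat.card_eq_fintype_card]
    refine Nat.card_le_card_of_injective (fun a => ⟨a.1.1, h _ a.1.2 fun y hy => ?_⟩)
      fun a b e => Subtype.ext (Subtype.ext (Subtype.mk.inj e))
    rw [← h4] at hy
    refine (Submodule.span_le (p := LinearMap.ker (B' (ε K a.1.1)))).2 ?_ hy
    rintro _ ⟨w, hw, rfl⟩
    have := DFunLike.congr_fun a.2 ⟨w, hw⟩
    simp only [ℓ, LinearMap.toAddMonoidHom_coe, LinearMap.comp_apply, Submodule.subtype_apply,
      LinearMap.smul_apply, smul_eq_mul, AddMonoidHom.zero_apply] at this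
    have h7 : ∀ x : ZMod 3, 2 * x = 0 → x = 0 := by decide
    rw [SetLike.mem_coe, LinearMap.mem_ker, hB, h7 _ this, map_zero]
  rw [h2, e, ← h1] at h5
  by_contra hc
  rw [pow_add] at hk
  zify at h6 hk hc
  push_cast at h5
  have : (0 : ℤ) < 3 ^ D := by positivity
  nlinarith

theorem card_le_of_fib {Ω G L : Type*} [Group G] [Finite G] [Finite L] (Q : Subgroup G) (ψ : Ω → G)
    (hψ : Function.Injective ψ) (π : Ω → L) (h : ∀ a b, π a = π b → (ψ a)⁻¹ * ψ b ∈ Q) :
    Nat.card Ω ≤ Nat.card L * Nat.card Q := by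
  rw [← Nat.card_prod]
  rcases isEmpty_or_nonempty Ω with e | e
  · simp
  have h1 : ∀ b, π (Function.invFun π (π b)) = π b := fun b => Function.invFun_eq ⟨b, rfl⟩
  refine Nat.card_le_card_of_injective (fun b => (π b, ⟨_, h _ b (h1 b)⟩)) fun a b e => ?_
  obtain ⟨e1, e2⟩ := Prod.mk.inj e
  have := congrArg Subtype.val e2
  simp only [e1] at this
  exact hψ (mul_left_cancel this)

end H8.E8
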