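import Cfsg.Agent.H8.E8B
import Cfsg.Agent.H14.StS2

/-! Families of Bruhat cells fixed by a twisted Frobenius map. -/

set_option autoImplicit false
set_option linter.unusedSectionVars false

open H14 H14.RootSys H14.PreSt H14.St Matrix Module

namespace H8.E8

variable {ι κ : Type} [Fintype κ] [DecidableEq κ] [Fintype ι] [DecidableEq ι] {R : RootSys ι κ}
  {C : Chev R} {K G : Type} [Field K] [Group G] {S : St C K G}

theorem comm_U (hd : ∀ r, R.d r = 1) {A B : Set ι} (h : ∀ r ∈ A, ∀ s ∈ B, R.pair r s = 0) {a b : G}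
    (ha : a ∈ S.U A) (hb : b ∈ S.U B) : Commute a b := by
  have h1 : ∀ r ∈ A, ∀ t, Commute (S.x r t) b := fun r hr t =>
    (U_le (M := Subgroup.centralizer {S.x r t})).2 (fun s hs u => by
      rintro _ rfl
      refine S.commute_of_not (fun e => ?_) (fun e => ?_) t u
      · have := h r hr s hs
        rw [e, ← R.refl_self, pair_refl_right, pair_self] at this
        omega
      · have := pair_sum hd e
        rw [h r hr s hs] at this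
        omega) hb _ rfl
  exact ((U_le (M := Subgroup.centralizer {b})).2 (fun r hr t => by
    rintro _ rfl; exact (h1 r hr t).symm) ha _ rfl : b * a = a * b).symm

theorem tor_mem_U (hh : S.HMul) {J : Set κ} {c : κ → Kˣ} (h : ∀ i, i ∉ J → c i = 1) :
    hh.tor c ∈ S.U {r | R.InJ J r} := by
  rw [hh.tor_eq (Finset.nodup_toList Finset.univ) (by simp)]
  refine list_prod_mem fun g hg => ?_
  obtain ⟨i, -, rfl⟩ := List.mem_map.1 hg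
  by_cases e : i ∈ J
  · exact h_mem_U (R.inJ_simple.2 e) (R.inJ_neg.2 (R.inJ_simple.2 e)) _
  · simp [h i e]

variable (F : S.Fr)

/-- `v` has a fixed representative -/
def Rp (A : Set ι) (v : Equiv.Perm ι) : Prop := ∃ n ∈ S.U A ⊓ F.fix, (n, v) ∈ S.NW

variable {F}

theorem Rp.mul {A : Set ι} {v w : Equiv.Perm ι} (h : Rp F A v) (h' : Rp F A w) : Rp F A (v * w) := by
  obtain ⟨a, h1, h2⟩ := h
  obtain ⟨b, h3, h4⟩ := h'
  exact ⟨_, mul_mem h1 h3, NW.mul h2 h4⟩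

theorem Rp.one (A : Set ι) : Rp F A 1 := ⟨1, one_mem _, one_mem _⟩

theorem ex_sol [IsAlgClosed K] {c : K} (hc : c ≠ 0) {n : ℕ} (hn : 0 < n) :
    ∃ t : K, t ≠ 0 ∧ c * t ^ (n + 1) = t := by
  obtain ⟨t, ht⟩ := IsAlgClosed.exists_pow_nat_eq c⁻¹ hn
  refine ⟨t, fun e => ?_, by rw [pow_succ, ht, ← mul_assoc, mul_inv_cancel₀ hc, one_mul]⟩
  rw [e, zero_pow hn.ne', eq_comm, inv_eq_zero] at ht
  exact hc ht

variable [IsAlgClosed K] (hq : ∀ r, F.p ^ F.e r = 3)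
include hq

theorem rp_fix {A : Set ι} {r : ι} (h : F.ρ r = r) (h1 : r ∈ A) (h2 : R.neg r ∈ A) :
    Rp F A (R.refl r) := by
  obtain ⟨t, h3, h4⟩ := ex_sol (F.c_ne r) two_pos
  exact ⟨_, ⟨n_mem_U h1 h2 t, Fr.mem_fix.2 (by rw [F.σ_n _ _ h3, hq, h4, h])⟩,
    n_mem_NW r h3⟩

theorem rp_three (hd : ∀ r, R.d r = 1) {A : Set ι} (hA : ∀ r ∈ A, R.neg r ∈ A) {r s u : ι}
    (h1 : F.ρ r = s) (h2 : F.ρ s = u) (h3 : F.ρ u = r) (hr : r ∈ A) (hs : s ∈ A) (hu : u ∈ A)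
    (e1 : R.pair r s = 0) (e2 : R.pair r u = 0) :
    Rp F A (R.refl r * R.refl s * R.refl u) := by
  obtain ⟨t, a1, a2⟩ := ex_sol (c := F.c u * (F.c s * F.c r ^ 3) ^ 3) (mul_ne_zero (F.c_ne _)
    (pow_ne_zero _ (mul_ne_zero (F.c_ne _) (pow_ne_zero _ (F.c_ne _))))) (n := 26) (by norm_num)
  have a3 := F.f_ne r a1
  have a4 := F.f_ne s a3
  have cm : ∀ {s}, R.pair r s = 0 → ∀ a b, Commute (S.n r a) (S.n s b) := fun {s} e a b =>
    comm_U hd (A := {r, R.neg r}) (B := {s, R.neg s}) (by simp [e])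
      (n_mem_U (by simp) (by simp) a) (n_mem_U (by simp) (by simp) b)
  refine ⟨_, ⟨mul_mem (mul_mem (n_mem_U hr (hA _ hr) t) (n_mem_U hs (hA _ hs) _))
    (n_mem_U hu (hA _ hu) _), Fr.mem_fix.2 ?_⟩, NW.mul (NW.mul (n_mem_NW r a1) (n_mem_NW s a3)) (n_mem_NW u a4)⟩
  rw [map_mul, map_mul, F.σ_n _ _ a1, F.σ_n _ _ a3, F.σ_n _ _ a4, h1, h2,
    h3, mul_assoc (S.n r t), ((cm e1 _ _).mul_right (cm e2 _ _)).eq]
  congr 2
  simp only [hq]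
  conv_rhs => rw [← a2]
  ring

omit hq [IsAlgClosed K]

variable (F) in
/-- data of a family of cells -/
structure Dat (A : Set ι) where
  X : Type
  T : Type
  v : X → Equiv.Perm ι
  τ : T → G
  hv : ∀ j, Rp F A (v j)
  hτ : ∀ t, τ t ∈ S.H ∧ τ t ∈ S.U A ⊓ F.fix

namespace Dat
variable {A : Set ι} (d : Dat F A)

/-- the parameter space -/
def Ω : Type := Σ j : d.X, d.T × ↥(S.U ({r | R.pos r} ∩ A) ⊓ F.fix) ×
  ↥(S.U ({r | R.pos r ∧ ¬ R.pos (d.v j r)} ∩ A) ⊓ F.fix)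

/-- the elements of the family -/
noncomputable def el (ω : d.Ω) : G := ω.2.2.1 * d.τ ω.2.1 * (d.hv ω.1).choose * ω.2.2.2

theorem el_mem (ω : d.Ω) : d.el ω ∈ S.U A ⊓ F.fix :=
  mul_mem (mul_mem (mul_mem ⟨U_mono (fun _ h => h.2) ω.2.2.1.2.1, ω.2.2.1.2.2⟩ (d.hτ _).2)
    (d.hv _).choose_spec.1) ⟨U_mono (fun _ h => h.2) ω.2.2.2.2.1, ω.2.2.2.2.2⟩

theorem card_Ω [IsAlgClosed K] [Fintype d.X] [Finite d.T] (hq : ∀ r, F.p ^ F.e r = 3)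
    (hρ : F.ρ ∈ R.Aut) (hA : R.Closed A) (h1 : ∀ r, R.pos r → r ∈ A → R.pos (F.ρ r) ∧ F.ρ r ∈ A)
    (h2 : ∀ j r, R.pos r → r ∈ A → ¬ R.pos (d.v j r) → ¬ R.pos (d.v j (F.ρ r))) {a : ℕ}
    {b : d.X → ℕ} (ha : ({r | R.pos r} ∩ A).ncard = a)
    (hb : ∀ j, ({r | R.pos r ∧ ¬ R.pos (d.v j r)} ∩ A).ncard = b j) :
    Nat.card d.Ω = ∑ j, Nat.card d.T * (3 ^ a * 3 ^ b j) := by
  have e1 := F.card_U hq (by norm_num) hρ (closed_pos.inter hA)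
    fun r hr => ⟨hr.1, h1 r hr.1 hr.2⟩
  have e2 := fun j => F.card_U hq (by norm_num) hρ
    ((closed_inv (NW.mem_Aut (d.hv j).choose_spec.2)).inter hA)
    fun r hr => ⟨hr.1.1, ⟨(h1 r hr.1.1 hr.2).1, h2 j r hr.1.1 hr.2 hr.1.2⟩, (h1 r hr.1.1 hr.2).2⟩
  have := Nat.finite_of_card_ne_zero (e1 ▸ (pow_pos three_pos _).ne')
  have := fun j => Nat.finite_of_card_ne_zero (e2 j ▸ (pow_pos three_pos _).ne')
  rw [Ω, Nat.card_sigma]
  exact Finset.sum_congr rfl fun j _ => by rw [Nat.card_prod, Nat.card_prod, e1, e2, ha, hb]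

theorem inj {A' : Set ι} (d' : Dat F A') (hd : ∀ r, R.d r = 1) (hA : R.Closed A) (hA' : R.Closed A')
    (h : ∀ r ∈ A, ∀ s ∈ A', R.pair r s = 0) {Z : Type} (z : Z → G) (hz : ∀ k, z k ∈ S.H)
    (hz1 : ∀ k, ∀ u ∈ S.U A, Commute (z k) u) (hz2 : ∀ k, ∀ u ∈ S.U A', Commute (z k) u)
    (hv : ∀ i j i' j', d.v i * d'.v j = d.v i' * d'.v j' → i = i' ∧ j = j')
    (hv1 : ∀ i j, ∀ r ∈ A, d.v i (d'.v j r) = d.v i r)
    (hv2 : ∀ i j, ∀ r ∈ A', d.v i (d'.v j r) = d'.v j r)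
    (hτ : ∀ s t k s' t' k', d.τ s * d'.τ t * z k = d.τ s' * d'.τ t' * z k' →
      s = s' ∧ t = t' ∧ k = k') :
    Function.Injective fun p : d.Ω × d'.Ω × Z => d.el p.1 * d'.el p.2.1 * z p.2.2 := by
  have key : ∀ (a : d.Ω) (b : d'.Ω) k, d.el a * d'.el b * z k = (a.2.2.1 * b.2.2.1 *
      (d.τ a.2.1 * d'.τ b.2.1 * z k)) * ((d.hv a.1).choose * (d'.hv b.1).choose) *
      (a.2.2.2 * b.2.2.2) := fun a b k => by
    have b1 := (d.hτ a.2.1).2.1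
    have b2 := (d.hv a.1).choose_spec.1.1
    have b3 : (a.2.2.2 : G) ∈ S.U A := U_mono (fun _ h => h.2) a.2.2.2.2.1
    have c0 : (b.2.2.1 : G) ∈ S.U A' := U_mono (fun _ h => h.2) b.2.2.1.2.1
    have c1 := (d'.hτ b.2.1).2.1
    have c2 := (d'.hv b.1).choose_spec.1.1
    have c3 : (b.2.2.2 : G) ∈ S.U A' := U_mono (fun _ h => h.2) b.2.2.2.2.1
    simp only [el, mul_assoc, ← (hz2 k _ c3).eq, ← (hz2 k _ c2).left_comm, ← (hz1 k _ b3).left_comm,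
      ← (hz1 k _ b2).left_comm, (comm_U hd h b3 c0).left_comm, (comm_U hd h b3 c1).left_comm,
      (comm_U hd h b3 c2).left_comm, (comm_U hd h b2 c0).left_comm, (comm_U hd h b2 c1).left_comm,
      (comm_U hd h b1 c0).left_comm]
  have sep : ∀ {a a' b b' : G}, a ∈ S.U ({r | R.pos r} ∩ A) → a' ∈ S.U ({r | R.pos r} ∩ A) →
      b ∈ S.U ({r | R.pos r} ∩ A') → b' ∈ S.U ({r | R.pos r} ∩ A') → a * b = a' * b' →
      a = a' ∧ b = b' := fun {a a' b b'} h1 h2 h3 h4 e => by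
    have h5 := F.sep.inf_ord (ord_of_closed (closed_pos.inter hA) _ fun r hr => htf_pos hr.1)
      (ord_of_closed (closed_pos.inter hA') _ fun r hr => htf_pos hr.1) _
      (fun r hr => htf_pos hr.1) (fun r hr => htf_pos hr.1) (mul_mem (inv_mem h2) h1)
      (by rw [inv_mul_eq_iff_eq_mul.2 (eq_mul_inv_of_mul_eq e |>.trans (mul_assoc ..))]
          exact mul_mem h4 (inv_mem h3))
    rw [Set.eq_empty_of_forall_notMem (s := _ ∩ _) fun r hr => by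
      simpa using h r hr.1.2 r hr.2.2, U_empty, Subgroup.mem_bot, inv_mul_eq_one] at h5
    exact ⟨h5.symm, mul_left_cancel (h5 ▸ e)⟩
  rintro ⟨⟨i, s, b, u⟩, ⟨j, t, c, w⟩, k⟩ ⟨⟨i', s', b', u'⟩, ⟨j', t', c', w'⟩, k'⟩ e
  replace e := ((key _ _ _).symm.trans e).trans (key _ _ _)
  dsimp only at e
  have p1 : ∀ {x y : G}, x ∈ S.U ({r | R.pos r} ∩ A) → y ∈ S.U ({r | R.pos r} ∩ A') →
      x * y ∈ S.U {r | R.pos r} := fun h1 h2 =>
    mul_mem (U_mono (fun _ h => h.1) h1) (U_mono (fun _ h => h.1) h2)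
  have p2 : ∀ s t k, d.τ s * d'.τ t * z k ∈ S.H := fun s t k =>
    mul_mem (mul_mem (d.hτ s).1 (d'.hτ t).1) (hz k)
  have p3 := fun i j => NW.mul (d.hv i).choose_spec.2 (d'.hv j).choose_spec.2
  have p4 : ∀ {i j} {x y : G}, x ∈ S.U ({r | R.pos r ∧ ¬ R.pos (d.v i r)} ∩ A) →
      y ∈ S.U ({r | R.pos r ∧ ¬ R.pos (d'.v j r)} ∩ A') →
      x * y ∈ S.U {r | R.pos r ∧ ¬ R.pos ((d.v i * d'.v j) r)} := fun h1 h2 =>
    mul_mem (U_mono (fun r h => And.intro h.1.1 (by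
      rw [Equiv.Perm.mul_apply, hv1 _ _ r h.2]; exact h.1.2)) h1) (U_mono (fun r h => And.intro h.1.1
      (by rw [Equiv.Perm.mul_apply, hv2 _ _ r h.2]; exact h.1.2)) h2)
  have b3 := mul_mem (U_le_B (p1 b.2.1 c.2.1)) (H_le_B (p2 s t k))
  have b4 := mul_mem (U_le_B (p1 b'.2.1 c'.2.1)) (H_le_B (p2 s' t' k'))
  obtain ⟨rfl, rfl⟩ := hv _ _ _ _ (Cell.unique F.sep
    ⟨_, b3, _, p3 i j, _, U_mono (fun _ h => h.1) (p4 u.2.1 w.2.1), rfl⟩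
    ⟨_, b4, _, p3 i' j', _, U_mono (fun _ h => h.1) (p4 u'.2.1 w'.2.1), e⟩)
  obtain ⟨h3, h4⟩ := canonical_unique F.sep (p3 i j) b3 b4 (p4 u.2.1 w.2.1) (p4 u'.2.1 w'.2.1) e
  have h5 := inv_mul_eq_one.1 (F.sep.eq_one_of_mem_H
    (mul_mem (inv_mem (p1 b'.2.1 c'.2.1)) (p1 b.2.1 c.2.1)) (by
      rw [inv_mul_eq_iff_eq_mul.2 (eq_mul_inv_of_mul_eq h3 |>.trans (mul_assoc ..))]
      exact mul_mem (p2 _ _ _) (inv_mem (p2 _ _ _))))
  rw [h5, mul_right_inj] at h3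
  obtain ⟨rfl, rfl, rfl⟩ := hτ _ _ _ _ _ _ h3
  obtain ⟨h6, h7⟩ := sep b'.2.1 b.2.1 c'.2.1 c.2.1 h5
  have p5 : ∀ {B : Set ι} {v : Equiv.Perm ι} {x : G}, x ∈ S.U ({r | R.pos r ∧ ¬ R.pos (v r)} ∩ B) →
      x ∈ S.U ({r | R.pos r} ∩ B) := fun h => U_mono (fun _ h => And.intro h.1.1 h.2) h
  obtain ⟨h8, h9⟩ := sep (p5 u.2.1) (p5 u'.2.1) (p5 w.2.1) (p5 w'.2.1) h4
  rw [Subtype.ext h6, Subtype.ext h7, Subtype.ext h8, Subtype.ext h9]

end Dat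

end H8.E8
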