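import Cfsg.Agent.H8.E8C

/-! Orbits of centralizers of semisimple elements on the adjoint module of `E₈(3)`. -/

set_option autoImplicit false
set_option linter.unusedSectionVars false

open H14 H14.RootSys H14.PreSt H14.St H23.Sec Cfsg.Lie Matrix Module H0.BC

namespace H8.E8

section gen
variable {ι κ : Type} [Fintype κ] [DecidableEq κ] [Fintype ι] [DecidableEq ι] {R : RootSys ι κ}
  {K : Type} [Field K]

variable (K) in
/-- coordinate subspaces -/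
noncomputable def cs (J : Set κ) (A : Set ι) : Submodule K (κ ⊕ ι → K) :=
  Pi.spanSubset K {a | Sum.elim (· ∈ J) (· ∈ A) a}

theorem mem_cs {J : Set κ} {A : Set ι} {y : κ ⊕ ι → K} :
    y ∈ cs K J A ↔ (∀ i ∉ J, y (Sum.inl i) = 0) ∧ ∀ r ∉ A, y (Sum.inr r) = 0 := by
  simp [cs, Pi.mem_spanSubset_iff]

theorem ev_mem {J : Set κ} {A : Set ι} {r : ι} (h : r ∈ A) : H14.ev κ K r ∈ cs K J A :=
  mem_cs.2 ⟨fun _ _ => by simp [H14.ev], fun s hs => by
    simp [H14.ev, Pi.single_apply]; rintro rfl; exact hs h⟩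

theorem finrank_cs (J : Set κ) (A : Set ι) : finrank K (cs K J A) = J.ncard + A.ncard := by
  rw [cs, Pi.dim_spanSubset, ← Set.ncard_image_of_injective J (Sum.inl_injective (β := ι)),
    ← Set.ncard_image_of_injective A (Sum.inr_injective (α := κ)), ← Set.ncard_union_eq (by
      simp [Set.disjoint_left])]
  congr 1
  ext a
  rcases a with a | a <;> simp

theorem cs_ind {J : Set κ} {A : Set ι} {M : Matrix (κ ⊕ ι) (κ ⊕ ι) K} {P : Submodule K (κ ⊕ ι → K)}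
    (h1 : ∀ i ∈ J, M *ᵥ hv ι (Pi.single i 1) - hv ι (Pi.single i 1) ∈ P)
    (h2 : ∀ s ∈ A, M *ᵥ H14.ev κ K s - H14.ev κ K s ∈ P) {y : κ ⊕ ι → K} (hy : y ∈ cs K J A) :
    M *ᵥ y - y ∈ P := by
  refine (Submodule.span_le (p := P.comap (M.mulVecLin - LinearMap.id))).2 ?_ hy
  rintro _ ⟨a, ha, rfl⟩
  rw [Pi.basisFun_apply]
  rcases a with i | s
  · rw [hv_single]; exact h1 i ha
  · exact h2 s ha

theorem Xad_ev' (hd : ∀ r, R.d r = 1) (C : Chev R) {r s : ι} (h : s ≠ R.neg r) (t : K) :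
    C.Xad r t *ᵥ H14.ev κ K s - H14.ev κ K s = (t * C.N r s) • H14.ev κ K (R.plus r s) := by
  rw [C.Xad_ev h, C.M2_zero fun h => not_isSum_plus_of_d hd h.1 h.2,
    C.M3_zero fun h => not_isSum_plus_of_d hd h.1 h.2.1]
  simp

theorem Xad_act (hd : ∀ r, R.d r = 1) (C : Chev R) {J : Set κ} {A : Set ι} {r : ι} (hr : R.InJ J r)
    (h : ∀ s ∈ A, R.pair r s ≠ 0 → R.InJ J s) (t : K) {y : κ ⊕ ι → K} (hy : y ∈ cs K Set.univ A) :
    C.Xad r t *ᵥ y - y ∈ cs K J {r | R.InJ J r} := by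
  refine cs_ind (fun i _ => ?_) (fun s hs => ?_) hy
  · rw [C.Xad_hv, sub_sub_cancel_left]
    exact neg_mem (Submodule.smul_mem _ _ (ev_mem hr))
  by_cases e : s = R.neg r
  · rw [e, C.Xad_ev_neg, add_sub_assoc, add_sub_cancel_left]
    refine sub_mem (Submodule.smul_mem _ _ (mem_cs.2 ⟨fun i hi => ?_, fun _ _ => rfl⟩))
      (Submodule.smul_mem _ _ (ev_mem hr))
    simp [hv, co_cf hd, hr i hi]
  rw [Xad_ev' hd C e]
  by_cases e' : R.IsSum r s
  · refine Submodule.smul_mem _ _ (ev_mem fun j hj => ?_)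
    simp [e'.cf_plus, hr j hj, h s hs (by rw [pair_sum hd e']; norm_num) j hj]
  · simp [C.N_zero _ _ e']

theorem Xad_fix (hd : ∀ r, R.d r = 1) (C : Chev R) {J : Set κ} {r : ι}
    (h : ∀ s, R.InJ J s → R.pair r s = 0) (t : K) {y : κ ⊕ ι → K}
    (hy : y ∈ cs K J {r | R.InJ J r}) : C.Xad r t *ᵥ y = y := by
  refine sub_eq_zero.1 ((Submodule.mem_bot K).1 (cs_ind (fun i hi => ?_) (fun s hs => ?_) hy))
  · have := h _ (R.inJ_simple.2 hi)
    rw [pair_comm hd, pair_simple_left] at this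
    simp [C.Xad_hv, this]
  have e : s ≠ R.neg r := fun e => by
    have := h s hs
    rw [e, ← R.refl_self, pair_refl_right, pair_self] at this
    omega
  rw [Xad_ev' hd C e, C.N_zero _ _ fun e => by have := pair_sum hd e; rw [h s hs] at this; omega]
  simp

end gen

section act
variable {K : Type} [Field K]

theorem U_act {J : Set (Fin chevE8.rank)} {A : Set (Fin chevE8.nroots)} (hJ : ∀ r, R8.InJ J r → r ∈ A)
    (h : ∀ r, R8.InJ J r → ∀ s ∈ A, R8.pair r s ≠ 0 → R8.InJ J s) {g : chevE8.group K}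
    (hg : g ∈ (goodE8.SG K).U {r | R8.InJ J r}) :
    ∀ y ∈ cs K Set.univ A, mt g *ᵥ y - y ∈ cs K J {r | R8.InJ J r} := by
  refine U_induction (P := fun g => ∀ y ∈ cs K Set.univ A, mt g *ᵥ y - y ∈ cs K J {r | R8.InJ J r})
    (fun y _ => by simp [mt]) (fun r hr t g _ ih y hy => ?_) hg
  have h1 := ih y hy
  have h2 : mt g *ᵥ y ∈ cs K Set.univ A := by
    rw [← sub_add_cancel (mt g *ᵥ y) y]
    exact add_mem (mem_cs.2 ⟨by simp, fun r hr => (mem_cs.1 h1).2 r fun e => hr (hJ r e)⟩) hy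
  have := add_mem (Xad_act hd8 goodE8.C hr (h r hr) t h2) h1
  rwa [sub_add_sub_cancel, ← mt_x, mulVec_mulVec, ← mt_mul] at this

theorem U_fix {J : Set (Fin chevE8.rank)} {A : Set (Fin chevE8.nroots)}
    (h : ∀ r ∈ A, ∀ s, R8.InJ J s → R8.pair r s = 0) {g : chevE8.group K}
    (hg : g ∈ (goodE8.SG K).U A) {y : I → K} (hy : y ∈ cs K J {r | R8.InJ J r}) : mt g *ᵥ y = y := by
  refine U_induction (P := fun g => mt g *ᵥ y = y) (by simp [mt]) (fun r hr t g _ ih => ?_) hg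
  rw [mt_mul, ← mulVec_mulVec, ih, mt_x, Xad_fix hd8 goodE8.C (h r hr) t hy]

theorem mem_of_tor {c : Fin chevE8.rank → Kˣ} {y : I → K}
    (h : mt ((goodE8.SG_hmul K).tor c) *ᵥ y = y) : y ∈ cs K Set.univ {r | R8.chi c r = 1} := by
  have h1 : y ∈ (ρ8 K ((goodE8.SG_hmul K).tor c)).eigenspace (1 : Kˣ) :=
    End.mem_eigenspace_iff.2 (by rw [Units.val_one, one_smul]; exact h)
  rw [ρ8_eig, Pi.mem_spanSubset_iff] at h1
  exact mem_cs.2 ⟨by simp, fun r hr => h1 _ hr⟩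

theorem mt_inv_mul (g : chevE8.group K) (y : I → K) : mt g⁻¹ *ᵥ mt g *ᵥ y = y := by
  rw [mulVec_mulVec, ← mt_mul, inv_mul_cancel]; simp [mt]

theorem mt_mul_inv (g : chevE8.group K) (y : I → K) : mt g *ᵥ mt g⁻¹ *ᵥ y = y := by
  simpa using mt_inv_mul g⁻¹ y

/-- stabilizer of a vector -/
def fixV (v : I → K) : Subgroup (chevE8.group K) where
  carrier := {g | mt g *ᵥ v = v}
  mul_mem' {a b} ha hb := by
    change mt (a * b) *ᵥ v = v
    rw [mt_mul, ← mulVec_mulVec, hb, ha]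
  one_mem' := by simp [mt]
  inv_mem' {a} ha := by
    change mt a⁻¹ *ᵥ v = v
    conv_lhs => rw [← ha, mt_inv_mul]

theorem mem_fixV {v : I → K} {g : chevE8.group K} : g ∈ fixV v ↔ mt g *ᵥ v = v := Iff.rfl

end act

local notation "K" => Kb 3

theorem ε_mt (g : E83) (v : I → ZMod 3) : ε K (mt g *ᵥ v) = mt (up g) *ᵥ ε K v := by
  funext a
  simp only [ε_def, Function.comp, mulVec, dotProduct, map_sum, map_mul]
  rfl

theorem ε_inj : Function.Injective (ε K : (I → ZMod 3) → I → K) := fun _ _ h =>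
  funext fun a => (algebraMap (ZMod 3) K).injective (congrFun h a)

/-- the level set attached to a standard subsystem -/
def LJ (g : chevE8.group K) (J : Set (Fin chevE8.rank)) (v : I → ZMod 3) : Set (I → ZMod 3) :=
  Lev (bf _) ((cs K J {r | R8.InJ J r}).map (mt g).mulVecLin) v

theorem card_LJ (g : chevE8.group K) (J : Set (Fin chevE8.rank)) (v : I → ZMod 3) {a d k : ℕ}
    (ha : {r | R8.InJ J r}.ncard = a) (hd : J.ncard = d) (hk : 3 ^ (d + a + d) ≤ k ^ 2) :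
    3 * Nat.card (LJ g J v) ≤ 3 ^ (d + a) + 2 * k := by
  refine card_Lev (B' := bf K) (fun u v => bf_map _ u v) bf_symm
    (t := (cs K J ∅).map (mt g).mulVecLin) ((Submodule.finrank_map_le _ _).trans ?_)
    ((Submodule.finrank_map_le _ _).trans ?_) ?_ hk v
  · rw [finrank_cs, ha, hd]
  · rw [finrank_cs, hd]; simp
  rintro _ ⟨y, hy, rfl⟩ h
  refine ⟨y, mem_cs.2 ⟨(mem_cs.1 hy).1, fun r _ => ?_⟩, rfl⟩
  by_cases e : R8.InJ J r
  · rw [← bf_ev y r, ← bf_mt g]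
    exact h _ ⟨_, ev_mem (R8.inJ_neg.2 e), rfl⟩
  · exact (mem_cs.1 hy).2 r e

instance finE83 : Finite E83 := inferInstance

theorem count {x : E83} {v : I → ZMod 3} (hv : x ∈ fixV v) {F : (goodE8.SG K).Fr}
    {g : chevE8.group K} {c : Fin chevE8.rank → Kˣ} (hx : up x = g * F.hmul.tor c * g⁻¹)
    (hF : ∀ a ∈ F.fix, g * a * g⁻¹ ∈ up.range) {J J' : Set (Fin chevE8.rank)}
    (d : Dat F {r | R8.InJ J r}) (d' : Dat F {r | R8.InJ J' r})
    (hA : ∀ r, R8.chi c r = 1 ↔ R8.InJ J r ∨ R8.InJ J' r)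
    (h : ∀ r, R8.InJ J r → ∀ s, R8.InJ J' s → R8.pair r s = 0) {Z : Type} (e : Z → ℕ)
    (hv0 : ∀ i j i' j', d.v i * d'.v j = d.v i' * d'.v j' → i = i' ∧ j = j')
    (hv1 : ∀ i j r, R8.InJ J r → d.v i (d'.v j r) = d.v i r)
    (hv2 : ∀ i j r, R8.InJ J' r → d.v i (d'.v j r) = d'.v j r)
    (hτ : ∀ s t k s' t' k', d.τ s * d'.τ t * F.hmul.tor c ^ e k =
      d.τ s' * d'.τ t' * F.hmul.tor c ^ e k' → s = s' ∧ t = t' ∧ k = k') :
    Nat.card d.Ω * Nat.card d'.Ω * Nat.card Z ≤ Nat.card (LJ g J v) * Nat.card (LJ g J' v) *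
      Nat.card ↥(Subgroup.centralizer {x} ⊓ fixV v) := by
  have c1 : ∀ u ∈ (goodE8.SG K).U {r | R8.InJ J r}, Commute (F.hmul.tor c) u := fun u hu =>
    F.hmul.commute_U (fun r hr => (hA r).2 (Or.inl hr)) (Subgroup.mem_sup_left hu)
  have c2 : ∀ u ∈ (goodE8.SG K).U {r | R8.InJ J' r}, Commute (F.hmul.tor c) u := fun u hu =>
    F.hmul.commute_U (fun r hr => (hA r).2 (Or.inr hr)) (Subgroup.mem_sup_left hu)
  have hi := d.inj d' hd8 (closed_inJ J) (closed_inJ J') h (fun k => F.hmul.tor c ^ e k)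
    (fun k => pow_mem (F.hmul.range_tor.le ⟨_, rfl⟩) _) (fun k u hu => (c1 u hu).pow_left _)
    (fun k u hu => (c2 u hu).pow_left _) hv0 hv1 hv2 hτ
  choose a ha using fun ω => hF _ (d.el_mem ω).2
  choose b hb using fun ω => hF _ (d'.el_mem ω).2
  have h1 : mt g⁻¹ *ᵥ ε K v ∈ cs K Set.univ {r | R8.chi c r = 1} := mem_of_tor (by
    conv_rhs => rw [← mem_fixV.1 hv, ε_mt, hx, mul_assoc, mt_mul, ← mulVec_mulVec, mt_inv_mul, mt_mul,
      ← mulVec_mulVec])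
  have h2 : ∀ (u : chevE8.group K) (y : E83), up y = g * u * g⁻¹ → ∀ w, ε K (mt y *ᵥ w) =
      mt g *ᵥ mt u *ᵥ mt g⁻¹ *ᵥ ε K w := fun u y hy w => by
    rw [ε_mt, hy, mt_mul, mt_mul, ← mulVec_mulVec, ← mulVec_mulVec]
  have h3 := fun ω => U_act (fun r hr => (hA r).2 (Or.inl hr)) (fun r hr s hs e =>
    ((hA s).1 hs).resolve_right fun e' => e (h r hr s e')) (d.el_mem ω).1 _ h1
  have h4 := fun ω => U_act (fun r hr => (hA r).2 (Or.inr hr)) (fun r hr s hs e =>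
    ((hA s).1 hs).resolve_left fun e' => e (by rw [pair_comm hd8, h s e' r hr])) (d'.el_mem ω).1 _ h1
  have h5 : ∀ ω ω', mt (a ω) *ᵥ mt (b ω') *ᵥ v = mt (a ω) *ᵥ v + mt (b ω') *ᵥ v - v := fun ω ω' => by
    apply ε_inj
    have := U_fix h (d.el_mem ω).1 (h4 ω')
    rw [mulVec_sub, sub_eq_iff_eq_add] at this
    rw [map_sub, map_add, h2 _ _ (ha ω), h2 _ _ (ha ω), h2 _ _ (hb ω'), mt_inv_mul, this, mulVec_add,
      mulVec_sub, mt_mul_inv]
    abel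
  have h6 : ∀ {u y}, up y = g * u * g⁻¹ → Commute (F.hmul.tor c) u →
      y ∈ Subgroup.centralizer {x} := fun {u y} hy hu => by
    rintro _ rfl
    apply up_inj
    rw [map_mul, map_mul, hx, hy, conj_mul, conj_mul, hu.eq]
  rw [mul_assoc, ← Nat.card_prod, ← Nat.card_prod, ← Nat.card_prod]
  refine card_le_of_fib _ (fun p => a p.1 * b p.2.1 * x ^ e p.2.2) (fun p q e => hi ?_)
    (fun p => (⟨mt (a p.1) *ᵥ v, ⟨_, h3 p.1, ?_⟩, bf_mt _ _ _⟩,
      ⟨mt (b p.2.1) *ᵥ v, ⟨_, h4 p.2.1, ?_⟩, bf_mt _ _ _⟩)) fun p q e0 => ?_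
  · have := congrArg up e
    simp only [map_mul, map_pow, ha, hb, hx, conj_pow, conj_mul] at this
    simpa using this
  · rw [mulVecLin_apply, mulVec_sub, mt_mul_inv, h2 _ _ (ha _)]
  · rw [mulVecLin_apply, mulVec_sub, mt_mul_inv, h2 _ _ (hb _)]
  · have h7 : ∀ p : d.Ω × d'.Ω × Z, a p.1 * b p.2.1 * x ^ e p.2.2 ∈ Subgroup.centralizer {x} :=
      fun p => mul_mem (mul_mem (h6 (ha _) (c1 _ (d.el_mem _).1)) (h6 (hb _) (c2 _ (d'.el_mem _).1)))
        (pow_mem (Subgroup.mem_centralizer_singleton_iff.2 rfl) _)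
    have h8 : ∀ p : d.Ω × d'.Ω × Z, mt (a p.1 * b p.2.1 * x ^ e p.2.2) *ᵥ v =
        mt (a p.1) *ᵥ v + mt (b p.2.1) *ᵥ v - v := fun p => by
      rw [mt_mul, ← mulVec_mulVec, mem_fixV.1 (pow_mem hv _), mt_mul, ← mulVec_mulVec, h5]
    obtain ⟨e1, e2⟩ := Prod.mk.inj e0
    refine Subgroup.mem_inf.2 ⟨mul_mem (inv_mem (h7 p)) (h7 q), mem_fixV.2 ?_⟩
    rw [mt_mul, ← mulVec_mulVec, h8, ← Subtype.mk.inj e1, ← Subtype.mk.inj e2, ← h8, mt_inv_mul]

end H8.E8
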