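import Cfsg.Agent.H8.E8D

/-! Elements of order seven of `E₈(3)`: twisted forms and tori. -/

set_option autoImplicit false
set_option linter.unusedSectionVars false
set_option maxRecDepth 100000

open Cfsg H5 H7 H8 H21 H14 H14.RootSys H14.PreSt H14.St H23.Sec Cfsg.Lie Matrix Module H0.BC

namespace H8.E8

local notation "K" => Kb 3
local notation "κ" => Fin chevE8.rank

theorem ex_tw {x : E83} {a : chevE8.group K} {c : κ → Kˣ} (hx : up x = a * (goodE8.SG_hmul K).tor c * a⁻¹)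
    (L : List κ) (hL : mpow Kˣ ((3 : ℤ) • R8.cm (R8.wprod L)) c = c) :
    ∃ F : (goodE8.SG K).Fr, F.ρ = R8.wprod L ∧ (∀ r, F.p ^ F.e r = 3) ∧
      F.mat = (3 : ℤ) • R8.cm (R8.wprod L) ∧
      ∃ g, up x = g * (goodE8.SG_hmul K).tor c * g⁻¹ ∧ ∀ y ∈ F.fix, g * y * g⁻¹ ∈ up.range := by
  obtain ⟨Φ, h1, h2, h3, -⟩ := goodE8.exists_fr' (ZMod 3) kerE8
  rw [ZMod.card] at h3
  have hn := (goodE8.SG K).nprod_mem_NW L
  have h4 := Φ.mat_tw hn h3
  rw [h2, mul_one] at h4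
  obtain ⟨b, hb⟩ := Φ.exists_conj hn
  have h5 : (goodE8.SG_hmul K).tor c ∈ (Φ.tw hn).fix := by
    rw [Fr.mem_fix, (Φ.tw hn).σ_tor, h4]; exact congrArg _ hL
  obtain ⟨y, h6, h7⟩ := (Φ.tw hn).conj_fix (HMul.cn_of_inj _ (goodE8.tor_inj kerE8)
    ((alg8 3).finOrder c)) h5 (g := b⁻¹ * a) ((hb _).2 (h1.le ⟨x, hx.trans (by group)⟩))
  refine ⟨Φ.tw hn, by change _ * Φ.ρ = _; rw [h2, mul_one], h3, h4, b * y, ?_, fun u hu => ?_⟩
  · have : b * y * (goodE8.SG_hmul K).tor c * (b * y)⁻¹ =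
        b * (y * (goodE8.SG_hmul K).tor c * y⁻¹) * b⁻¹ := by group
    have h8 : y * (goodE8.SG_hmul K).tor c * y⁻¹ =
        b⁻¹ * a * (goodE8.SG_hmul K).tor c * (b⁻¹ * a)⁻¹ := h7
    rw [hx, this, h8]
    group
  · refine h1.ge ?_
    have := (hb _).1 (mul_mem (mul_mem h6 hu) (inv_mem h6))
    convert this using 1
    group

/-- torus elements given by a coweight -/
noncomputable def tz (z : Kˣ) (μ : κ → ℤ) : chevE8.group K := (goodE8.SG_hmul K).tor fun i => z ^ μ i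

theorem tz_add (z : Kˣ) (μ ν : κ → ℤ) : tz z μ * tz z ν = tz z (μ + ν) := by
  rw [tz, tz, tz, ← map_mul]; congr 1; funext i; simp [_root_.zpow_add]

theorem tz_pow (z : Kˣ) (μ : κ → ℤ) (k : ℕ) : tz z μ ^ k = tz z ((k : ℤ) • μ) := by
  rw [tz, tz, ← map_pow]; congr 1; funext i
  simp [mul_comm (k : ℤ), _root_.zpow_mul]

theorem tz_inj {z : Kˣ} {μ ν : κ → ℤ} (h : tz z μ = tz z ν) (i : κ) :
    (orderOf z : ℤ) ∣ ν i - μ i :=
  (zpow_eq_zpow_iff_modEq.1 (congrFun (goodE8.tor_inj kerE8 h) i)).dvd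

theorem tz_mem {F : (goodE8.SG K).Fr} {z : Kˣ} {μ : κ → ℤ} {J : Set κ}
    (h : ∀ j, (orderOf z : ℤ) ∣ (μ ᵥ* F.mat) j - μ j) (h1 : ∀ i, i ∉ J → μ i = 0) :
    tz z μ ∈ (goodE8.SG K).H ∧ tz z μ ∈ (goodE8.SG K).U {r | R8.InJ J r} ⊓ F.fix :=
  ⟨(goodE8.SG_hmul K).range_tor.le ⟨_, rfl⟩, tor_mem_U _ fun i hi => by simp [h1 i hi],
    Fr.mem_fix.2 ((F.σ_tor _).trans (congrArg _ (mpow_fix_of_dvd h)))⟩

variable {M : Ideal AlgInt} {δ : K →+* kk M} {β : E83 → ℂ}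

theorem bc_tor (h : IsBC (ρ3 δ) β) (hM : IsPModular 3 M) {l : ℕ} (hl : ¬ 3 ∣ l) {ζ : ℂ}
    (hζ : IsPrimitiveRoot ζ l) {s : E83} (hs : s ^ l = 1) {z : Kˣ} (h0 : δ z = red M ζ)
    {a : chevE8.group K} {ν : κ → ℤ} (h9 : up s = a * tz z ν * a⁻¹) (k : ℕ) :
    β (s ^ k) = 8 + ∑ r, (ζ ^ rv ν r) ^ k := by
  have l0 : l ≠ 0 := fun h => hl (h ▸ dvd_zero 3)
  obtain ⟨b, hb⟩ := ex_basis (goodE8.mapG δ a) (Units.map δ.toMonoidHom z) ν
  have hV : ζ ∈ V M := mem_V_of_pow l0 hζ.pow_eq_one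
  rw [h.cyc hM hl hs b (fun i => ζ ^ (Sum.elim (fun _ => 0) (rv ν) i : ℤ)) (fun i => by
    rw [← zpow_natCast, ← _root_.zpow_mul, mul_comm, _root_.zpow_mul, zpow_natCast,
      hζ.pow_eq_one, _root_.one_zpow]) (fun i => ?_) k]
  · change ∑ i : Fin chevE8.rank ⊕ Fin chevE8.nroots, _ = _
    rw [Fintype.sum_sum_type]
    simp only [Sum.elim_inl, Sum.elim_inr, zpow_zero, one_pow, Finset.sum_const, Finset.card_univ,
      Fintype.card_fin, nsmul_eq_mul, mul_one]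
    rfl
  · have e1 : ∀ n : ℤ, red M (ζ ^ n) = red M ζ ^ n := fun n => by
      have hv : val M ζ = 1 := red_ne_zero_iff.1 ((red_prim hM hl hζ).ne_zero l0)
      rcases n with n | n
      · simp [red_pow hV]
      · rw [zpow_negSucc, zpow_negSucc, red_inv (by rw [map_pow, hv, one_pow]), red_pow hV]
    rw [e1, ← h0, ρ3, MonoidHom.comp_apply, MonoidHom.comp_apply, h9, map_mul (goodE8.mapG δ),
      map_mul (goodE8.mapG δ), map_inv, tz, map_tor]
    simp only [map_zpow]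
    exact hb i

theorem cj_tor {s : E83} {z : Kˣ} {a : chevE8.group K} {ν : κ → ℤ} (h9 : up s = a * tz z ν * a⁻¹) :
    Cj (orderOf z) 3 ν := by
  refine conj_pow_W (goodE8.SG_sep _) (goodE8.SG_top _) _ rfl h9
    (a := a * (goodE8.mapG (frobenius K 3) a)⁻¹) ?_
  have e := frob_up s
  rw [h9, map_mul, map_mul, map_inv, tz, map_tor] at e
  have : (fun i => Units.map (frobenius K 3).toMonoidHom (z ^ ν i)) = (fun i => z ^ ν i) ^ 3 := by
    funext i
    refine Units.ext ?_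
    rw [Units.coe_map, Pi.pow_apply, Units.val_pow_eq_pow_val]
    exact frobenius_def _ _
  rw [this, map_pow, ← tz, ← h9] at e
  conv_lhs => rw [← e]
  rw [h9, conj_pow]
  group

theorem chk7 : alcB [2, 3, 4, 6, 5, 4, 3, 2] 7 (fun L => !invB 7 3 (cvec 7 L) ||
    (L == [0, 0, 0, 0, 0, 0, 0, 0] || (L == [1, 0, 0, 0, 0, 1, 0, 0] ||
      L == [0, 0, 0, 0, 0, 0, 1, 1]))) = true := by
  decide +kernel

theorem eq_of_crd {ν ν' : κ → ℤ} (h0 : ∀ i, 0 ≤ rv ν (R8.simple i))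
    (h1 : ∀ i, 0 ≤ rv ν' (R8.simple i)) (h : crd ν = crd ν') : ν = ν' := by
  have h2 : ∀ j, rv ν (R8.simple j) = rv ν' (R8.simple j) := fun j => by
    have : (rv ν (R8.simple j)).toNat = (rv ν' (R8.simple j)).toNat :=
      congrFun (List.ofFn_injective h) j
    have a := h0 j
    have b := h1 j
    omega
  refine R8.A_mulVec_inj (funext fun j => ?_)
  simpa [rv, wt_simple, dotProduct, mulVec, A_symm hd8 j, mul_comm] using h2 j

/-- the first class of elements of order seven -/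
def ν1 : κ → ℤ := vec 0 [10, 14, 19, 28, 23, 18, 12, 6]
/-- the second class of elements of order seven -/
def ν2 : κ → ℤ := vec 0 [6, 9, 12, 18, 15, 12, 9, 5]

theorem type7 (h : IsBC (ρ3 δ) β) (hM : IsPModular 3 M) {x : E83} (hx : x ^ 7 = 1) (h1 : x ≠ 1) :
    ∃ z : Kˣ, orderOf z = 728 ∧ ∃ a, (up x = a * tz z ((104 : ℤ) • ν1) * a⁻¹ ∧ β x = 3) ∨
      (up x = a * tz z ((104 : ℤ) • ν2) * a⁻¹ ∧ β x = 52) := by
  have hζ := Complex.isPrimitiveRoot_exp 728 (by norm_num)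
  generalize Complex.exp _ = ζ at hζ
  obtain ⟨z, hz, h0⟩ := ex_z hM δ (by norm_num) hζ
  have hy : orderOf (z ^ 104) = 7 := by rw [orderOf_pow' _ (by norm_num), hz]; rfl
  obtain ⟨a, ν, h6, h7, h8⟩ := (alg8 3).exists_alcove (goodE8.tor_inj kerE8) (z := z ^ 104)
    (s := up x) (by omega) (by rw [hy, ← map_pow, hx, map_one])
  have h9 : up x = a * tz (z ^ 104) ν * a⁻¹ := h8
  have hξ := hζ.pow (by norm_num) (by norm_num : 728 = 104 * 7)
  have h2 := bc_tor h hM (by norm_num) hξ hx (z := z ^ 104) (by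
    rw [Units.val_pow_eq_pow_val, map_pow, h0, red_pow (mem_V_of_pow (by norm_num) hζ.pow_eq_one)])
    h9 1
  have h3 := cj_tor h9
  rw [hy] at h3 h7
  have h4 := crd_alc h6 h7 chk7
  simp only [invB_cvec fun j hj => h3.cn_eq (by norm_num) h6 hj, Bool.not_true, Bool.false_or,
    Bool.or_eq_true, beq_iff_eq] at h4
  generalize ζ ^ 104 = ξ at hξ h2
  have h5 := sum_cn (l := 7) (fun t => ξ ^ t.val) h6
  have e5 : ∀ n : ℤ, ξ ^ (n : ZMod 7).val = ξ ^ n := fun n => by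
    rw [← zpow_natCast, ZMod.val_intCast]
    conv_rhs => rw [← Int.emod_add_mul_ediv n 7, zpow_add₀ (hξ.ne_zero (by norm_num)),
      _root_.zpow_mul, zpow_ofNat, hξ.pow_eq_one, _root_.one_zpow, mul_one]
    rfl
  simp only [pow_one, ← e5, h5] at h2
  have e6 := hξ.geom_sum_eq_zero (by norm_num)
  have e7 : ∀ ν : κ → ℤ, tz (z ^ 104) ν = tz z ((104 : ℤ) • ν) := fun ν => by
    rw [tz, tz]; congr 1; funext i
    rw [← zpow_natCast, ← _root_.zpow_mul]; rfl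
  have e8 : ∀ j < 7, ((j : ℕ) : ZMod 7).val = j := fun j => ZMod.val_cast_of_lt
  rw [Finset.sum_congr rfl fun j hj => by
    rw [← cvec_getD _ (Finset.mem_range.1 hj), e8 j (Finset.mem_range.1 hj)]] at h2
  refine ⟨z, hz, a, ?_⟩
  rcases h4 with e | e | e
  · refine absurd (up_inj ?_) h1
    rw [h9, eq_of_crd (ν' := 0) h6 (by simp [rv]) (e.trans (by decide +kernel))]
    simp [tz, ← Pi.one_def]
  · refine Or.inl ⟨by rw [h9, e7, eq_of_crd (ν' := ν1) h6 (by decide +kernel)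
      (e.trans (by decide +kernel))], ?_⟩
    rw [h2, e, show cvec 7 [1, 0, 0, 0, 0, 1, 0, 0] = [30, 35, 35, 35, 35, 35, 35] by decide +kernel]
    simp only [Finset.sum_range_succ, Finset.sum_range_zero] at e6 ⊢
    simp
    linear_combination 35 * e6
  · refine Or.inr ⟨by rw [h9, e7, eq_of_crd (ν' := ν2) h6 (by decide +kernel)
      (e.trans (by decide +kernel))], ?_⟩
    rw [h2, e, show cvec 7 [0, 0, 0, 0, 0, 0, 1, 1] = [72, 28, 28, 28, 28, 28, 28] by decide +kernel]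
    simp only [Finset.sum_range_succ, Finset.sum_range_zero] at e6 ⊢
    simp
    linear_combination 28 * e6

end H8.E8
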