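import Cfsg.Agent.H8.E8E

/-! Stabilizers of vectors in centralizers of elements of order seven of `E₈(3)`. -/

set_option autoImplicit false
set_option linter.unusedSectionVars false
set_option maxRecDepth 100000

open Cfsg H5 H7 H8 H21 H14 H14.RootSys H14.PreSt H14.St H23.Sec Cfsg.Lie Matrix Module H0.BC

namespace H8.E8

local notation "K" => Kb 3
local notation "κ" => Fin chevE8.rank
local notation "ι" => Fin chevE8.nroots

instance decJ (m : ℕ) : DecidablePred (· ∈ msk chevE8.rank m) := fun j =>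
  inferInstanceAs (Decidable (Nat.testBit m j = true))

noncomputable instance decInJ (m : ℕ) (r : ι) : Decidable (R8.InJ (msk _ m) r) :=
  inferInstanceAs (Decidable (∀ j, j ∉ msk chevE8.rank m → R8.cf r j = 0))

theorem ncard_eq {α : Type} [Fintype α] (p : α → Prop) [DecidablePred p] {s : Set α}
    (h : ∀ r, r ∈ s ↔ p r) : s.ncard = (Finset.univ.filter p).card := by
  rw [← Set.ncard_coe_finset]; congr 1; ext r; simp [h]

theorem refl_word (L : List κ) (i : κ) :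
    R8.refl (L.foldr R8.sref (R8.simple i)) = R8.wprod (L ++ i :: L.reverse) := by
  rw [← wprod_apply, Aut.refl_conj (R8.wprod_mem_Aut L), wprod_append, wprod_cons, wprod_reverse,
    mul_assoc]

theorem Rp.app {F : (goodE8.SG K).Fr} {A : Set ι} {L L' : List κ} (h : Rp F A (R8.wprod L))
    (h' : Rp F A (R8.wprod L')) : Rp F A (R8.wprod (L ++ L')) := R8.wprod_append L L' ▸ h.mul h'

variable {F : (goodE8.SG K).Fr} (hq : ∀ r, F.p ^ F.e r = 3) {W : List κ} (hρ : F.ρ = R8.wprod W)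
include hq hρ

theorem rp_word {m : ℕ} (L : List κ) (i : κ)
    (h : W.foldr R8.sref (L.foldr R8.sref (R8.simple i)) = L.foldr R8.sref (R8.simple i) ∧
      R8.InJ (msk _ m) (L.foldr R8.sref (R8.simple i))) :
    Rp F {r | R8.InJ (msk _ m) r} (R8.wprod (L ++ i :: L.reverse)) :=
  refl_word L i ▸ rp_fix hq (by rw [hρ, wprod_apply, h.1]) h.2 (R8.inJ_neg.2 h.2)

omit hq hρ

/-- the checks for one factor -/
def Chk (W : List κ) (Wm : Matrix κ κ ℤ) (m : ℕ) {X T : Type} (v : X → List κ) (μ : T → κ → ℤ)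
    (a : ℕ) (b : X → ℕ) : Prop :=
  (∀ r, R8.pos r → R8.InJ (msk _ m) r → (R8.pos (W.foldr R8.sref r) ∧
      R8.InJ (msk _ m) (W.foldr R8.sref r)) ∧ ∀ j, ¬ R8.pos ((v j).foldr R8.sref r) →
        ¬ R8.pos ((v j).foldr R8.sref (W.foldr R8.sref r))) ∧
  (Finset.univ.filter fun r => R8.pos r ∧ R8.InJ (msk _ m) r).card = a ∧
  (∀ j, (Finset.univ.filter fun r => R8.InJ (msk _ m) r ∧ R8.pos r ∧
      ¬ R8.pos ((v j).foldr R8.sref r)).card = b j) ∧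
  (∀ t, (∀ j, (728 : ℤ) ∣ (μ t ᵥ* ((3 : ℤ) • Wm)) j - μ t j) ∧ ∀ i, i ∉ msk _ m → μ t i = 0) ∧
  (Finset.univ.filter fun r => R8.InJ (msk _ m) r).card = 2 * a

theorem ex_dat (hq : ∀ r, F.p ^ F.e r = 3) (hρ : F.ρ = R8.wprod W) {Wm : Matrix κ κ ℤ}
    (hm : F.mat = (3 : ℤ) • Wm) {m : ℕ} {X T : Type} [Fintype X] [Finite T] {v : X → List κ}
    {μ : T → κ → ℤ} {a : ℕ} {b : X → ℕ} (h : Chk W Wm m v μ a b) {z : Kˣ} (hz : orderOf z = 728)
    (hr : ∀ j, Rp F {r | R8.InJ (msk _ m) r} (R8.wprod (v j))) :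
    ∃ h1 h2, Nat.card (Dat.Ω (F := F) (A := {r | R8.InJ (msk _ m) r})
      ⟨X, T, fun j => R8.wprod (v j), fun t => tz z (μ t), h1, h2⟩) =
      ∑ j, Nat.card T * (3 ^ a * 3 ^ b j) := by
  obtain ⟨h1, ha, hb, h2, -⟩ := h
  have h3 := fun t => tz_mem (F := F) (by rw [hz, hm]; exact (h2 t).1) (h2 t).2
  have e1 : ({r | R8.pos r} ∩ {r | R8.InJ (msk _ m) r}).ncard = a := by
    rw [← ha]; exact @ncard_eq _ _ _ (_) _ fun _ => Iff.rfl
  have e2 : ∀ j, ({r | R8.pos r ∧ ¬ R8.pos (R8.wprod (v j) r)} ∩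
      {r | R8.InJ (msk _ m) r}).ncard = b j := fun j => by
    rw [← hb j]
    refine @ncard_eq _ _ _ (_) _ fun r => ?_
    simp only [wprod_apply]
    exact and_comm
  refine ⟨hr, h3, @Dat.card_Ω _ _ _ _ _ _ _ _ _ _ _ _ _ _ _
    ⟨X, T, fun j => R8.wprod (v j), fun t => tz z (μ t), hr, h3⟩ _ ‹Fintype X› ‹Finite T› hq
    (hρ ▸ R8.wprod_mem_Aut W) (closed_inJ _) ?_ ?_ _ _ e1 e2⟩
  · simp only [hρ, wprod_apply]
    exact fun r a b => (h1 r a b).1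
  · simp only [hρ, wprod_apply]
    exact fun j r a b => (h1 r a b).2 j

theorem chi_tz {z : Kˣ} (hz : orderOf z = 728) (ν : κ → ℤ) (r : ι) :
    R8.chi (fun i => z ^ ((104 : ℤ) • ν) i) r = 1 ↔ 7 ∣ ν ⬝ᵥ R8.wt r := by
  rw [chi_zpow, ← orderOf_dvd_iff_zpow_eq_one, hz, smul_dotProduct, smul_eq_mul]
  omega

/-- the joint checks -/
def Chk2 (ν : κ → ℤ) (Wm : Matrix κ κ ℤ) (m m' : ℕ) {X X' : Type} (v : X → List κ)
    (v' : X' → List κ) (r₀ : ι) : Prop :=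
  (∀ j, (728 : ℤ) ∣ (((104 : ℤ) • ν) ᵥ* ((3 : ℤ) • Wm)) j - ((104 : ℤ) • ν) j) ∧
  (∀ r, 7 ∣ ν ⬝ᵥ R8.wt r ↔ R8.InJ (msk _ m) r ∨ R8.InJ (msk _ m') r) ∧
  (∀ r, R8.InJ (msk _ m) r → ∀ s, R8.InJ (msk _ m') s → R8.pair r s = 0) ∧
  (∀ i j i' j', (v i).foldr R8.sref ((v' j).foldr R8.sref r₀) =
    (v i').foldr R8.sref ((v' j').foldr R8.sref r₀) → i = i' ∧ j = j') ∧
  (∀ j r, R8.InJ (msk _ m) r → (v' j).foldr R8.sref r = r) ∧
  (∀ i j r, R8.InJ (msk _ m') r → (v i).foldr R8.sref ((v' j).foldr R8.sref r) =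
    (v' j).foldr R8.sref r)

theorem main {x : E83} {z : Kˣ} (hz : orderOf z = 728) {g₀ : chevE8.group K} {ν : κ → ℤ}
    (hx : up x = g₀ * tz z ((104 : ℤ) • ν) * g₀⁻¹) {y : I → ZMod 3} (hy : x ∈ fixV y) {W : List κ}
    {Wm : Matrix κ κ ℤ} (hW : R8.cm (R8.wprod W) = Wm) {m m' : ℕ} {X X' T T' : Type} [Fintype X]
    [Fintype X'] [Fintype T] [Fintype T'] {v : X → List κ} {v' : X' → List κ} {μ : T → κ → ℤ}
    {μ' : T' → κ → ℤ} {a a' d d' k k' : ℕ} {b : X → ℕ} {b' : X' → ℕ} (h : Chk W Wm m v μ a b)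
    (h' : Chk W Wm m' v' μ' a' b')
    (hr : ∀ F : (goodE8.SG K).Fr, (∀ r, F.p ^ F.e r = 3) → F.ρ = R8.wprod W →
      (∀ j, Rp F {r | R8.InJ (msk _ m) r} (R8.wprod (v j))) ∧
      ∀ j, Rp F {r | R8.InJ (msk _ m') r} (R8.wprod (v' j))) {r₀ : ι}
    (h1 : Chk2 ν Wm m m' v v' r₀) (a7 : (Finset.univ.filter (· ∈ msk chevE8.rank m)).card = d)
    (a8 : (Finset.univ.filter (· ∈ msk chevE8.rank m')).card = d')
    (a9 : 3 ^ (d + 2 * a + d) ≤ k ^ 2) (a10 : 3 ^ (d' + 2 * a' + d') ≤ k' ^ 2)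
    (h2 : ∀ s t (n : Fin 7) s' t' (n' : Fin 7), (∀ i, (728 : ℤ) ∣ μ s' i + μ' t' i + n' * (104 * ν i) -
      (μ s i + μ' t i + n * (104 * ν i))) → s = s' ∧ t = t' ∧ n = n') {c : ℕ}
    (hc : (3 ^ (d + 2 * a) + 2 * k) * (3 ^ (d' + 2 * a') + 2 * k') * c <
      9 * ((∑ j, Fintype.card T * (3 ^ a * 3 ^ b j)) *
        (∑ j, Fintype.card T' * (3 ^ a' * 3 ^ b' j)) * 7)) :
    c < Nat.card ↥(Subgroup.centralizer {x} ⊓ fixV y) := by
  obtain ⟨a1, a2, a3, a4, a5, a6⟩ := h1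
  obtain ⟨F, hρ, hq, hm, g, h3, h4⟩ := ex_tw hx W (mpow_fix_of_dvd (by rw [hz, hW]; exact a1))
  rw [hW] at hm
  obtain ⟨b1, b2, c1⟩ := ex_dat hq hρ hm h hz (hr F hq hρ).1
  obtain ⟨b3, b4, c2⟩ := ex_dat hq hρ hm h' hz (hr F hq hρ).2
  have c3 := card_LJ g (msk _ m) y ((ncard_eq _ fun _ => Iff.rfl).trans h.2.2.2.2)
    ((ncard_eq _ fun _ => Iff.rfl).trans a7) a9
  have c4 := card_LJ g (msk _ m') y ((ncard_eq _ fun _ => Iff.rfl).trans h'.2.2.2.2)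
    ((ncard_eq _ fun _ => Iff.rfl).trans a8) a10
  have c5 := count hy h3 h4 ⟨X, T, _, _, b1, b2⟩ ⟨X', T', _, _, b3, b4⟩
    (by simp only [chi_tz hz]; exact a2) a3 (Z := Fin 7) Fin.val (fun i j i' j' e => a4 _ _ _ _ (by
      simpa only [Equiv.Perm.mul_apply, wprod_apply] using congrArg (· r₀) e))
    (fun i j r hr => by simp only [wprod_apply, a5 j r hr])
    (fun i j r hr => by simp only [wprod_apply, a6 i j r hr]) fun s t n s' t' n' e => h2 _ _ _ _ _ _ (by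
      change tz z _ * tz z _ * tz z _ ^ _ = tz z _ * tz z _ * tz z _ ^ _ at e
      rw [tz_pow, tz_pow, tz_add, tz_add, tz_add, tz_add] at e
      simpa only [hz, Pi.add_apply, Pi.smul_apply, smul_eq_mul, Nat.cast_ofNat] using tz_inj e)
  rw [c1, c2, Nat.card_eq_fintype_card (α := Fin 7), Fintype.card_fin,
    Nat.card_eq_fintype_card (α := T), Nat.card_eq_fintype_card (α := T')] at c5
  refine Nat.lt_of_mul_lt_mul_left (hc.trans_le ((Nat.mul_le_mul_left 9 c5).trans ?_))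
  rw [← mul_assoc]
  exact Nat.mul_le_mul_right _ ((by ring : _ = _).trans_le (Nat.mul_le_mul c3 c4))

end H8.E8
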