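import Cfsg.Agent.H8.E8H

/-! Subgroups of `E₈(3)` whose socle fixes a vector of the adjoint module are not maximal. -/

set_option autoImplicit false
set_option linter.unusedSectionVars false

open Cfsg H5 H7 H8 H21 H14 H23.Sec Cfsg.Lie Matrix Module H0.BC Subgroup MulAction

namespace H8.E8

theorem ex_line {Γ W : Type*} [Group Γ] [Finite Γ] [AddCommGroup W] [Finite W]
    [DistribMulAction Γ W] (h3 : ∀ v : W, 3 • v = 0) (N : Subgroup Γ) [N.Normal] (hN : N.index ∣ 6)
    {v : W} (hv : v ≠ 0) (h : ∀ g ∈ N, g • v = v) :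
    ∃ w : W, w ≠ 0 ∧ ∀ g : Γ, g • w = w ∨ g • w = -w := by
  have : Fact (Nat.Prime 3) := ⟨Nat.prime_three⟩
  obtain ⟨T⟩ : Nonempty (Sylow 3 Γ) := inferInstance
  have h0 : (0 : W) ∈ fixedPoints N W := fun g => smul_zero _
  have h1 : 3 ∣ Nat.card (fixedPoints N W) := by
    have := addOrderOf_dvd_natCard (⟨v, fun g => h g g.2⟩ : FixedPoints.addSubgroup N W)
    rwa [addOrderOf_eq_prime (p := 3) (Subtype.ext (h3 v))
      fun e => hv (congrArg Subtype.val e)] at this
  obtain ⟨w, a1, a2⟩ := T.2.exists_fixed_point_of_prime_dvd_card_of_fixed_point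
    (fixedPoints N W) h1 (a := ⟨0, h0⟩) fun g => Subtype.ext (smul_zero _)
  have b0 : w.1 ≠ 0 := fun e => a2 (Subtype.ext e.symm)
  have b1 : (stabilizer Γ w.1).index ∣ 6 := (index_dvd_of_le fun g hg => w.2 ⟨g, hg⟩).trans hN
  have b2 : ¬ 3 ∣ (stabilizer Γ w.1).index := fun e =>
    T.not_dvd_index (e.trans (index_dvd_of_le fun g hg => congrArg Subtype.val (a1 ⟨g, hg⟩)))
  generalize w.1 = u at b0 b1 b2
  have b3 := Nat.le_of_dvd (by decide) b1
  obtain e | e : (stabilizer Γ u).index = 1 ∨ (stabilizer Γ u).index = 2 := by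
    generalize (stabilizer Γ u).index = n at b1 b2 b3 ⊢
    interval_cases n <;> omega
  · exact ⟨u, b0, fun g => Or.inl ((index_eq_one.1 e).ge (mem_top g))⟩
  obtain ⟨a, ha⟩ : ∃ a : Γ, a ∉ stabilizer Γ u := by
    by_contra! hc
    rw [index_eq_one.2 (eq_top_iff.2 fun g _ => hc g)] at e
    omega
  have c1 : ∀ g, g ∉ stabilizer Γ u → g • u = a • u := fun g hg => by
    rw [← inv_smul_eq_iff, ← mul_smul, eq_comm, ← inv_smul_eq_iff, ← mem_stabilizer_iff,
      inv_mem_iff, mul_mem_iff_of_index_two e]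
    simp [hg, ha]
  by_cases c2 : u + a • u = 0
  · refine ⟨u, b0, fun g => (em (g ∈ stabilizer Γ u)).imp id fun hg => ?_⟩
    rw [c1 g hg, eq_neg_of_add_eq_zero_right c2]
  refine ⟨_, c2, fun g => Or.inl ?_⟩
  rw [smul_add, ← mul_smul]
  by_cases hg : g ∈ stabilizer Γ u
  · rw [hg, c1 _ (by simp [mul_mem_iff_of_index_two e, hg, ha])]
  · rw [c1 g hg, show (g * a) • u = u from (mul_mem_iff_of_index_two e).2 (by simp [hg, ha]),
      add_comm]

theorem stab_le {Γ W : Type*} [Group Γ] [Finite Γ] [IsSimpleGroup Γ] [AddCommGroup W] [Finite W]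
    [DistribMulAction Γ W] (h3 : ∀ v : W, 3 • v = 0) (h0 : ∀ w : W, (∀ g : Γ, g • w = w) → w = 0)
    {H : Subgroup Γ} (hH : IsCoatom H) (N : Subgroup H) [N.Normal] (hN : N.index ∣ 6)
    {v : W} (hv : v ≠ 0) (h : ∀ g ∈ N, g.1 • v = v) {x : Γ} (hx : x ∈ H) (y7 : x ^ 7 = 1)
    (y1 : x ≠ 1) : ∃ w : W, x • w = w ∧ ∀ g : Γ, g • w = w → g ∈ H := by
  obtain ⟨w, w0, hw⟩ := ex_line h3 N hN hv h
  let L : Subgroup Γ :=
    { carrier := {g | g • w = w ∨ g • w = -w}
      one_mem' := Or.inl (one_smul _ _)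
      mul_mem' := fun {a b} ha hb => by
        rcases ha with ha | ha <;> rcases hb with hb | hb <;> simp [mul_smul, ha, hb]
      inv_mem' := fun {a} ha => ha.imp (fun e => inv_smul_eq_iff.2 e.symm) fun e =>
        inv_smul_eq_iff.2 (by rw [smul_neg, e, neg_neg]) }
  have a0 : ∀ g ∈ L, (g * g) • w = w := fun g hg => by
    rcases hg with hg | hg <;> simp [mul_smul, hg]
  have a1 : x • w = w := by
    have := a0 _ (pow_mem (show x ∈ L from hw ⟨x, hx⟩) 4)
    rwa [← pow_add, show 4 + 4 = 7 + 1 from rfl, pow_succ, y7, one_mul] at this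
  refine ⟨w, a1, ?_⟩
  rcases hH.le_iff.1 (show H ≤ L from fun g hg => hw ⟨g, hg⟩) with e1 | e1
  swap
  · exact e1 ▸ fun g hg => Or.inl hg
  have hn : (stabilizer Γ w).Normal := ⟨fun n hn g => by
    change (g * n * g⁻¹) • w = w
    have hn : n • w = w := hn
    rcases (e1.ge (mem_top g) : g • w = w ∨ g • w = -w) with e | e
    · rw [mul_smul, mul_smul, inv_smul_eq_iff.2 e.symm, hn, e]
    · rw [mul_smul, mul_smul, inv_smul_eq_iff.2 (show w = g • -w by rw [smul_neg, e, neg_neg]),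
        smul_neg, hn, smul_neg, e, neg_neg]⟩
  rcases IsSimpleGroup.eq_bot_or_eq_top_of_normal _ hn with e | e
  · exact absurd (mem_bot.1 (e.le a1)) y1
  · exact absurd (h0 w fun g => e.ge (mem_top g)) w0

theorem nofix {w : I → ZMod 3} (h : ∀ g, g ∈ fixV w) : w = 0 := by
  have h1 : ∀ r y, bf _ (goodE8.C.Xad r 1 *ᵥ y - y) w = 0 := fun r y => by
    have := bf_mt ((goodE8.SG (ZMod 3)).x r 1) y w
    rw [mem_fixV.1 (h _), mt_x] at this
    rw [map_sub, LinearMap.sub_apply, this, sub_self]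
  have h2 : ∀ r, bf _ (H14.ev _ (ZMod 3) r) w = 0 := fun r => by
    have := h1 r (hv _ fun i => (R8.co r i : ZMod 3))
    have e : ((fun i => (R8.co r i : ZMod 3)) ⬝ᵥ fun i => (R8.wt r i : ZMod 3)) = 2 := by
      have := congrArg (Int.cast : ℤ → ZMod 3) (R8.pair_self r)
      simpa [RootSys.pair, dotProduct] using this
    rw [goodE8.C.Xad_hv, e, sub_sub_cancel_left, map_neg, map_smul] at this
    simpa [show (2 : ZMod 3) ≠ 0 by decide] using this
  have h3 : ∀ r, bf _ (hv _ fun i => (R8.co r i : ZMod 3)) w = 0 := fun r => by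
    have := h1 r (H14.ev _ _ (R8.neg r))
    rw [goodE8.C.Xad_ev_neg, add_sub_assoc, add_sub_cancel_left] at this
    simpa [h2] using this
  refine (mulVec_injective_of_isUnit (Γ_unit (ZMod 3))) (funext fun a => ?_)
  rw [mulVec_zero, ← single_one_dotProduct a (Γ _ *ᵥ w), ← bf_apply]
  rcases a with i | r
  · have := h3 (R8.simple i)
    rw [co_cf hd8, R8.cf_simple] at this
    rw [hv_single]
    refine Eq.trans (congrArg (fun y => bf _ (hv _ y) w) (funext fun j => ?_)) this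
    simp [Pi.single_apply]
  · exact h2 r

theorem Cx.descend (c : Cx) {S : Type*} [Group S] {f : S →* E83} (h : 0 < c.dm f ⊤) :
    ∃ u : I → ZMod 3, u ≠ 0 ∧ ∀ s, f s ∈ fixV u := by
  obtain ⟨⟨v, hv⟩, h0⟩ := finrank_pos_iff_exists_ne_zero.1 h
  let _ := (c.δ.comp (algebraMap (ZMod 3) (Kb 3))).toAlgebra
  obtain ⟨a, ha⟩ := Function.ne_iff.1 fun e : v = 0 => h0 (Subtype.ext e)
  obtain ⟨φ, hφ⟩ := not_forall.1 ((forall_dual_apply_eq_zero_iff (ZMod 3) (v a)).not.2 ha)
  refine ⟨fun b => φ (v b), fun e => hφ (congrFun e a), fun s => funext fun b => ?_⟩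
  have : ∑ j, mt (f s) b j • v j = v b := congrFun (hv s trivial) b
  rw [← this]
  simp [mulVec, dotProduct]

/-- the wrapper -/
theorem nm {S : Type*} [Group S] (hS : Gd S) {H : Subgroup E83}
    (e : generalizedFittingSubgroup H ≃* S) : ¬ IsCoatom H := fun hH => by
  obtain ⟨hZ, hA, x, x7, x1, hc, h⟩ := hS
  obtain ⟨c⟩ := ex_cx
  let f : S →* E83 := H.subtype.comp ((Subgroup.subtype _).comp e.symm.toMonoidHom)
  have fi : Function.Injective f :=
    H.subtype_injective.comp ((Subgroup.subtype_injective _).comp e.symm.injective)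
  obtain ⟨h1, h2⟩ := h c f fi
  obtain ⟨v, v0, hv⟩ := c.descend h1
  have y7 : f x ^ 7 = 1 := by rw [← map_pow, x7, map_one]
  have y1 : f x ≠ 1 := fun e => x1 (fi (e.trans f.map_one.symm))
  obtain ⟨w, a1, a2⟩ : ∃ w : I → ZMod 3, f x ∈ fixV w ∧ fixV w ≤ H :=
    @stab_le E83 (I → ZMod 3) _ _
      (goodE8.simple_of_perfect _ (H14.perfect_of_mem (by simp) (ZMod 3))).1 _ _
      { smul g v := mt g *ᵥ v
        one_smul v := (fixV v).one_mem
        mul_smul g h v := (mulVec_mulVec v (mt g) (mt h)).symm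
        smul_zero g := mulVec_zero _
        smul_add g := mulVec_add _ } (fun v => funext fun i => by
      simp [show (3 : ZMod 3) = 0 from rfl]) (fun _ => nofix) H hH _ _ (H18.E7.index_dvd e hZ hA) v v0
      (fun g hg => show g.1 ∈ fixV v by simpa [f] using hv (e ⟨g, hg⟩)) _ (e.symm x).1.2 y7 y1
  have a3 : ∀ k, 0 < k → Nat.card (MulAut S) ∣ k * Nat.card S →
      Nat.card ↥(centralizer {f x} ⊓ fixV w) ≤ k * 7 := fun k k0 hk => by
    have := Finite.of_equiv _ e.toEquiv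
    rw [← Nat.card_congr (subgroupOfEquivOfLe (inf_le_right.trans a2)).toEquiv,
      ← index_mul_card ((generalizedFittingSubgroup H).subgroupOf _)]
    refine Nat.mul_le_mul (Nat.le_of_dvd k0 ((relIndex_dvd_index_of_normal _ _).trans
      (H18.E7.index_dvd e hZ hk))) (le_trans (Nat.card_le_card_of_injective
        (fun g => ⟨e ⟨g.1.1, g.2⟩, mem_centralizer_singleton_iff.2 (fi (by
          simpa [f] using mem_centralizer_singleton_iff.1 g.1.2.1))⟩) fun a b h => ?_) hc)
    exact Subtype.ext (Subtype.ext (Subtype.mk.inj (e.injective (congrArg Subtype.val h))))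
  rcases key7 c.h c.hM y7 y1 with k | k
  · exact absurd (k.2 w a1) (not_lt.2 (a3 6 (by decide) hA))
  · exact absurd (k.2 w a1) (not_lt.2 (a3 2 (by decide) (h2.resolve_right fun e => e k.1)))

end H8.E8
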