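import Cfsg.Agent.H8.E8I

/-! A Hecke algebra of `SL₂(q)` attached to a subgroup of index three of the Borel subgroup. -/

set_option autoImplicit false
set_option linter.unusedSectionVars false

open Matrix Module H0.BC
open scoped MatrixGroups

namespace H8.E8

section alg
variable {k R : Type*} [CommRing k] [Ring R] [Algebra k R]

/-- the relations -/
structure Hk (a t u : R) (w q c : k) : Prop where
  aa : a * a = w • a
  ua : u * a = a * u
  u3 : u * (u * u) = 1
  at' : a * t = w • t
  ta : t * a = w • t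
  ut : u * t = t * (u * u)
  tt : t * t = w • (q • a + c • (t * (1 + u + u * u)))

namespace Hk
variable {a t u : R} {w q c : k} (h : Hk a t u w q c)
include h

theorem aa' (x : R) : a * (a * x) = w • (a * x) := by rw [← mul_assoc, h.aa, smul_mul_assoc]
theorem ua' (x : R) : u * (a * x) = a * (u * x) := by rw [← mul_assoc, h.ua, mul_assoc]
theorem u3' (x : R) : u * (u * (u * x)) = x := by
  rw [← mul_assoc u u x, ← mul_assoc, h.u3, one_mul]
theorem at'' (x : R) : a * (t * x) = w • (t * x) := by rw [← mul_assoc, h.at', smul_mul_assoc]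
theorem ta' (x : R) : t * (a * x) = w • (t * x) := by rw [← mul_assoc, h.ta, smul_mul_assoc]
theorem ut' (x : R) : u * (t * x) = t * (u * (u * x)) := by
  rw [← mul_assoc, h.ut, mul_assoc, mul_assoc]
theorem tt' (x : R) : t * (t * x) = w • (q • (a * x) + c • (t * ((1 + u + u * u) * x))) := by
  rw [← mul_assoc, h.tt]; simp only [smul_mul_assoc, add_mul, mul_assoc]

end Hk

/-- normal form -/
macro "hk " h:term : tactic => `(tactic| simp only [mul_add, add_mul, mul_sub, sub_mul, mul_neg,
  neg_mul, smul_mul_assoc, mul_smul_comm, mul_assoc, mul_one, one_mul, ($h).aa, ($h).ua, ($h).u3,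
  ($h).at', ($h).ta, ($h).ut, ($h).tt, ($h).aa', ($h).ua', ($h).u3', ($h).at'', ($h).ta', ($h).ut',
  ($h).tt'])

/-- the quasi-idempotent -/
def qe (a t u : R) (x₁ x₂ x₃ x₄ x₅ : k) : R := x₁ • a + x₂ • (a * (u - u * u)) + x₃ • t +
  x₄ • (a * (1 + u + u * u)) + x₅ • (t * (1 + u + u * u))

theorem qe7 {a t u : R} (h : Hk a t u (14 : k) 7 2) :
    qe a t u (4 : k) 12 (-8) (-1) 3 * qe a t u (4 : k) 12 (-8) (-1) 3 =
      (112 : k) • qe a t u (4 : k) 12 (-8) (-1) 3 := by
  unfold qe
  hk h
  module

theorem qe13 {a t u : R} (h : Hk a t u (52 : k) 13 4) :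
    qe a t u (7 : k) 714 343 (-2) (-114) * qe a t u (7 : k) 714 343 (-2) (-114) =
      (728 : k) • qe a t u (7 : k) 714 343 (-2) (-114) := by
  unfold qe
  hk h
  module

theorem hk3 {a t u N D p : R} {c : k} (h3 : (3 : k) = 0) (h : Hk a t u (1 : k) 1 c)
    (hN : N = a * (1 + u + u * u)) (hD : D = a * (u - u * u)) (hp : p = -(a + t + c • N)) :
    p * p = p ∧ p * D = D * (a - p) ∧ D * p = (a - p) * D ∧ D * D = N ∧ a * p = p ∧ p * a = p ∧
      a * N = N ∧ u * N = N ∧ u * (u * D) = a - u * a := by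
  subst hN hD hp
  refine ⟨?_, ?_, ?_, ?_, ?_, ?_, ?_, ?_, ?_⟩ <;> hk h <;> match_scalars <;> grind

end alg

section lin
variable {k X : Type*} [Field k] [AddCommGroup X] [Module k X] [FiniteDimensional k X]

theorem rnk_syl {f g e : End k X} (h1 : f * g = 0) (h2 : f * e = f) (h3 : e * g = g) :
    rnk f + rnk g ≤ rnk e := by
  have a1 := (f.domRestrict (LinearMap.range e)).finrank_range_add_finrank_ker
  have a2 : LinearMap.range (f.domRestrict (LinearMap.range e)) = LinearMap.range f := by
    rw [LinearMap.range_domRestrict, ← LinearMap.range_comp, ← End.mul_eq_comp, h2]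
  rw [a2, LinearMap.ker_domRestrict] at a1
  refine le_of_le_of_eq (Nat.add_le_add_left ?_ _) a1
  rw [← Submodule.finrank_map_subtype_eq, Submodule.map_comap_subtype]
  refine Submodule.finrank_mono ?_
  rintro _ ⟨v, rfl⟩
  exact ⟨⟨g v, by rw [← End.mul_apply, h3]⟩, LinearMap.congr_fun h1 v⟩

theorem rnk_of_inj {f p : End k X} (h : ∀ v, f (p v) = 0 → p v = 0) : rnk (f * p) = rnk p := by
  have a1 := (f.domRestrict (LinearMap.range p)).finrank_range_add_finrank_ker
  have a2 : LinearMap.ker (f.domRestrict (LinearMap.range p)) = ⊥ :=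
    LinearMap.ker_eq_bot'.2 fun ⟨_, v, rfl⟩ e => Subtype.ext (h v e)
  rw [a2, finrank_bot, LinearMap.range_domRestrict, ← LinearMap.range_comp] at a1
  exact a1

theorem three_le [CharP k 3] {a t u : End k X} {c : k} (h : Hk a t u (1 : k) 1 c)
    (h0 : ∀ y, a y = y → u y = y → y + t y = 0)
    (hr : rnk (a * (u - u * u) * -(a + t + c • (a * (1 + u + u * u)))) =
      rnk (-(a + t + c • (a * (1 + u + u * u))) * (a * (u - u * u)))) :
    3 * rnk (a + t + c • (a * (1 + u + u * u))) ≤ rnk a := by
  have h3 : (3 : k) = 0 := CharP.cast_eq_zero k 3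
  have e0 : rnk (a + t + c • (a * (1 + u + u * u))) = rnk (-(a + t + c • (a * (1 + u + u * u)))) := by
    rw [← neg_one_smul k, rnk_smul (by simp)]
  rw [e0]
  generalize hN : a * (1 + u + u * u) = N at hr ⊢
  generalize hD : a * (u - u * u) = D at hr ⊢
  generalize hp : -(a + t + c • N) = p at hr ⊢
  obtain ⟨b1, b2, b3, b4, b5, b6, d1, d2, e2⟩ := hk3 h3 h hN.symm hD.symm hp.symm
  have b7 : a * a = a := by rw [h.aa, one_smul]
  have b8 : ∀ y, a y = y → u y = y → p y = 0 := fun y e1 e2 => by
    have := h0 y e1 e2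
    simp only [← hp, ← hN, LinearMap.neg_apply, LinearMap.add_apply, LinearMap.smul_apply,
      End.mul_apply, End.one_apply, e1, e2, map_add, this]
    match_scalars
    linear_combination -c * h3
  have b9 : p * N = 0 := LinearMap.ext fun y => b8 _ (LinearMap.congr_fun d1 y)
    (LinearMap.congr_fun d2 y)
  have c1 : (a - p) * (a - p) = a - p := by simp [mul_sub, sub_mul, b1, b5, b6, b7]
  have c2 := rnk_add b1 c1 (by simp [mul_sub, b1, b6]) (by simp [sub_mul, b1, b5])
  have c3 := rnk_syl (f := p * D) (g := D * p) (e := a - p)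
    (by rw [mul_assoc, ← mul_assoc D, b4, ← mul_assoc, b9, zero_mul])
    (by rw [b2, mul_assoc, c1]) (by rw [b3, ← mul_assoc, c1])
  have c4 : rnk (D * p) = rnk p := rnk_of_inj fun v e => by
    have e1 : a (p v) = p v := by rw [← End.mul_apply, b5]
    have := LinearMap.congr_fun e2 (p v)
    simp only [End.mul_apply, e, map_zero, LinearMap.sub_apply, e1] at this
    rw [← b1, End.mul_apply]
    exact b8 _ e1 (sub_eq_zero.1 this.symm).symm
  rw [add_sub_cancel] at c2
  omega

end lin

end H8.E8
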