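import Cfsg.Agent.H8.E8J

/-! The Hecke relations in `SL₂(q)`. -/

set_option autoImplicit false
set_option linter.unusedSectionVars false

open Matrix Module H0.BC
open scoped MatrixGroups

namespace H8.E8

variable {F : Type*} [Field F]

/-- root elements -/
def xx (t : F) : SL(2, F) := ⟨!![1, t; 0, 1], by simp⟩

/-- torus elements -/
def hh0 (l : Fˣ) : SL(2, F) := ⟨!![l, 0; 0, (l : F)⁻¹], by simp⟩

/-- the Weyl element -/
def ss : SL(2, F) := ⟨!![0, -1; 1, 0], by simp⟩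

@[simp] theorem xx_val (t : F) : (xx t).1 = !![1, t; 0, 1] := rfl
@[simp] theorem hh0_val (l : Fˣ) : (hh0 l).1 = !![(l : F), 0; 0, (l : F)⁻¹] := rfl
@[simp] theorem ss_val : (ss : SL(2, F)).1 = !![0, -1; 1, 0] := rfl

/-- the torus -/
def hh : Fˣ →* SL(2, F) where
  toFun := hh0
  map_one' := Subtype.ext (by simp [one_fin_two])
  map_mul' a b := Subtype.ext (by simp [mul_comm])

@[simp] theorem hh_val (l : Fˣ) : (hh l).1 = !![(l : F), 0; 0, (l : F)⁻¹] := rfl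

theorem xx_zero : xx (0 : F) = 1 := Subtype.ext (by simp [one_fin_two])

theorem xx_add (a b : F) : xx a * xx b = xx (a + b) := Subtype.ext (by simp [add_comm])

theorem hx (l : Fˣ) (t : F) : hh l * xx t = xx (l ^ 2 * t) * hh l :=
  Subtype.ext (by simp; field_simp)

theorem hs (l : Fˣ) : hh l * ss = ss * hh l⁻¹ := Subtype.ext (by simp)

theorem s2 : ss * ss = hh (-1 : Fˣ) := Subtype.ext (by simp)

theorem sxs (t : Fˣ) : ss * xx (t : F) * ss = xx (-(t⁻¹ : Fˣ) : F) * ss * hh t * xx (-(t⁻¹ : Fˣ) : F) :=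
  Subtype.ext (by simp)

theorem bru (g : SL(2, F)) : (∃ t l, g = xx t * hh l) ∨ ∃ t l t', g = xx t * ss * hh l * xx t' := by
  have h := g.det_coe
  rw [det_fin_two] at h
  by_cases e : g.1 1 0 = 0
  · have e' : g.1 0 0 ≠ 0 := fun e' => by simp [e, e'] at h
    refine Or.inl ⟨g.1 0 1 * g.1 0 0, Units.mk0 _ e', Subtype.ext ((eta_fin_two g.1).trans ?_)⟩
    simp [e, e'] at h ⊢
    exact eq_inv_of_mul_eq_one_right h
  · refine Or.inr ⟨g.1 0 0 / g.1 1 0, Units.mk0 _ e, g.1 1 1 / g.1 1 0,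
      Subtype.ext ((eta_fin_two g.1).trans ?_)⟩
    simp [e]
    field_simp
    simp only [and_true]
    linear_combination -h

theorem xh_pow (t : F) (l : Fˣ) (n : ℕ) : ∃ t', (xx t * hh l) ^ n = xx t' * hh (l ^ n) := by
  induction n with
  | zero => exact ⟨0, by simp [xx_zero]⟩
  | succ n ih =>
    obtain ⟨t', h⟩ := ih
    exact ⟨_, by rw [pow_succ, h, mul_assoc, ← mul_assoc (hh _), hx, ← mul_assoc, ← mul_assoc,
      xx_add, mul_assoc, ← map_mul, ← pow_succ]⟩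

variable [Fintype F] [DecidableEq F] {k R : Type*} [CommRing k] [Ring R] [Algebra k R]
  (φ : SL(2, F) →* R) (Λ : Subgroup Fˣ) [Fintype Λ]

/-- sum over the unipotent subgroup -/
def Xs : R := ∑ t, φ (xx t)

/-- sum over a part of the torus -/
def Hs : R := ∑ l : Λ, φ (hh l)

variable {φ Λ}

theorem x_X (t : F) : φ (xx t) * Xs φ = Xs φ := by
  simp only [Xs, Finset.mul_sum, ← map_mul, xx_add]
  exact Fintype.sum_equiv (Equiv.addLeft t) _ _ fun _ => rfl

theorem X_x (t : F) : Xs φ * φ (xx t) = Xs φ := by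
  simp only [Xs, Finset.sum_mul, ← map_mul, xx_add]
  exact Fintype.sum_equiv (Equiv.addRight t) _ _ fun _ => rfl

theorem X_X : Xs φ * Xs φ = (Fintype.card F : k) • Xs φ := by
  nth_rw 1 [Xs]
  simp [Finset.sum_mul, x_X, Nat.cast_smul_eq_nsmul]

theorem h_X (l : Fˣ) : φ (hh l) * Xs φ = Xs φ * φ (hh l) := by
  simp only [Xs, Finset.mul_sum, Finset.sum_mul, ← map_mul, hx]
  exact Fintype.sum_equiv (Equiv.mulLeft₀ ((l : F) ^ 2) (by simp)) _ _ fun _ => rfl

theorem h_H {l : Fˣ} (h : l ∈ Λ) : φ (hh l) * Hs φ Λ = Hs φ Λ := by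
  simp only [Hs, Finset.mul_sum, ← map_mul]
  exact Fintype.sum_equiv (Equiv.mulLeft ⟨l, h⟩) _ _ fun _ => rfl

theorem H_H : Hs φ Λ * Hs φ Λ = (Fintype.card Λ : k) • Hs φ Λ := by
  nth_rw 1 [Hs]
  simp [Finset.sum_mul, h_H, Nat.cast_smul_eq_nsmul]

theorem hH (l : Fˣ) : φ (hh l) * Hs φ Λ = Hs φ Λ * φ (hh l) := by
  simp only [Hs, Finset.mul_sum, Finset.sum_mul, ← map_mul, mul_comm l]

theorem H_X : Hs φ Λ * Xs φ = Xs φ * Hs φ Λ := by
  simp only [Hs, Finset.mul_sum, Finset.sum_mul, h_X]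

theorem H_s : Hs φ Λ * φ ss = φ ss * Hs φ Λ := by
  simp only [Hs, Finset.mul_sum, Finset.sum_mul, ← map_mul, hs]
  exact Fintype.sum_equiv (Equiv.inv Λ) _ _ fun _ => rfl

theorem sum_units {M : Type*} [AddCommMonoid M] (g : F → M) : ∑ t, g t = g 0 + ∑ t : Fˣ, g t := by
  rw [← Finset.add_sum_erase _ _ (Finset.mem_univ 0)]
  congr 1
  exact (Finset.sum_bij (fun (t : Fˣ) _ => (t : F)) (by simp) (fun _ _ _ _ => Units.ext)
    (fun b hb => ⟨Units.mk0 b (by simpa using hb), by simp⟩) fun _ _ => rfl).symm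

theorem sXs : φ ss * Xs φ * φ ss = φ (hh (-1)) +
    ∑ t : Fˣ, φ (xx (-(t⁻¹ : Fˣ) : F)) * φ ss * φ (hh t) * φ (xx (-(t⁻¹ : Fˣ) : F)) := by
  rw [Xs, sum_units]
  simp only [mul_add, add_mul, Finset.mul_sum, Finset.sum_mul, ← map_mul, xx_zero, mul_one, s2, sxs]

variable {ω : Fˣ} (hb : Function.Bijective fun p : Λ × Fin 3 => p.1 * ω ^ p.2.1) (h1 : -1 ∈ Λ)
  (hω : ω ^ 3 = 1)
include hb

theorem sum_Λ {M : Type*} [AddCommMonoid M] (g : Fˣ → M) :
    ∑ t, g t = ∑ l : Λ, (g l + g (l * ω) + g (l * (ω * ω))) := by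
  rw [← Fintype.sum_bijective _ hb _ g fun _ => rfl, Fintype.sum_prod_type]
  simp [Fin.sum_univ_three, sq]

include h1 hω

theorem hk_sl : Hk (Xs φ * Hs φ Λ) (Xs φ * φ ss * Xs φ * Hs φ Λ) (φ (hh ω))
    ((Fintype.card F : k) * Fintype.card Λ) (Fintype.card F) (Fintype.card Λ) := by
  have a1 : ∀ y, Hs φ Λ * (Xs φ * y) = Xs φ * (Hs φ Λ * y) := fun y => by
    rw [← mul_assoc, H_X, mul_assoc]
  have a2 : ∀ y, Hs φ Λ * (φ ss * y) = φ ss * (Hs φ Λ * y) := fun y => by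
    rw [← mul_assoc, H_s, mul_assoc]
  have a3 : ∀ y, Xs φ * (Xs φ * y) = (Fintype.card F : k) • (Xs φ * y) := fun y => by
    rw [← mul_assoc, X_X (k := k), smul_mul_assoc]
  have a4 : ∀ l y, φ (hh l) * (Xs φ * y) = Xs φ * (φ (hh l) * y) := fun l y => by
    rw [← mul_assoc, h_X, mul_assoc]
  have a5 : ∀ t y, φ (xx t) * (Xs φ * y) = Xs φ * y := fun t y => by rw [← mul_assoc, x_X]
  have a6 : ∀ t y, Xs φ * (φ (xx t) * y) = Xs φ * y := fun t y => by rw [← mul_assoc, X_x]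
  have a7 : ω⁻¹ = ω * ω := inv_eq_of_mul_eq_one_right (by rw [← hω, pow_succ', sq])
  have a8 : ∑ t : Fˣ, φ (hh t) = Hs φ Λ * (1 + φ (hh ω) + φ (hh ω) * φ (hh ω)) := by
    simp only [sum_Λ hb, map_mul, Hs, Finset.sum_mul, mul_add, mul_one, Finset.sum_add_distrib]
  refine ⟨?_, ?_, ?_, ?_, ?_, ?_, ?_⟩
  · simp only [mul_assoc, a1, a3, H_H (k := k), mul_smul_comm, smul_smul, mul_comm]
  · simp only [mul_assoc, a4, hH]
  · rw [← map_mul, ← map_mul, ← map_mul, ← map_mul, ← sq, ← pow_succ', hω, map_one, map_one]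
  · simp only [mul_assoc, a1, a2, a3, H_H (k := k), mul_smul_comm, smul_smul, mul_comm]
  · simp only [mul_assoc, a1, a2, a3, H_H (k := k), mul_smul_comm, smul_smul, mul_comm]
  · simp only [mul_assoc, a4]
    rw [← mul_assoc (φ _), ← map_mul, hs, map_mul, mul_assoc, a4, hH, a7, map_mul, map_mul]
  · have : Xs φ * (φ ss * Xs φ * φ ss * (Xs φ * Hs φ Λ)) = (Fintype.card F : k) • (Xs φ * Hs φ Λ) +
        (Fintype.card Λ : k) • (Xs φ * φ ss * Xs φ * Hs φ Λ *
          (1 + φ (hh ω) + φ (hh ω) * φ (hh ω))) := by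
      rw [sXs]
      simp only [add_mul, mul_add (Xs φ), Finset.sum_mul, Finset.mul_sum, mul_assoc, a3, a4, a5, a6,
        h_H h1, hH]
      simp only [← Finset.mul_sum, a8]
      rw [← mul_assoc (Hs φ Λ), H_H (k := k)]
      simp only [smul_mul_assoc, mul_smul_comm]
    rw [← this]
    simp only [mul_assoc, a1, a2, a3, H_H (k := k), mul_smul_comm, smul_smul, mul_comm]

omit hω in
theorem fix_z {K X : Type*} [Field K] [AddCommGroup X] [Module K X] {ρ : SL(2, F) →* End K X}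
    {y : X} (e1 : ∀ t, ρ (xx t) y = y) (e2 : ∀ l ∈ Λ, ρ (hh l) y = y) (e3 : ρ (hh ω) y = y)
    (g : SL(2, F)) : ρ g (y + Xs ρ (ρ ss y)) = y + Xs ρ (ρ ss y) := by
  have a0 : ∀ l, ρ (hh l) y = y := fun l => by
    obtain ⟨⟨l, i⟩, rfl⟩ := hb.2 l
    simp only [map_mul, map_pow, End.mul_apply]
    rw [End.pow_apply, Function.iterate_fixed e3, e2 _ l.2]
  generalize hz : y + Xs ρ (ρ ss y) = z
  have a1 : ∀ t, ρ (xx t) z = z := fun t => by
    rw [← hz, map_add, e1, ← End.mul_apply, x_X]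
  have a2 : ∀ l, ρ (hh l) z = z := fun l => by
    rw [← hz, map_add, a0, ← End.mul_apply, h_X, End.mul_apply, ← End.mul_apply (ρ _), ← map_mul, hs,
      map_mul, End.mul_apply, a0]
  have a3 : ρ ss z = z := by
    have := LinearMap.congr_fun (sXs (φ := ρ)) y
    simp only [End.mul_apply, LinearMap.add_apply, LinearMap.sum_apply, a0, e1] at this
    rw [← hz, map_add, this, Xs, sum_units (F := F), xx_zero, map_one, add_left_comm]
    simp only [LinearMap.add_apply, End.one_apply, LinearMap.sum_apply]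
    congr 2
    exact Fintype.sum_equiv ((Equiv.inv _).trans (Equiv.neg _)) _ _ fun _ => rfl
  rcases bru g with ⟨t, l, rfl⟩ | ⟨t, l, t', rfl⟩ <;> simp [a1, a2, a3]

end H8.E8
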