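import Cfsg.Agent.H8.E8K

/-! The Hecke algebra argument for `SL₂(q)` acting on the adjoint module of `E₈(3)`. -/

set_option autoImplicit false
set_option linter.unusedSectionVars false

open Cfsg H5 H7 H8 H21 H14 H23.Sec Cfsg.Lie Matrix Module H0.BC MonoidAlgebra
open scoped MatrixGroups

namespace H8.E8

section rl
variable {G : Type*} [Group G] {M : Ideal AlgInt} {X : Type*} [AddCommGroup X] [Module (kk M) X]
  (ρ : G →* End (kk M) X)

/-- reduction of an integral element -/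
def Rl (a : ℂ[G]) (b : End (kk M) X) : Prop := a ∈ VG M G ∧ op ρ a = b

variable {ρ} {a a' : ℂ[G]} {b b' : End (kk M) X}

theorem Rl.add (h : Rl ρ a b) (h' : Rl ρ a' b') : Rl ρ (a + a') (b + b') :=
  ⟨add_mem h.1 h'.1, by rw [op_add ρ h.1 h'.1, h.2, h'.2]⟩

theorem Rl.sub (h : Rl ρ a b) (h' : Rl ρ a' b') : Rl ρ (a - a') (b - b') :=
  ⟨sub_mem h.1 h'.1, by rw [op_sub ρ h.1 h'.1, h.2, h'.2]⟩

theorem Rl.mul (h : Rl ρ a b) (h' : Rl ρ a' b') : Rl ρ (a * a') (b * b') :=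
  ⟨mul_mem h.1 h'.1, by rw [op_mul ρ h.1 h'.1, h.2, h'.2]⟩

theorem Rl.smul (n : ℤ) (h : Rl ρ a b) : Rl ρ ((n : ℂ) • a) ((n : kk M) • b) :=
  ⟨smul_mem_VG (intCast_mem _ _) h.1, by rw [op_smul ρ (intCast_mem _ _) h.1, h.2, red_intCast]⟩

theorem Rl.of (g : G) : Rl ρ (MonoidAlgebra.of ℂ G g) (ρ g) :=
  ⟨single_mem_VG _ (one_mem _), by simp [op_single]⟩

theorem Rl.one : Rl ρ 1 1 := ⟨one_mem _, op_one ρ⟩

theorem Rl.sum {ι : Type*} [Fintype ι] {f : ι → ℂ[G]} {g : ι → End (kk M) X}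
    (h : ∀ i, Rl ρ (f i) (g i)) : Rl ρ (∑ i, f i) (∑ i, g i) :=
  ⟨sum_mem fun i _ => (h i).1, by
    rw [op_sum ρ _ _ fun i _ => (h i).1]; exact Finset.sum_congr rfl fun i _ => (h i).2⟩

end rl

theorem Hk.norm {k R : Type*} [CommRing k] [Ring R] [Algebra k R] {a t u : R} {q c : k}
    (h : Hk a t u (q * c) q c) (hq : q = 1) (hc : c * c = 1) : Hk (c • a) (c • t) u (1 : k) 1 c := by
  subst hq
  refine ⟨?_, ?_, h.u3, ?_, ?_, ?_, ?_⟩ <;> hk h <;> match_scalars <;> grind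

theorem Hk.adj_id {k R : Type*} [CommRing k] [Ring R] [Algebra k R] {a t u : R} {c : k}
    (h : Hk a t u (1 : k) 1 c) {σ : R →ₗ[k] R} (h1 : ∀ a b, σ (a * b) = σ b * σ a) (h2 : σ 1 = 1)
    (h3 : σ a = a) (h4 : σ t = t) (h5 : σ u = u * u) :
    σ (a * (u - u * u) * -(a + t + c • (a * (1 + u + u * u)))) =
      (-1 : k) • (-(a + t + c • (a * (1 + u + u * u))) * (a * (u - u * u))) := by
  simp only [h1, map_neg, map_add, map_sub, map_smul, h2, h3, h4, h5]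
  hk h
  module

/-- the adjoint as a linear map -/
noncomputable def adjL (K : Type) [Field K] : End K (I → K) →ₗ[K] End K (I → K) :=
  IsLinearMap.mk' adj ⟨adj_add, adj_smul⟩

theorem adjL_mul {K : Type} [Field K] (a b : End K (I → K)) : adjL K (a * b) = adjL K b * adjL K a :=
  adj_mul a b

theorem adjL_ρ (c : Cx) {S : Type*} [Group S] (f : S →* E83) (g : S) :
    adjL _ (c.ρ f g) = c.ρ f g⁻¹ := by
  refine (adj_ρ8 _).trans ?_
  simp only [Cx.ρ, ρ3, MonoidHom.comp_apply, map_inv]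

variable {F : Type*} [Field F] [Fintype F] [DecidableEq F] {Λ : Subgroup Fˣ} [Fintype Λ] {ω : Fˣ}
  (hb : Function.Bijective fun p : Λ × Fin 3 => p.1 * ω ^ p.2.1) (h1 : -1 ∈ Λ) (hω : ω ^ 3 = 1)
  (c : Cx) (f : SL(2, F) →* E83)
include hb h1 hω

theorem rk3 (h0 : c.dm f ⊤ = 0) (hq : (Fintype.card F : kk c.M) = 1)
    (hc : (Fintype.card Λ : kk c.M) * Fintype.card Λ = 1) :
    3 * rnk (Xs (c.ρ f) * Hs (c.ρ f) Λ + Xs (c.ρ f) * c.ρ f ss * Xs (c.ρ f) * Hs (c.ρ f) Λ +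
      (Fintype.card Λ : kk c.M) • (Xs (c.ρ f) * Hs (c.ρ f) Λ *
        (1 + c.ρ f (hh ω) + c.ρ f (hh ω) * c.ρ f (hh ω)))) ≤ rnk (Xs (c.ρ f) * Hs (c.ρ f) Λ) := by
  have := charP_kk c.hM
  have H := (hk_sl (k := kk c.M) (φ := c.ρ f) hb h1 hω).norm hq hc
  have c0 : (Fintype.card Λ : kk c.M) ≠ 0 := left_ne_zero_of_mul_eq_one hc
  have a1 : adjL _ (Xs (c.ρ f)) = Xs (c.ρ f) := by
    simp only [Xs, map_sum, adjL_ρ]
    exact Fintype.sum_equiv (Equiv.neg F) _ _ fun t => congrArg _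
      (inv_eq_of_mul_eq_one_right (by simp [xx_add, xx_zero]))
  have a2 : adjL _ (Hs (c.ρ f) Λ) = Hs (c.ρ f) Λ := by
    simp only [Hs, map_sum, adjL_ρ, ← map_inv]
    exact Fintype.sum_equiv (Equiv.inv Λ) _ _ fun _ => rfl
  have a3 : adjL _ (c.ρ f (hh ω)) = c.ρ f (hh ω) * c.ρ f (hh ω) := by
    rw [adjL_ρ, ← map_mul, ← map_mul, ← map_inv]
    exact congrArg _ (congrArg _ (inv_eq_of_mul_eq_one_right (by rw [← hω, pow_succ', sq])))
  have a4 : adjL _ (c.ρ f ss) = c.ρ f ss * c.ρ f (hh (-1)) := by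
    rw [adjL_ρ, ← map_mul]
    exact congrArg _ (inv_eq_of_mul_eq_one_right (by rw [← mul_assoc, s2, ← map_mul]; simp))
  have a5 : adjL _ (1 : End (kk c.M) (I → kk c.M)) = 1 := by simpa using adjL_ρ c f 1
  have a6 : adjL _ (Xs (c.ρ f) * Hs (c.ρ f) Λ) = Xs (c.ρ f) * Hs (c.ρ f) Λ := by
    rw [adjL_mul, a1, a2, H_X]
  have a7 : adjL _ (Xs (c.ρ f) * c.ρ f ss * Xs (c.ρ f) * Hs (c.ρ f) Λ) =
      Xs (c.ρ f) * c.ρ f ss * Xs (c.ρ f) * Hs (c.ρ f) Λ := by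
    simp only [adjL_mul, a1, a2, a4, mul_assoc, h_X]
    rw [← mul_assoc, H_X, mul_assoc, ← mul_assoc (Hs _ _), H_s, mul_assoc, ← mul_assoc (Hs _ _), H_X,
      mul_assoc, ← hH, h_H h1]
  have key := three_le H (fun y e1 e2 => ?_) ?_
  · rw [rnk_smul c0, ← rnk_smul c0] at key
    simpa only [smul_add, smul_mul_assoc, smul_smul, hc, one_smul, mul_one] using key
  · have b1 : ∀ t, c.ρ f (xx t) y = y := fun t => by
      conv_lhs => rw [← e1, ← End.mul_apply, mul_smul_comm, ← mul_assoc, x_X]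
      exact e1
    have b2 : ∀ l ∈ Λ, c.ρ f (hh l) y = y := fun l hl => by
      conv_lhs => rw [← e1, ← End.mul_apply, mul_smul_comm, ← mul_assoc, h_X, mul_assoc, h_H hl]
      exact e1
    have b3 := (Submodule.finrank_eq_zero.1 h0).le fun g _ => fix_z hb h1 b1 b2 e2 g
    have b4 : (Xs (c.ρ f) * Hs (c.ρ f) Λ) y = (Fintype.card Λ : kk c.M) • y := by
      conv_rhs => rw [← e1, LinearMap.smul_apply, smul_smul, hc, one_smul]
    rw [mul_assoc, LinearMap.smul_apply, End.mul_apply, b4, map_smul, smul_smul, hc, one_smul]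
    exact b3
  · refine (rnk_adj _).symm.trans (Eq.trans (congrArg rnk ?_) (rnk_smul (c := -1) (by simp) _))
    exact H.adj_id adjL_mul a5 (by rw [map_smul, a6]) (by rw [map_smul, a7]) a3

theorem hecke (hf : ∀ g, f g = 1 → g ∈ Subgroup.center _) (h0 : c.dm f ⊤ = 0)
    (hq : 3 ∣ (Fintype.card F : ℤ) - 1) (hc : ¬ 3 ∣ Fintype.card Λ) {x₁ x₂ x₃ x₄ x₅ : ℤ} {n : ℕ}
    (hn : ¬ 3 ∣ n) (hx : 3 ∣ x₁ - 1 ∧ 3 ∣ x₂ ∧ 3 ∣ x₃ - 1 ∧ 3 ∣ x₄ - Fintype.card Λ ∧ 3 ∣ x₅ ∧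
      x₃ + 3 * x₅ = 1)
    (hQ : ∀ a t u : ℂ[SL(2, F)], Hk a t u ((Fintype.card F : ℂ) * Fintype.card Λ) (Fintype.card F)
      (Fintype.card Λ) → qe a t u (x₁ : ℂ) x₂ x₃ x₄ x₅ * qe a t u (x₁ : ℂ) x₂ x₃ x₄ x₅ =
        (n : ℂ) • qe a t u (x₁ : ℂ) x₂ x₃ x₄ x₅) :
    ∃ m a : ℕ, 3 * a ≤ m ∧
      ∑ t, ∑ l : Λ, c.β (f (xx t * hh l)) = (Fintype.card F * Fintype.card Λ : ℕ) * m ∧
      (n * a : ℂ) = (x₁ + x₄) * ((Fintype.card F * Fintype.card Λ : ℕ) * m) +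
        Fintype.card F * ∑ t, ∑ l : Λ, c.β (f (ss * xx t * hh l)) := by
  have := charP_kk c.hM
  have cz : ∀ x : ℤ, 3 ∣ x → (x : kk c.M) = 0 := fun x => (CharP.intCast_eq_zero_iff _ 3 x).2
  have q1 : (Fintype.card F : kk c.M) = 1 := by simpa [sub_eq_zero] using cz _ hq
  have c1 : (Fintype.card Λ : kk c.M) * Fintype.card Λ = 1 := by
    have : (3 : ℤ) ∣ Fintype.card Λ * Fintype.card Λ - 1 := by
      obtain ⟨y, e | e⟩ : ∃ y : ℤ, (Fintype.card Λ : ℤ) = 3 * y + 1 ∨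
        (Fintype.card Λ : ℤ) = 3 * y + 2 := ⟨Fintype.card Λ / 3, by omega⟩
      · exact ⟨3 * y * y + 2 * y, by rw [e]; ring⟩
      · exact ⟨3 * y * y + 4 * y + 1, by rw [e]; ring⟩
    simpa [sub_eq_zero] using cz _ this
  have hB := c.h.comp f
  have H := hk_sl (k := ℂ) (φ := MonoidAlgebra.of ℂ SL(2, F)) hb h1 hω
  have r1 : Rl (c.ρ f) (Xs (MonoidAlgebra.of ℂ _)) (Xs (c.ρ f)) := .sum fun _ => .of _
  have r2 : Rl (c.ρ f) (Hs (MonoidAlgebra.of ℂ _) Λ) (Hs (c.ρ f) Λ) := .sum fun _ => .of _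
  have r3 := r1.mul r2
  have r4 := ((r1.mul (.of ss)).mul r1).mul r2
  have r5 := Rl.of (ρ := c.ρ f) (hh ω)
  have r6 := (Rl.one.add r5).add (r5.mul r5)
  have r7 := ((((r3.smul x₁).add ((r3.mul (r5.sub (r5.mul r5))).smul x₂)).add (r4.smul x₃)).add
    ((r3.mul r6).smul x₄)).add ((r4.mul r6).smul x₅)
  have e1 := hB.quasi c.hM r3.1 (n := Fintype.card F * Fintype.card Λ)
    (fun h => ((Nat.Prime.dvd_mul Nat.prime_three).1 h).elim (by omega) hc) (by simpa using H.aa)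
  have e2 := hB.quasi c.hM r7.1 hn (hQ _ _ _ H)
  erw [r3.2] at e1
  erw [r7.2] at e2
  obtain ⟨y1, y2, y3, y4, y5, y6⟩ := hx
  have z1 := cz _ y1
  have z3 := cz _ y3
  have z4 := cz _ y4
  simp only [Int.cast_sub, Int.cast_one, sub_eq_zero, Int.cast_natCast] at z1 z3 z4
  simp only [z1, z3, z4, cz _ y2, cz _ y5, one_smul, zero_smul, add_zero] at e2
  have d1 : ∀ g, H7.ev (fun a => c.β (f a)) (MonoidAlgebra.of ℂ _ g * (Xs (MonoidAlgebra.of ℂ _) *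
      Hs (MonoidAlgebra.of ℂ _) Λ)) = ∑ t, ∑ l : Λ, c.β (f (g * xx t * hh l)) := fun g => by
    simp only [Xs, Hs, Finset.sum_mul, Finset.mul_sum, ← map_mul, map_sum, mul_assoc]
    rw [Finset.sum_comm]
    simp
  have d2 : ∀ v : Fˣ, v ^ 3 = 1 → v ≠ 1 → ∑ t, ∑ l : Λ, c.β (f (hh v * xx t * hh l)) = 0 :=
    fun v v3 v1 => Finset.sum_eq_zero fun t _ => Finset.sum_eq_zero fun l _ => c.h3 _ (by
      rw [hx, mul_assoc, ← map_mul]
      generalize hN : orderOf (f _) = N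
      obtain ⟨t', e⟩ := xh_pow (v ^ 2 * t) (v * l) N
      obtain ⟨r, s1, s2⟩ := Matrix.SpecialLinearGroup.mem_center_iff.1
        (hf _ ((congrArg f e).symm.trans (by rw [map_pow, ← hN, pow_orderOf_eq_one])))
      have s3 : (v * l) ^ N * (v * l) ^ N = 1 := Units.ext (by
        have : ∀ μ : Fˣ, (xx t' * hh μ).1 0 0 = μ := fun μ => by simp
        have : r = ((v * l) ^ N : Fˣ) := by rw [← this, ← s2]; simp
        simpa [this, sq] using s1)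
      have s4 : (l : Fˣ) ^ Fintype.card Λ = 1 := by exact_mod_cast pow_card_eq_one (x := l)
      have s5 : v ^ (N * 2 * Fintype.card Λ) = 1 := by
        have := congrArg (· ^ Fintype.card Λ) s3
        simp only [← sq, ← pow_mul, mul_pow, one_pow] at this
        rwa [mul_comm _ (Fintype.card Λ), pow_mul (l : Fˣ), s4, one_pow, mul_one, mul_comm] at this
      have := orderOf_dvd_of_pow_eq_one s5
      rw [haveI := Fact.mk Nat.prime_three; orderOf_eq_prime v3 v1] at this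
      exact ((Nat.Prime.dvd_mul Nat.prime_three).1
        (((Nat.Prime.dvd_mul Nat.prime_three).1 this).resolve_right hc)).resolve_right (by decide))
  have o1 : ω ≠ 1 := fun e => by simpa using hb.1 (a₁ := (1, 0)) (a₂ := (1, 1)) (by simp [e])
  have o2 : ω * ω ≠ 1 := fun e => by simpa using hb.1 (a₁ := (1, 0)) (a₂ := (1, 2)) (by simp [e, sq])
  have d3 := (d1 _).trans (d2 _ hω o1)
  have d4 := (d1 _).trans (d2 _ (by rw [mul_pow, hω, mul_one]) o2)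
  have d5 := d1 1
  have d6 : H7.ev (fun a => c.β (f a)) (Xs (MonoidAlgebra.of ℂ _) * MonoidAlgebra.of ℂ _ ss *
      Xs (MonoidAlgebra.of ℂ _) * Hs (MonoidAlgebra.of ℂ _) Λ) =
      Fintype.card F * ∑ t, ∑ l : Λ, c.β (f (ss * xx t * hh l)) := by
    rw [mul_assoc, mul_assoc, ev_mul_comm hB.cl, mul_assoc, mul_assoc, H_X, ← mul_assoc (Xs _),
      X_X (k := ℂ), smul_mul_assoc, mul_smul_comm, map_smul, d1, smul_eq_mul]
  simp only [map_one, one_mul, map_mul (hh : Fˣ →* _), map_mul (MonoidAlgebra.of ℂ _)] at d4 d5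
  refine ⟨_, _, rk3 hb h1 hω c f h0 q1 c1, d5.symm.trans e1, ?_⟩
  rw [← e2, ← e1, ← d6]
  generalize Xs (MonoidAlgebra.of ℂ _) * MonoidAlgebra.of ℂ _ ss *
      Xs (MonoidAlgebra.of ℂ _) * Hs (MonoidAlgebra.of ℂ _) Λ = t at *
  generalize Xs (MonoidAlgebra.of ℂ _) * Hs (MonoidAlgebra.of ℂ _) Λ = a at *
  generalize MonoidAlgebra.of ℂ _ (hh ω) = u at *
  rw [ev_mul_comm hB.cl] at d3 d4
  have d7 : H7.ev (fun a => c.β (f a)) (t * u) = H7.ev (fun a => c.β (f a)) t := by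
    have : t * u = u * (t * (u * u)) := by hk H
    rw [this, ev_mul_comm hB.cl]
    congr 1
    hk H
  have d8 : H7.ev (fun a => c.β (f a)) (t * (u * u)) = H7.ev (fun a => c.β (f a)) t := by
    rw [← H.ut, ev_mul_comm hB.cl, d7]
  have y7 : (x₃ : ℂ) + 3 * x₅ = 1 := by exact_mod_cast y6
  simp only [mul_add, mul_sub, mul_one, map_add, map_sub, map_smul, d3, d4, d7, d8, smul_eq_mul]
  linear_combination H7.ev (fun a => c.β (f a)) t * y7

end H8.E8
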