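import Cfsg.Agent.H8.E8L
import Cfsg.Agent.H11.LowDim
import Cfsg.Agent.S0813

/-! `L₂(7)` and `L₂(13)` fix a vector of the adjoint module of `E₈(3)`. -/

set_option autoImplicit false
set_option linter.unusedSectionVars false
set_option maxRecDepth 100000

open Cfsg H5 H7 H8 H21 H14 H23.Sec Cfsg.Lie Matrix Module H0.BC Subgroup
open scoped MatrixGroups

namespace H8.E8

theorem center_bot {S : Type*} [Group S] [IsSimpleGroup S] (h : 4 ∣ Nat.card S) : center S = ⊥ :=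
  (IsSimpleGroup.eq_bot_or_eq_top_of_normal _ inferInstance).resolve_right fun e => by
    let _ := Group.commGroupOfCenterEqTop e
    have := (IsSimpleGroup.prime_card (α := S)).eq_one_or_self_of_dvd
    have h2 := this 2 (dvd_trans (by decide) h)
    omega

variable {F : Type*} [Field F] [Fintype F] [DecidableEq F]

theorem ex_Λ {c : ℕ} (hF : Fintype.card F = 3 * c + 1) {ω : Fˣ} (hω : ω ^ 3 = 1) (h : ω ^ c ≠ 1) :
    ∃ (Λ : Subgroup Fˣ) (_ : Fintype Λ), Fintype.card Λ = c ∧ (∀ l, l ∈ Λ ↔ l ^ c = 1) ∧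
      Function.Bijective fun p : Λ × Fin 3 => p.1 * ω ^ p.2.1 := by
  have h1 : Fintype.card Fˣ = 3 * c := by rw [Fintype.card_units, hF]; rfl
  let _ := Fintype.ofFinite (powMonoidHom c : Fˣ →* Fˣ).ker
  have h2 : Fintype.card (powMonoidHom c : Fˣ →* Fˣ).ker = c := by
    rw [← Nat.card_eq_fintype_card, IsCyclic.card_powMonoidHom_ker, Nat.card_eq_fintype_card, h1,
      Nat.gcd_mul_left_left]
  refine ⟨_, _, h2, fun _ => Iff.rfl, (Fintype.bijective_iff_injective_and_card _).2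
    ⟨fun ⟨l, i⟩ ⟨m, j⟩ e => ?_, by rw [Fintype.card_prod, h1, h2, mul_comm]; rfl⟩⟩
  have h3 : orderOf (ω ^ c) = 3 := haveI := Fact.mk Nat.prime_three
    orderOf_eq_prime (by rw [← pow_mul, mul_comm, pow_mul, hω, one_pow]) h
  have h4 := congrArg (· ^ c) e
  have a1 : l.1 ^ c = 1 := l.2
  have a2 : m.1 ^ c = 1 := m.2
  simp only [mul_pow, a1, a2, one_mul, ← pow_mul, mul_comm _ c] at h4
  simp only [pow_mul] at h4
  obtain rfl : i = j := Fin.ext (pow_injOn_Iio_orderOf (by simp [h3]) (by simp [h3]) h4)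
  exact Prod.ext (Subtype.ext (mul_right_cancel e)) rfl

/-- central power -/
abbrev Pw (A : Matrix (Fin 2) (Fin 2) F) (n : ℕ) : Prop := A ^ n = 1 ∨ A ^ n = -1

theorem y_val (τ : F) (l : Fˣ) : (ss * xx (τ * l) * hh l).1 = !![0, -(l : F)⁻¹; l, τ] := by simp

theorem y_ne (τ : F) (l : Fˣ) : (ss * xx (τ * l) * hh l).1 1 0 ≠ 0 := by simp

theorem y_two (l : Fˣ) : ∃ y, ss * xx (2 * l : F) * hh l = y * xx ((-l⁻¹ : Fˣ) : F) * y⁻¹ :=
  ⟨ss * xx (l : F) * ss, eq_mul_inv_of_mul_eq (Subtype.ext (by simp; norm_num; ring))⟩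

theorem y_neg (l : Fˣ) :
    ss * xx (-2 * l : F) * hh l = ss * xx (2 * (-l : Fˣ) : F) * hh (-l) * hh (-1) := by
  rw [mul_assoc _ (hh _), ← map_mul]; simp

theorem hh_pw {l : Fˣ} (h : l ^ 2 = 1) : Pw (hh l).1 1 := by
  have : (l : F) ^ 2 = 1 := congrArg Units.val h
  rcases sq_eq_one_iff.1 this with e | e <;> simp [Pw, e, one_fin_two]

theorem y_sum (l : Fˣ) (g : F → ℝ) : ∑ t, g t = ∑ τ, g (τ * l) :=
  (Fintype.sum_equiv (Equiv.mulRight₀ (l : F) l.ne_zero) _ _ fun _ => rfl).symm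

variable (c : Cx) {f : SL(2, F) →* E83} (hf : ∀ g, f g = 1 ↔ g ∈ center _)
include hf

theorem f_pow {g : SL(2, F)} {n : ℕ} (h : Pw g.1 n) : f g ^ n = 1 := by
  rw [← map_pow, hf, Matrix.SpecialLinearGroup.mem_center_iff]
  rcases h with h | h
  exacts [⟨1, by simp, by simp [h]⟩, ⟨-1, by simp, by rw [map_neg, map_one]; exact h.symm⟩]

theorem f_ne {g : SL(2, F)} (h : g.1 1 0 ≠ 0 ∨ g.1 0 1 ≠ 0) : f g ≠ 1 := fun e => by
  obtain ⟨r, -, e⟩ := Matrix.SpecialLinearGroup.mem_center_iff.1 ((hf _).1 e)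
  simp [← e] at h

theorem re2 {g : SL(2, F)} (h : Pw g.1 2) (h1 : g.1 1 0 ≠ 0) : -8 ≤ (c.β (f g)).re := by
  rcases c.b2 (f_pow hf h) (f_ne hf (Or.inl h1)) with e | e <;> rw [e] <;> norm_num

theorem re7 {g : SL(2, F)} (h : Pw g.1 7) (h1 : g.1 1 0 ≠ 0 ∨ g.1 0 1 ≠ 0) :
    3 ≤ (c.β (f g)).re := by
  rcases c.b7 (f_pow hf h) (f_ne hf h1) with e | e <;> rw [e] <;> norm_num

theorem re6 {g : SL(2, F)} (h : Pw g.1 6) (h1 : (g.1 ^ 2) 1 0 ≠ 0) : 0 ≤ (c.β (f g)).re := by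
  have h2 := orderOf_dvd_of_pow_eq_one (f_pow hf h)
  have h3 : ¬ orderOf (f g) ∣ 2 := fun e => f_ne hf (g := g ^ 2) (Or.inl h1) (by
    rw [map_pow, orderOf_dvd_iff_pow_eq_one.1 e])
  have h4 := Nat.le_of_dvd (by decide) h2
  rw [c.h3 _ (by generalize orderOf (f g) = n at *; interval_cases n <;> omega)]
  rfl

theorem re4 {g : SL(2, F)} (h : Pw g.1 4) (h1 : (g.1 ^ 2) 1 0 ≠ 0) : -4 ≤ (c.β (f g)).re := by
  have h2 := f_pow hf h
  obtain ⟨t, ht, a1, a2, a3⟩ := c.h.tab8 c.hM (s := f g) (by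
    rw [show 8 = 4 * 2 from rfl, pow_mul, h2, one_pow])
  have h3 := f_ne hf (g := g ^ 2) (Or.inl h1)
  rw [map_pow] at h3
  rw [h2, c.b1] at a3
  have : ∀ t ∈ T8, t.2.2 = 248 → t.2.1 ≠ 248 → -4 ≤ t.1 := by decide
  have := this t ht (by exact_mod_cast a3.symm) fun e => h3 (c.h.eq_one8 c.hM (l := 2) (by decide)
    (by rw [← pow_mul, h2]) (by rw [a2, e]; norm_num))
  rw [a1]
  exact_mod_cast this

omit hf

/-- lower bounds by the trace -/
def lb7 (τ : ZMod 7) : ℤ := if τ = 0 then -8 else if τ ^ 2 = 1 then 0 else if τ ^ 2 = 4 then 3 else -4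

theorem chk_7 : ∀ l m : ZMod 7, l * m = 1 → ∀ τ : ZMod 7,
    (lb7 τ = -8 ∧ (!![0, -m; l, τ] ^ 2 = 1 ∨ !![0, -m; l, τ] ^ 2 = -1)) ∨
    (lb7 τ = 0 ∧ (!![0, -m; l, τ] ^ 6 = 1 ∨ !![0, -m; l, τ] ^ 6 = -1) ∧
      (!![0, -m; l, τ] ^ 2) 1 0 ≠ 0) ∨
    (lb7 τ = 3 ∧ (!![0, -m; l, τ] ^ 7 = 1 ∨ !![0, -m; l, τ] ^ 7 = -1)) ∨
    (lb7 τ = -4 ∧ (!![0, -m; l, τ] ^ 4 = 1 ∨ !![0, -m; l, τ] ^ 4 = -1) ∧
      (!![0, -m; l, τ] ^ 2) 1 0 ≠ 0) := by
  decide +kernel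

instance fact7 : Fact (Nat.Prime 7) := ⟨by decide⟩

instance fact13 : Fact (Nat.Prime 13) := ⟨by decide⟩

theorem pt7 {f : SL(2, ZMod 7) →* E83} (hf : ∀ g, f g = 1 ↔ g ∈ center _) (l : (ZMod 7)ˣ)
    (τ : ZMod 7) : (lb7 τ : ℝ) ≤ (c.β (f (ss * xx (τ * l) * hh l))).re := by
  have := chk_7 _ _ (mul_inv_cancel₀ l.ne_zero) τ
  rw [← y_val] at this
  have e := y_ne τ l
  generalize ss * xx (τ * l) * hh l = g at *
  rcases this with ⟨b, d⟩ | ⟨b, d⟩ | ⟨b, d⟩ | ⟨b, d⟩ <;> rw [b] <;> push_cast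
  exacts [re2 c hf d e, re6 c hf d.1 d.2, re7 c hf d (Or.inl e), re4 c hf d.1 d.2]

theorem fx7 {f : SL(2, ZMod 7) →* E83} (hf : ∀ g, f g = 1 ↔ g ∈ center _) : 0 < c.dm f ⊤ := by
  refine Nat.pos_of_ne_zero fun h0 => ?_
  obtain ⟨Λ, _, h1, h2, h3⟩ := ex_Λ (F := ZMod 7) (c := 2) (by simp)
    (ω := ⟨2, 4, by decide, by decide⟩) (by decide) (by decide)
  obtain ⟨m, a, e1, e2, e3⟩ := hecke h3 ((h2 _).2 (by simp)) (by decide) c f (fun g => (hf g).1) h0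
    (by simp) (by simp [h1]) (x₁ := 4) (x₂ := 12) (x₃ := -8) (x₄ := -1) (x₅ := 3) (n := 112)
    (by decide) (by simp [h1]) fun a t u h => by
      rw [h1, ZMod.card] at h
      push_cast at h ⊢
      exact qe7 (by convert h using 1; norm_num)
  have a1 : ∀ l : Λ, (-10 : ℝ) ≤ ∑ t, (c.β (f (ss * xx t * hh l))).re := fun l => by
    rw [y_sum l, show (-10 : ℝ) = ∑ τ, (lb7 τ : ℝ) by
      exact_mod_cast (by decide +kernel : -10 = ∑ τ, lb7 τ)]
    exact Finset.sum_le_sum fun τ _ => pt7 c hf l τ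
  have a2 : ∀ l : Λ, (266 : ℝ) ≤ ∑ t, (c.β (f (xx t * hh l))).re := fun l => by
    have : f (hh l) = 1 := by
      simpa using f_pow hf (hh_pw ((h2 _).1 l.2))
    simp only [map_mul, this, mul_one]
    rw [sum_units, xx_zero, map_one, c.b1]
    have := Finset.card_nsmul_le_sum Finset.univ (fun t : (ZMod 7)ˣ => (c.β (f (xx t.1))).re) 3
      fun t _ => re7 c hf ((by decide +kernel : ∀ t : ZMod 7, Pw !![1, t; 0, 1] 7) t)
        (Or.inr (by simp))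
    norm_num [show Nat.totient 7 = 6 by decide] at this ⊢
    linarith
  have b1 := Finset.card_nsmul_le_sum Finset.univ _ _ fun l _ => a1 l
  have b2 := Finset.card_nsmul_le_sum Finset.univ _ _ fun l _ => a2 l
  have b3 := congrArg Complex.re e2
  have b4 := congrArg Complex.re e3
  have b5 : (3 * a : ℝ) ≤ m := by exact_mod_cast e1
  rw [Finset.sum_comm] at b1 b2
  simp [h1] at b1 b2 b3 b4
  linarith

/-- lower bounds by the trace -/
def lb13 (τ : ZMod 13) : ℤ := if τ = 0 then -8 else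
  if τ ^ 2 = 9 ∨ τ ^ 2 = 10 ∨ τ ^ 2 = 12 then 3 else 0

theorem chk_13 : ∀ l m : ZMod 13, l * m = 1 → ∀ τ : ZMod 13, τ = 2 ∨ τ = -2 ∨ τ ≠ 2 ∧ τ ≠ -2 ∧
    ((lb13 τ = -8 ∧ (!![0, -m; l, τ] ^ 2 = 1 ∨ !![0, -m; l, τ] ^ 2 = -1)) ∨
    (lb13 τ = 0 ∧ (!![0, -m; l, τ] ^ 6 = 1 ∨ !![0, -m; l, τ] ^ 6 = -1) ∧
      (!![0, -m; l, τ] ^ 2) 1 0 ≠ 0) ∨
    (lb13 τ = 3 ∧ (!![0, -m; l, τ] ^ 7 = 1 ∨ !![0, -m; l, τ] ^ 7 = -1))) := by
  decide +kernel

theorem pt13 {f : SL(2, ZMod 13) →* E83} (hf : ∀ g, f g = 1 ↔ g ∈ center _) (l : (ZMod 13)ˣ)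
    (τ : ZMod 13) : ((lb13 τ : ℝ) +
      if τ = 2 then (c.β (f (xx ((-l⁻¹ : (ZMod 13)ˣ) : ZMod 13)))).re else 0) +
      (if τ = -2 then (c.β (f (xx ((l⁻¹ : (ZMod 13)ˣ) : ZMod 13)))).re else 0) ≤
      (c.β (f (ss * xx (τ * l) * hh l))).re := by
  have a0 : ∀ l : (ZMod 13)ˣ, c.β (f (ss * xx (2 * l : ZMod 13) * hh l)) =
      c.β (f (xx ((-l⁻¹ : (ZMod 13)ˣ) : ZMod 13))) := fun l => by
    obtain ⟨y, e⟩ := y_two l
    rw [e, map_mul, map_mul, map_inv]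
    exact c.h.cl _ _
  have := chk_13 _ _ (mul_inv_cancel₀ l.ne_zero) τ
  rw [← y_val] at this
  have e := y_ne τ l
  rcases this with rfl | rfl | ⟨b1, b2, this⟩
  · rw [if_pos rfl, if_neg (by decide), show lb13 2 = 0 by decide, a0, Int.cast_zero, zero_add,
      add_zero]
  · have := f_pow hf (hh_pw (l := -1) (by simp))
    rw [if_pos rfl, if_neg (by decide), show lb13 (-2) = 0 by decide, y_neg, map_mul f _ (hh (-1)),
      (pow_one _).symm.trans this, mul_one, a0, Int.cast_zero, zero_add, zero_add, inv_neg, neg_neg]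
  rw [if_neg b1, if_neg b2, add_zero, add_zero]
  generalize ss * xx (τ * l) * hh l = g at *
  rcases this with ⟨b, d⟩ | ⟨b, d⟩ | ⟨b, d⟩ <;> rw [b] <;> push_cast
  exacts [re2 c hf d e, re6 c hf d.1 d.2, re7 c hf d (Or.inl e)]

theorem fx13 {f : SL(2, ZMod 13) →* E83} (hf : ∀ g, f g = 1 ↔ g ∈ center _) : 0 < c.dm f ⊤ := by
  refine Nat.pos_of_ne_zero fun h0 => ?_
  obtain ⟨Λ, _, h1, h2, h3⟩ := ex_Λ (F := ZMod 13) (c := 4) (by simp)
    (ω := ⟨3, 9, by decide, by decide⟩) (by decide) (by decide)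
  have hω : (⟨3, 9, by decide, by decide⟩ : (ZMod 13)ˣ) ^ 3 = 1 := by decide
  generalize (⟨3, 9, _, _⟩ : (ZMod 13)ˣ) = ω at h3 hω
  have m1 : -1 ∈ Λ := (h2 _).2 (by decide)
  obtain ⟨m, a, e1, e2, e3⟩ := hecke h3 m1 hω c f (fun g => (hf g).1) h0
    (by simp) (by simp [h1]) (x₁ := 7) (x₂ := 714) (x₃ := 343) (x₄ := -2) (x₅ := -114) (n := 728)
    (by decide) (by simp [h1]) fun a t u h => by
      rw [h1, ZMod.card] at h
      push_cast at h ⊢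
      exact qe13 (by convert h using 1; norm_num)
  obtain ⟨b, hb⟩ : ∃ b : ZMod 13 → ℝ, ∀ t, b t = (c.β (f (xx t))).re := ⟨_, fun _ => rfl⟩
  have cl : ∀ g y : SL(2, ZMod 13), c.β (f (y * g * y⁻¹)) = c.β (f g) := fun g y => by
    simp only [map_mul, map_inv]; exact c.h.cl _ _
  have a1 : ∀ l : Λ, 10 + b (-l.1⁻¹ : (ZMod 13)ˣ) + b (l.1⁻¹ : (ZMod 13)ˣ) ≤
      ∑ t, (c.β (f (ss * xx t * hh l))).re := fun l => by
    rw [y_sum l, show (10 : ℝ) = ∑ τ, (lb13 τ : ℝ) by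
      exact_mod_cast (by decide +kernel : 10 = ∑ τ, lb13 τ),
      ← Fintype.sum_ite_eq' (2 : ZMod 13) fun _ => b (-l.1⁻¹ : (ZMod 13)ˣ),
      ← Fintype.sum_ite_eq' (-2 : ZMod 13) fun _ => b (l.1⁻¹ : (ZMod 13)ˣ),
      ← Finset.sum_add_distrib, ← Finset.sum_add_distrib, hb, hb]
    exact Finset.sum_le_sum fun τ _ => pt13 c hf l τ
  have a2 : ∀ t : (ZMod 13)ˣ, b (t * ω : (ZMod 13)ˣ) = b t := fun t => by
    rw [hb, hb, ← cl (xx t.1) (hh (ω * ω)), hx, mul_inv_cancel_right, ← sq, ← Units.val_pow_eq_pow_val,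
      ← pow_mul, pow_succ, hω, one_mul, Units.val_mul, mul_comm]
  have a3 : ∑ t : (ZMod 13)ˣ, b t = 3 * ∑ l : Λ, b l.1 := by
    rw [sum_Λ h3, Finset.mul_sum]
    exact Finset.sum_congr rfl fun l _ => by rw [← mul_assoc, a2 (l * ω), a2]; ring
  have a4 : ∀ k : ℕ, f (xx 1) ^ k = f (xx k) := fun k => by
    induction k with
    | zero => simp [xx_zero]
    | succ k ih => rw [pow_succ, ih, ← map_mul, xx_add, Nat.cast_succ]
  obtain ⟨m0, a5, a6⟩ := c.cyc13 (x := f (xx 1)) (by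
    rw [a4, show ((13 : ℕ) : ZMod 13) = 0 from rfl, xx_zero, map_one])
  have a7 : ∑ t, b t = 13 * m0 := by
    have := congrArg Complex.re a6
    simp only [a4, Complex.re_sum, Finset.sum_range] at this
    refine Eq.trans (Fintype.sum_equiv (Equiv.refl _) _ _ fun t => ?_) (this.trans (by simp))
    exact (congrArg b (ZMod.natCast_zmod_val t).symm).trans (hb _)
  rw [sum_units, a3] at a7
  have a8 : b 0 = 248 := by simp [hb, xx_zero, c.b1]
  have a9 : ∑ l : Λ, b (l.1⁻¹ : (ZMod 13)ˣ) = ∑ l : Λ, b l.1 :=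
    Fintype.sum_equiv (Equiv.inv Λ) _ _ fun _ => rfl
  have a10 : ∑ l : Λ, b (-l.1⁻¹ : (ZMod 13)ˣ) = ∑ l : Λ, b l.1 :=
    Fintype.sum_equiv ((Equiv.inv Λ).trans (Equiv.mulLeft ⟨-1, m1⟩)) _ _ fun _ =>
      congrArg b (congrArg Units.val (neg_one_mul _).symm)
  have b1 := Finset.sum_le_sum (s := Finset.univ) fun l _ => a1 l
  rw [Finset.sum_add_distrib, Finset.sum_add_distrib, a9, a10, Finset.sum_comm] at b1
  have b4 := congrArg Complex.re e3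
  have b5 : (3 * a : ℝ) ≤ m := by exact_mod_cast e1
  have b6 : (20 : ℝ) ≤ m0 := by exact_mod_cast a5
  have b7 : (0 : ℝ) ≤ m := Nat.cast_nonneg m
  simp [h1] at b1 b4
  linarith

omit c

theorem gd_psl (p : ℕ) [Fact p.Prime] (hp : p = 7 ∨ p = 13) (τ : ZMod p)
    (h7 : !![0, -1; 1, τ] ^ 7 = 1)
    (hd : ∀ r : ZMod p, r ^ 2 = 1 → ∀ b c, -c = b * r → ∀ a d, -d = (-a + b * τ) * r →
      a + τ * c = d * r → b + τ * d = (-c + d * τ) * r → a * d - b * c = 1 → ∃ k : Fin 7,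
        !![a, b; c, d] = !![0, -1; 1, τ] ^ k.1 ∨ !![a, b; c, d] = - !![0, -1; 1, τ] ^ k.1)
    (hx : ∀ (c : Cx) (f : SL(2, ZMod p) →* E83), (∀ g, f g = 1 ↔ g ∈ center _) → 0 < c.dm f ⊤) :
    Gd PSL(2, ZMod p) := by
  have := H11.psl2_simple (F := ZMod p) (by simp; omega)
  have h2 := H11.card_psl (ι := Fin 2) (F := ZMod p)
  have h1 := H11.card_psl_two (F := ZMod p)
  have h3 := Cfsg.Agent.S0813.result (F := ZMod p) p 1 le_rfl (by simp) 2 le_rfl (by simp; omega)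
  rw [H11.card_pgl_eq_card_sl, ← h2] at h3
  have h4 : 4 ∣ Nat.card PSL(2, ZMod p) ∧
      Nat.card (MulAut PSL(2, ZMod p)) = 2 * Nat.card PSL(2, ZMod p) := by
    rcases hp with rfl | rfl <;> norm_num [-Nat.card_eq_fintype_card] at h1 h3 <;> omega
  have v1 : (ss * xx τ).1 = !![0, -1; 1, τ] := by simp
  have x7 : (ss * xx τ) ^ 7 = 1 := Subtype.ext ((congrArg (· ^ 7) v1).trans h7)
  let π := QuotientGroup.mk' (center SL(2, ZMod p))
  have y7 : π (ss * xx τ) ^ 7 = 1 := by rw [← map_pow, x7, map_one]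
  refine ⟨center_bot h4.1, h4.2 ▸ Nat.mul_dvd_mul_right (by decide) _, π (ss * xx τ), y7,
    fun e => ?_, ?_, fun c f fi => ⟨?_, Or.inl (h4.2 ▸ dvd_rfl)⟩⟩
  · obtain ⟨r, -, e⟩ := Matrix.SpecialLinearGroup.mem_center_iff.1 ((QuotientGroup.eq_one_iff _).1 e)
    simpa [v1] using congrFun (congrFun e 1) 0
  · refine le_trans (card_le_of_le (K := zpowers (π (ss * xx τ))) fun g hg => ?_)
      ((Nat.card_zpowers _).trans_le (orderOf_le_of_pow_eq_one (by decide) y7))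
    obtain ⟨g, rfl⟩ := QuotientGroup.mk'_surjective _ g
    obtain ⟨r, r2, e⟩ := Matrix.SpecialLinearGroup.mem_center_iff.1
      (QuotientGroup.eq.1 (mem_centralizer_singleton_iff.1 hg))
    have e1 : (ss * xx τ).1 * g.1 = g.1 * (ss * xx τ).1 * scalar _ r := by
      rw [e]
      exact congrArg (fun x : SL(2, ZMod p) => x.1)
        (mul_inv_cancel_left (g * (ss * xx τ)) (ss * xx τ * g)).symm
    have e2 := g.det_coe
    rw [det_fin_two] at e2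
    rw [v1, eta_fin_two g.1] at e1
    obtain ⟨k, hk⟩ := hd r (by simpa using r2) (g.1 0 1) (g.1 1 0)
      (by simpa using congrFun (congrFun e1 0) 0) (g.1 0 0) (g.1 1 1)
      (by simpa using congrFun (congrFun e1 0) 1) (by simpa using congrFun (congrFun e1 1) 0)
      (by simpa using congrFun (congrFun e1 1) 1) e2
    rw [← eta_fin_two, ← v1] at hk
    refine ⟨k.1, ?_⟩
    simp only [zpow_natCast, ← map_pow]
    rcases hk with hk | hk
    · exact congrArg π (Subtype.ext hk).symm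
    · refine QuotientGroup.eq.2 (Matrix.SpecialLinearGroup.mem_center_iff.2 ⟨-1, by simp, ?_⟩)
      rw [map_neg, map_one, Matrix.SpecialLinearGroup.coe_mul, hk, mul_neg]
      exact congrArg _ (congrArg (fun x : SL(2, ZMod p) => x.1)
        (inv_mul_cancel ((ss * xx τ) ^ k.1))).symm
  · rw [← map_top_of_surjective π (QuotientGroup.mk'_surjective _), Cx.dm_map]
    exact hx c _ fun g => (map_eq_one_iff _ fi).trans (QuotientGroup.eq_one_iff g)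

set_option synthInstance.maxSize 1000 in
theorem gd7 : Gd PSL(2, ZMod 7) :=
  gd_psl 7 (Or.inl rfl) 2 (by decide +kernel) (by decide +kernel) fun c _ => fx7 c

set_option synthInstance.maxSize 1000 in
theorem gd13 : Gd PSL(2, ZMod 13) :=
  gd_psl 13 (Or.inr rfl) 7 (by decide +kernel) (by decide +kernel) fun c _ => fx13 c

end H8.E8
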