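import Cfsg.Agent.H8.E8M

/-! `Sp₆(2)` and `Ω₈⁺(2)` in `E₈(3)`: assembly. -/

set_option autoImplicit false

open Cfsg H0.BC Subgroup

namespace H8.E8

theorem gd_sp (h1 : SP1) (h2 : SP2) (h3 : SP3) : Gd Sp := by
  obtain ⟨T, -, h1⟩ := h1
  obtain ⟨x, x7, x1, -⟩ := h2
  obtain ⟨a1, -, a3, a4⟩ := h3
  exact ⟨a1, a3.trans (Nat.mul_dvd_mul_right (by decide) _), x, x7, x1, a4 x x7 x1,
    fun c f fi => ⟨by have := h1 c f fi; omega, Or.inl a3⟩⟩

theorem ex_conj {S : Type*} [Group S] [Finite S] [IsSimpleGroup S] {A T : Subgroup S}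
    (hA : IsCoatom A) (h : T ≤ A) {n : ℕ} (hT : Nat.card T = 2 ^ (n + 1))
    (h1 : 2 ^ (n + 2) ∣ Nat.card S) (h2 : ¬ 2 ^ (n + 2) ∣ Nat.card A) :
    ∃ g, T ≤ A.map (MulAut.conj g).toMonoidHom ∧ A ⊔ A.map (MulAut.conj g).toMonoidHom = ⊤ := by
  obtain ⟨K, k1, k2⟩ := Sylow.exists_subgroup_card_pow_succ h1 hT
  obtain ⟨g, g1, g2⟩ := SetLike.not_le_iff_exists.1 fun e : K ≤ A => h2 (k1 ▸ card_dvd_of_le e)
  have k3 : (T.subgroupOf K).index = 2 := by
    have := (T.subgroupOf K).index_mul_card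
    rw [Nat.card_congr (subgroupOfEquivOfLe k2).toEquiv, hT, k1, pow_succ' 2 (n + 1)] at this
    exact Nat.eq_of_mul_eq_mul_right (by positivity) this
  refine ⟨g, fun t ht => ⟨g⁻¹ * t * g, h ?_, by simp [mul_assoc]⟩, ?_⟩
  · simpa [mem_subgroupOf] using
      (normal_of_index_eq_two k3).conj_mem' ⟨t, k2 ht⟩ (mem_subgroupOf.2 ht) ⟨g, g1⟩
  refine (hA.le_iff.1 le_sup_left).resolve_right fun e => ?_
  have k4 : g ∈ normalizer (A : Set S) :=
    mem_normalizer_fintype fun a ha => (le_sup_right.trans e.le) ⟨a, ha, rfl⟩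
  have k5 := normalizer_eq_top_iff.1
    ((hA.le_iff.1 le_normalizer).resolve_right fun e => g2 (e ▸ k4))
  rcases IsSimpleGroup.eq_bot_or_eq_top_of_normal A k5 with e | e
  · rw [e, le_bot_iff] at h
    rw [h, card_bot] at hT
    exact absurd hT (Nat.one_lt_two_pow (by omega)).ne
  · exact hA.1 e

theorem gd_om (h1 : SP1) (h2 : SP2) (h3 : SP3) (h4 : OM1) (h5 : OM2) : Gd Om := by
  obtain ⟨T, hT, h1⟩ := h1
  obtain ⟨x, x7, x1, h2⟩ := h2
  obtain ⟨A, hA, ⟨e⟩⟩ := h4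
  obtain ⟨a1, a2, a3, a4⟩ := h5
  have : Finite Om := Nat.finite_of_card_ne_zero (by omega)
  let ι : Sp →* Om := A.subtype.comp e.symm.toMonoidHom
  have i1 : Function.Injective ι := A.subtype_injective.comp e.symm.injective
  have i2 : map ι ⊤ = A := by
    rw [← map_map, map_top_of_surjective _ e.symm.surjective, ← MonoidHom.range_eq_map,
      range_subtype]
  have y7 : ι x ^ 7 = 1 := by rw [← map_pow, x7, map_one]
  have y1 : ι x ≠ 1 := fun e => x1 (i1 (e.trans ι.map_one.symm))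
  refine ⟨center_bot (by omega), a3, ι x, y7, y1, a4 _ y7 y1, fun c f fi =>
    ⟨?_, Or.inr (h2 c (f.comp ι) (fi.comp i1))⟩⟩
  obtain ⟨g, g1, g2⟩ := ex_conj hA (T := T.map ι) (i2 ▸ map_mono le_top) (n := 8)
    ((card_map_of_injective i1).trans hT) (by omega)
    (by rw [Nat.card_congr e.toEquiv, h3.2.1]; decide)
  have b1 := Cx.dm_sup (c := c) (f := f) (i2 ▸ map_mono le_top : T.map ι ≤ A) g1
  have b2 := h1 c (f.comp ι) (fi.comp i1)
  rw [← Cx.dm_map, ← Cx.dm_map, i2] at b2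
  rw [g2, Cx.dm_conj] at b1
  omega

end H8.E8
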