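import Cfsg.Agent.H8.E8N
import Cfsg.Agent.H22.E8C

/-! `Sp₆(2)` in `E₈(3)`: the trace of elements of order seven. -/

set_option autoImplicit false

open Cfsg H0.BC Subgroup Matrix

namespace H8.E8

theorem frob (c : Cx) {S : Type*} [Group S] [Finite S] {f : S →* E83}
    (hf : Function.Injective f) {Q : Subgroup S} {x : S} (hQ : Nat.card Q = 64)
    (h2 : ∀ q ∈ Q, q ^ 2 = 1) (x7 : x ^ 7 = 1) (x1 : x ≠ 1) (hn : ∀ q ∈ Q, x * q * x⁻¹ ∈ Q)
    (hp : ∀ q ∈ Q, x * q = q * x → q = 1) : c.β (f x) ≠ 52 := fun hb => by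
  classical
  have : Fact (Nat.Prime 7) := ⟨by norm_num⟩
  have o := orderOf_eq_prime x7 x1
  have hk : ∀ k : ℕ, ∀ q ∈ Q, x ^ k * q * (x ^ k)⁻¹ ∈ Q := fun k => by
    induction k with
    | zero => simp
    | succ k ih => intro q hq; simpa [pow_succ', mul_assoc] using hn _ (ih q hq)
  have ex : ∀ k : Fin 7, k ≠ 0 → ∃ m : ℕ, (x ^ k.1) ^ m = x := fun k k0 =>
    exists_pow_eq_self_of_coprime (by rw [o]; revert k; decide)
  have cj : ∀ k : Fin 7, k ≠ 0 → ∀ q : Q, ∃ r : S, q.1 * x ^ k.1 = r * x ^ k.1 * r⁻¹ := by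
    intro k k0 q
    obtain ⟨m, hm⟩ := ex k k0
    obtain ⟨r, hr⟩ := Finite.surjective_of_injective (f := fun r : Q =>
      (⟨r.1 * (x ^ k.1 * r.1⁻¹ * (x ^ k.1)⁻¹), mul_mem r.2 (hk _ _ (inv_mem r.2))⟩ : Q))
      (fun a b e => by
        have e := congrArg Subtype.val e
        have e1 : Commute (x ^ k.1) (a.1⁻¹ * b.1) := by
          have : b.1 = a.1 * (x ^ k.1 * a.1⁻¹ * (x ^ k.1)⁻¹) * (x ^ k.1 * b.1 * (x ^ k.1)⁻¹) := by
            simp only at e
            rw [e]; group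
          rw [Commute, SemiconjBy]
          conv_rhs => rw [this]
          group
        have := hp _ (mul_mem (inv_mem a.2) b.2) (hm ▸ (e1.pow_left m).eq)
        exact Subtype.ext (inv_mul_eq_one.1 this)) q
    exact ⟨r.1, by rw [← hr]; simp [mul_assoc]⟩
  let B : Subgroup S :=
    { carrier := {g | ∃ k : ℕ, ∃ q ∈ Q, g = q * x ^ k}
      one_mem' := ⟨0, 1, one_mem _, by simp⟩
      mul_mem' := by
        rintro _ _ ⟨k, q, hq, rfl⟩ ⟨l, r, hr, rfl⟩
        exact ⟨k + l, _, mul_mem hq (hk k r hr), by rw [pow_add]; group⟩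
      inv_mem' := by
        rintro _ ⟨k, q, hq, rfl⟩
        refine ⟨6 * k, _, hk (6 * k) _ (inv_mem hq), ?_⟩
        have : (x ^ k)⁻¹ = x ^ (6 * k) := by
          rw [inv_eq_iff_mul_eq_one, ← pow_add, show k + 6 * k = 7 * k by ring, pow_mul, x7, one_pow]
        rw [_root_.mul_inv_rev, this]; group }
  have x0 : ∀ k : Fin 7, x ^ k.1 ∈ Q → k = 0 := fun k h => by_contra fun k0 => by
    obtain ⟨m, hm⟩ := ex k k0
    exact x1 (hp x (hm ▸ pow_mem h m) rfl)
  have bj : Function.Bijective fun p : Q × Fin 7 => (⟨p.1.1 * x ^ p.2.1, _, _, p.1.2, rfl⟩ : B) := by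
    refine ⟨fun ⟨a, k⟩ ⟨b, l⟩ e => ?_, ?_⟩
    · have e : a.1 * x ^ k.1 = b.1 * x ^ l.1 := congrArg Subtype.val e
      have e2 : x ^ (k - l).1 = a.1⁻¹ * b.1 := by
        have : x ^ (k - l).1 * x ^ l.1 = x ^ k.1 := by
          rw [← pow_add, pow_eq_pow_iff_modEq, o]
          exact (by decide : ∀ k l : Fin 7, (k - l).1 + l.1 ≡ k.1 [MOD 7]) k l
        rw [← mul_left_inj (x ^ l.1), this, mul_assoc, ← e]; group
      obtain rfl := sub_eq_zero.1 (x0 _ (e2 ▸ mul_mem (inv_mem a.2) b.2))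
      rw [Subtype.ext (mul_right_cancel e)]
    · rintro ⟨_, k, q, hq, rfl⟩
      refine ⟨(⟨q, hq⟩, ⟨k % 7, Nat.mod_lt _ (by norm_num)⟩), Subtype.ext ?_⟩
      simp only [← o, pow_mod_orderOf]
  have := Fintype.ofFinite Q
  have := Fintype.ofFinite B
  have cB : Nat.card B = 448 := by rw [← Nat.card_eq_of_bijective _ bj, Nat.card_prod, hQ]; simp
  have s1 := Cx.sum_eq (c := c) (f := f) Q (by rw [hQ]; decide)
  have s2 := Cx.sum_eq (c := c) (f := f) B (by rw [cB]; decide)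
  have le : c.dm f B ≤ c.dm f Q := Cx.dm_anti fun q hq => ⟨0, q, hq, by simp⟩
  obtain ⟨d, -, hd⟩ := c.h.unif c.hM (l := 7) (by norm_num) (by norm_num) (by decide) (s := f x)
    (by rw [← map_pow, x7, map_one])
  have v : ∀ k : Fin 7, k ≠ 0 → ∑ q : Q, c.β (f (q.1 * x ^ k.1)) = 64 * 52 := fun k k0 => by
    rw [Finset.sum_congr rfl fun q _ => show c.β (f (q.1 * x ^ k.1)) = 52 from ?_]
    · simp [← Nat.card_eq_fintype_card, hQ]
    obtain ⟨r, hr⟩ := cj k k0 q
    rw [hr, map_mul, map_mul, map_inv, c.h.cl, map_pow, hd k.1 ((by decide : ∀ k : Fin 7, k ≠ 0 → ¬ 7 ∣ k.1) k k0), ← hb,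
      ← hd 1 (by decide), pow_one]
  rw [← Fintype.sum_bijective _ bj (fun p => c.β (f (p.1.1 * x ^ p.2.1))) _ fun _ => rfl,
    Fintype.sum_prod_type_right, Fin.sum_univ_seven, v 1 (by decide), v 2 (by decide),
    v 3 (by decide), v 4 (by decide), v 5 (by decide), v 6 (by decide), cB] at s2
  simp only [Fin.val_zero, pow_zero, mul_one] at s2
  have s3 : (∑ q : Q, c.β (f q)).re ≤ ∑ q : Q, (24 + if q = 1 then 224 else 0 : ℝ) := by
    rw [Complex.re_sum]
    refine Finset.sum_le_sum fun q _ => ?_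
    split_ifs with h
    · rw [h, OneMemClass.coe_one, map_one, c.b1]; norm_num
    · rcases c.b2 (x := f q) (by rw [← map_pow, h2 _ q.2, map_one])
        (fun e => h (Subtype.ext (hf (e.trans f.map_one.symm)))) with e | e <;> rw [e] <;> norm_num
  rw [Finset.sum_add_distrib, Finset.sum_ite_eq', Finset.sum_const, Finset.card_univ,
    ← Nat.card_eq_fintype_card, s1, hQ] at s3
  rw [s1, hQ] at s2
  simp only [Finset.mem_univ, if_true] at s3
  norm_num at s3
  norm_cast at s2 s3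
  omega

/-- symmetric matrices -/
def sy (v : Fin 6 → ZMod 2) : Matrix (Fin 3) (Fin 3) (ZMod 2) :=
  fun i j => v (!![0, 3, 4; 3, 1, 5; 4, 5, 2] i j)

/-- the unipotent radical of the Siegel parabolic -/
def sg : Multiplicative (Fin 6 → ZMod 2) →* Sp where
  toFun v := ⟨fromBlocks 1 (sy v.toAdd) 0 1, SymplecticGroup.fromBlocks_mem_iff.2
      ⟨by simp, by ext i j; fin_cases i <;> fin_cases j <;> simp [sy], by simp⟩⟩
  map_one' := Subtype.ext (by decide +kernel)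
  map_mul' a b := Subtype.ext (by
    have : sy (a * b).toAdd = sy b.toAdd + sy a.toAdd := by ext i j; exact add_comm _ _
    simp only [Submonoid.coe_mul, fromBlocks_multiply, this]
    simp)

theorem sp2 : SP2 := by
  have a1 : ∀ v, sg v = 1 → v = 1 := by decide +kernel
  have a2 : ∀ v, sg v ^ 2 = 1 := fun v => by
    rw [← map_pow, show v ^ 2 = 1 by revert v; decide +kernel, map_one]
  have a3 : ∀ v, ∃ w, H22.E8.x6 * sg v = sg w * H22.E8.x6 := by decide +kernel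
  have a4 : ∀ v, H22.E8.x6 * sg v = sg v * H22.E8.x6 → sg v = 1 := by decide +kernel
  have a5 : H22.E8.x6 ^ 7 = 1 := by decide +kernel
  have a6 : H22.E8.x6 ≠ 1 := by decide +kernel
  refine ⟨_, a5, a6, fun c f fi => frob c fi (Q := sg.range) ?_ ?_ a5 a6 ?_ ?_⟩
  · rw [← Nat.card_congr (MonoidHom.ofInjective ((injective_iff_map_eq_one sg).2 a1)).toEquiv]
    simp
  · rintro _ ⟨v, rfl⟩; exact a2 v
  · rintro _ ⟨v, rfl⟩
    obtain ⟨w, hw⟩ := a3 v
    exact ⟨w, by rw [hw]; simp⟩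
  · rintro _ ⟨v, rfl⟩; exact a4 v

end H8.E8
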