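/-
Kernels of two sign characters in a wreath product of dihedral-like groups.
-/
import Cfsg.Agent.H8.EAWr
import Cfsg.Agent.H12.OmegaFin

set_option autoImplicit false
set_option linter.unusedSectionVars false
set_option linter.style.haveILetI false

open Cfsg Subgroup

namespace H8
open H19 SemidirectProduct Equiv

theorem sg_of_sup' {G : Type*} [Group G] [Finite G] {p : ℕ} {B S A : Subgroup G} [B.Normal]
    (h : B ⊔ S = ⊤) (hA : S ≤ A) (hB : SG p (B ⊓ A)) (hS : SG p S) : SG p A := by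
  have hn : S ≤ N(B) := by rw [normalizer_eq_top]; exact le_top
  have e := sup_inf_modr hn hA
  rw [h, top_inf_eq] at e
  rw [e]
  exact hB.sup hS (norms_inf hn (norms_of_le hA))

theorem units_neg_ne : (-1 : ℤˣ) ≠ 1 := by decide

theorem ea_ker2 {G : Type*} [Group G] (α β : G →* ℤˣ) {X : Set G} (hX : closure X = ⊤) {a b : G}
    (ha : a * a = 1) (ha1 : α a = -1) (ha2 : β a = 1) (hb : b * b = 1) (hb1 : α b = -1)
    (hb2 : β b = -1) (hab : Commute a b)
    (h : ∀ x ∈ X, x * x = 1 ∧ α x = -1 ∧ ∃ z, z * z = 1 ∧ α z = -1 ∧ β z = β x ∧ Commute x z ∧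
      ((β z = 1 ∧ Commute z a) ∨ (β z = -1 ∧ Commute z b))) :
    EA 2 (α.ker ⊓ β.ker) := by
  set A := α.ker ⊓ β.ker with hA
  have hm : ∀ y, y ∈ A ↔ α y = 1 ∧ β y = 1 := fun y => Iff.rfl
  let J := closure {x | x ∈ A ∧ x ^ 2 = 1}
  have hJA : J ≤ A := (closure_le _).2 fun _ hx => hx.1
  haveI : J.Normal := by
    refine ⟨fun n hn g => ?_⟩
    have : J.map (MulAut.conj g).toMonoidHom ≤ J := by
      rw [MonoidHom.map_closure]
      refine closure_mono ?_
      rintro _ ⟨x, hx, rfl⟩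
      refine ⟨Normal.conj_mem inferInstance x hx.1 g, ?_⟩
      rw [← map_pow, hx.2, map_one]
    exact this (mem_map_of_mem _ hn)
  have key : ∀ x z : G, x * x = 1 → z * z = 1 → Commute x z → α x = -1 → α z = -1 → β z = β x →
      x * z ∈ J := by
    intro x z h1 h2 h3 h4 h5 h6
    refine subset_closure ⟨by simp [hm, h4, h5, h6], ?_⟩
    rw [h3.mul_pow, sq, sq, h1, h2, one_mul]
  let V := (H12.signHom a ha).range ⊔ (H12.signHom b hb).range
  have haV : a ∈ V := mem_sup_left ⟨-1, H12.signHom_neg_one a ha⟩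
  have hbV : b ∈ V := mem_sup_right ⟨-1, H12.signHom_neg_one b hb⟩
  have e1 : J ⊔ V = ⊤ := by
    rw [eq_top_iff, ← hX, closure_le]
    intro x hx
    obtain ⟨h1, h2, z, h3, h4, h5, h6, h7⟩ := h x hx
    have hc : ∀ c ∈ V, c * c = 1 → α c = -1 → β c = β z → Commute z c → x ∈ J ⊔ V := by
      intro c hc c1 c2 c3 c4
      have : x = (x * z) * (z * c) * c := by
        rw [mul_assoc, mul_assoc z c, c1, mul_one, mul_assoc, h3, mul_one]
      rw [this]
      exact mul_mem (mem_sup_left (mul_mem (key x z h1 h3 h6 h2 h4 h5) (key z c h3 c1 c4 h4 c2 c3)))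
        (mem_sup_right hc)
    rcases h7 with ⟨h7, h8⟩ | ⟨h7, h8⟩
    · exact hc a haV ha ha1 (ha2.trans h7.symm) h8
    · exact hc b hbV hb hb1 (hb2.trans h7.symm) h8
  have e2 : V ⊓ A = ⊥ := by
    rw [eq_bot_iff]
    rintro x ⟨hx, hx'⟩
    have hn : (H12.signHom b hb).range ≤ N((H12.signHom a ha).range) := by
      refine norms_of_cents ?_
      rintro _ ⟨u, rfl⟩
      rw [mem_cent]
      rintro _ ⟨v, rfl⟩
      rcases Int.units_eq_one_or u with rfl | rfl <;> rcases Int.units_eq_one_or v with rfl | rfl <;>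
        simp [H12.signHom_neg_one, hab.eq]
    obtain ⟨_, ⟨u, rfl⟩, _, ⟨v, rfl⟩, rfl⟩ := (mem_sup_of_norm hn).1 hx
    have hx2 := (hm _).1 hx'
    rcases Int.units_eq_one_or u with rfl | rfl <;> rcases Int.units_eq_one_or v with rfl | rfl <;>
      simp [H12.signHom_neg_one, ha1, ha2, hb1, hb2, units_neg_ne] at hx2 ⊢
  have e3 := sup_inf_modl (A := J) (B := V) (by rw [normalizer_eq_top]; exact le_top) hJA
  rw [e1, e2, top_inf_eq, sup_bot_eq] at e3
  exact EA.of_gen_one e3.le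

theorem commute_mulSingle {D ι : Type*} [Group D] [DecidableEq ι] (i j : ι) (x : D) :
    Commute (Pi.mulSingle i x : ι → D) (Pi.mulSingle j x) := by
  by_cases h : i = j
  · rw [h]
  · exact Pi.mulSingle_commute (f := fun _ => D) h x x

theorem ea_base {D E ι : Type*} [Group D] [Group E] [Finite ι] [DecidableEq ι] [Nontrivial ι]
    (α β : (ι → D) × E →* ℤˣ) (d s : D →* ℤˣ) (hα : ∀ i x, α (Pi.mulSingle i x, 1) = d x)
    (hβ : ∀ i x, β (Pi.mulSingle i x, 1) = s x) (hd : ∀ x, d x = -1 → x * x = 1)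
    (hs : Function.Surjective (d.prod s)) {Y : Set E} (hY : closure Y = ⊤)
    (hY' : ∀ y ∈ Y, y * y = 1 ∧ α (1, y) = -1) : EA 2 (α.ker ⊓ β.ker) := by
  obtain ⟨a, ha⟩ := hs (-1, 1)
  obtain ⟨b, hb⟩ := hs (-1, -1)
  obtain ⟨ha1, ha2⟩ : d a = -1 ∧ s a = 1 := Prod.ext_iff.1 ha
  obtain ⟨hb1, hb2⟩ : d b = -1 ∧ s b = -1 := Prod.ext_iff.1 hb
  obtain ⟨i0, i1, h01⟩ := exists_pair_ne ι
  let σ : ι → D → (ι → D) × E := fun i x => (Pi.mulSingle i x, 1)
  have hσ : ∀ i x, d x = -1 → σ i x * σ i x = 1 := fun i x hx => by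
    simp only [σ, Prod.mk_mul_mk, ← Pi.mulSingle_mul, hd x hx, Pi.mulSingle_one, one_mul]; rfl
  have hc : ∀ i j x, Commute (σ i x) (σ j x) := fun i j x =>
    Prod.ext (commute_mulSingle i j x).eq rfl
  have hc' : ∀ i j x y, i ≠ j → Commute (σ i x) (σ j y) := fun i j x y h =>
    Prod.ext (Pi.mulSingle_commute (f := fun _ => D) h x y).eq rfl
  refine ea_ker2 α β (X := {g | ∃ i x, d x = -1 ∧ g = σ i x} ∪ {g | ∃ y ∈ Y, g = (1, y)})
    (a := σ i0 a) (b := σ i1 b) ?_ (hσ _ _ ha1) ((hα _ _).trans ha1) ((hβ _ _).trans ha2)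
    (hσ _ _ hb1) ((hα _ _).trans hb1) ((hβ _ _).trans hb2) (hc' _ _ _ _ h01) ?_
  · refine eq_top_iff.2 fun g _ => ?_
    have e : g = MonoidHom.inl _ E g.1 * MonoidHom.inr (ι → D) _ g.2 := by simp
    rw [e]
    refine mul_mem ?_ ?_
    · rw [← mem_comap]
      refine pi_mem_of_mulSingle_mem _ fun i => ?_
      rcases Int.units_eq_one_or (d (g.1 i)) with h | h
      · have : g.1 i = (g.1 i * a) * a := by rw [mul_assoc, hd a ha1, mul_one]
        rw [this, Pi.mulSingle_mul]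
        exact mul_mem (subset_closure (Or.inl ⟨i, _, by simp [h, ha1], rfl⟩))
          (subset_closure (Or.inl ⟨i, _, ha1, rfl⟩))
      · exact subset_closure (Or.inl ⟨i, _, h, rfl⟩)
    · rw [← mem_comap]
      refine (closure_le _).2 (fun y hy => ?_) (hY ▸ mem_top g.2)
      exact subset_closure (Or.inr ⟨y, hy, rfl⟩)
  · rintro _ (⟨i, x, hx, rfl⟩ | ⟨y, hy, rfl⟩)
    · refine ⟨hσ i x hx, (hα _ _).trans hx, ?_⟩
      obtain ⟨j, hj⟩ := exists_ne i
      rcases Int.units_eq_one_or (s x) with h | h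
      · exact ⟨σ j a, hσ _ _ ha1, (hα _ _).trans ha1, by rw [hβ, hβ, h, ha2], hc' _ _ _ _ hj.symm,
          Or.inl ⟨(hβ _ _).trans ha2, hc _ _ _⟩⟩
      · exact ⟨σ j b, hσ _ _ hb1, (hα _ _).trans hb1, by rw [hβ, hβ, h, hb2], hc' _ _ _ _ hj.symm,
          Or.inr ⟨(hβ _ _).trans hb2, hc _ _ _⟩⟩
    · refine ⟨Prod.ext (one_mul _) (hY' y hy).1, (hY' y hy).2, ?_⟩
      rcases Int.units_eq_one_or (β (1, y)) with h | h
      · exact ⟨σ i0 a, hσ _ _ ha1, (hα _ _).trans ha1, by rw [hβ, h, ha2], Prod.ext (by simp) (by simp [σ]),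
          Or.inl ⟨(hβ _ _).trans ha2, Commute.refl _⟩⟩
      · exact ⟨σ i1 b, hσ _ _ hb1, (hα _ _).trans hb1, by rw [hβ, h, hb2], Prod.ext (by simp) (by simp [σ]),
          Or.inr ⟨(hβ _ _).trans hb2, Commute.refl _⟩⟩

theorem sg_wr_ker2 {D E ι : Type*} [Group D] [Group E] [Finite D] [Finite E] [Finite ι]
    [DecidableEq ι] [Nontrivial ι] (hD : IsPGroup 2 D) (hE : IsPGroup 2 E)
    (α β : Wr D ι × E →* ℤˣ) (d s : D →* ℤˣ) (hα : ∀ i x, α (inl (Pi.mulSingle i x), 1) = d x)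
    (hβ : ∀ i x, β (inl (Pi.mulSingle i x), 1) = s x) (hd : ∀ x, d x = -1 → x * x = 1)
    (hs : Function.Surjective (d.prod s)) {Y : Set E} (hY : closure Y = ⊤)
    (hY' : ∀ y ∈ Y, y * y = 1 ∧ α (1, y) = -1) (hα' : ∀ π, α (inr π, 1) = 1)
    (hβ' : ∀ π, β (inr π, 1) = 1) : SG 2 (α.ker ⊓ β.ker) := by
  let j : (ι → D) × E →* Wr D ι × E := (inl : (ι → D) →* Wr D ι).prodMap (MonoidHom.id E)
  have hj : j.range = (rightHom.comp (MonoidHom.fst (Wr D ι) E)).ker := by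
    ext g
    constructor
    · rintro ⟨x, rfl⟩
      simp [j, MonoidHom.mem_ker]
    · intro hg
      refine ⟨(g.1.left, g.2), Prod.ext ?_ rfl⟩
      exact SemidirectProduct.ext rfl (Eq.symm hg)
  haveI : j.range.Normal := by rw [hj]; infer_instance
  refine sg_of_sup' (B := j.range) (S := ((MonoidHom.inl _ E).comp inr).range) ?_ ?_ ?_
    ((sg_perm Nat.prime_two ι).range _)
  · refine eq_top_iff.2 fun g _ => ?_
    have : g = j (g.1.left, g.2) * (MonoidHom.inl _ E).comp inr g.1.right := by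
      simp [j]
    rw [this]
    exact mul_mem (mem_sup_left ⟨_, rfl⟩) (mem_sup_right ⟨_, rfl⟩)
  · rintro _ ⟨π, rfl⟩
    exact ⟨hα' π, hβ' π⟩
  · rw [← map_comap_eq]
    refine SG.map (EA.sg ?_ ?_) j
    · obtain ⟨k, hk⟩ := IsPGroup.iff_card.1 hD
      obtain ⟨l, hl⟩ := IsPGroup.iff_card.1 hE
      refine PiN.dvd (PiN.prime_pow Nat.prime_two (k * Nat.card ι + l)) ?_
      refine (card_subgroup_dvd_card _).trans ?_
      rw [Nat.card_prod, Nat.card_fun, hk, hl, pow_add, pow_mul]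
    · rw [comap_inf, MonoidHom.comap_ker, MonoidHom.comap_ker]
      exact ea_base _ _ d s hα hβ hd hs hY hY'

end H8
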