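/-
Sylow 2-subgroups of the groups `Ω` in odd characteristic: the diagonal model.
-/
import Cfsg.Agent.H8.EAOm1
import Cfsg.Agent.H8.EAMat
import Cfsg.Agent.H12.OmegaExt
import Cfsg.Agent.H12.OmegaMore
import Cfsg.Agent.H12.ClassifyQuad
import Cfsg.Agent.H11.OmegaBridge

set_option autoImplicit false
set_option linter.unusedSectionVars false
set_option linter.style.haveILetI false

open Cfsg Subgroup

namespace H8
open H19 SemidirectProduct Equiv QuadraticMap Module
open H12 (orth QNondeg CForm refl dickson spinor qsign NotExc mem_orth orth_ext orth_Q)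
open scoped Nat

variable {F : Type*} [Field F]

section WS
variable {I : Type*} [Fintype I] [DecidableEq I]

/-- A diagonal quadratic form. -/
abbrev ws (w : I → F) : QuadraticForm F (I → F) := weightedSumSquares F w

theorem ws_apply (w v : I → F) : ws w v = ∑ i, w i * (v i * v i) := by
  simp [weightedSumSquares_apply]

theorem polar_ws (w u v : I → F) : polar (ws w) u v = ∑ i, 2 * w i * (u i * v i) := by
  simp only [polar, ws_apply, Pi.add_apply, ← Finset.sum_sub_distrib]
  exact Finset.sum_congr rfl fun i _ => by ring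

theorem polar_ws_single (w v : I → F) (i : I) : polar (ws w) (Pi.single i 1) v = 2 * w i * v i := by
  rw [polar_ws, Finset.sum_eq_single i] <;> simp +contextual [Pi.single_apply]

theorem ws_single (w : I → F) (i : I) : ws w (Pi.single i 1) = w i := by
  rw [ws_apply, Finset.sum_eq_single i] <;> simp +contextual [Pi.single_apply]

theorem ws_nondeg (h2 : (2 : F) ≠ 0) {w : I → F} (hw : ∀ i, w i ≠ 0) : QNondeg (ws w) := by
  intro x hx
  funext i
  have := hx (Pi.single i 1)
  rw [CForm.ofQuad_B, polar_comm, polar_ws_single] at this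
  simpa [h2, hw i] using this

theorem ws_hasTS [Finite F] (h2 : (2 : F) ≠ 0) {w : I → F} (hw : ∀ i, w i ≠ 0) {m : ℕ}
    (hm : Fintype.card I = 2 * m) :
    (CForm.ofQuad (ws w)).HasTS m ↔ IsSquare ((-1) ^ m * ∏ i, w i) := by
  rw [H12.quad_hasTS_iff_disc h2 (ws_nondeg h2 hw) (by simp [hm]) (Pi.basisFun F I),
    H12.det_gram_of_orth, hm]
  · simp only [Pi.basisFun_apply, CForm.ofQuad_N, ws_single]
    have h0 : (2 : F) ^ m ≠ 0 := pow_ne_zero _ h2
    constructor
    · rintro ⟨r, hr⟩
      refine ⟨r / 2 ^ m, ?_⟩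
      field_simp
      rw [sq r, ← hr]; ring
    · rintro ⟨r, hr⟩
      refine ⟨r * 2 ^ m, ?_⟩
      rw [mul_left_comm, hr]; ring
  · intro i j hij
    simp [polar_ws_single, Pi.single_apply, hij]

end WS

theorem notExc_of_two (h2 : (2 : F) ≠ 0) (V : Type*) [AddCommGroup V] [Module F V] :
    NotExc F V :=
  Or.inl ⟨-1, by simp, fun h => h2 (by linear_combination -h)⟩

/-- The sum of two squares. -/
abbrev qU (F : Type*) [Field F] : QuadraticForm F (Fin 2 → F) := ws fun _ => 1

variable {ι κ : Type*} [Fintype ι] [DecidableEq ι] [Fintype κ] [DecidableEq κ]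

/-- The model form: planes with the sum of two squares, and a diagonal part. -/
abbrev qM (ι : Type*) [Fintype ι] (w : κ → F) : QuadraticForm F ((Fin 2 × ι) ⊕ κ → F) :=
  ws (Sum.elim (fun _ => 1) w)

/-- The block of a vector. -/
def omBlk (v : (Fin 2 × ι) ⊕ κ → F) (i : ι) : Fin 2 → F := fun b => v (.inl (b, i))

theorem qM_apply (w : κ → F) (v : (Fin 2 × ι) ⊕ κ → F) :
    qM ι w v = ∑ i, qU F (omBlk v i) + ∑ j, w j * (v (.inr j) * v (.inr j)) := by
  simp only [ws_apply, Fintype.sum_sum_type, Fintype.sum_prod_type_right, omBlk, Sum.elim_inl,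
    Sum.elim_inr]

/-- The action of the wreath product on the model space. -/
def omAct (g : Wr (orth (qU F)) ι × (κ → ℤˣ)) : ((Fin 2 × ι) ⊕ κ → F) →ₗ[F] ((Fin 2 × ι) ⊕ κ → F) where
  toFun v := Sum.elim (fun x => (g.1.left x.2).1 (omBlk v (g.1.right⁻¹ x.2)) x.1)
    (fun j => ((g.2 j : ℤ) : F) * v (.inr j))
  map_add' u v := by
    funext x
    rcases x with x | j
    · exact congrFun ((g.1.left x.2).1.map_add (omBlk u _) (omBlk v _)) x.1
    · simp [mul_add]
  map_smul' c v := by
    funext x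
    rcases x with x | j
    · exact congrFun ((g.1.left x.2).1.map_smul c (omBlk v _)) x.1
    · simp [mul_left_comm]

theorem omBlk_omAct (g : Wr (orth (qU F)) ι × (κ → ℤˣ)) (v : (Fin 2 × ι) ⊕ κ → F) (i : ι) :
    omBlk (omAct g v) i = (g.1.left i).1 (omBlk v (g.1.right⁻¹ i)) := rfl

theorem omAct_inr (g : Wr (orth (qU F)) ι × (κ → ℤˣ)) (v : (Fin 2 × ι) ⊕ κ → F) (j : κ) :
    omAct g v (.inr j) = ((g.2 j : ℤ) : F) * v (.inr j) := rfl

theorem omBlk_ext {u v : (Fin 2 × ι) ⊕ κ → F} (h1 : ∀ i, omBlk u i = omBlk v i)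
    (h2 : ∀ j, u (.inr j) = v (.inr j)) : u = v := by
  funext x
  rcases x with ⟨a, i⟩ | j
  · exact congrFun (h1 i) a
  · exact h2 j

theorem omAct_one (v : (Fin 2 × ι) ⊕ κ → F) : omAct 1 v = v :=
  omBlk_ext (fun _ => rfl) fun j => by simp [omAct_inr]

theorem omAct_mul (g h : Wr (orth (qU F)) ι × (κ → ℤˣ)) (v : (Fin 2 × ι) ⊕ κ → F) :
    omAct (g * h) v = omAct g (omAct h v) :=
  omBlk_ext (fun _ => rfl) fun j => by simp [omAct_inr, mul_assoc]

/-- The wreath product inside the orthogonal group of the model form. -/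
def omHom (w : κ → F) : Wr (orth (qU F)) ι × (κ → ℤˣ) →* orth (qM ι w) where
  toFun g := ⟨LinearEquiv.ofLinear (omAct g) (omAct g⁻¹)
      (LinearMap.ext fun v => by simp [← omAct_mul, omAct_one])
      (LinearMap.ext fun v => by simp [← omAct_mul, omAct_one]), mem_orth.2 fun v => by
    change qM ι w (omAct g v) = _
    rw [qM_apply, qM_apply]
    congr 1
    · simp only [omBlk_omAct, orth_Q]
      exact Equiv.sum_comp g.1.right⁻¹ fun i => qU F (omBlk v i)
    · refine Finset.sum_congr rfl fun j _ => ?_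
      rcases Int.units_eq_one_or (g.2 j) with h | h <;> simp [omAct_inr, h]⟩
  map_one' := orth_ext omAct_one
  map_mul' g h := orth_ext (omAct_mul g h)

theorem omHom_apply (w : κ → F) (g : Wr (orth (qU F)) ι × (κ → ℤˣ)) (v : (Fin 2 × ι) ⊕ κ → F) :
    (omHom w g).1 v = omAct g v := rfl

/-- A vector supported in one block. -/
def omEmb (κ : Type*) (i : ι) (u : Fin 2 → F) : (Fin 2 × ι) ⊕ κ → F :=
  Sum.elim (fun x => (Pi.single i u : ι → Fin 2 → F) x.2 x.1) 0

theorem omBlk_emb (i j : ι) (u : Fin 2 → F) : omBlk (omEmb κ i u) j = (Pi.single i u : ι → Fin 2 → F) j := rfl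

theorem omEmb_inr (i : ι) (u : Fin 2 → F) (j : κ) : omEmb κ i u (.inr j) = 0 := rfl

theorem omHom_inj (h2 : (2 : F) ≠ 0) (w : κ → F) : Function.Injective (omHom (ι := ι) w) := by
  rw [injective_iff_map_eq_one]
  intro g hg
  have h : ∀ v : (Fin 2 × ι) ⊕ κ → F, omAct g v = v := fun v => by rw [← omHom_apply w, hg]; rfl
  have h1 : g.1.right⁻¹ = 1 := by
    ext i
    by_contra hi
    have := congrArg (fun v => omBlk v i) (h (omEmb κ i 1))
    simp only [omBlk_omAct, omBlk_emb] at this
    rw [Pi.single_eq_of_ne (show g.1.right⁻¹ i ≠ i from hi)] at this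
    simpa using congrFun this 0
  refine Prod.ext (SemidirectProduct.ext (funext fun i => orth_ext fun u => ?_) (inv_eq_one.1 h1))
    (funext fun j => ?_)
  · have := congrArg (fun v => omBlk v i) (h (omEmb κ i u))
    simpa [omBlk_omAct, omBlk_emb, h1] using this
  · have := congrFun (h 1) (.inr j)
    rcases Int.units_eq_one_or (g.2 j) with e | e
    · exact e
    · exact absurd (by simp [omAct_inr, e] at this; linear_combination -this) h2

theorem qM_emb (w : κ → F) (i : ι) (u : Fin 2 → F) : qM ι w (omEmb κ i u) = qU F u := by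
  rw [qM_apply, Finset.sum_eq_single i] <;> simp +contextual [omBlk_emb, omEmb_inr, Pi.single_apply]

theorem polar_qM_emb (w : κ → F) (i : ι) (u : Fin 2 → F) (v : (Fin 2 × ι) ⊕ κ → F) :
    polar (qM ι w) (omEmb κ i u) v = polar (qU F) u (omBlk v i) := by
  rw [polar_ws, polar_ws, Fintype.sum_sum_type, Fintype.sum_prod_type_right, Finset.sum_eq_single i]
  · simp [omEmb, omBlk]
  · intro j _ hj
    simp [omEmb, Pi.single_eq_of_ne hj]
  · simp

theorem omHom_refl (w : κ → F) (i : ι) (u : Fin 2 → F) :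
    omHom w (inl (Pi.mulSingle i (refl (qU F) u)), 1) = refl _ (omEmb κ i u) := by
  refine orth_ext fun v => omBlk_ext (fun j => ?_) fun j => ?_
  · rw [omHom_apply, omBlk_omAct, H12.refl_apply, qM_emb, polar_qM_emb]
    change _ = omBlk v j - (_ : F) • omBlk (omEmb κ i u) j
    rw [omBlk_emb]
    by_cases h : j = i
    · subst h
      simp [H12.refl_apply]
    · simp [Pi.mulSingle_eq_of_ne h, Pi.single_eq_of_ne h]
  · simp [omHom_apply, omAct_inr, H12.refl_apply, omEmb_inr]

theorem omHom_sign {w : κ → F} (hw : ∀ j, w j ≠ 0) (j : κ) :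
    omHom (ι := ι) w (1, Pi.mulSingle j (-1)) = refl _ (Pi.single (.inr j) 1) := by
  refine orth_ext fun v => omBlk_ext (fun i => ?_) fun k => ?_
  · funext a
    simp [omHom_apply, omBlk_omAct, H12.refl_apply, omBlk]
    rfl
  · rw [omHom_apply, omAct_inr, H12.refl_apply, ws_single, polar_ws_single]
    by_cases h : k = j
    · subst h
      have := hw k
      simp
      field_simp
      ring
    · simp [Pi.mulSingle_eq_of_ne h, h]

theorem omHom_swap (h2 : (2 : F) ≠ 0) (w : κ → F) {i j : ι} (hij : i ≠ j) {A : Type*}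
    [CommMonoid A] (θ : orth (qM ι w) →* A) : ∃ b : Fin 2 → (Fin 2 × ι) ⊕ κ → F,
      (∀ a, qM ι w (b a) = 2) ∧ θ (omHom w (inr (swap i j), 1)) = ∏ a, θ (refl _ (b a)) := by
  let b : Fin 2 → (Fin 2 × ι) ⊕ κ → F := fun a =>
    Pi.single (.inl (a, i)) 1 - Pi.single (.inl (a, j)) 1
  have hp : ∀ a v, polar (qM ι w) (b a) v = 2 * (v (.inl (a, i)) - v (.inl (a, j))) := by
    intro a v
    simp only [b, polar_sub_left, polar_ws_single, Sum.elim_inl]
    ring
  have hb : ∀ a, qM ι w (b a) = 2 := by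
    intro a
    have := H12.polar_self' (qM ι w) (b a)
    rw [hp] at this
    refine (mul_left_cancel₀ h2 (this.symm.trans ?_))
    simp [b, hij, hij.symm, one_add_one_eq_two]
  refine ⟨b, hb, H12.map_negOn h2 b (fun a => by rw [hb]; exact h2) (fun a c hac => ?_) _
    (fun a => ?_) (fun v hv => ?_) θ⟩
  · simp [hp, b, Pi.single_apply, hac]
  · refine omBlk_ext (fun k => ?_) fun k => by simp [omHom_apply, omAct_inr, b]
    funext c
    rw [omHom_apply, omBlk_omAct]
    simp only [left_inr, Pi.one_apply, OneMemClass.coe_one, LinearEquiv.coe_one, id, right_inr,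
      swap_inv, omBlk, b, Pi.sub_apply, Pi.neg_apply, Pi.single_apply, Sum.inl.injEq, Prod.mk.injEq,
      swap_apply_eq_iff, swap_apply_left, swap_apply_right, neg_sub]
  · refine omBlk_ext (fun k => ?_) fun k => by simp [omHom_apply, omAct_inr]
    have e : omBlk v i = omBlk v j := funext fun a => by
      have := hv a
      rw [hp] at this
      exact sub_eq_zero.1 ((mul_eq_zero.1 this).resolve_left h2)
    rw [omHom_apply, omBlk_omAct]
    simp only [left_inr, Pi.one_apply, OneMemClass.coe_one, LinearEquiv.coe_one, id, right_inr,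
      swap_inv, swap_apply_def]
    split_ifs with h h'
    · rw [h, e]
    · rw [h', e]
    · rfl

variable [Fintype F]

open Classical in
theorem fact_orth_even (hF : Odd (Fintype.card F)) {V : Type*} [AddCommGroup V] [Module F V]
    [FiniteDimensional F V] {Q : QuadraticForm F V} (hQ : QNondeg Q) {m : ℕ}
    (hd : finrank F V = 2 * (m + 1)) : (Nat.card (orth Q)).factorization 2 =
      if ((CForm.ofQuad Q).HasTS (m + 1) ↔ Fintype.card F ^ (m + 1) % 4 = 1) then
        (m + 1) * vq (Fintype.card F) 2 + ((m + 1)!).factorization 2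
      else 2 + m * vq (Fintype.card F) 2 + (m !).factorization 2 := by
  have h1 : 1 < Fintype.card F := Fintype.one_lt_card
  have h2 : 1 < Fintype.card F ^ (m + 1) := Nat.one_lt_pow (by omega) h1
  have hp : ∏ i ∈ Finset.range m, (Fintype.card F ^ (2 * (i + 1)) - 1) ≠ 0 :=
    Finset.prod_ne_zero_iff.2 fun i _ => pow_sub_one_ne h1 (by omega)
  have e1 := vq_two h2
  have e2 := vq_even h1 hF (i := m + 1) (by omega)
  have e3 : vq (Fintype.card F ^ (m + 1)) 2 = vq (Fintype.card F) (2 * (m + 1)) := by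
    rw [vq, vq, ← pow_mul, mul_comm]
  rw [e3, e2, show vq (Fintype.card F ^ (m + 1)) 1 = (Fintype.card F ^ (m + 1) - 1).factorization 2
    by rw [vq, pow_one]] at e1
  have h3 : Fintype.card F ^ (m + 1) - 1 ≠ 0 := by omega
  have ho := Nat.odd_iff.1 (hF.pow (n := m + 1))
  rw [fact_factorial_succ, add_one_mul]
  by_cases ht : (CForm.ofQuad Q).HasTS (m + 1)
  · obtain ⟨e⟩ := (H12.quad_iso_qPlus hQ hd ht).isom_equiv
    rw [Nat.card_congr (e.trans (H12.orthEquiv _).symm).toEquiv, H11.coe_qPlus, H11.card_O_plus,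
      fact_mul' (by positivity) hp, fact_mul' (by positivity) (by omega),
      fact_mul' two_ne_zero (by positivity), fact_two_two, fact_two_odd hF.pow,
      fact_prod_even h1 hF]
    split_ifs with h
    · rw [fact_two_eq_one (n := Fintype.card F ^ (m + 1) + 1) (by have := h.1 ht; omega)] at e1
      omega
    · rw [fact_two_eq_one (n := Fintype.card F ^ (m + 1) - 1) (by simp only [ht, true_iff] at h; omega)]
      omega
  · obtain ⟨a, b, hab⟩ := H12.exists_aniso F
    obtain ⟨e⟩ := (H12.quad_iso_qMinus hQ hd ht hab).isom_equiv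
    rw [Nat.card_congr (e.trans (H12.orthEquiv _).symm).toEquiv, H11.coe_qMinus,
      H11.card_O_minus _ hab, fact_mul' (by positivity) hp, fact_mul' (by positivity) (by omega),
      fact_mul' two_ne_zero (by positivity), fact_two_two, fact_two_odd hF.pow,
      fact_prod_even h1 hF]
    split_ifs with h
    · rw [fact_two_eq_one (n := Fintype.card F ^ (m + 1) - 1) (by simp only [ht, false_iff] at h; omega)] at e1
      omega
    · rw [fact_two_eq_one (n := Fintype.card F ^ (m + 1) + 1) (by simp only [ht, false_iff, not_not] at h; omega)]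
      omega

theorem fact_orth_qU (hF : Odd (Fintype.card F)) :
    (Nat.card (orth (qU F))).factorization 2 = vq (Fintype.card F) 2 := by
  have h2 := two_ne_zero_of_odd hF
  rw [fact_orth_even hF (ws_nondeg h2 fun _ => one_ne_zero) (m := 0) (by simp), if_pos]
  · simp
  · rw [ws_hasTS h2 (fun _ => one_ne_zero) (by simp), ← H12.isSquare_neg_one_pow_iff hF]
    simp

theorem sg_omega_model (hF : Odd (Fintype.card F)) [Nontrivial ι] {w : κ → F} (hw : ∀ j, w j ≠ 0)
    (hc : (Nat.card (orth (qM ι w))).factorization 2 ≤ Fintype.card ι * vq (Fintype.card F) 2 +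
      ((Fintype.card ι)!).factorization 2 + Fintype.card κ) :
    SG 2 (commutator (orth (qM ι w))) := by
  classical
  have h2 := two_ne_zero_of_odd hF
  have hU : QNondeg (qU F) := ws_nondeg h2 fun _ => one_ne_zero
  have hQ : QNondeg (qM ι w) := ws_nondeg h2 (by rintro (i | i) <;> simp [hw])
  have nU := notExc_of_two h2 (Fin 2 → F)
  have nQ := notExc_of_two h2 ((Fin 2 × ι) ⊕ κ → F)
  haveI : Finite (orth (qU F)) := Finite.of_injective (fun g x => g.1 x) fun _ _ h =>
    orth_ext (congrFun h)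
  haveI : Finite (orth (qM ι w)) := Finite.of_injective (fun g x => g.1 x) fun _ _ h =>
    orth_ext (congrFun h)
  obtain ⟨D⟩ : Nonempty (Sylow 2 (orth (qU F))) := inferInstance
  let r : Wr (D : Subgroup (orth (qU F))) ι →* Wr (orth (qU F)) ι :=
    SemidirectProduct.map ((D : Subgroup (orth (qU F))).subtype.compLeft ι) (MonoidHom.id _)
      fun _ => rfl
  have hr : Function.Injective r := fun a b h =>
    SemidirectProduct.ext (funext fun i => Subtype.ext (congrFun (congrArg SemidirectProduct.left h) i))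
      (congrArg (SemidirectProduct.right (N := ι → orth (qU F))) h)
  let f := (omHom (ι := ι) w).comp (r.prodMap (MonoidHom.id (κ → ℤˣ)))
  have hf : Function.Injective f :=
    (omHom_inj h2 w).comp (hr.prodMap Function.injective_id)
  have hsingle : ∀ (i : ι) (x : (D : Subgroup (orth (qU F)))), f (inl (Pi.mulSingle i x), 1) =
      ((omHom w).comp ((MonoidHom.inl _ _).comp (inl.comp (MonoidHom.mulSingle
        (fun _ : ι => orth (qU F)) i)))) x := by
    intro i x
    refine congrArg (omHom w) (Prod.ext (SemidirectProduct.ext (funext fun j => ?_) rfl) rfl)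
    change ((Pi.mulSingle i x : ι → (D : Subgroup (orth (qU F)))) j).1 =
      (Pi.mulSingle i x.1 : ι → orth (qU F)) j
    by_cases h : j = i
    · subst h; simp
    · simp [Pi.mulSingle_eq_of_ne h]
  refine SG.comap_inj Nat.prime_two f hf (hc.trans ?_) ?_
  · rw [Nat.card_prod, fact_mul' Nat.card_pos.ne' Nat.card_pos.ne', Wr.fact,
      D.card_eq_multiplicity, fact_orth_qU hF, Nat.card_fun, Nat.card_eq_fintype_card (α := ℤˣ),
      Fintype.card_units_int, Nat.prime_two.factorization_pow, Nat.prime_two.factorization_pow]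
    simp
  rw [H12.commutator_eq_inf hQ nQ, comap_inf, MonoidHom.comap_ker, MonoidHom.comap_ker]
  have hswap : ∀ θ : orth (qM ι w) →* ℤˣ, (∀ u v, qM ι w u = 2 → qM ι w v = 2 →
      θ (refl _ u) = θ (refl _ v)) → ∀ π, θ (f (inr π, 1)) = 1 := by
    intro θ hθ π
    induction π using Perm.swap_induction_on with
    | one => rw [map_one, Prod.mk_one_one, map_one, map_one]
    | swap_mul π i j hij ih =>
      have : ((inr (swap i j * π), 1) : Wr (D : Subgroup (orth (qU F))) ι × (κ → ℤˣ)) =
          (inr (swap i j), 1) * (inr π, 1) := by simp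
      rw [this, map_mul, map_mul, ih, mul_one]
      obtain ⟨b, hb, e⟩ := omHom_swap h2 w hij θ
      refine Eq.trans ?_ (e.trans ?_)
      · exact congrArg (fun g => θ (omHom w g)) (Prod.ext (SemidirectProduct.ext rfl rfl) rfl)
      · rw [Fin.prod_univ_two, hθ _ _ (hb 0) (hb 1), Int.units_mul_self]
  refine sg_wr_ker2 D.isPGroup' (IsPGroup.of_card (n := Fintype.card κ) (by simp)) _ _
    ((dickson (qU F)).comp (Subgroup.subtype _)) ((spinor (qU F)).comp (Subgroup.subtype _))
    (fun i x => ?_) (fun i x => ?_) (fun x hx => ?_) ?_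
    (Y := Set.range fun j => Pi.mulSingle j (-1)) ?_ ?_ (hswap _ fun u v hu hv => ?_)
    (hswap _ fun u v hu hv => ?_)
  · rw [MonoidHom.comp_apply, hsingle, ← MonoidHom.comp_apply]
    refine DFunLike.congr_fun (H12.hom_ext_refl hU nU fun v hv => ?_) _
    simp only [MonoidHom.comp_apply, MonoidHom.inl_apply, MonoidHom.mulSingle_apply, omHom_refl]
    rw [H12.dickson_refl hU nU hv, H12.dickson_refl hQ nQ (by rwa [qM_emb])]
  · rw [MonoidHom.comp_apply, hsingle, ← MonoidHom.comp_apply]
    refine DFunLike.congr_fun (H12.hom_ext_refl hU nU fun v hv => ?_) _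
    simp only [MonoidHom.comp_apply, MonoidHom.inl_apply, MonoidHom.mulSingle_apply, omHom_refl]
    rw [H12.spinor_refl hU nU hv, H12.spinor_refl hQ nQ (by rwa [qM_emb]), qM_emb]
  · obtain ⟨v, -, -, hv⟩ := H12.exists_eq_refl_of_plane hU h2 (P := ⊤)
      (CForm.nondegOn_top _ |>.2 hU) (by simp) x.1 (fun y hy => by
        rw [hU.perp_top, Submodule.mem_bot] at hy
        rw [hy, map_zero]) hx
    exact Subtype.ext (by rw [Subgroup.coe_mul, hv, H12.refl_mul_self]; rfl)
  · have hs := H12.dickson_spinor_surjective hU h2 (by simp)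
    have h3 := (syl_sylow_top D).map ((dickson (qU F)).prod (spinor (qU F)))
    rw [map_top_of_surjective _ hs] at h3
    have h4 := h3.eq_self (PiN.of_card_pow Nat.prime_two (k := 2) (by simp))
    intro y
    obtain ⟨x, hx, rfl⟩ : y ∈ (D : Subgroup (orth (qU F))).map
      ((dickson (qU F)).prod (spinor (qU F))) := h4 ▸ mem_top y
    exact ⟨⟨x, hx⟩, rfl⟩
  · refine eq_top_iff.2 fun y _ => pi_mem_of_mulSingle_mem _ fun j => ?_
    rcases Int.units_eq_one_or (y j) with h | h
    · rw [h, Pi.mulSingle_one]; exact one_mem _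
    · rw [h]; exact subset_closure ⟨j, rfl⟩
  · rintro _ ⟨j, rfl⟩
    refine ⟨by simp [← Pi.mulSingle_mul], ?_⟩
    have : f (1, Pi.mulSingle j (-1)) = refl _ (Pi.single (.inr j) 1) := by
      rw [← omHom_sign hw]; simp [f]
    rw [MonoidHom.comp_apply, this, H12.dickson_refl hQ nQ (by rw [ws_single]; exact hw j)]
  · rw [H12.dickson_refl hQ nQ (hu ▸ h2), H12.dickson_refl hQ nQ (hv ▸ h2)]
  · rw [H12.spinor_refl hQ nQ (hu ▸ h2), H12.spinor_refl hQ nQ (hv ▸ h2), hu, hv]

theorem sg_omega_of_iso (hF : Odd (Fintype.card F)) [Nontrivial ι] {w : κ → F} (hw : ∀ j, w j ≠ 0)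
    {G : Type*} [Group G] [Finite G] (e : G ≃* orth (qM ι w))
    (hc : (Nat.card G).factorization 2 ≤ Fintype.card ι * vq (Fintype.card F) 2 +
      ((Fintype.card ι)!).factorization 2 + Fintype.card κ) :
    SG 2 (⊤ : Subgroup (commutator G)) := by
  haveI : Finite (orth (qM ι w)) := Finite.of_equiv _ e.toEquiv
  rw [Nat.card_congr e.toEquiv] at hc
  exact (sg_top_iff.2 (sg_omega_model hF hw hc)).of_equiv (H11.commutatorCongr e.symm)

theorem sg_omega_odd (hF : Odd (Fintype.card F)) {m : ℕ} (hm : 2 ≤ m) :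
    SG 2 (⊤ : Subgroup (Omega F (quadFormOdd m F))) := by
  classical
  have h2 := two_ne_zero_of_odd hF
  have h1 : 1 < Fintype.card F := Fintype.one_lt_card
  haveI : Nontrivial (Fin m) := Fin.nontrivial_iff_two_le.2 hm
  obtain ⟨c, hc, hi⟩ := H12.quad_iso_qOdd h2 (C := CForm.ofQuad (qM (Fin m) (fun _ : Unit => (1 : F))))
    (ws_nondeg h2 (by rintro (i | i) <;> simp)) (m := m) (by simp)
  obtain ⟨e⟩ := hi.isom_equiv
  have e2 : orth (c • H11.qOdd m F) = orth (H11.qOdd m F) := by ext g; simp [mem_orth, hc]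
  rw [← H11.coe_qOdd]
  refine sg_omega_of_iso hF (ι := Fin m) (w := fun _ : Unit => (1 : F)) (fun _ => one_ne_zero)
    ((H12.orthEquiv (H11.qOdd m F)).trans ((MulEquiv.subgroupCongr e2.symm).trans e.symm)) ?_
  rw [H11.coe_qOdd, H11.card_O_odd h2, fact_mul' (by positivity) (Finset.prod_ne_zero_iff.2 fun i _ =>
    pow_sub_one_ne h1 (by omega)), fact_mul' two_ne_zero (by positivity), fact_two_two,
    fact_two_odd hF.pow, fact_prod_even h1 hF]
  simp [add_comm]

theorem sg_omega_even (hF : Odd (Fintype.card F)) {V : Type*} [AddCommGroup V] [Module F V]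
    [FiniteDimensional F V] {Q : QuadraticForm F V} (hQ : QNondeg Q) {m : ℕ} (hm : 1 ≤ m)
    (hd : finrank F V = 2 * (m + 1))
    (h : ((CForm.ofQuad Q).HasTS (m + 1) ↔ Fintype.card F ^ (m + 1) % 4 = 1) ∨ 2 ≤ m)
    {G : Type*} [Group G] [Finite G] (e : G ≃* orth Q) : SG 2 (⊤ : Subgroup (commutator G)) := by
  classical
  have h2 := two_ne_zero_of_odd hF
  have hc := fact_orth_even hF hQ hd
  rw [← Nat.card_congr e.toEquiv] at hc
  split_ifs at hc with ht
  · haveI : Nontrivial (Fin (m + 1)) := Fin.nontrivial_iff_two_le.2 (by omega)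
    have hw : ∀ i, Sum.elim (fun _ : Fin 2 × Fin (m + 1) => (1 : F)) (fun _ : Empty => 1) i ≠ 0 := by
      rintro (i | i) <;> simp
    obtain ⟨e'⟩ := (H12.quad_even_iso hQ (ws_nondeg h2 hw) hd (by simp) (by
      rw [ht, ws_hasTS h2 hw (by simp), ← H12.isSquare_neg_one_pow_iff hF]
      simp)).isom_equiv
    exact sg_omega_of_iso hF (ι := Fin (m + 1)) (w := fun _ : Empty => (1 : F))
      (fun _ => one_ne_zero) (e.trans e') (by simp [hc])
  · haveI : Nontrivial (Fin m) := Fin.nontrivial_iff_two_le.2 (h.resolve_left ht)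
    obtain ⟨d, hd0, hd1⟩ := H12.exists_nonsquare' h2
    have hw0 : ∀ j, (![1, d] : Fin 2 → F) j ≠ 0 := fun j => by fin_cases j <;> simp [hd0]
    have hw : ∀ i, Sum.elim (fun _ : Fin 2 × Fin m => (1 : F)) ![1, d] i ≠ 0 := by
      rintro (i | i)
      · simp
      · exact hw0 i
    obtain ⟨e'⟩ := (H12.quad_even_iso hQ (ws_nondeg h2 hw) hd (by simp; ring) (by
      rw [ws_hasTS h2 hw (by simp; ring)]
      rw [← H12.isSquare_neg_one_pow_iff hF] at ht
      have h3 : ((-1 : F)) ^ (m + 1) ≠ 0 := by simp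
      simp only [Fintype.prod_sum_type, Sum.elim_inl, Finset.prod_const_one, Sum.elim_inr,
        Fin.prod_univ_two, Matrix.cons_val_zero, Matrix.cons_val_one, one_mul]
      rw [H12.isSquare_mul_iff h3 hd0, H12.qsign_eq_neg_one.2 hd1, H12.qsign_eq_neg_one]
      tauto)).isom_equiv
    exact sg_omega_of_iso hF (ι := Fin m) hw0 (e.trans e') (by simp [hc]; omega)

end H8
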