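import Cfsg.Agent.H6.CD2
import Cfsg.Agent.H6.OW
import Cfsg.Agent.H2.Factor

/-! Fully ramified characters. -/

set_option autoImplicit false
open Cfsg Subgroup

namespace H8
open H20 H19 H6
open scoped ComplexConjugate Classical

universe u
variable {Γ : Type u} [Group Γ] [Finite Γ] {T Z K P S : Subgroup Γ} {θ χ φ μ : Γ → ℂ} {e p : ℕ}

/-- `θ` is fully ramified in `T` -/
structure FR (T Z : Subgroup Γ) (θ : Γ → ℂ) (e : ℕ) : Prop where
  nrm : Z ⊴ T
  irr : θ ∈ Irr Z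
  irr' : (e : ℂ) • θ ∈ Irr T

namespace FR
variable (h : FR T Z θ e)
include h

theorem ne : (e : ℂ) ≠ 0 := by
  intro h0; exact irr_ne_zero h.irr' (by rw [h0, zero_smul])

theorem cinv : CInv T θ := by
  have := (irr_cinv h.irr').smul (e : ℂ)⁻¹
  rwa [smul_smul, inv_mul_cancel₀ h.ne, one_smul] at this

theorem rel_dot (hK : Z ≤ K) (φ : Γ → ℂ) : (Z.relIndex K : ℂ) * dot K θ φ = dot Z θ φ :=
  relIndex_mul_dot_of_supp hK fun _ _ hx => Or.inl (irr_zero h.irr hx)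

theorem sq : e ^ 2 = Z.relIndex T := by
  have h1 := irr_dot_self h.irr'
  have h2 := h.rel_dot h.nrm.le θ
  rw [irr_dot_self h.irr] at h2
  rw [dot_smul_left, dot_smul_right, Complex.conj_natCast] at h1
  have : ((e ^ 2 : ℕ) : ℂ) = Z.relIndex T := by
    push_cast
    linear_combination (-(e : ℂ) ^ 2) * h2 + (Z.relIndex T : ℂ) * h1
  exact_mod_cast this

theorem dot_ne (hK : Z ≤ K) (hφ : φ ∈ ovr K Z θ) : dot K ((e : ℂ) • θ) φ ≠ 0 := by
  rw [dot_smul_left]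
  refine mul_ne_zero h.ne fun h0 => (mem_ovr.1 hφ).2 ?_
  rw [dot_eq_zero_comm, ← h.rel_dot hK, h0, mul_zero]

theorem ovr_eq (hK : K ⊴ T) (hZ : Z ≤ K) (hφ : φ ∈ ovr K Z θ) : ovr K Z θ = orb T φ := by
  ext ψ
  constructor
  · intro hψ
    exact clifford_conj hK h.irr' (mem_ovr.1 hφ).1 (mem_ovr.1 hψ).1 (h.dot_ne hZ hφ)
      (h.dot_ne hZ hψ)
  · intro hψ
    obtain ⟨g, hg, rfl⟩ := mem_orb.1 hψ
    exact ovr_cfj hφ (hK.norm hg) (h.nrm.norm hg) (h.cinv.cfj_eq hg)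

theorem ovr_top : ovr T Z θ = {(e : ℂ) • θ} := by
  have h1 : (e : ℂ) • θ ∈ ovr T Z θ :=
    mem_ovr.2 ⟨h.irr', by rw [dot_smul_left, irr_dot_self h.irr, mul_one]; exact h.ne⟩
  rw [h.ovr_eq (NormalIn.refl T) h.nrm.le h1, orb_of_cinv (irr_cinv h.irr')]

theorem deg_eq : deg ((e : ℂ) • θ) = e * deg θ :=
  deg_eq_of_cast (by rw [Pi.smul_apply, irr_deg h.irr]; simp)

theorem struct (hK : K ⊴ T) (hZ : Z ≤ K) (hφ : φ ∈ ovr K Z θ) :
    ∃ a f : ℕ, dot K ((e : ℂ) • θ) φ = a ∧ a ^ 2 = K.relIndex (inertia T φ) ∧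
      deg φ = f * deg θ ∧ f ^ 2 * (inertia T φ).relIndex T = Z.relIndex K := by
  have hφi := (mem_ovr.1 hφ).1
  obtain ⟨a, ha0, ha⟩ := clifford_nat hK.le (irr_chr h.irr') (irr_chr hφi) (h.dot_ne hZ hφ)
  obtain ⟨f, -, hf⟩ := exists_deg_ratio (h.nrm.of_le hZ hK.le) h.irr hφ
  have h1 := dot_self_clifford hK h.irr' hφi ha ha0.ne'
  have h2 : (K.relIndex T : ℂ) * dot T ((e : ℂ) • θ) ((e : ℂ) • θ) =
      dot K ((e : ℂ) • θ) ((e : ℂ) • θ) :=
    relIndex_mul_dot_of_supp hK.le fun x _ hx => Or.inl (by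
      rw [Pi.smul_apply, irr_zero h.irr fun h' => hx (hZ h'), smul_zero])
  rw [irr_dot_self h.irr', mul_one, h1] at h2
  have h3 : K.relIndex T = a ^ 2 * (inertia T φ).relIndex T := by exact_mod_cast h2
  have h4 := relIndex_mul_relIndex K (inertia T φ) T (le_inertia (irr_cinv hφi) hK.le)
    (inertia_le T φ)
  have ht := relIndex_pos (inertia T φ) T
  have h5 := clifford_deg hK h.irr' hφi ha ha0.ne'
  rw [h.deg_eq, hf, ← mul_assoc] at h5
  have h6 := Nat.eq_of_mul_eq_mul_right (irr_deg_pos h.irr) h5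
  have h7 := relIndex_mul_relIndex Z K T hZ hK.le
  refine ⟨a, f, ha, Nat.eq_of_mul_eq_mul_right ht (by rw [← h3, h4]), hf, ?_⟩
  rw [← h.sq, h6, h3] at h7
  refine Nat.eq_of_mul_eq_mul_right (Nat.mul_pos (pow_pos ha0 2) ht) ?_
  rw [h7]; ring

theorem sylow (hp : p.Prime) (hZ : Z ≤ P) (hP : P ≤ T) (h1 : PiN {p} (Z.relIndex P))
    (h2 : ¬ p ∣ P.relIndex T) : ∃ k, FR P Z θ k := by
  have hn : Z ⊴ P := h.nrm.of_le hZ hP
  obtain ⟨μ, hμ⟩ := exists_ovr hZ h.irr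
  have hμi := (mem_ovr.1 hμ).1
  obtain ⟨k, -, hk⟩ := exists_deg_ratio hn h.irr hμ
  have hres := clifford_inv hn hμi h.irr (h.cinv.mono hP) (mem_ovr.1 hμ).2
  have hd : dot Z μ θ = k := by
    have := congrFun hres 1
    rw [Res_one, Pi.smul_apply, irr_deg hμi, hk, irr_deg h.irr, smul_eq_mul] at this
    push_cast at this
    exact (mul_right_cancel₀ (Nat.cast_ne_zero.2 (irr_deg_pos h.irr).ne') this).symm
  have hd' : dot Z θ μ = k := by rw [← conj_dot, hd, Complex.conj_natCast]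
  obtain ⟨m, hm⟩ := chr_dot_nat (chr_Res (irr_chr h.irr') hP) (irr_chr hμi)
  rw [dot_Res_left, dot_smul_left] at hm
  have h3 := h.rel_dot hZ μ
  have h4 : Z.relIndex P * m = e * k := by
    have : ((Z.relIndex P * m : ℕ) : ℂ) = (e * k : ℕ) := by
      push_cast; rw [← hm, ← hd', ← h3]; ring
    exact_mod_cast this
  have hq := relIndex_pos Z P
  have h5 : Z.relIndex P * m ^ 2 = k ^ 2 * P.relIndex T := by
    refine Nat.eq_of_mul_eq_mul_left hq ?_
    have := relIndex_mul_relIndex Z P T hZ hP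
    rw [← h.sq] at this
    calc _ = (Z.relIndex P * m) ^ 2 := by ring
      _ = e ^ 2 * k ^ 2 := by rw [h4]; ring
      _ = _ := by rw [← this]; ring
  have h6 : Z.relIndex P ∣ k ^ 2 := h1.dvd_of_dvd_mul (PiN.of_not_dvd h2) ⟨_, h5.symm⟩
  have hk0 : 0 < k := by
    have := irr_deg_pos hμi
    rw [hk] at this; exact Nat.pos_of_mul_pos_right this
  have h7 : (Z.relIndex P : ℝ) ≤ (k : ℝ) ^ 2 := by exact_mod_cast Nat.le_of_dvd (pow_pos hk0 2) h6
  have hq' : (Z.relIndex P : ℂ) ≠ 0 := relIndexC_ne Z P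
  have e1 : dot P θ μ = k / Z.relIndex P := by rw [← hd', ← h3]; field_simp
  have e2 : dot P θ θ = 1 / Z.relIndex P := by
    rw [← irr_dot_self h.irr, ← h.rel_dot hZ θ]; field_simp
  have e3 : dot P μ θ = k / Z.relIndex P := by rw [← conj_dot, e1]; simp
  have e4 : dot P (μ - (k : ℂ) • θ) (μ - (k : ℂ) • θ) =
      ((1 - (k : ℝ) ^ 2 / Z.relIndex P : ℝ) : ℂ) := by
    simp only [dot_sub_left, dot_sub_right, dot_smul_left, dot_smul_right, e1, e2, e3,
      irr_dot_self hμi, Complex.conj_natCast]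
    push_cast; ring
  have e5 : μ - (k : ℂ) • θ = 0 := by
    refine eq_zero_of_nrm (L := P) (fun x hx => ?_) ?_
    · rw [Pi.sub_apply, Pi.smul_apply, irr_zero hμi hx, irr_zero h.irr fun h' => hx (hZ h')]; simp
    · rw [nrm_eq_of_dot e4, sub_nonpos, one_le_div (relIndexR_pos Z P)]; exact h7
  exact ⟨k, hn, h.irr, sub_eq_zero.1 e5 ▸ hμi⟩

end FR

theorem FR.of_res [Z.Normal] (hχ : χ ∈ Irr ⊤) (hθ : θ ∈ Irr Z) (he : e ^ 2 = Z.index)
    (hr : ∀ z ∈ Z, χ z = e * θ z) : χ = (e : ℂ) • θ ∧ FR ⊤ Z θ e := by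
  have hq' : (Z.relIndex ⊤ : ℂ) ≠ 0 := relIndexC_ne Z ⊤
  have he' : (Z.relIndex ⊤ : ℂ) = e ^ 2 := by rw [relIndex_top_right, ← he]; simp
  have hrel : ∀ φ, (Z.relIndex ⊤ : ℂ) * dot ⊤ θ φ = dot Z θ φ := fun φ =>
    relIndex_mul_dot_of_supp le_top fun _ _ hx => Or.inl (irr_zero hθ hx)
  have he0 : (e : ℂ) ≠ 0 := fun h0 => hq' (by rw [he', h0]; simp)
  have e0 : dot Z θ χ = e := by
    rw [dot_congr_right (ψ' := (e : ℂ) • θ) fun x hx _ => hr x hx, dot_smul_right,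
      irr_dot_self hθ]; simp
  have e1 : dot ⊤ θ χ = 1 / e := by
    have := hrel χ
    rw [e0, he'] at this
    field_simp
    exact mul_left_cancel₀ he0 (by linear_combination this)
  have e2 : dot ⊤ θ θ = 1 / e ^ 2 := by
    have := hrel θ
    rw [irr_dot_self hθ, he'] at this
    field_simp
    linear_combination this
  have e3 : dot ⊤ χ θ = 1 / e := by rw [← conj_dot, e1]; simp
  have : χ - (e : ℂ) • θ = 0 := by
    refine eq_zero_of_dot_top ?_
    simp only [dot_sub_left, dot_sub_right, dot_smul_left, dot_smul_right, e1, e2, e3,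
      irr_dot_self hχ, Complex.conj_natCast]
    field_simp; ring
  have h := sub_eq_zero.1 this
  exact ⟨h, normalIn_top, hθ, h ▸ hχ⟩

/-- a fully ramified character admits no good element outside `Z` -/
theorem FR.not_good (h : FR T Z θ e) {x : Γ} (hx : x ∈ T) (hg : Good T Z θ x) : x ∈ Z := by
  by_contra hxZ
  have h1 := card_ovr_good h.nrm h.irr h.cinv
  rw [h.ovr_top, Finset.card_singleton] at h1
  have h2 := card_mul_dot T (gw T Z θ) 1
  rw [← h1] at h2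
  let w : Γ → ℕ := fun y => if Good T Z θ y then Z.relIndex (CN T Z y) else 0
  have hw : ∀ y, gw T Z θ y = w y := fun y => by simp only [gw, w]; split_ifs <;> simp
  simp only [hw, Pi.one_apply, map_one, mul_one, Nat.cast_one] at h2
  have h3 : #T = ∑ y ∈ fin (T : Set Γ), w y := by exact_mod_cast h2
  have h4 : ∀ z ∈ Z, w z = Z.relIndex T := by
    intro z hz
    have hg : Good T Z θ z := by
      intro y hy _
      rw [sup_eq_left.2 (zpowers_le.2 hz)]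
      have hle : Z ⊔ zpowers y ≤ T := sup_le h.nrm.le (zpowers_le.2 hy)
      exact exists_ext_of_cyc (h.nrm.of_le le_sup_left hle) h.irr (h.cinv.mono hle) rfl
    have : CN T Z z = T := by
      refine le_antisymm (CN_le _ _ _) fun y hy => ?_
      refine (mem_CN (le_normalizer hz) h.nrm.norm).2 ⟨hy, ?_⟩
      have := Z.mul_mem hz (h.nrm.conj_mem hy (Z.inv_mem hz))
      simpa [mul_assoc] using this
    simp only [w, if_pos hg, this]
  have h5 : ∑ y ∈ insert x (fin (Z : Set Γ)), w y ≤ ∑ y ∈ fin (T : Set Γ), w y := by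
    refine Finset.sum_le_sum_of_subset (Finset.insert_subset (mem_fin.2 hx) ?_)
    exact fin_subset h.nrm.le
  rw [Finset.sum_insert (by simpa using hxZ), sum_fin_congr (g := fun _ => Z.relIndex T) h4,
    sum_sub_const, smul_eq_mul, card_mul_relIndex h.nrm.le, ← h3] at h5
  have : 0 < w x := by simp only [w, if_pos hg]; exact relIndex_pos _ _
  omega

theorem FR.compl (h : FR ⊤ Z θ e) (hp : p.Prime) [K.Normal] (hZ : Z ≤ K) (hS : Syl p S ⊤)
    (hin : ∀ k, FR (Z ⊔ S) Z θ k → ∀ μ ∈ ovr ((Z ⊔ S) ⊓ K) Z θ, inertia (Z ⊔ S) μ ≤ K) :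
    ∃ M, K ≤ M ∧ M.index = K.relIndex S := by
  have hZn : ∀ X : Subgroup Γ, X ≤ N(Z) := fun X => le_top.trans h.nrm.norm
  have hKn : ∀ X : Subgroup Γ, X ≤ N(K) := fun X => le_normalizer_of_normal
  set P := Z ⊔ S with hP
  set Q := P ⊓ K with hQ
  have hPi : ¬ p ∣ P.relIndex ⊤ := fun hd =>
    hS.not_dvd hp (hd.trans (relIndex_dvd_left le_sup_right ⊤))
  obtain ⟨k, hk⟩ := h.sylow hp (le_sup_left : Z ≤ P) le_top
    (by rw [relIndex_sup_of_norm (hZn S)]; exact hS.pi.relIndex Z) hPi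
  have hZQ : Z ≤ Q := le_inf le_sup_left hZ
  have hQP : Q ⊴ P := inf_normal_of_norm' (hKn P)
  obtain ⟨μ, hμ⟩ := exists_ovr hZQ h.irr
  have hμi := (mem_ovr.1 hμ).1
  have hI : inertia P μ = Q :=
    le_antisymm (le_inf (inertia_le _ _) (hin k hk μ hμ)) (le_inertia (irr_cinv hμi) hQP.le)
  have horb : orb N(Q) μ = orb P μ := by
    refine Finset.Subset.antisymm ?_ fun ψ hψ => ?_
    · rw [← hk.ovr_eq hQP hZQ hμ]
      intro ψ hψ
      obtain ⟨g, hg, rfl⟩ := mem_orb.1 hψ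
      exact ovr_cfj hμ hg (hZn ⊤ trivial) (h.cinv.cfj_eq trivial)
    · obtain ⟨g, hg, rfl⟩ := mem_orb.1 hψ
      exact cfj_mem_orb (hQP.norm hg) μ
  set I := inertia N(Q) μ with hIdef
  have hs : I.relIndex N(Q) = K.relIndex S := by
    rw [← card_orb, horb, card_orb, hI, hQ, inf_comm, inf_relIndex_right, hP,
      ← relIndex_sup_of_norm (hKn S), ← relIndex_sup_of_norm (hKn (Z ⊔ S)), ← sup_assoc,
      sup_eq_left.2 hZ]
  have hQI : Q ≤ I := le_inertia (irr_cinv hμi) le_normalizer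
  have hIN : I ≤ N(Q) := inertia_le _ _
  have hle : N(Q) ⊓ K ≤ I := by
    have h1 : I.relIndex (N(Q) ⊓ K) ∣ I.relIndex N(Q) :=
      relIndex_dvd_of_norm' (hIN.trans (inf_normal_of_norm' (hKn _)).norm) hIN inf_le_left
    have h2 : I.relIndex (N(Q) ⊓ K) ∣ P.relIndex ⊤ := by
      refine (relIndex_dvd_left hQI _).trans ((relIndex_dvd_right
        (le_inf le_normalizer inf_le_right) inf_le_right).trans ?_)
      change (P ⊓ K).relIndex K ∣ _
      rw [inf_relIndex_right]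
      exact relIndex_dvd_of_norm' (hKn P) le_top le_top
    rw [← relIndex_eq_one]
    rw [hs] at h1
    exact ((hS.pi.relIndex K).dvd h1).eq_one ((PiN.of_not_dvd hPi).dvd h2)
  have hF : K ⊔ N(Q) = ⊤ := by
    have h1 := (hS.inf_normal (normalIn_top (H := K))).frattini (normalIn_top (H := K))
    rw [eq_top_iff, ← h1]
    refine sup_le_sup_left (inf_le_right.trans ?_) _
    rw [hQ, hP, sup_inf_modl (hZn S) hZ]
    exact norms_sup (hZn _) le_rfl
  refine ⟨K ⊔ I, le_sup_left, ?_⟩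
  rw [← hs, ← relIndex_top_right, ← hF]
  have e1 := relIndex_mul_relIndex K (K ⊔ I) (K ⊔ N(Q)) le_sup_left (sup_le_sup_left hIN _)
  have e2 := relIndex_mul_relIndex (N(Q) ⊓ K) I N(Q) hle hIN
  rw [relIndex_sup_of_norm (hKn _), relIndex_sup_of_norm (hKn _)] at e1
  have e3 : (N(Q) ⊓ K).relIndex I = K.relIndex I := by
    rw [← inf_relIndex_right, inf_right_comm, inf_eq_right.2 hIN, inf_relIndex_left]
  rw [inf_relIndex_left, e3, ← e1] at e2
  exact (Nat.eq_of_mul_eq_mul_left (relIndex_pos _ _) e2).symm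

/-- the complement in the quotient -/
theorem hall_of_index [K.Normal] (hp : p.Prime) (hS : Syl p S ⊤) {M : Subgroup Γ} (h1 : K ≤ M)
    (h2 : M.index = K.relIndex S) :
    #(M.map (QuotientGroup.mk' K)) * #(S.map (QuotientGroup.mk' K)) = Nat.card (Γ ⧸ K) ∧
      IsPiHall {p}ᶜ (M.map (QuotientGroup.mk' K)) := by
  have e1 : (M.map (QuotientGroup.mk' K)).index = #(S.map (QuotientGroup.mk' K)) := by
    rw [index_map_eq _ (QuotientGroup.mk'_surjective K) (by simpa using h1), h2, ← relIndex_ker,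
      QuotientGroup.ker_mk']
  have hS' := hS.map (QuotientGroup.mk' K)
  rw [map_top_of_surjective _ (QuotientGroup.mk'_surjective K)] at hS'
  have e2 := card_mul_index (M.map (QuotientGroup.mk' K))
  rw [e1] at e2
  refine ⟨e2, fun q hq hd hqp => ?_, fun q hq hqp hd => hqp ?_⟩
  · obtain rfl : q = p := hqp
    have e3 := hS'.card_mul
    rw [card_top', ← e2, mul_comm] at e3
    rw [← Nat.eq_of_mul_eq_mul_right (card_pos _) e3] at hd
    exact hS'.not_dvd hq hd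
  · rw [e1] at hd; exact hS'.pi.mem hq hd

theorem FR.compl_of_cyc (h : FR ⊤ Z θ e) (hp : p.Prime) [K.Normal] (hZ : Z ≤ K) (hS : Syl p S ⊤)
    (hc : IsCyclic (S.map (QuotientGroup.mk' K))) : ∃ M, K ≤ M ∧ M.index = K.relIndex S := by
  refine h.compl hp hZ hS fun k hk μ hμ => ?_
  set P := Z ⊔ S with hP
  have hQP : P ⊓ K ⊴ P := inf_normal_of_norm' le_normalizer_of_normal
  have hZQ : Z ≤ P ⊓ K := le_inf le_sup_left hZ
  have hμi := (mem_ovr.1 hμ).1
  have hQI : P ⊓ K ≤ inertia P μ := le_inertia (irr_cinv hμi) hQP.le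
  have hmap : (inertia P μ).map (QuotientGroup.mk' K) ≤ S.map (QuotientGroup.mk' K) := by
    refine (map_mono (inertia_le _ _)).trans ?_
    rw [hP, Subgroup.map_sup, H1.map_mk'_eq_bot_iff.2 hZ, bot_sup_eq]
  have := isCyclic_of_le hmap
  obtain ⟨y, hy⟩ := (Subgroup.isCyclic_iff_exists_zpowers_eq_top _).1 this
  obtain ⟨x, hx, rfl⟩ : y ∈ (inertia P μ).map (QuotientGroup.mk' K) := hy ▸ mem_zpowers y
  have hx' : (P ⊓ K) ⊔ zpowers x = inertia P μ := by
    refine le_antisymm (sup_le hQI (zpowers_le.2 hx)) fun g hg => ?_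
    obtain ⟨n, hn⟩ := mem_zpowers_iff.1 (hy ▸ mem_map_of_mem (QuotientGroup.mk' K) hg)
    have : g * (x ^ n)⁻¹ ∈ K := by
      rw [← QuotientGroup.eq_one_iff, ← QuotientGroup.mk'_apply, map_mul, map_inv, map_zpow, hn,
        mul_inv_cancel]
    have h2 : g * (x ^ n)⁻¹ ∈ P :=
      P.mul_mem (inertia_le _ _ hg) (P.inv_mem (P.zpow_mem (inertia_le _ _ hx) n))
    have := mul_mem_sup (mem_inf.2 ⟨h2, this⟩) (zpow_mem_zpowers x n)
    simpa using this
  have hnI : P ⊓ K ⊴ inertia P μ := hQP.of_le hQI (inertia_le _ _)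
  have hab : ⁅inertia P μ, inertia P μ⁆ ≤ P ⊓ K := by
    rw [← hx']
    refine (der_sup_le ((zpowers_le.2 hx).trans hnI.norm)).trans (sup_le le_rfl ?_)
    rw [comm_iff_der.1 (comm_zpowers x)]; exact bot_le
  obtain ⟨-, -, h3⟩ := Ind_ab_inertia_ext hQP hμi hab
    (exists_ext_of_cyc hnI hμi (cinv_inertia _ _) hx')
  obtain ⟨a, f, ha, ha2, -⟩ := hk.struct hQP hZQ hμ
  rw [(h3 _ (mem_ovr.2 ⟨hk.irr', hk.dot_ne hZQ hμ⟩)).1] at ha
  obtain rfl : a = 1 := by exact_mod_cast ha.symm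
  exact (relIndex_eq_one.1 ha2.symm).trans inf_le_right

theorem deg_dvd_of_constituents {L : Subgroup Γ} (hχ : χ ∈ Chr L) {d : ℕ}
    (h : ∀ ψ ∈ Irr L, dot L χ ψ ≠ 0 → deg ψ = d) : d ∣ deg χ := by
  have h1 := apply_eq_sum_irr (chr_cinv hχ) L.one_mem
  choose n hn using fun ψ : Irr L => chr_dot_nat hχ (irr_chr ψ.2)
  refine ⟨∑ ψ : Irr L, n ψ, ?_⟩
  have : ((deg χ : ℕ) : ℂ) = (d * ∑ ψ : Irr L, n ψ : ℕ) := by
    rw [← chr_deg hχ, h1, ← Finset.sum_coe_sort]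
    push_cast
    rw [Finset.mul_sum]
    refine Finset.sum_congr rfl fun ψ _ => ?_
    by_cases h0 : dot L χ ψ = 0
    · rw [← hn, h0]; simp
    · rw [irr_deg ψ.2, h _ ψ.2 h0, hn, mul_comm]
  exact_mod_cast this

theorem FR.compl_of_ind (h : FR ⊤ Z θ e) (hp : p.Prime) [K.Normal] (hZ : Z ≤ K) (hS : Syl p S ⊤)
    (hφ : φ ∈ ovr K Z θ) (hi : inertia ⊤ φ = K) : ∃ M, K ≤ M ∧ M.index = K.relIndex S := by
  refine h.compl hp hZ hS fun k hk μ hμ => ?_
  have hKn : ∀ X : Subgroup Γ, X ≤ N(K) := fun X => le_normalizer_of_normal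
  set P := Z ⊔ S with hP
  have hQP : P ⊓ K ⊴ P := inf_normal_of_norm' (hKn P)
  have hZQ : Z ≤ P ⊓ K := le_inf le_sup_left hZ
  have hμi := (mem_ovr.1 hμ).1
  have hφi := (mem_ovr.1 hφ).1
  obtain ⟨b, g, -, hb, hg, hg2⟩ := hk.struct hQP hZQ hμ
  obtain ⟨a, f, -, -, hf, hf2⟩ := h.struct normalIn_top hZ hφ
  have hdvd : deg μ ∣ deg (Res (P ⊓ K) φ) := by
    refine deg_dvd_of_constituents (chr_Res (irr_chr hφi) inf_le_right) fun ψ hψ h0 => ?_
    rw [dot_Res_left] at h0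
    have := mem_ovr_between (h.nrm.of_le hZ le_top) hZQ inf_le_right h.irr (h.cinv.mono le_top)
      hφ hψ h0
    rw [hk.ovr_eq hQP hZQ hμ] at this
    exact deg_congr (orb_one this)
  rw [deg_Res, hg, hf] at hdvd
  obtain ⟨r, rfl⟩ := Nat.dvd_of_mul_dvd_mul_right (irr_deg_pos h.irr) hdvd
  rw [hi] at hf2
  have e1 := relIndex_mul_relIndex Z (P ⊓ K) K hZQ inf_le_right
  have e2 := relIndex_mul_relIndex (P ⊓ K) (inertia P μ) P (le_inertia (irr_cinv hμi) hQP.le)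
    (inertia_le _ _)
  have e3 := relIndex_mul_relIndex K (K ⊔ P) ⊤ le_sup_left le_top
  rw [relIndex_sup_of_norm (hKn P), ← inf_relIndex_left, ← e2, ← hb] at e3
  rw [← hg2, ← hf2, ← e3, inf_relIndex_right] at e1
  have hg0 : 0 < g := by
    have := irr_deg_pos hμi
    rw [hg] at this; exact Nat.pos_of_mul_pos_right this
  have e4 : P.relIndex K = b ^ 2 * (r ^ 2 * (K ⊔ P).relIndex ⊤) :=
    Nat.eq_of_mul_eq_mul_left (Nat.mul_pos (pow_pos hg0 2) (relIndex_pos (inertia P μ) P))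
      (by rw [e1]; ring)
  have h1 : PiN {p}ᶜ (P.relIndex K) :=
    hS.idx.dvd ((relIndex_dvd_of_norm' (hKn P) le_top le_top).trans
      (relIndex_dvd_left le_sup_right ⊤))
  have h2 : PiN {p} (Z.relIndex P) := by
    rw [relIndex_sup_of_norm (le_top.trans h.nrm.norm)]; exact hS.pi.relIndex Z
  have h3 : b ^ 2 ∣ Z.relIndex P := by
    rw [hb]
    exact (relIndex_dvd_right (le_inertia (irr_cinv hμi) hQP.le) (inertia_le _ _)).trans
      (relIndex_dvd_left hZQ P)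
  have h4 := (h2.dvd h3).eq_one (h1.dvd ⟨_, e4⟩)
  rw [hb] at h4
  exact (relIndex_eq_one.1 h4).trans inf_le_right

theorem fr_of_hyp {H : Type u} [Group H] [Finite H] (Z : Subgroup H) [Z.Normal]
    (χ : IrrCharacter H) (hfr : ∃ (θ : IrrCharacter ↥Z) (e : ℕ), e ^ 2 = Z.index ∧
      ∀ z : ↥Z, (χ : H → ℂ) z = (e : ℂ) * (θ : ↥Z → ℂ) z) :
    ∃ (θ : H → ℂ) (e : ℕ), χ.1 = (e : ℂ) • θ ∧ FR ⊤ Z θ e := by
  obtain ⟨θ, e, h1, h2⟩ := hfr
  exact ⟨_, e, FR.of_res (mem_Irr_top.2 χ.2) (ext_mem_Irr.2 θ.2) h1 fun z hz => by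
    rw [H5.extendByZero_of_mem Z _ hz]; exact h2 ⟨z, hz⟩⟩

end H8
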