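/-
Involutions and outer involutions of `F₄(2^(2m+1))`.
-/
import Cfsg.Agent.H22.MYI
import Cfsg.Agent.S2122
import Cfsg.Agent.H14.InvF4
import Cfsg.Agent.H14.Cen3
import Cfsg.Agent.H19.Amb3

set_option autoImplicit false
set_option maxRecDepth 100000

namespace H8.ME
open H14 H14.RootSys Cfsg.Lie H14.PreSt H14.St H14.Good
universe v

section
variable {ι κ : Type*} [Fintype κ] [DecidableEq κ] [Fintype ι] [DecidableEq ι] {R : RootSys ι κ}
  {C : Chev R} {K G : Type*} [Field K] [Group G] {S : St C K G} {T : S.Tw}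

theorem step (h2 : ∀ g, T.σ (T.σ g) = g) {a b : ι} {M P : Set ι} (hab : T.ρ a = b) (hba : T.ρ b = a)
    (hM : ∀ r ∈ M, T.ρ r ∈ M) (ha : a ∉ insert b M) (hb : b ∉ M) (hP : a ∈ P)
    (hA : C.Idl K (insert a (insert b M))) (hB : C.Idl K (insert b M))
    (ih : ∀ u ∈ S.U M, u * T.σ u = 1 → ∃ w ∈ S.U P, u = w * (T.σ w)⁻¹) :
    ∀ u ∈ S.U (insert a (insert b M)), u * T.σ u = 1 → ∃ w ∈ S.U P, u = w * (T.σ w)⁻¹ := by
  intro u hu h1
  have e1 : insert a (insert b M) \ {a} = insert b M := Set.insert_diff_self_of_notMem ha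
  have e2 : insert b M \ {b} = M := Set.insert_diff_self_of_notMem hb
  obtain ⟨_, h3, y1, hy1, rfl⟩ := hA.ord.exists_mul {a} hu
  obtain ⟨t, rfl⟩ := mem_U_singleton.1 (U_mono Set.inter_subset_right h3)
  rw [e1] at hy1
  have h4 : y1 * T.σ (S.x a t) ∈ S.U (insert b M) :=
    mul_mem hy1 (by rw [T.σ_x, hab]; exact x_mem_U (Set.mem_insert _ _) _)
  have h5 : (y1 * T.σ (S.x a t)) * T.σ (y1 * T.σ (S.x a t)) = 1 := by
    rw [map_mul, h2]
    rw [map_mul] at h1
    rw [show y1 * T.σ (S.x a t) * (T.σ y1 * S.x a t) =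
      (S.x a t)⁻¹ * (S.x a t * y1 * (T.σ (S.x a t) * T.σ y1)) * S.x a t by group, h1]
    group
  obtain ⟨_, h6, y, hy, e⟩ := hB.ord.exists_mul {b} h4
  obtain ⟨s, rfl⟩ := mem_U_singleton.1 (U_mono Set.inter_subset_right h6)
  rw [e2] at hy
  have h7 : s = 0 := T.f_eq_zero b s (by
    by_contra h0
    refine hA.not_mem T.sep (e1.symm ▸ hB) (Set.mem_insert _ _)
      (e1.symm ▸ U_mono (Set.subset_insert _ _) (T.σ_mem_U hM hy)) h0 ?_
    rw [e1, ← hba, ← T.σ_x, ← map_mul, ← e, eq_inv_of_mul_eq_one_right h5]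
    exact inv_mem h4)
  rw [h7, S.x_zero, one_mul] at e
  obtain ⟨w, hw, e'⟩ := ih _ (e ▸ hy) h5
  refine ⟨S.x a t * w, mul_mem (x_mem_U hP _) hw, ?_⟩
  rw [map_mul, _root_.mul_inv_rev, mul_assoc _ w, ← mul_assoc w, ← e']
  group

/-- flattening a list of pairs -/
def fl : List (ι × ι) → Set ι
  | [] => ∅
  | p :: L => insert p.1 (insert p.2 (fl L))

/-- good chains -/
def Ch (C : Chev R) (K : Type*) [Field K] (ρ : ι → ι) : List (ι × ι) → Prop
  | [] => True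
  | p :: L => Ch C K ρ L ∧ ρ p.1 = p.2 ∧ ρ p.2 = p.1 ∧ p.1 ∉ insert p.2 (fl L) ∧ p.2 ∉ fl L ∧
      C.Idl K (fl (p :: L)) ∧ C.Idl K (insert p.2 (fl L))

theorem Ch.rho {ρ : ι → ι} : ∀ {L : List (ι × ι)}, Ch C K ρ L → ∀ r ∈ fl L, ρ r ∈ fl L
  | [], _, _, h => h.elim
  | p :: L, h, r, hr => by
    rcases hr with rfl | rfl | hr
    · rw [h.2.1]; exact Or.inr (Or.inl rfl)
    · rw [h.2.2.1]; exact Or.inl rfl
    · exact Or.inr (Or.inr (h.1.rho r hr))

theorem lang (h2 : ∀ g, T.σ (T.σ g) = g) {P : Set ι} : ∀ {L : List (ι × ι)}, Ch C K T.ρ L → fl L ⊆ P →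
    ∀ u ∈ S.U (fl L), u * T.σ u = 1 → ∃ w ∈ S.U P, u = w * (T.σ w)⁻¹
  | [], _, _ => fun u hu _ => ⟨1, one_mem _, by simpa [fl] using hu⟩
  | _ :: _, h, hP => step h2 h.2.1 h.2.2.1 h.1.rho h.2.2.2.1 h.2.2.2.2.1 (hP (Or.inl rfl)) h.2.2.2.2.2.1 h.2.2.2.2.2.2
      (lang h2 h.1 fun _ hr => hP (Or.inr (Or.inr hr)))

theorem langG [Finite K] [Finite G] [CharP K 2] (hh : S.HMul) (h2 : ∀ g, T.σ (T.σ g) = g)
    (hU : ∀ u ∈ S.U {r | R.pos r}, u * T.σ u = 1 → ∃ w ∈ S.U {r | R.pos r}, u = w * (T.σ w)⁻¹)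
    {g : G} (hg : g * T.σ g = 1) : ∃ y, g = y * (T.σ y)⁻¹ := by
  classical
  obtain ⟨P, hP⟩ := (id_emb T.sep T.top).exists_sylow 2 hh
  replace hP : (P : Subgroup G) = S.U {r | R.pos r} := hP
  have := Fintype.ofFinite G
  let f : Function.End (G ⧸ S.U {r | R.pos r}) := Quotient.map' (fun x => g * T.σ x) fun a b e => by
    simpa [QuotientGroup.leftRel_apply, mul_assoc] using T.σ_mem_Up (QuotientGroup.leftRel_apply.1 e)
  have h4 := Equiv.Perm.card_fixedPoints_modEq (f := f) (p := 2) (n := 1) (funext fun q => by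
    obtain ⟨x, rfl⟩ := QuotientGroup.mk_surjective q
    change ((g * T.σ (g * T.σ x) : G) : G ⧸ S.U {r | R.pos r}) = x
    rw [map_mul, h2, ← mul_assoc, hg, one_mul])
  obtain ⟨q, hq⟩ : Nonempty f.fixedPoints := Fintype.card_pos_iff.1 (Nat.pos_of_ne_zero fun e => P.not_dvd_index (by
    rw [hP, Subgroup.index, Nat.card_eq_fintype_card]; exact (Nat.modEq_zero_iff_dvd.1 (e ▸ h4))))
  obtain ⟨x, rfl⟩ := QuotientGroup.mk_surjective q
  obtain ⟨y, -, e⟩ := hU _ (QuotientGroup.eq.1 (Eq.symm (a := ((g * T.σ x : G) : G ⧸ S.U {r | R.pos r})) (b := x) hq))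
    (by simp only [map_mul, map_inv, h2, mul_assoc, mul_inv_cancel_left]; rw [← mul_assoc g, hg]; simp)
  exact ⟨x * y, by rw [map_mul, _root_.mul_inv_rev, mul_assoc x, ← mul_assoc y, ← e]; group⟩

end

/-- involutions in a group of order twice an odd number are conjugate -/
theorem conj_of_card {G : Type*} [Group G] {n : ℕ} (hG : Nat.card G = 2 * (2 * n + 1)) {a b : G} (ha : a * a = 1)
    (ha1 : a ≠ 1) (hb : b * b = 1) (hb1 : b ≠ 1) : ∃ g, g * a * g⁻¹ = b := by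
  have : Finite G := Nat.finite_of_card_ne_zero (by omega)
  have h1 : (Nat.card G).factorization 2 = 1 := by
    rw [hG, Nat.factorization_mul (by norm_num) (by omega), Finsupp.add_apply, Nat.Prime.factorization_self Nat.prime_two,
      Nat.factorization_eq_zero_of_not_dvd (by omega)]
  have h2 : ∀ c : G, c * c = 1 → c ≠ 1 → Nat.card (Subgroup.zpowers c) = 2 ^ (Nat.card G).factorization 2 :=
    fun c h3 h4 => by rw [h1, Nat.card_zpowers, orderOf_eq_prime (by rw [sq, h3]) h4, pow_one]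
  obtain ⟨g, hg⟩ := MulAction.exists_smul_eq G (Sylow.ofCard _ (h2 a ha ha1)) (Sylow.ofCard _ (h2 b hb hb1))
  have h3 : g * a * g⁻¹ ∈ Subgroup.zpowers b := by
    have h4 := congrArg (fun P : Sylow 2 G => (P : Subgroup G)) hg
    simp only [Sylow.coe_subgroup_smul, Sylow.coe_ofCard] at h4
    rw [← h4]
    exact Subgroup.smul_mem_pointwise_smul _ _ _ (Subgroup.mem_zpowers a)
  refine ⟨g, ?_⟩
  obtain ⟨k, hk⟩ := Subgroup.mem_zpowers_iff.1 h3
  have h5 : b ^ (2 : ℤ) = 1 := by rw [zpow_two, hb]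
  rcases Int.even_or_odd' k with ⟨j, rfl | rfl⟩
  · rw [zpow_mul, h5, one_zpow] at hk
    exact absurd (by simpa [mul_inv_eq_iff_eq_mul] using hk.symm) ha1
  · rw [← hk, zpow_add, zpow_mul, h5, one_zpow, one_mul, zpow_one]

/-- the chain of pairs of positive roots -/
def chain : List (ℕ × ℕ) :=
  [(24, 33), (25, 27), (26, 34), (28, 30), (29, 41), (31, 35), (32, 37), (36, 42), (38, 43), (39, 45), (40, 46), (44, 47)]

/-- flattening -/
def fln : List (ℕ × ℕ) → List ℕ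
  | [] => []
  | p :: L => p.1 :: p.2 :: fln L

/-- check of a chain -/
noncomputable def okCh : List (ℕ × ℕ) → Bool
  | [] => true
  | p :: L => okCh L && (decide (p.1 < 48) && decide (p.2 < 48)) && (dig 8 grF4.ρ p.1 == p.2 && dig 8 grF4.ρ p.2 == p.1) &&
      (decide (p.1 ∉ p.2 :: fln L) && decide (p.2 ∉ fln L)) && (okIdl chevF4 2 (fln (p :: L)) && okIdl chevF4 2 (p.2 :: fln L))

theorem fs_cons {n : ℕ} (a : Fin n) (L : List ℕ) : (fs (a.val :: L) : Set (Fin n)) = insert a (fs L) := by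
  ext r; simp [fs, Fin.ext_iff]

variable {K : Type*} [Field K] [CharP K 2]

theorem ch_of : ∀ L : List (ℕ × ℕ), okCh L = true → ∃ L' : List (Fin chevF4.nroots × Fin chevF4.nroots),
    Ch goodF4.C K okgrF4.rho L' ∧ fl L' = fs (fln L)
  | [], _ => ⟨[], trivial, by ext r; simp [fl, fs, fln]⟩
  | p :: L, h => by
    simp only [okCh, Bool.and_eq_true, decide_eq_true_eq, beq_iff_eq] at h
    obtain ⟨⟨⟨⟨h1, h2, h3⟩, h4, h5⟩, h6, h7⟩, h8, h9⟩ := h
    obtain ⟨L', hL, e⟩ := ch_of L h1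
    let a : Fin chevF4.nroots := ⟨p.1, h2⟩
    let b : Fin chevF4.nroots := ⟨p.2, h3⟩
    have e1 : insert b (fl L') = fs (p.2 :: fln L) := by rw [e]; exact (fs_cons b _).symm
    have e2 : fl ((a, b) :: L') = fs (fln (p :: L)) := by
      change insert a (insert b (fl L')) = _
      rw [e1]; exact (fs_cons a _).symm
    refine ⟨(a, b) :: L', ⟨hL, Fin.ext h4, Fin.ext h5, ?_, ?_, e2 ▸ goodF4.idl two_eq h8, e1 ▸ goodF4.idl two_eq h9⟩, e2⟩
    · change a ∉ insert b (fl L')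
      rw [e1]; exact h6
    · change b ∉ fl L'
      rw [e]; exact h7

variable {φ : K →+* K} (h2 : ∀ t, φ (φ t) ^ 2 = t)

theorem sig2 (g : chevF4.group K) : (F4.T φ h2).σ ((F4.T φ h2).σ g) = g := by
  have h := PreSt.hom_ext (α := (F4.T φ h2).σ.comp (F4.T φ h2).σ) (β := MonoidHom.id _) (goodF4.SG_top K) fun r t => by
    have h3 := (by decide +kernel : ∀ r : Fin chevF4.nroots, okgrF4.rho (okgrF4.rho r) = r ∧
      grF4.ex r * grF4.ex (okgrF4.rho r) = 2) r
    rw [MonoidHom.comp_apply, Tw.σ_x, Tw.σ_x, tw_f2, tw_f2, MonoidHom.id_apply]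
    change (goodF4.SG K).x (okgrF4.rho (okgrF4.rho r)) (φ (φ (t ^ grF4.ex r) ^ grF4.ex (okgrF4.rho r))) = _
    rw [h3.1, ← map_pow, ← pow_mul, h3.2, map_pow, map_pow, h2]
  exact DFunLike.congr_fun h g

theorem langU : ∀ u ∈ (goodF4.SG K).U {r | goodF4.R.pos r}, u * (F4.T φ h2).σ u = 1 →
    ∃ w ∈ (goodF4.SG K).U {r | goodF4.R.pos r}, u = w * ((F4.T φ h2).σ w)⁻¹ := by
  obtain ⟨L, hL, e⟩ := ch_of (K := K) chain (by decide +kernel)
  have e1 : fl L = {r | goodF4.R.pos r} := by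
    rw [e, goodF4.fs_pos]
    ext r
    exact (by decide +kernel : ∀ r : Fin chevF4.nroots, r.val ∈ fln chain ↔ r.val ∈ chevF4.posRoots) r
  have h := lang (T := F4.T φ h2) (sig2 h2) (P := {r | goodF4.R.pos r}) hL e1.le
  rwa [e1] at h

omit h2 in
theorem sq_rep : ∀ L ∈ F4.invReps, ∃ y, y * y = goodF4.pw K L := by
  have h : ∀ L L' : List ℕ, F4.col.eqv (Col.one (L' ++ L')) (Col.one L) = true → ∃ y, y * y = goodF4.pw K L :=
    fun L L' e => ⟨goodF4.pw K L', by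
      have := (F4.colOk (K := K)).eqv (t := 0) (u := 0) e
      rw [evl_one, evl_one] at this
      rw [← pw_append]; exact this⟩
  simp only [F4.invReps, List.forall_mem_cons, List.not_mem_nil, IsEmpty.forall_iff, implies_true, and_true]
  exact ⟨h _ [24, 46] (by decide +kernel), h _ [33, 40] (by decide +kernel), h _ [29, 41] (by decide +kernel),
    h _ [28, 36, 31, 41] (by decide +kernel)⟩

/-- the graph-field involution -/
noncomputable def gam : MulAut (chevF4.group K) :=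
  MonoidHom.toMulEquiv (F4.T φ h2).σ (F4.T φ h2).σ (MonoidHom.ext (sig2 h2)) (MonoidHom.ext (sig2 h2))

theorem gam_apply (g : chevF4.group K) : gam h2 g = (F4.T φ h2).σ g := rfl

theorem gam_sq : gam h2 * gam h2 = 1 := MulEquiv.ext (sig2 h2)

theorem gam_ne (g : chevF4.group K) : gam h2 ≠ MulAut.conj g := fun e => by
  have h1 : gam h2 (goodF4.pw K [47]) = goodF4.pw K [44] := by
    have h3 := (F4.T φ h2).σ_x (47 : Fin chevF4.nroots) 1
    rw [tw_f2, one_pow, map_one, show (F4.T φ h2).ρ 47 = (44 : Fin chevF4.nroots) from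
      (by decide +kernel : okgrF4.rho (47 : Fin chevF4.nroots) = 44)] at h3
    have h4 : ∀ r : Fin chevF4.nroots, goodF4.pw K [r.val] = (goodF4.SG K).x r 1 := fun r => by simp [pw]
    exact (congrArg _ (h4 47)).trans (h3.trans (h4 44).symm)
  have h3 := F4.inv_sep (K := K)
  simp only [F4.invReps, List.pairwise_cons, List.forall_mem_cons] at h3
  exact h3.1.1 g (by rw [← h1, e]; rfl)

theorem ef : H22.MY.EF.{v} := by
  intro K _ _ m hK
  obtain ⟨_, φ, h2, -⟩ := exists_tits Nat.prime_two hK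
  have hZ := goodF4.center_eq_bot K
  have : Finite (chevF4.group K) := inferInstance
  refine ⟨fun g hg => ?_, fun τ hτ h1 => ?_⟩
  · by_cases h0 : g = 1
    · exact ⟨1, by simp [h0]⟩
    obtain ⟨L, hL, k, e⟩ := F4.inv_conj g (orderOf_eq_prime (by rw [sq, hg]) h0)
    obtain ⟨y, hy⟩ := sq_rep (K := K) L hL
    exact ⟨k⁻¹ * y * k, by rw [show k⁻¹ * y * k * (k⁻¹ * y * k) = k⁻¹ * (y * y) * k by group, hy, ← e]; group⟩
  have hO := Cfsg.Agent.S2122.result 2 (2 * m + 1) hK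
  have hne : ∀ α : MulAut (chevF4.group K), (∀ g, α ≠ MulAut.conj g) → (α : Cfsg.Out (chevF4.group K)) ≠ 1 :=
    fun α h e => by
      obtain ⟨g, hg⟩ := (QuotientGroup.eq_one_iff _).1 e
      exact h g hg.symm
  obtain ⟨α, hα⟩ := conj_of_card (n := m) hO (a := (τ : Cfsg.Out (chevF4.group K))) (b := (gam h2 : Cfsg.Out _))
    (by rw [← QuotientGroup.mk_mul, hτ]; rfl) (hne _ h1) (by rw [← QuotientGroup.mk_mul, gam_sq]; rfl) (hne _ (gam_ne h2))
  obtain ⟨α, rfl⟩ := QuotientGroup.mk_surjective α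
  obtain ⟨g, hg⟩ : α * τ * α⁻¹ * (gam h2)⁻¹ ∈ Cfsg.Inn (chevF4.group K) := by
    rw [← QuotientGroup.eq_one_iff, QuotientGroup.mk_mul, QuotientGroup.mk_mul, QuotientGroup.mk_mul,
      QuotientGroup.mk_inv, QuotientGroup.mk_inv, hα, mul_inv_cancel]
  have h3 : α * τ * α⁻¹ = MulAut.conj g * gam h2 := by rw [hg]; group
  have h4 : g * (F4.T φ h2).σ g = 1 := by
    have h5 : (MulAut.conj g * gam h2) * (MulAut.conj g * gam h2) = 1 := by
      rw [← h3, show α * τ * α⁻¹ * (α * τ * α⁻¹) = α * (τ * τ) * α⁻¹ by group, hτ]; group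
    rw [← Subgroup.mem_bot, ← hZ, Subgroup.mem_center_iff]
    intro x
    have h6 := DFunLike.congr_fun h5 x
    simp only [MulAut.mul_apply, MulAut.conj_apply, map_mul, map_inv, gam_apply, sig2, MulAut.one_apply] at h6
    conv_lhs => rw [← h6]
    group
  obtain ⟨y, hy⟩ := langG (goodF4.SG_hmul K) (sig2 h2) (langU h2) h4
  obtain ⟨P, hP⟩ := (id_emb (goodF4.SG_sep K) (goodF4.SG_top K)).exists_sylow 2 (goodF4.SG_hmul K)
  replace hP : (P : Subgroup (chevF4.group K)) = (goodF4.SG K).U {r | goodF4.R.pos r} := hP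
  set β : MulAut (chevF4.group K) := α⁻¹ * MulAut.conj y
  have h5 : ∀ x, τ (β x) = β ((F4.T φ h2).σ x) := fun x => by
    have h6 := DFunLike.congr_fun h3 (y * x * y⁻¹)
    simp only [MulAut.mul_apply, MulAut.conj_apply, map_mul, map_inv, gam_apply] at h6
    apply α.injective
    simp only [β, MulAut.mul_apply, MulAut.conj_apply, map_mul, map_inv, MulAut.apply_inv_self]
    rw [h6, hy]
    group
  refine ⟨(P : Subgroup _).map β.toMonoidHom, ?_, ?_, ?_⟩
  · have h6 := (H19.syl_sylow_top P).map β.toMonoidHom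
    rwa [Subgroup.map_top_of_surjective _ β.surjective] at h6
  · rintro _ ⟨u, hu, rfl⟩
    exact ⟨_, hP.ge ((F4.T φ h2).σ_mem_Up (hP.le hu)), (h5 u).symm⟩
  · rintro _ ⟨u, hu, rfl⟩ e
    obtain ⟨w, hw, e'⟩ := langU h2 u (hP.le hu) (β.injective (by
      rw [map_mul, ← h5, map_one]; exact e))
    refine ⟨β w, ⟨w, hP.ge hw, rfl⟩, ?_⟩
    rw [h5, ← map_inv, ← map_mul, ← e']; rfl

end H8.ME
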