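import Cfsg.Agent.H24.ND0
import Cfsg.Agent.H10.ND.A

/-! S4780: the chunk `PF`. -/

set_option autoImplicit false

namespace H8.ND

universe u

theorem pf : H24.ND.PF.{u} := fun p _ S A _ _ _ _ _ _ _ β h1 h2 => by
  have := H10.ND.pf' (U := Module.Dual (ZMod p) S) (LinearMap.lflip.toLinearMap ∘ₗ β.flip) (fun x => LinearMap.ext fun s => h1 s x)
    fun x hx => LinearMap.flip_surjective_iff₁.2 ((injective_iff_map_eq_zero _).2 fun s e => by_contra fun k =>
      hx (h2 s k x (LinearMap.congr_fun e)))
  rwa [Subspace.dual_finrank_eq] at this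

end H8.ND
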