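import Cfsg.Agent.H8.ND1

/-! S4780: the chunk `ML`. -/

set_option autoImplicit false

namespace H8.ND
open Module LinearMap Function

universe u

section
variable {F A B : Type*} [Field F] [AddCommGroup A] [Module F A] [FiniteDimensional F A] [AddCommGroup B] [Module F B]
  [FiniteDimensional F B]

theorem rk_sur (f : A →ₗ[F] B) (h : Surjective f) : finrank F B + finrank F (ker f) = finrank F A := by
  rw [← f.finrank_range_add_finrank_ker, range_eq_top.2 h, finrank_top]

theorem rk_flip (f : B →ₗ[F] A →ₗ[F] F) (h : ∀ y, (∀ x, f y x = 0) → y = 0) :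
    finrank F B + finrank F (ker f.flip) = finrank F A := by
  rw [← rk_sur f.flip (flip_surjective_iff₁.2 ((injective_iff_map_eq_zero _).2 fun y e => h y (LinearMap.congr_fun e))),
    Subspace.dual_finrank_eq]

theorem rk_le (f : A →ₗ[F] B) (X : Submodule F A) (Y : Submodule F B) (h : ∀ x ∈ X, f x ∈ Y) :
    finrank F X ≤ finrank F Y + finrank F (X ⊓ ker f : Submodule F A) := by
  have a := (f.domRestrict X).finrank_range_add_finrank_ker
  have b : finrank F (range (f.domRestrict X)) ≤ finrank F Y := Submodule.finrank_mono (by rintro _ ⟨x, rfl⟩; exact h x x.2)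
  have c : finrank F (ker (f.domRestrict X)) = finrank F (X ⊓ ker f : Submodule F A) := by
    rw [ker_domRestrict, ← Submodule.finrank_map_subtype_eq, Submodule.map_comap_subtype]
  omega
end

theorem ml (sa : H24.ND.SA.{u}) : H24.ND.ML.{u} := fun p _ A W Y _ _ _ _ _ _ _ _ _ _ _ b m n ω b0 ω0 J J2 sb sm nn hκ => by
  have anti : ∀ x y, b x y = -b y x := fun x y => by
    have := b0 (x + y)
    simp only [map_add, LinearMap.add_apply, b0, zero_add, add_zero] at this
    exact eq_neg_of_add_eq_zero_right this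
  have ωa : ∀ x y, ω x y = -ω y x := fun x y => by
    have := ω0 (x + y)
    simp only [map_add, LinearMap.add_apply, ω0, zero_add, add_zero] at this
    exact eq_neg_of_add_eq_zero_right this
  have pW : 0 < finrank (ZMod p) W := finrank_pos
  have pY : 0 < finrank (ZMod p) Y := finrank_pos
  obtain ⟨w0, hw0⟩ := exists_ne (0 : W)
  haveI : Nontrivial A := (sm w0 hw0).nontrivial
  have kb := fun x hx => rk_sur (b x) (sb x hx)
  have m0 : ∀ (ν : Dual (ZMod p) Y), ν ≠ 0 → ∀ w, (∀ x, ν (m w x) = 0) → w = 0 := fun ν hν w h => by_contra fun k =>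
    hν (LinearMap.ext fun y => let ⟨x, e⟩ := sm w k y; e ▸ h x)
  -- the subspaces `T ν`
  have mT : ∀ (ν : Dual (ZMod p) Y) x, x ∈ ker (m.compr₂ ν).flip ↔ ∀ w, ν (m w x) = 0 := fun ν x => LinearMap.ext_iff
  have kT := fun ν hν => rk_flip (m.compr₂ ν) (m0 ν hν)
  have Tb : ∀ (ν : Dual (ZMod p) Y), ν ≠ 0 → ∀ x ∈ ker (m.compr₂ ν).flip, x ≠ 0 → ker (b x) = ker (m.compr₂ ν).flip :=
    fun ν hν x hx x0 => (Submodule.eq_of_le_of_finrank_eq (fun y hy => m0 ν hν _ fun z => by
      have := congrArg ν (J x y z)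
      simpa [(mT ν x).1 hx, (mT ν y).1 hy] using this) (by have := kT ν hν; have := kb x x0; omega)).symm
  have dA : finrank (ZMod p) A = 2 * finrank (ZMod p) W := by
    have a := H10.ND.pf' b b0 sb
    obtain ⟨ν, hν⟩ := exists_ne (0 : Dual (ZMod p) Y)
    have c := kT ν hν
    obtain ⟨y, hy⟩ : ∃ y, y ∉ ker (m.compr₂ ν).flip := by_contra fun k => by
      rw [show ker (m.compr₂ ν).flip = ⊤ from eq_top_iff.2 fun y _ => by_contra fun q => k ⟨y, q⟩, finrank_top] at c; omega
    have d := rk_le (b.flip y) (ker (m.compr₂ ν).flip) ⊤ fun _ _ => trivial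
    rw [show ker (m.compr₂ ν).flip ⊓ ker (b.flip y) = ⊥ from eq_bot_iff.2 fun x hx => by_contra fun q =>
      hy (Tb ν hν x hx.1 q ▸ (hx.2 : y ∈ ker (b x))), finrank_bot, finrank_top] at d
    omega
  have cx : ∀ x, x ≠ 0 → 2 * finrank (ZMod p) Y + 2 * finrank (ZMod p) (ker (m.flip x)) ≤ 3 * finrank (ZMod p) W := fun x x0 => by
    have a := (m.flip x).finrank_range_add_finrank_ker
    have c := (range (m.flip x)).finrank_quotient_add_finrank
    suffices 2 * finrank (ZMod p) (Y ⧸ range (m.flip x)) ≤ finrank (ZMod p) W by omega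
    by_cases t : range (m.flip x) = ⊤
    · rw [t, finrank_top] at c; rw [t]; omega
    have k : ∀ ν : Dual (ZMod p) Y, ν ≠ 0 → range (m.flip x) ≤ ker ν → ker (b x) = ker (m.compr₂ ν).flip := fun ν hν l =>
      Tb ν hν x ((mT ν x).2 fun w => l ⟨w, rfl⟩) x0
    obtain ⟨ν, hν, l⟩ := (range (m.flip x)).exists_le_ker_of_lt_top (lt_top_iff_ne_top.2 t)
    obtain ⟨κ, k1, k2⟩ := hκ (ker (b x)) (fun y hy y0 => (Tb ν hν y (k ν hν l ▸ hy) y0).trans (k ν hν l).symm) (range (m.flip x))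
      fun w y hy => (Subspace.forall_mem_dualAnnihilator_apply_eq_zero_iff _ _).1 fun μ hμ => by
        by_cases z : μ = 0
        · rw [z]; rfl
        · exact (mT μ y).1 (k μ z (fun v hv => (Submodule.mem_dualAnnihilator μ).1 hμ v hv) ▸ hy) w
    haveI : Nontrivial (ker (b x)) := ⟨⟨⟨x, b0 x⟩, 0, fun e => x0 (congrArg Subtype.val e)⟩⟩
    have := H10.ND.pf' κ k1 k2
    have := kb x x0
    omega
  -- `E` and `Ω`
  have mE : ∀ x, x ∈ ker n.flip ↔ ∀ y, n y x = 0 := fun x => LinearMap.ext_iff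
  have dE := rk_flip n nn
  have eΩ : ∀ e ∈ ker n.flip, e ≠ 0 → ∀ w, m w e = 0 ↔ w ∈ ker ω := fun e he e0 w => by
    have k : ∀ v, n (m w e) v = ω w (b e v) := fun v => by rw [← J2, (mE e).1 he, sub_zero]
    refine ⟨fun h => LinearMap.ext fun w' => ?_, fun h => nn _ fun v => by rw [k, mem_ker.1 h]; rfl⟩
    obtain ⟨v, rfl⟩ := sb e e0 w'
    rw [← k, h, map_zero]; rfl
  obtain ⟨e, he, e0⟩ : ∃ e ∈ ker n.flip, e ≠ 0 := (Submodule.ne_bot_iff _).1 fun k => by
    obtain ⟨x, x0⟩ := exists_ne (0 : A)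
    have := cx x x0
    rw [k, finrank_bot] at dE
    omega
  have ce := cx e e0
  rw [show ker (m.flip e) = ker ω from Submodule.ext (eΩ e he e0)] at ce
  obtain ⟨w1, hw1⟩ : ∃ w, w ∉ ker ω := by_contra fun k => by
    have t : ker ω = ⊤ := eq_top_iff.2 fun y _ => by_contra fun q => k ⟨y, q⟩
    obtain ⟨ν, hν⟩ := exists_ne (0 : Dual (ZMod p) Y)
    have a : finrank (ZMod p) (ker n.flip) ≤ finrank (ZMod p) (ker (m.compr₂ ν).flip) := Submodule.finrank_mono fun x hx =>
      (mT ν x).2 fun w => by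
        by_cases z : x = 0
        · simp [z]
        · rw [(eΩ x hx z w).2 (t ▸ trivial), map_zero]
    have := kT ν hν
    rw [t, finrank_top] at ce
    omega
  have nb : finrank (ZMod p) (ker n.flip) ≤ finrank (ZMod p) W := by
    have a := rk_sur (m w1) (sm w1 fun k => hw1 (k ▸ zero_mem _))
    have c := Submodule.finrank_sup_add_finrank_inf_eq (ker n.flip) (ker (m w1))
    have d := Submodule.finrank_le (ker n.flip ⊔ ker (m w1))
    rw [show ker n.flip ⊓ ker (m w1) = ⊥ from eq_bot_iff.2 fun x hx => by_contra fun q => hw1 ((eΩ x hx.1 q w1).1 hx.2),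
      finrank_bot] at c
    omega
  have dT := kb e e0
  have hT : (∀ u ∈ ker (b e), u ≠ 0 → ker (b u) = ker (b e)) ∧ ∀ w, ∀ u ∈ ker (b e), ∀ t ∈ ker (b e), n (m w u) t = 0 := by
    have k : ∀ t ∈ ker (b e), n.flip t ≠ 0 → ker (b e) = ker (m.compr₂ (n.flip t)).flip := fun t ht z =>
      Tb _ z e ((mT _ e).2 fun w => by
        have := J2 w e t
        rwa [(mE e).1 he, sub_zero, mem_ker.1 ht, map_zero] at this) e0
    have k2 : ∀ w, ∀ u ∈ ker (b e), ∀ t ∈ ker (b e), n (m w u) t = 0 := fun w u hu t ht => by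
      by_cases z : n.flip t = 0
      · exact LinearMap.congr_fun z _
      · exact (mT _ u).1 (k t ht z ▸ hu) w
    refine ⟨fun u hu u0 => ?_, k2⟩
    by_cases z : range (m.flip e) = ⊤
    · have a := rk_sur (m.flip e) (range_eq_top.1 z)
      rw [show ker (m.flip e) = ker ω from Submodule.ext (eΩ e he e0)] at a
      have o : ker ω = ⊥ := Submodule.finrank_eq_zero.1 (by omega)
      refine (Submodule.eq_of_le_of_finrank_eq (fun t ht => ?_) (by have := kb u u0; omega)).symm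
      refine (Submodule.mem_bot (ZMod p)).1 (o.le (LinearMap.ext fun w => ?_ : b u t ∈ ker ω))
      rw [ωa, ← J2, k2 w u hu t ht, k2 w t ht u hu]; simp
    · obtain ⟨ν, hν, l⟩ := (range (m.flip e)).exists_le_ker_of_lt_top (lt_top_iff_ne_top.2 z)
      have a := Tb ν hν e ((mT ν e).2 fun w => l ⟨w, rfl⟩) e0
      exact (Tb ν hν u (a ▸ hu) u0).trans a.symm
  obtain ⟨σ, hσ⟩ := (b e).exists_rightInverse_of_surjective (range_eq_top.2 (sb e e0))
  have bσ : ∀ w, b e (σ w) = w := LinearMap.congr_fun hσ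
  have j1 : ∀ u ∈ ker (b e), ∀ u' ∈ ker (b e), ∀ s, m (b u' s) u = m (b u s) u' := fun u hu u' hu' s => by
    have := J u u' s
    have z : b u u' = 0 := by
      by_cases z : u = 0
      · simp [z]
      · exact mem_ker.1 (hT.1 u hu z ▸ hu')
    rw [z, anti s u] at this
    simpa [add_neg_eq_zero] using this
  have j2 : ∀ u ∈ ker (b e), ∀ a, m a u = m (b u (σ a)) e := fun u hu a => by rw [← j1 u hu e (b0 e), bσ]
  have j3 : ∀ u ∈ ker (b e), ∀ a v, n (m a u) v = ω (b u (σ a)) (b e v) := fun u hu a v => by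
    rw [j2 u hu, ← J2, (mE e).1 he, sub_zero]
  have inj : ∀ u ∈ ker (b e), u ≠ 0 → ∀ a, b u (σ a) = 0 → a = 0 := fun u hu u0 a h => by
    rw [← bσ a]; exact mem_ker.1 (hT.1 u hu u0 ▸ mem_ker.2 h)
  -- the spread set
  have fin : ∀ T : Submodule (ZMod p) A, T ≤ ker (b e) → e ∈ T →
      finrank (ZMod p) W ≤ finrank (ZMod p) (ker ω) + finrank (ZMod p) T →
      (∀ u ∈ T, u ≠ 0 → ∀ a, b u (σ a) ∈ ker ω ↔ a ∈ ker ω) → False := fun T l eT d h => by
    obtain ⟨U, c⟩ := (ker ω).exists_isCompl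
    let π := U.linearProjOfIsCompl _ c.symm
    have π1 : ∀ a : U, π a = a := Submodule.linearProjOfIsCompl_apply_left c.symm
    have π0 : ∀ w, π w = 0 ↔ w ∈ ker ω := fun w => Submodule.linearProjOfIsCompl_apply_eq_zero_iff c.symm
    have πΩ : ∀ w, w - π w ∈ ker ω := fun w => by rw [← π0, map_sub, π1, sub_self]
    have ω1 : ∀ w w', ω (π w) w' = ω w w' := fun w w' => by
      have := LinearMap.congr_fun (mem_ker.1 (πΩ w)) w'
      rw [map_sub, LinearMap.sub_apply, LinearMap.zero_apply, sub_eq_zero] at this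
      exact this.symm
    have ω2 : ∀ w w', ω w (π w') = ω w w' := fun w w' => by rw [ωa, ω1, ← ωa]
    have h' : ∀ u ∈ T, ∀ a ∈ ker ω, b u (σ a) ∈ ker ω := fun u hu a ha => by
      by_cases z : u = 0
      · simp [z]
      · exact (h u hu z a).2 ha
    have πS : ∀ u ∈ T, ∀ w, π (b u (σ (π w))) = π (b u (σ w)) := fun u hu w => by
      rw [eq_comm, ← sub_eq_zero, ← map_sub, ← map_sub, ← map_sub, π0]; exact h' u hu _ (πΩ w)
    have U0 : ∀ a : U, a.1 ∈ ker ω → a = 0 := fun a ha => by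
      rw [← π1 a]; exact (π0 _).2 ha
    haveI : Nontrivial U := ⟨⟨π w1, 0, fun k => hw1 ((π0 _).1 k)⟩⟩
    refine sa p T U (ω.compl₁₂ U.subtype U.subtype) ((b.compl₁₂ T.subtype (σ ∘ₗ U.subtype)).compr₂ π) ⟨e, eT⟩ (fun a => ω0 a)
      (fun a k => U0 a (LinearMap.ext fun w => (ω2 a w).symm.trans (k (π w)))) (by have := Submodule.finrank_add_eq_of_isCompl c; omega)
      (fun t a k => or_iff_not_imp_left.2 fun z => U0 a ((h t t.2 (fun q => z (Subtype.ext q)) a).1 ((π0 _).1 k)))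
      (fun a => ?_) (fun t t' a => ?_) fun t t' a a' => ?_
    · show π (b e (σ a)) = a
      rw [bσ, π1]
    · show π (b t (σ (π (b t' (σ a))))) = π (b t' (σ (π (b t (σ a)))))
      rw [πS _ t.2, πS _ t'.2, ← sub_eq_zero, ← map_sub, π0, ← eΩ e he e0, map_sub, LinearMap.sub_apply, ← j2 _ (l t.2), ← j2 _ (l t'.2),
        j1 _ (l t.2) _ (l t'.2), sub_self]
    · have k : ∀ w v, n (m w (σ v)) t = ω (b t (σ w)) v - ω w (b t (σ v)) := fun w v => by
        rw [← J2, j3 _ (l t.2), bσ, sub_sub_cancel]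
      have := congrArg (n.flip t) (J t' (σ a) (σ a'))
      rw [map_add, map_add, anti (σ a') t', map_neg, LinearMap.neg_apply, map_neg, map_zero, flip_apply, flip_apply, flip_apply,
        hT.2 _ _ (l t'.2) _ (l t.2), add_zero, add_neg_eq_zero, k, k] at this
      show ω (π (b t (σ (π (b t' (σ a)))))) a' - ω (π (b t' (σ a))) (π (b t (σ a'))) =
        ω (π (b t (σ (π (b t' (σ a')))))) a - ω (π (b t' (σ a'))) (π (b t (σ a)))
      rw [πS _ t.2, πS _ t.2, ω1, ω1, ω1, ω1, ω2, ω2, this]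
  by_cases o : ker ω = ⊥
  · exact fin _ le_rfl (b0 e) (by omega) fun u hu u0 a => by
      rw [o]; exact ⟨inj u hu u0 a, fun k => by rw [(Submodule.mem_bot _).1 k]; simp⟩
  refine fin (ker n.flip ⊓ ker (b e)) inf_le_right ⟨he, b0 e⟩ ?_ fun u hu u0 a => by
    rw [← eΩ e he e0, ← j2 u hu.2, eΩ u hu.1 u0]
  have a := rk_le (b e) (ker n.flip) (ker ω) fun x hx => LinearMap.ext fun w => by
    rw [ωa, ← J2, (mE e).1 he, (mE x).1 hx]; simp
  obtain ⟨s, hs, s0⟩ := (Submodule.ne_bot_iff _).1 o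
  let φ := (b.flip (σ s)).domRestrict (ker (b e))
  have φs : Surjective φ := (injective_iff_surjective_of_finrank_eq_finrank (by omega)).1
    ((injective_iff_map_eq_zero _).2 fun u k => by_contra fun z => s0 (inj u u.2 (fun q => z (Subtype.ext q)) s k))
  have c : finrank (ZMod p) (ker ω) ≤ finrank (ZMod p) (((ker n.flip ⊓ ker (b e)).map (b.flip (σ s)))) :=
    Submodule.finrank_mono fun w hw => by
      obtain ⟨u, rfl⟩ := φs w
      refine ⟨u, ⟨(mE u).2 fun y => ?_, u.2⟩, rfl⟩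
      obtain ⟨v, rfl⟩ := sm s s0 y
      have := J2 s u v
      rwa [mem_ker.1 hs, j2 _ u.2, (eΩ e he e0 (b u (σ s))).2 hw, map_zero, LinearMap.zero_apply, LinearMap.zero_apply, zero_sub, neg_eq_zero] at this
  have := Submodule.finrank_map_le (b.flip (σ s)) (ker n.flip ⊓ ker (b e))
  have d := rk_le (b.flip (σ s)) (ker n.flip ⊓ ker (b e)) (ker ω) fun u hu => by
    by_cases z : u = 0
    · simp [z]
    · exact (eΩ e he e0 _).1 ((j2 u hu.2 s).symm.trans ((eΩ u hu.1 z s).2 hs))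
  rw [show ker n.flip ⊓ ker (b e) ⊓ ker (b.flip (σ s)) = ⊥ from eq_bot_iff.2 fun u hu => by_contra fun z =>
    s0 (inj u hu.1.2 z s hu.2), finrank_bot] at d
  omega

end H8.ND
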