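/-
Annihilator calculus for matrices and the parabolic case of the point stabilizer bound.
-/
import Cfsg.Agent.H22.SB3

set_option autoImplicit false
set_option linter.unusedSectionVars false

namespace H8.PZ
open Matrix H22.SB Module

universe u
variable {F : Type} [Field F] [Fintype F] {n : ℕ} {Φ : Fm F} {G : Type u} [Group G]

/-- the vector space -/
abbrev Vn (n : ℕ) (F : Type) := Fin n → F

theorem vmv (a l x : Vn n F) : vecMulVec a l *ᵥ x = (l ⬝ᵥ x) • a := by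
  ext i; simp [mulVec, dotProduct, vecMulVec_apply, Finset.sum_mul, mul_comm, mul_left_comm,
    Finset.mul_sum]

theorem mat_ext {x y : Mat n F} (h : ∀ v, x *ᵥ v = y *ᵥ v) : x = y := by
  ext i j; simpa using congrFun (h (Pi.single j 1)) i

theorem ex_fun (A : Submodule F (Vn n F)) {v : Vn n F} (hv : v ∉ A) :
    ∃ l : Vn n F, l ⬝ᵥ v = 1 ∧ ∀ w ∈ A, l ⬝ᵥ w = 0 := by
  obtain ⟨f, h1, h2⟩ := Submodule.exists_dual_map_eq_bot_of_notMem hv inferInstance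
  have key : ∀ w, (fun i => f (Pi.single i 1)) ⬝ᵥ w = f w := fun w => by
    conv_rhs => rw [pi_eq_sum_univ' w]
    simp [dotProduct, map_sum, mul_comm]
  refine ⟨(f v)⁻¹ • fun i => f (Pi.single i 1), ?_, fun w hw => ?_⟩
  · rw [smul_dotProduct, key, smul_eq_mul, inv_mul_cancel₀ h1]
  · have : f w ∈ A.map f := ⟨w, hw, rfl⟩
    rw [h2, Submodule.mem_bot] at this
    rw [smul_dotProduct, key, this, smul_zero]

/-- matrices with image in `A` -/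
def Im (A : Submodule F (Vn n F)) : Set (Mat n F) := {x | ∀ v, x *ᵥ v ∈ A}
/-- matrices killing `B` -/
def Ke (B : Submodule F (Vn n F)) : Set (Mat n F) := {x | ∀ v ∈ B, x *ᵥ v = 0}
/-- right annihilator -/
def ra (𝒳 : Set (Mat n F)) : Set (Mat n F) := {y | ∀ x ∈ 𝒳, x * y = 0}
/-- left annihilator -/
def la (𝒳 : Set (Mat n F)) : Set (Mat n F) := {y | ∀ x ∈ 𝒳, y * x = 0}

theorem nil_eq (A B : Submodule F (Vn n F)) : Nil A B = Im A ∩ Ke B := rfl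

theorem vmv_im {A : Submodule F (Vn n F)} {a : Vn n F} (h : a ∈ A) (l : Vn n F) :
    vecMulVec a l ∈ Im A := fun v => by rw [vmv]; exact A.smul_mem _ h
theorem vmv_ke {A : Submodule F (Vn n F)} (a : Vn n F) {l : Vn n F} (h : ∀ w ∈ A, l ⬝ᵥ w = 0) :
    vecMulVec a l ∈ Ke A := fun v hv => by rw [vmv, h v hv, zero_smul]

theorem ex_not {A : Submodule F (Vn n F)} (h : A ≠ ⊤) : ∃ v, v ∉ A := by
  by_contra! e; exact h (eq_top_iff.2 fun v _ => e v)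

theorem la_nil {A B : Submodule F (Vn n F)} (hB : B ≠ ⊤) : la (Nil A B) = Ke A := by
  ext y; constructor
  · intro h v hv
    obtain ⟨u, hu⟩ := ex_not hB
    obtain ⟨l, h1, h2⟩ := ex_fun B hu
    have := congrArg (· *ᵥ u) (h _ ⟨vmv_im hv l, vmv_ke v h2⟩)
    simpa only [← mulVec_mulVec, vmv, h1, one_smul, zero_mulVec] using this
  · intro h x hx
    exact mat_ext fun v => by rw [← mulVec_mulVec, h _ (hx.1 v), zero_mulVec]

theorem ra_nil {A B : Submodule F (Vn n F)} (hA : A ≠ ⊥) : ra (Nil A B) = Im B := by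
  ext y; constructor
  · intro h v
    by_contra hu
    obtain ⟨w, hw, w0⟩ := (Submodule.ne_bot_iff _).1 hA
    obtain ⟨l, h1, h2⟩ := ex_fun B hu
    have := congrArg (· *ᵥ v) (h _ ⟨vmv_im hw l, vmv_ke w h2⟩)
    simp only [← mulVec_mulVec, vmv, h1, one_smul, zero_mulVec] at this
    exact w0 this
  · intro h x hx
    exact mat_ext fun v => by rw [← mulVec_mulVec, hx.2 _ (h v), zero_mulVec]

theorem nil_bot (A : Submodule F (Vn n F)) : Nil A ⊥ = Im A := by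
  ext x; exact ⟨fun h => h.1, fun h => ⟨h, fun v hv => by rw [(Submodule.mem_bot F).1 hv, mulVec_zero]⟩⟩
theorem nil_top (A : Submodule F (Vn n F)) : Nil ⊤ A = Ke A := by
  ext x; exact ⟨fun h => h.2, fun h => ⟨fun _ => trivial, h⟩⟩

theorem la_im [Nonempty (Fin n)] (A : Submodule F (Vn n F)) : la (Im A) = Ke A := by
  rw [← nil_bot, la_nil bot_ne_top]
theorem ra_ke [Nonempty (Fin n)] (A : Submodule F (Vn n F)) : ra (Ke A) = Im A := by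
  rw [← nil_top, ra_nil top_ne_bot]

theorem im_inf (A B : Submodule F (Vn n F)) : Im (A ⊓ B) = Im A ∩ Im B := by
  ext x; exact ⟨fun h => ⟨fun v => (h v).1, fun v => (h v).2⟩, fun h v => ⟨h.1 v, h.2 v⟩⟩
theorem ke_sup (A B : Submodule F (Vn n F)) : Ke (A ⊔ B) = Ke A ∩ Ke B := by
  ext x
  refine ⟨fun h => ⟨fun v hv => h v (Submodule.mem_sup_left hv),
    fun v hv => h v (Submodule.mem_sup_right hv)⟩, fun h v hv => ?_⟩
  obtain ⟨a, ha, b, hb, rfl⟩ := Submodule.mem_sup.1 hv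
  rw [mulVec_add, h.1 a ha, h.2 b hb, add_zero]

theorem im_le [Nonempty (Fin n)] {A B : Submodule F (Vn n F)} (h : Im A ⊆ Im B) : A ≤ B := by
  intro v hv
  obtain ⟨i⟩ := ‹Nonempty (Fin n)›
  have := h (vmv_im hv (Pi.single i 1)) (Pi.single i 1)
  rwa [vmv, single_dotProduct, Pi.single_eq_same, one_mul, one_smul] at this
theorem ke_le [Nonempty (Fin n)] {A B : Submodule F (Vn n F)} (h : Ke A ⊆ Ke B) : B ≤ A := by
  intro v hv
  by_contra hu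
  obtain ⟨l, h1, h2⟩ := ex_fun A hu
  have := h (vmv_ke v h2) v hv
  rw [vmv, h1, one_smul] at this
  exact hu (this ▸ A.zero_mem)

/-- `h` maps `𝒳` onto `𝒴` -/
def Mp (X : Tx Φ G n) (h : G) (𝒳 𝒴 : Set (Mat n F)) : Prop := ∀ x, x ∈ 𝒳 ↔ X.th h x ∈ 𝒴

section Mp
variable {X : Tx Φ G n} {h h' : G} {𝒳 𝒴 𝒵 𝒳' 𝒴' : Set (Mat n F)}

theorem Mp.inv (m : Mp X h 𝒳 𝒴) : Mp X h⁻¹ 𝒴 𝒳 := fun y => by rw [m, Tx.th_inv']
theorem Mp.mul (m : Mp X h 𝒴 𝒵) (m' : Mp X h' 𝒳 𝒴) : Mp X (h * h') 𝒳 𝒵 := fun y => by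
  rw [m', m, Tx.th_th]
theorem Mp.inter (m : Mp X h 𝒳 𝒴) (m' : Mp X h 𝒳' 𝒴') : Mp X h (𝒳 ∩ 𝒳') (𝒴 ∩ 𝒴') := fun y =>
  and_congr (m y) (m' y)
theorem Mp.uq (m : Mp X h 𝒳 𝒴) (m' : Mp X h 𝒳 𝒵) : 𝒴 = 𝒵 := by
  ext y; rw [m.inv, m'.inv]
theorem Mp.ra (e : X.ε h = 1) (m : Mp X h 𝒳 𝒴) : Mp X h (ra 𝒳) (ra 𝒴) := fun y =>
  ⟨fun a x hx => by rw [← X.th_inv' h x, ← X.th_mul e, a _ ((m.inv x).1 hx), X.th_zero],
   fun a x hx => by rw [← X.th_eq_zero (h := h), X.th_mul e, a _ ((m x).1 hx)]⟩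
theorem Mp.la (e : X.ε h = 1) (m : Mp X h 𝒳 𝒴) : Mp X h (la 𝒳) (la 𝒴) := fun y =>
  ⟨fun a x hx => by rw [← X.th_inv' h x, ← X.th_mul e, a _ ((m.inv x).1 hx), X.th_zero],
   fun a x hx => by rw [← X.th_eq_zero (h := h), X.th_mul e, a _ ((m x).1 hx)]⟩
theorem Mp.rl (e : X.ε h ≠ 1) (m : Mp X h 𝒳 𝒴) : Mp X h (PZ.ra 𝒳) (PZ.la 𝒴) := fun y =>
  ⟨fun a x hx => by rw [← X.th_inv' h x, ← X.th_anti e, a _ ((m.inv x).1 hx), X.th_zero],
   fun a x hx => by rw [← X.th_eq_zero (h := h), X.th_anti e, a _ ((m x).1 hx)]⟩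
theorem Mp.lr (e : X.ε h ≠ 1) (m : Mp X h 𝒳 𝒴) : Mp X h (PZ.la 𝒳) (PZ.ra 𝒴) := fun y =>
  ⟨fun a x hx => by rw [← X.th_inv' h x, ← X.th_anti e, a _ ((m.inv x).1 hx), X.th_zero],
   fun a x hx => by rw [← X.th_eq_zero (h := h), X.th_anti e, a _ ((m x).1 hx)]⟩
theorem Mp.adj (hu : Φ.u) (m : Mp X h 𝒳 𝒴) : Mp X h (Φ.adj ⁻¹' 𝒳) (Φ.adj ⁻¹' 𝒴) := fun y => by
  rw [Set.mem_preimage, Set.mem_preimage, m, X.th_adj hu]
end Mp

/-- image of a subspace -/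
def ig (s : Φ.S (Fin n)) (A : Submodule F (Vn n F)) : Submodule F (Vn n F) :=
  A.map (mt s).mulVecLin

theorem mv_inv (s : Φ.S (Fin n)) (v : Vn n F) : mt s⁻¹ *ᵥ (mt s *ᵥ v) = v := by
  rw [mulVec_mulVec, mt_inv_mul, one_mulVec]
theorem mv_inv' (s : Φ.S (Fin n)) (v : Vn n F) : mt s *ᵥ (mt s⁻¹ *ᵥ v) = v := by
  rw [mulVec_mulVec, mt_mul_inv, one_mulVec]
theorem mv_inj (s : Φ.S (Fin n)) : Function.Injective (mt s *ᵥ · : Vn n F → Vn n F) :=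
  fun a b e => by rw [← mv_inv s a, ← mv_inv s b]; exact congrArg _ e
theorem mem_ig {s : Φ.S (Fin n)} {A : Submodule F (Vn n F)} {v : Vn n F} :
    v ∈ ig s A ↔ mt s⁻¹ *ᵥ v ∈ A :=
  ⟨by rintro ⟨w, hw, rfl⟩; rw [mulVecLin_apply, mv_inv]; exact hw,
   fun h => ⟨_, h, mv_inv' s v⟩⟩
theorem mv_ig (s : Φ.S (Fin n)) {A : Submodule F (Vn n F)} {v : Vn n F} (h : v ∈ A) :
    mt s *ᵥ v ∈ ig s A := ⟨v, h, rfl⟩
theorem ig_mul (s t : Φ.S (Fin n)) (A : Submodule F (Vn n F)) : ig (s * t) A = ig s (ig t A) := by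
  ext v; simp only [mem_ig, _root_.mul_inv_rev, mt_mul, mulVec_mulVec]
theorem ig_rank (s : Φ.S (Fin n)) (A : Submodule F (Vn n F)) : finrank F (ig s A) = finrank F A :=
  (LinearEquiv.finrank_eq (Submodule.equivMapOfInjective (mt s).mulVecLin (mv_inj s) A)).symm
theorem ig_mono (s : Φ.S (Fin n)) {A B : Submodule F (Vn n F)} (h : A ≤ B) : ig s A ≤ ig s B :=
  Submodule.map_mono h
theorem ig_eq {s : Φ.S (Fin n)} {A : Submodule F (Vn n F)} (h : ∀ v ∈ A, mt s *ᵥ v ∈ A) :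
    ig s A = A :=
  Submodule.eq_of_le_of_finrank_eq (by rintro _ ⟨v, hv, rfl⟩; exact h v hv) (ig_rank s A)
theorem inv_of_maps {s : Φ.S (Fin n)} {A : Submodule F (Vn n F)} (h : ∀ v ∈ A, mt s *ᵥ v ∈ A)
    {v : Vn n F} (hv : v ∈ A) : mt s⁻¹ *ᵥ v ∈ A := mem_ig.1 ((ig_eq h).symm ▸ hv)

theorem mp_im (X : Tx Φ G n) (s : Φ.S (Fin n)) (A : Submodule F (Vn n F)) :
    Mp X (X.π s) (Im A) (Im (ig s A)) := fun x => by
  rw [X.th_pi]
  refine ⟨fun h v => ?_, fun h v => ?_⟩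
  · rw [← mulVec_mulVec, ← mulVec_mulVec]; exact mv_ig s (h _)
  · have := mem_ig.1 (h (mt s *ᵥ v))
    simpa only [← mulVec_mulVec, mv_inv] using this
theorem mp_ke (X : Tx Φ G n) (s : Φ.S (Fin n)) (A : Submodule F (Vn n F)) :
    Mp X (X.π s) (Ke A) (Ke (ig s A)) := fun x => by
  rw [X.th_pi]
  refine ⟨fun h v hv => ?_, fun h v hv => ?_⟩
  · rw [← mulVec_mulVec, ← mulVec_mulVec, h _ (mem_ig.1 hv), mulVec_zero]
  · have := h _ (mv_ig s hv)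
    simp only [← mulVec_mulVec, mv_inv] at this
    exact mv_inj s (by simpa using this)

theorem st_nil (X : Tx Φ G n) {A B : Submodule F (Vn n F)} (hA : A ≠ ⊥) (hB : B ≠ ⊤)
    (s : Φ.S (Fin n)) : (s : GL (Fin n) F) ∈ St (Nil A B) ↔
    (∀ v ∈ A, mt s *ᵥ v ∈ A) ∧ ∀ v ∈ B, mt s *ᵥ v ∈ B := by
  have := X.ne
  have e : (s : GL (Fin n) F) ∈ St (Nil A B) ↔ Mp X (X.π s) (Nil A B) (Nil A B) :=
    forall_congr' fun x => by rw [Tx.th_pi]; rfl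
  rw [e]
  constructor
  · intro m
    have h1 := m.la (X.επ s)
    have h2 := m.ra (X.επ s)
    rw [la_nil hB] at h1; rw [ra_nil hA] at h2
    exact ⟨fun v hv => ke_le (h1.uq (mp_ke X s A)).le (mv_ig s hv),
      fun v hv => im_le (h2.uq (mp_im X s B)).ge (mv_ig s hv)⟩
  · rintro ⟨h1, h2⟩
    have := (mp_im X s A).inter (mp_ke X s B)
    rwa [ig_eq h1, ig_eq h2] at this

theorem ns (ir : IR) : NS.{u} := by
  intro F _ _ Φ G _ _ n X A B hA hAB hB hi s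
  rw [← st_nil X.toTx hA hB]
  refine X.MX hi ?_ s
  by_contra hp
  simp only [Pr, not_exists, not_not] at hp
  rcases ir F Φ n X.n2 X.u3 A fun s => ((st_nil X.toTx hA hB s).1 (hp s)).1 with e | e
  · exact hA e
  · exact hB (top_le_iff.1 (e ▸ hAB))

end H8.PZ
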