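/-
The invariant flag in defining characteristic.
-/
import Cfsg.Agent.H8.PZ1

set_option autoImplicit false
set_option linter.unusedSectionVars false

namespace H8.PZ
open Matrix H22.SB Module

universe u
variable {F : Type} [Field F] [Fintype F] {n : ℕ} {Φ : Fm F} {G : Type u} [Group G] [Finite G]

theorem p_dvd_card (Φ : Fm F) : Φ.p ∣ Nat.card F := by
  have := Φ.ch
  obtain ⟨m, -, hm⟩ := FiniteField.card F Φ.p
  rw [Nat.card_eq_fintype_card, hm]; exact dvd_pow_self _ m.ne_zero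

theorem eig (X : Cx Φ G n) (hr : X.r = Φ.p) {B : Submodule F (Vn n F)} (hB : B ≠ ⊥)
    (hi : ∀ x ∈ X.R, ∀ v ∈ B, mt x *ᵥ v ∈ B) :
    ∃ v ∈ B, v ≠ 0 ∧ ∀ x ∈ X.R, ∃ c : F, mt x *ᵥ v = c • v := by
  obtain ⟨P⟩ : Nonempty (Sylow X.r X.R) := inferInstance
  have hs : Function.Surjective (X.π.subgroupMap X.R) := X.π.subgroupMap_surjective X.R
  have hP : (P : Subgroup X.R).map (X.π.subgroupMap X.R) = ⊤ :=
    ((P.mapSurjective hs).is_maximal' (X.Rr.to_subgroup ⊤) le_top).symm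
  letI : MulAction (P : Subgroup X.R) B :=
    { smul := fun y v => ⟨mt y.1.1 *ᵥ v.1, hi _ y.1.2 _ v.2⟩
      one_smul := fun v => Subtype.ext (one_mulVec _)
      mul_smul := fun a b v => Subtype.ext (mulVec_mulVec v.1 (mt a.1.1) (mt b.1.1)).symm }
  have hd : X.r ∣ Nat.card B := by
    rw [Module.natCard_eq_pow_finrank (K := F), hr]
    exact (p_dvd_card Φ).trans (dvd_pow_self _ (by rwa [Ne, Submodule.finrank_eq_zero]))
  obtain ⟨v, hv, v0⟩ := P.isPGroup'.exists_fixed_point_of_prime_dvd_card_of_fixed_point B hd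
    (a := 0) (fun y => Subtype.ext (mulVec_zero (mt y.1.1)))
  refine ⟨v, v.2, fun e => v0 (Subtype.ext e.symm), fun x hx => ?_⟩
  obtain ⟨y, hy, e⟩ : X.π.subgroupMap X.R ⟨x, hx⟩ ∈ (P : Subgroup X.R).map (X.π.subgroupMap X.R) :=
    hP ▸ Subgroup.mem_top _
  obtain ⟨a, ha⟩ := X.pi_eq.1 (congrArg Subtype.val e).symm
  have : mt y.1 *ᵥ v.1 = v.1 := congrArg Subtype.val (hv ⟨y, hy⟩)
  exact ⟨a, by rw [show mt x = a • mt y.1 from ha, smul_mulVec, this]⟩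

/-- the nilpotent parts of the elements of `R` -/
def J (X : Cx Φ G n) : Set (Mat n F) := {y | IsNilpotent y ∧ ∃ x ∈ X.R, ∃ b : F, y = mt x - b • 1}

theorem ex_J (X : Cx Φ G n) (hr : X.r = Φ.p) {x : Φ.S (Fin n)} (hx : x ∈ X.R) :
    ∃ b : F, mt x - b • 1 ∈ J X := by
  obtain ⟨j, a, ha⟩ := X.R_pow hx
  have := Φ.ch
  have := Fact.mk Φ.pp
  have := X.ne
  obtain ⟨b, rfl⟩ := (iterateFrobeniusEquiv F Φ.p j).surjective a
  refine ⟨b, ⟨Φ.p ^ j, ?_⟩, x, hx, b, rfl⟩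
  have : CharP (Mat n F) Φ.p := charP_of_injective_algebraMap (algebraMap F (Mat n F)).injective _
  rw [sub_pow_char_pow_of_commute _ _ (by simp [Commute, SemiconjBy]), ← hr, ha, smul_pow, one_pow, hr]
  simp [iterateFrobenius_def]

theorem mp_J (X : Cx Φ G n) {h : G} (hh : h ∈ X.H) : Mp X.toTx h (J X) (J X) :=
  Tx.Iv.iff (K := X.H) _ (by
    rintro h hh _ ⟨⟨m, hm⟩, x, hx, b, rfl⟩
    obtain ⟨y, hy, e, -⟩ := X.thR hh hx
    exact ⟨⟨m, by rw [← X.th_pow, hm, X.th_zero]⟩, y, hy, X.σ h b,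
      by rw [X.th_sub, X.th_smul, X.th_one, e]⟩) hh

/-- common kernel -/
def Ak (𝒳 : Set (Mat n F)) : Submodule F (Vn n F) where
  carrier := {v | ∀ y ∈ 𝒳, y *ᵥ v = 0}
  add_mem' := fun {a b} ha hb y hy => by rw [mulVec_add, ha y hy, hb y hy, add_zero]
  zero_mem' := fun y _ => mulVec_zero _
  smul_mem' := fun t a ha y hy => by rw [mulVec_smul, ha y hy, smul_zero]
/-- sum of the images -/
def Bi (𝒳 : Set (Mat n F)) : Submodule F (Vn n F) := Submodule.span F {w | ∃ y ∈ 𝒳, ∃ v, w = y *ᵥ v}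

theorem ra_eq (𝒳 : Set (Mat n F)) : ra 𝒳 = Im (Ak 𝒳) := by
  ext y
  exact ⟨fun h v x hx => by rw [mulVec_mulVec, h x hx, zero_mulVec],
    fun h x hx => mat_ext fun v => by rw [← mulVec_mulVec, h v x hx, zero_mulVec]⟩
theorem la_eq (𝒳 : Set (Mat n F)) : la 𝒳 = Ke (Bi 𝒳) := by
  ext y
  refine ⟨fun h v hv => ?_, fun h x hx => mat_ext fun v => by
    rw [← mulVec_mulVec, h _ (Submodule.subset_span ⟨x, hx, v, rfl⟩), zero_mulVec]⟩
  have : Bi 𝒳 ≤ LinearMap.ker y.mulVecLin := Submodule.span_le.2 (by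
    rintro _ ⟨x, hx, v, rfl⟩
    exact show y *ᵥ (x *ᵥ v) = 0 by rw [mulVec_mulVec, h x hx, zero_mulVec])
  exact this hv

theorem J_ne (X : Cx Φ G n) (hr : X.r = Φ.p) : ∃ y ∈ J X, ∃ v, y *ᵥ v ≠ 0 := by
  obtain ⟨x, hx, hs⟩ := X.Rne
  obtain ⟨b, hb⟩ := ex_J X hr hx
  refine ⟨_, hb, ?_⟩
  by_contra! e
  exact hs ⟨b, sub_eq_zero.1 (mat_ext fun v => by rw [e, zero_mulVec])⟩

theorem nil_eig {y : Mat n F} (hy : IsNilpotent y) {v : Vn n F} {c : F} (e : y *ᵥ v = c • v) :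
    y *ᵥ v = 0 := by
  obtain ⟨m, hm⟩ := hy
  have : ∀ k : ℕ, y ^ k *ᵥ v = c ^ k • v := fun k => by
    induction k with
    | zero => simp
    | succ k ih => rw [pow_succ', ← mulVec_mulVec, ih, mulVec_smul, e, smul_smul, pow_succ]
  have h := this m
  rw [hm, zero_mulVec, eq_comm, smul_eq_zero] at h
  rcases h with h | h
  · rw [e, pow_eq_zero_iff'.1 h |>.1, zero_smul]
  · rw [h, mulVec_zero]

theorem AB_ne (X : Cx Φ G n) (hr : X.r = Φ.p) : Ak (J X) ⊓ Bi (J X) ≠ ⊥ := by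
  obtain ⟨y, hy, v, hv⟩ := J_ne X hr
  obtain ⟨w, hw, w0, he⟩ := eig X hr (B := Bi (J X)) ((Submodule.ne_bot_iff _).2
    ⟨_, Submodule.subset_span ⟨y, hy, v, rfl⟩, hv⟩) (fun x hx v hv => by
      have : Bi (J X) ≤ (Bi (J X)).comap (mt x).mulVecLin := Submodule.span_le.2 (by
        rintro _ ⟨z, hz, v, rfl⟩
        refine Submodule.subset_span ⟨_, (mp_J X (X.RH x hx) z).1 hz, mt x *ᵥ v, ?_⟩
        rw [X.th_pi]; simp only [← mulVec_mulVec, mv_inv, mulVecLin_apply])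
      exact this hv)
  refine (Submodule.ne_bot_iff _).2 ⟨w, ⟨?_, hw⟩, w0⟩
  rintro _ ⟨hn, x, hx, b, rfl⟩
  obtain ⟨c, hc⟩ := he x hx
  exact nil_eig hn (c := c - b) (by rw [sub_mulVec, hc, smul_mulVec, one_mulVec, sub_smul])

theorem im_perp (A : Submodule F (Vn n F)) : Im (Φ.perp A) = ra (Φ.adj ⁻¹' Im A) := by
  ext y
  refine ⟨fun h z hz => mat_ext fun v => (Φ.B_nd fun u => ?_).trans (zero_mulVec v).symm, fun h v w hw => ?_⟩
  · rw [← mulVec_mulVec, Φ.B_mulVec, h v _ (hz u)]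
  · have h1 := h (Φ.adj (vecMulVec w (Φ.c ∘ (y *ᵥ v)))) (by
      rw [Set.mem_preimage, Φ.adj_adj]; exact vmv_im hw _)
    have h2 := congrArg (· *ᵥ v) h1
    have h3 : Φ.c ∘ Φ.c ∘ (y *ᵥ v) = y *ᵥ v := funext fun i => Φ.c_c _
    simp only [← mulVec_mulVec, Φ.adj_vecMulVec, Φ.vmv_mulVec, zero_mulVec, h3, smul_eq_zero] at h2
    rcases h2 with h2 | h2
    · exact h2
    · rw [h2, Φ.B_zero_left]

theorem perp_ne {A : Submodule F (Vn n F)} (h : A ≠ ⊥) : Φ.perp A ≠ ⊤ := fun e => by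
  obtain ⟨w, hw, w0⟩ := (Submodule.ne_bot_iff _).1 h
  exact w0 (Φ.B_nd fun v => by
    rw [← Φ.B_symm, (show v ∈ Φ.perp A from e ▸ trivial) w hw, map_zero])

theorem pa : PA.{u} := by
  intro F _ _ Φ G _ _ n X hr
  have := X.ne
  have hW := AB_ne X hr
  set A := Ak (J X) with hA
  set B := Bi (J X) with hB
  have l1 : ∀ h ∈ X.H, X.ε h = 1 → Mp X.toTx h (Im A) (Im A) := fun h hh e => by
    rw [hA, ← ra_eq]; exact (mp_J X hh).ra e
  have l2 : ∀ h ∈ X.H, X.ε h = 1 → Mp X.toTx h (Ke B) (Ke B) := fun h hh e => by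
    rw [hB, ← la_eq]; exact (mp_J X hh).la e
  have l3 : ∀ h ∈ X.H, X.ε h = 1 → Mp X.toTx h (Ke A) (Ke A) := fun h hh e => by
    rw [← la_im]; exact (l1 h hh e).la e
  have l4 : ∀ h ∈ X.H, X.ε h = 1 → Mp X.toTx h (Im B) (Im B) := fun h hh e => by
    rw [← ra_ke]; exact (l2 h hh e).ra e
  by_cases hu : Φ.u
  · refine ⟨A ⊓ B, Φ.perp (A ⊓ B), hW, fun v hv w hw => ?_, perp_ne hW, fun h hh x hx => ?_,
      fun _ => rfl, fun e => (e hu).elim⟩
    · have : B ≤ Φ.perp (Submodule.span F {w}) := Submodule.span_le.2 (by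
        rintro _ ⟨_, ⟨⟨m, hm⟩, x, hx, b, rfl⟩, v, rfl⟩ w' hw'
        obtain ⟨t, rfl⟩ := Submodule.mem_span_singleton.1 hw'
        rw [Φ.B_smul_right, Φ.B_mulVec, hw.1 _ ⟨⟨m, by rw [← Φ.adj_pow, hm, Φ.adj_zero]⟩, x⁻¹,
          inv_mem hx, Φ.c b, by rw [Φ.adj_sub, Φ.adj_smul, Φ.adj_one, mt_adj hu]⟩,
          Φ.B_zero_right, mul_zero])
      exact this hv.2 w (Submodule.mem_span_singleton_self w)
    · have e := X.εU hu h
      have m1 : Mp X.toTx h (Im (A ⊓ B)) (Im (A ⊓ B)) := by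
        rw [im_inf]; exact (l1 h hh e).inter (l4 h hh e)
      have m2 := ((m1.adj hu).ra e).la e
      rw [← im_perp, la_im] at m2
      exact ((m1.inter m2) x).1 hx
  by_cases ha : ∃ h ∈ X.H, X.ε h ≠ 1
  · have a1 : ∀ h ∈ X.H, X.ε h ≠ 1 → Mp X.toTx h (Im A) (Ke B) := fun h hh e => by
      rw [hA, hB, ← ra_eq, ← la_eq]; exact (mp_J X hh).rl e
    have a2 : ∀ h ∈ X.H, X.ε h ≠ 1 → Mp X.toTx h (Ke B) (Im A) := fun h hh e => by
      rw [hA, hB, ← ra_eq, ← la_eq]; exact (mp_J X hh).lr e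
    have a3 : ∀ h ∈ X.H, X.ε h ≠ 1 → Mp X.toTx h (Ke A) (Im B) := fun h hh e => by
      rw [← la_im A, ← ra_ke B]; exact (a1 h hh e).lr e
    have a4 : ∀ h ∈ X.H, X.ε h ≠ 1 → Mp X.toTx h (Im B) (Ke A) := fun h hh e => by
      rw [← la_im A, ← ra_ke B]; exact (a2 h hh e).rl e
    refine ⟨A ⊓ B, A ⊔ B, hW, inf_le_sup, fun e => ?_, fun h hh x hx => ?_, fun e => (hu e).elim,
      fun _ => Or.inr ha⟩
    · obtain ⟨h, hh, e'⟩ := ha
      obtain ⟨w, hw, w0⟩ := (Submodule.ne_bot_iff _).1 hW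
      obtain ⟨l, hl, -⟩ := ex_fun ⊥ (v := w) w0
      have h1 := (((a4 h hh e').inter (a1 h hh e')) _).1 ⟨vmv_im hw.2 l, vmv_im hw.1 l⟩
      rw [← ke_sup, e] at h1
      have h2 := X.th_eq_zero.1 (mat_ext fun v => (h1 v trivial).trans (zero_mulVec v).symm)
      have h3 := vmv w l w
      rw [h2, hl, one_smul, zero_mulVec] at h3
      exact w0 h3.symm
    · rw [nil_eq, im_inf, ke_sup] at hx ⊢
      by_cases e : X.ε h = 1
      · exact ((((l1 h hh e).inter (l4 h hh e)).inter ((l3 h hh e).inter (l2 h hh e))) x).1 hx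
      · exact ⟨⟨(a2 h hh e x).1 hx.2.2, (a3 h hh e x).1 hx.2.1⟩, (a4 h hh e x).1 hx.1.2,
          (a1 h hh e x).1 hx.1.1⟩
  · push Not at ha
    refine ⟨A, A, fun e => hW (by rw [e, bot_inf_eq]), le_rfl, fun e => ?_, fun h hh x hx => ?_,
      fun e => (hu e).elim, fun _ => Or.inl rfl⟩
    · obtain ⟨y, hy, v, hv⟩ := J_ne X hr
      exact hv ((show v ∈ A from e ▸ trivial) y hy)
    · exact (((l1 h hh (ha h hh)).inter (l3 h hh (ha h hh))) x).1 hx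

end H8.PZ
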