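/-
Counting images of subspaces; parabolic stabilizers in the linear case.
-/
import Cfsg.Agent.H8.PZ1

set_option autoImplicit false
set_option linter.unusedSectionVars false

namespace H8.PZ
open Matrix H22.SB Module

universe u
variable {F : Type} [Field F] [Fintype F] {n : ℕ} {Φ : Fm F} {G : Type u} [Group G] [Finite G]

theorem fib {Y α β : Type*} [Finite Y] [Finite β] (Z : Y → α) (T : α → Set β) (c : ℕ)
    (hT : ∀ y, Nat.card (T (Z y)) ≤ c) (g : Y → β) (hg : ∀ y, g y ∈ T (Z y))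
    (hi : ∀ y y', Z y = Z y' → g y = g y' → y = y') : Nat.card Y ≤ Nat.card (Set.range Z) * c := by
  have := Fintype.ofFinite (Set.range Z)
  calc Nat.card Y ≤ Nat.card (Σ a : Set.range Z, T a.1) :=
        Nat.card_le_card_of_injective (fun y => ⟨⟨Z y, y, rfl⟩, g y, hg y⟩) fun y y' e =>
          hi y y' (congrArg (fun s : (Σ a : Set.range Z, T a.1) => s.1.1) e)
            (congrArg (fun s : (Σ a : Set.range Z, T a.1) => s.2.1) e)
    _ = ∑ a : Set.range Z, Nat.card (T a.1) := Nat.card_sigma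
    _ ≤ ∑ _a : Set.range Z, c := Finset.sum_le_sum (by rintro ⟨_, y, rfl⟩ -; exact hT y)
    _ = _ := by simp

/-- annihilator -/
def An (A : Submodule F (Vn n F)) : Submodule F (Vn n F) :=
  LinearMap.BilinForm.orthogonal (dotProductBilin F F) A
theorem mem_An {A : Submodule F (Vn n F)} {l : Vn n F} : l ∈ An A ↔ ∀ w ∈ A, l ⬝ᵥ w = 0 :=
  forall₂_congr fun w _ => by rw [dotProduct_comm]; rfl
theorem An_rank (A : Submodule F (Vn n F)) : finrank F A + finrank F (An A) = n := by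
  have h := LinearMap.BilinForm.finrank_add_finrank_orthogonal' (B := dotProductBilin F F) A
  have : LinearMap.ker (dotProductBilin F F : Vn n F →ₗ[F] Vn n F →ₗ[F] F) = ⊥ :=
    LinearMap.ker_eq_bot'.2 fun v hv => funext fun i => by
      simpa using LinearMap.congr_fun hv (Pi.single i 1)
  rw [this, inf_bot_eq, finrank_bot, add_zero, Module.finrank_fin_fun] at h
  exact h
theorem rank_le (A : Submodule F (Vn n F)) : finrank F A ≤ n := by have := An_rank A; omega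
theorem mem_An1 {a l : Vn n F} : l ∈ An (F ∙ a) ↔ l ⬝ᵥ a = 0 :=
  mem_An.trans ⟨fun h => h a (Submodule.mem_span_singleton_self a), fun h w hw => by
    obtain ⟨t, rfl⟩ := Submodule.mem_span_singleton.1 hw; rw [dotProduct_smul, h, smul_zero]⟩
theorem span1 (a : Vn n F) : finrank F (F ∙ a) ≤ 1 := by
  simpa using finrank_span_le_card (R := F) ({a} : Set (Vn n F))
theorem hyp_rank (Y : Submodule F (Vn n F)) (a : Vn n F) :
    finrank F Y ≤ finrank F ↥(Y ⊓ An (F ∙ a)) + 1 := by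
  have h1 := Submodule.finrank_sup_add_finrank_inf_eq Y (An (F ∙ a))
  have h2 := An_rank (F ∙ a)
  have h3 := span1 a
  have h4 := rank_le (Y ⊔ An (F ∙ a))
  omega
theorem card_sub (A : Submodule F (Vn n F)) : Nat.card A = Nat.card F ^ finrank F A :=
  Module.natCard_eq_pow_finrank
theorem pow_cancel {Q N a b e : ℕ} (hQ : 1 < Q) (h : Q ^ a ≤ N * Q ^ b) (he : e + b ≤ a) :
    Q ^ e ≤ N :=
  Nat.le_of_mul_le_mul_right (((pow_add Q e b).symm.le.trans (Nat.pow_le_pow_right hQ.le he)).trans h)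
    (Nat.pow_pos (by omega))

theorem cntA {U A : Submodule F (Vn n F)} {w : Vn n F} (hw : w ∉ A) (m : An U → Φ.S (Fin n))
    (hm : ∀ μ, ∀ v ∈ A, mt (m μ) *ᵥ v = v + (μ.1 ⬝ᵥ v) • w) {e : ℕ}
    (he : e + finrank F ↥(U ⊓ A) ≤ finrank F A) :
    Nat.card F ^ e ≤ Nat.card (Set.range fun μ => ig (m μ) A) := by
  have key : ∀ μ ν, ig (m μ) A = ig (m ν) A → μ.1 - ν.1 ∈ An (U ⊔ A) := fun μ ν h => by
    refine mem_An.2 fun x hx => ?_
    obtain ⟨a, ha, v, hv, rfl⟩ := Submodule.mem_sup.1 hx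
    obtain ⟨v', hv', e'⟩ : mt (m μ) *ᵥ v ∈ ig (m ν) A := h ▸ mv_ig _ hv
    rw [mulVecLin_apply, hm ν _ hv', hm μ _ hv] at e'
    have h1 : (μ.1 ⬝ᵥ v - ν.1 ⬝ᵥ v') • w = v' - v := by rw [sub_smul]; linear_combination -e'
    have h2 : μ.1 ⬝ᵥ v - ν.1 ⬝ᵥ v' = 0 := by
      by_contra h0; exact hw ((A.smul_mem_iff h0).1 (h1 ▸ A.sub_mem hv' hv))
    rw [h2, zero_smul, eq_comm, sub_eq_zero] at h1
    rw [dotProduct_add, mem_An.1 ((An U).sub_mem μ.2 ν.2) a ha, sub_dotProduct, zero_add, ← h2, h1]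
  have h := fib (fun μ => ig (m μ) A) (fun _ => (An (U ⊔ A) : Set (Vn n F))) _ (fun _ => le_rfl)
    (fun μ => μ.1 - (Function.invFun (fun μ => ig (m μ) A) (ig (m μ) A)).1)
    (fun μ => key _ _ (Function.invFun_eq (f := fun μ => ig (m μ) A) ⟨μ, rfl⟩).symm)
    (fun y y' e1 e2 => Subtype.ext (by rw [e1] at e2; exact sub_left_injective e2))
  rw [card_sub, SetLike.coe_sort_coe, card_sub] at h
  have h1 := An_rank U
  have h2 := An_rank (U ⊔ A)
  have h3 := Submodule.finrank_sup_add_finrank_inf_eq U A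
  exact pow_cancel Finite.one_lt_card h (by omega)

theorem cntB {Y A : Submodule F (Vn n F)} {l : Vn n F} (m : Y → Φ.S (Fin n)) (v : Y → Vn n F)
    (hv : Function.Injective v) (hl : ∀ y, l ⬝ᵥ v y = 1) (hm : ∀ y, v y ∈ ig (m y) A) {e : ℕ}
    (he : e + finrank F A ≤ finrank F Y + 1) :
    Nat.card F ^ e ≤ Nat.card (Set.range fun y => ig (m y) A) := by
  let r : Submodule F (Vn n F) → Y := Function.invFun fun y => ig (m y) A
  have hr : ∀ y, ig (m (r (ig (m y) A))) A = ig (m y) A := fun y =>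
    Function.invFun_eq (f := fun y => ig (m y) A) ⟨y, rfl⟩
  have h := fib (fun y : Y × F => ig (m y.1) A) (fun B => (B : Set (Vn n F))) _
    (fun y => by rw [SetLike.coe_sort_coe, card_sub, ig_rank])
    (fun y => v y.1 + y.2 • v (r (ig (m y.1) A)))
    (fun y => Submodule.add_mem _ (hm _) (Submodule.smul_mem _ _ ((hr y.1).le (hm _))))
    (fun y y' e1 e2 => by
      rw [e1] at e2
      have h1 := congrArg (l ⬝ᵥ ·) e2
      simp only [dotProduct_add, dotProduct_smul, hl, smul_eq_mul, mul_one, add_right_inj] at h1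
      rw [h1, add_left_inj] at e2
      exact Prod.ext (hv e2) h1)
  have e1 : (Set.range fun y : Y × F => ig (m y.1) A) = Set.range fun y => ig (m y) A :=
    Prod.fst_surjective.range_comp (fun y => ig (m y) A)
  rw [Nat.card_prod, card_sub, ← pow_succ, e1] at h
  exact pow_cancel Finite.one_lt_card h he

theorem D_fix (X : Cx Φ G n) {A : Submodule F (Vn n F)} (hA : ∀ m ∈ X.M, ∀ v ∈ A, mt m *ᵥ v ∈ A)
    {y : Φ.S (Fin n)} (hy : y ∈ X.D) : ig y (ig X.s A) = ig X.s A := by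
  have := ig_eq (hA _ (X.mem_D.1 hy).2)
  rw [← ig_mul, show y * X.s = X.s * (X.s⁻¹ * y * X.s) by group, ig_mul, this]

theorem ob1 (X : Cx Φ G n) {A : Submodule F (Vn n F)} (hA : ∀ m ∈ X.M, ∀ v ∈ A, mt m *ᵥ v ∈ A)
    {Y : Type} (m : Y → Φ.S (Fin n)) (hm : ∀ y, m y ∈ X.M) :
    Nat.card (Set.range fun y => ig (m y) (ig X.s A)) ≤ X.d0 :=
  (Nat.card_mono (Set.toFinite _) (by rintro _ ⟨y, rfl⟩; exact ⟨_, hm y, rfl⟩)).trans
    (X.OB (fun m => ig m (ig X.s A)) fun m _ y hy => by rw [ig_mul, D_fix X hA hy])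

theorem ob2 (X : Cx Φ G n) {A B : Submodule F (Vn n F)} (hA : ∀ m ∈ X.M, ∀ v ∈ A, mt m *ᵥ v ∈ A)
    (hB : ∀ m ∈ X.M, ∀ v ∈ B, mt m *ᵥ v ∈ B) {Y Y' : Type} (m : Y → Φ.S (Fin n))
    (hm : ∀ y, m y ∈ X.M) (m' : Y' → Φ.S (Fin n)) (hm' : ∀ y, m' y ∈ X.M)
    (h1 : ∀ y y', ig (m' y') (ig (m y) (ig X.s A)) = ig (m y) (ig X.s A))
    (h2 : ∀ y, ig (m y) (ig X.s B) = ig X.s B) :
    Nat.card (Set.range fun y => ig (m y) (ig X.s A)) *
      Nat.card (Set.range fun y => ig (m' y) (ig X.s B)) ≤ X.d0 := by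
  rw [← Nat.card_prod, ← Nat.card_congr (Equiv.Set.prod _ _)]
  refine (Nat.card_mono (Set.toFinite _) ?_).trans
    (X.OB (fun m => (ig m (ig X.s A), ig m (ig X.s B))) fun m _ y hy => by
      rw [ig_mul, ig_mul m y, D_fix X hA hy, D_fix X hB hy])
  rintro ⟨_, _⟩ ⟨⟨y, rfl⟩, y', rfl⟩
  exact ⟨m' y' * m y, mul_mem (hm' _) (hm _), by simp only [ig_mul, h1, h2]⟩

theorem det1 (a l : Vn n F) : (1 + vecMulVec a l).det = 1 + l ⬝ᵥ a := by
  rw [vecMulVec_eq Unit, det_one_add_replicateCol_mul_replicateRow]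

/-- transvection -/
noncomputable def tS (hu : ¬ Φ.u) (a l : Vn n F) (h : l ⬝ᵥ a = 0) : Φ.S (Fin n) :=
  Φ.mkS (1 + vecMulVec a l) (by rw [det1, h, add_zero]) fun e => (hu e).elim
theorem tS_mv (hu : ¬ Φ.u) (a l : Vn n F) (h : l ⬝ᵥ a = 0) (v : Vn n F) :
    mt (tS hu a l h) *ᵥ v = v + (l ⬝ᵥ v) • a := by
  rw [tS, Fm.mt_mkS, add_mulVec, one_mulVec, vmv]
theorem tS_mem (hu : ¬ Φ.u) {a l : Vn n F} (h : l ⬝ᵥ a = 0) {A : Submodule F (Vn n F)}
    (hA : a ∈ A ∨ ∀ w ∈ A, l ⬝ᵥ w = 0) : ∀ v ∈ A, mt (tS hu a l h) *ᵥ v ∈ A := fun v hv => by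
  rw [tS_mv]
  rcases hA with hA | hA
  · exact A.add_mem hv (A.smul_mem _ hA)
  · rwa [hA v hv, zero_smul, add_zero]

/-- family of type A -/
noncomputable def fA (hu : ¬ Φ.u) {U : Submodule F (Vn n F)} {w : Vn n F} (hw : w ∈ U) (μ : An U) :
    Φ.S (Fin n) := tS hu w μ (mem_An.1 μ.2 w hw)
/-- family of type B -/
noncomputable def fB (hu : ¬ Φ.u) (Y : Submodule F (Vn n F)) (l : Vn n F) (y : ↥(Y ⊓ An (F ∙ l))) :
    Φ.S (Fin n) := tS hu y l (by rw [dotProduct_comm]; exact mem_An1.1 y.2.2)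

theorem cA (hu : ¬ Φ.u) {U A : Submodule F (Vn n F)} {w : Vn n F} (hw : w ∈ U) (hA : w ∉ A) {e : ℕ}
    (he : e + finrank F ↥(U ⊓ A) ≤ finrank F A) :
    Φ.q ^ e ≤ Nat.card (Set.range fun μ => ig (fA hu hw μ) A) := by
  rw [← Φ.cL hu, ← Nat.card_eq_fintype_card]
  exact cntA hA _ (fun μ v _ => tS_mv hu _ _ _ v) he

theorem cB (hu : ¬ Φ.u) {Y A : Submodule F (Vn n F)} {l w : Vn n F} (hw : w ∈ A) (hl : l ⬝ᵥ w = 1)
    {e : ℕ} (he : e + finrank F A ≤ finrank F Y) :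
    Φ.q ^ e ≤ Nat.card (Set.range fun y => ig (fB hu Y l y) A) := by
  rw [← Φ.cL hu, ← Nat.card_eq_fintype_card]
  refine cntB (l := l) _ (fun y => w + y.1) (fun y y' e => Subtype.ext (add_left_cancel e))
    (fun y => ?_) (fun y => ⟨w, hw, ?_⟩) (he.trans (hyp_rank Y l))
  · rw [dotProduct_add, hl, dotProduct_comm, mem_An1.1 y.2.2, add_zero]
  · rw [mulVecLin_apply, fB, tS_mv, hl, one_smul]

theorem ex_nle {A B : Submodule F (Vn n F)} (h : A ≠ B) (e : finrank F A = finrank F B) :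
    ∃ v ∈ A, v ∉ B := by
  by_contra! k; exact h (Submodule.eq_of_le_of_finrank_eq k e)

theorem inf1 {A : Submodule F (Vn n F)} {w : Vn n F} (h : w ∉ A) : finrank F ↥((F ∙ w) ⊓ A) = 0 := by
  rw [Submodule.finrank_eq_zero, inf_comm]
  exact (Submodule.disjoint_span_singleton_of_notMem h).eq_bot

theorem top_rank : finrank F (⊤ : Submodule F (Vn n F)) = n := by
  rw [finrank_top, Module.finrank_fin_fun]

theorem pl1 (ns : NS.{u}) : PL1.{u} := by
  intro F _ _ Φ G _ _ n X hu A hA hT hi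
  have hM := ns F Φ G n X A A hA le_rfl hT hi
  have hne : ig X.s A ≠ A := fun e => X.sH ((hM _).2 ⟨fun v hv => e ▸ mv_ig _ hv, fun v hv => e ▸ mv_ig _ hv⟩)
  have hr := ig_rank X.s A
  have hn := rank_le A
  by_cases hk : n ≤ 2 * finrank F A
  · obtain ⟨w, hw, hw'⟩ := ex_nle hne.symm hr.symm
    refine ⟨_, ((cA hu (Submodule.mem_span_singleton_self w) hw' (by rw [inf1 hw', hr]; rfl)).trans
      (ob1 X (fun m hm => ((hM m).1 hm).1) _ fun μ => ?_)).trans X.d0_le, hk⟩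
    exact (hM _).2 ⟨tS_mem hu _ (Or.inl hw), tS_mem hu _ (Or.inl hw)⟩
  · obtain ⟨w, hw, hw'⟩ := ex_nle hne hr
    obtain ⟨l, h1, h2⟩ := ex_fun A hw'
    refine ⟨n - finrank F A, ((cB hu (Y := ⊤) hw h1 (by rw [top_rank, hr]; exact (Nat.sub_add_cancel hn).le)).trans
      (ob1 X (fun m hm => ((hM m).1 hm).1) _ fun μ => ?_)).trans X.d0_le, by omega⟩
    exact (hM _).2 ⟨tS_mem hu _ (Or.inr h2), tS_mem hu _ (Or.inr h2)⟩

end H8.PZ
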