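/-
Stabilizers of incident pairs in the linear case.
-/
import Cfsg.Agent.H8.PZ3

set_option autoImplicit false
set_option linter.unusedSectionVars false

namespace H8.PZ
open Matrix H22.SB Module

universe u
variable {F : Type} [Field F] [Fintype F] {n : ℕ} {Φ : Fm F} {G : Type u} [Group G] [Finite G]

theorem proj {C A : Submodule F (Vn n F)} (h : IsCompl C A) :
    ∃ x : Mat n F, x ∈ Im C ∧ x ∈ Ke A ∧ x.rank = finrank F C := by
  refine ⟨LinearMap.toMatrix' (C.projection A h), fun v => ?_, fun v hv => ?_, ?_⟩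
  · rw [LinearMap.toMatrix'_mulVec]; exact Submodule.projection_apply_mem h v
  · rw [LinearMap.toMatrix'_mulVec]; exact (Submodule.projection_apply_eq_zero_iff h).2 hv
  · rw [Matrix.rank, ← toLin'_apply', toLin'_toMatrix', Submodule.range_projection]

theorem rank_im {A : Submodule F (Vn n F)} {x : Mat n F} (h : x ∈ Im A) : x.rank ≤ finrank F A :=
  Submodule.finrank_mono (by rintro _ ⟨v, rfl⟩; exact h v)
theorem rank_ke {A : Submodule F (Vn n F)} {x : Mat n F} (h : x ∈ Ke A) :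
    x.rank + finrank F A ≤ n := by
  have h1 := LinearMap.finrank_range_add_finrank_ker x.mulVecLin
  rw [Module.finrank_fin_fun] at h1
  exact (Nat.add_le_add_left (Submodule.finrank_mono (t := LinearMap.ker x.mulVecLin) h) _).trans h1.le

theorem sum_rank {X : Tx Φ G n} {h : G} {A B : Submodule F (Vn n F)} (m : Mp X h (Ke A) (Im B)) :
    finrank F A + finrank F B = n := by
  obtain ⟨C, hC⟩ := A.exists_isCompl
  obtain ⟨D, hD⟩ := B.exists_isCompl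
  obtain ⟨x, -, h1, h2⟩ := proj hC.symm
  obtain ⟨y, h3, -, h4⟩ := proj hD
  have h5 := rank_im ((m x).1 h1)
  have h6 := rank_ke ((m.inv y).1 h3)
  have h7 := Submodule.finrank_add_eq_of_isCompl hC
  rw [X.th_rank, h2] at h5
  rw [X.th_rank, h4] at h6
  rw [Module.finrank_fin_fun] at h7
  exact le_antisymm (by rwa [add_comm]) (h7.ge.trans (Nat.add_le_add_left h5 _))

theorem pl2 (ns : NS.{u}) : PL2.{u} := by
  intro F _ _ Φ G _ _ n X hu A B hA hAB hT hi ha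
  have := X.ne
  have hM := ns F Φ G n X A B hA hAB hT hi
  have hMA : ∀ m ∈ X.M, ∀ v ∈ A, mt m *ᵥ v ∈ A := fun m hm => ((hM m).1 hm).1
  have hMB : ∀ m ∈ X.M, ∀ v ∈ B, mt m *ᵥ v ∈ B := fun m hm => ((hM m).1 hm).2
  have an : ∀ h ∈ X.H, X.ε h ≠ 1 → Mp X.toTx h (Ke A) (Im B) := fun h hh e => by
    rw [← la_nil (A := A) hT, ← ra_nil (B := B) hA]; exact Mp.lr e (Tx.Iv.iff _ hi hh)
  obtain ⟨a, ea⟩ : ∃ a, finrank F A = a := ⟨_, rfl⟩
  obtain ⟨b, eb⟩ : ∃ b, finrank F B = b := ⟨_, rfl⟩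
  have ea' : finrank F (ig X.s A) = a := (ig_rank _ _).trans ea
  have eb' : finrank F (ig X.s B) = b := (ig_rank _ _).trans eb
  have hab : a ≤ b := ea ▸ eb ▸ Submodule.finrank_mono hAB
  have hn : a + b = n := by obtain ⟨h, hh, e⟩ := ha; rw [← ea, ← eb]; exact sum_rank (an h hh e)
  have hd := X.d0_le
  have mA : ∀ {w} (hw : w ∈ A) μ, fA hu (Submodule.mem_span_singleton_self w) μ ∈ X.M :=
    fun hw μ => (hM _).2 ⟨tS_mem hu _ (Or.inl hw), tS_mem hu _ (Or.inl (hAB hw))⟩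
  have mB : ∀ {l : Vn n F} (h2 : ∀ w ∈ B, l ⬝ᵥ w = 0) y, fB hu ⊤ l y ∈ X.M :=
    fun h2 y => (hM _).2 ⟨tS_mem hu _ (Or.inr fun w hw => h2 w (hAB hw)), tS_mem hu _ (Or.inr h2)⟩
  by_cases c1 : ig X.s A ≤ B
  swap
  · obtain ⟨w, hw, hw'⟩ := SetLike.not_le_iff_exists.1 c1
    obtain ⟨l, h1, h2⟩ := ex_fun B hw'
    exact ⟨b, Or.inl ⟨((cB hu (Y := ⊤) hw h1 (by rw [top_rank, ea']; omega)).trans
      (ob1 X hMA _ (mB h2))).trans hd, by omega⟩⟩
  by_cases c2 : A ≤ ig X.s B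
  swap
  · obtain ⟨w, hw, hw'⟩ := SetLike.not_le_iff_exists.1 c2
    exact ⟨b, Or.inl ⟨((cA hu (Submodule.mem_span_singleton_self w) hw'
      (by rw [inf1 hw', eb']; rfl)).trans (ob1 X hMB _ (mA hw))).trans hd, by omega⟩⟩
  have t1 : ig X.s A ≠ A → Φ.q ^ a ≤ X.d0 ∧ Φ.q ^ (b - a) ≤ X.d0 := fun hne => by
    obtain ⟨w, hw, hw'⟩ := ex_nle hne.symm (ea.trans ea'.symm)
    obtain ⟨v, hv, hv'⟩ := ex_nle hne (ea'.trans ea.symm)
    obtain ⟨l, h1, h2⟩ := ex_fun A hv'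
    exact ⟨(cA hu (Submodule.mem_span_singleton_self w) hw' (by rw [inf1 hw', ea']; rfl)).trans
      (ob1 X hMA _ (mA hw)), (cB hu (Y := B) hv h1 (by rw [ea', eb]; omega)).trans
      (ob1 X hMA _ fun y => (hM _).2 ⟨tS_mem hu _ (Or.inr h2), tS_mem hu _ (Or.inl y.2.1)⟩)⟩
  have t2 : ig X.s B ≠ B → Φ.q ^ a ≤ X.d0 ∧ Φ.q ^ (b - a) ≤ X.d0 := fun hne => by
    obtain ⟨w, hw, hw'⟩ := ex_nle hne.symm (eb.trans eb'.symm)
    obtain ⟨v, hv, hv'⟩ := ex_nle hne (eb'.trans eb.symm)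
    obtain ⟨l, h1, h2⟩ := ex_fun B hv'
    have hU : w ∈ A ⊔ F ∙ w := Submodule.mem_sup_right (Submodule.mem_span_singleton_self w)
    refine ⟨(cB hu (Y := ⊤) hv h1 (by rw [top_rank, eb']; omega)).trans (ob1 X hMB _ (mB h2)),
      (cA hu hU hw' ?_).trans (ob1 X hMB _ fun μ => (hM _).2 ⟨tS_mem hu _ (Or.inr fun x hx =>
        mem_An.1 μ.2 x (Submodule.mem_sup_left hx)), tS_mem hu _ (Or.inl hw)⟩)⟩
    have k1 : finrank F ↥((A ⊔ F ∙ w) ⊓ ig X.s B) < finrank F ↥(A ⊔ F ∙ w) :=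
      Submodule.finrank_lt_finrank_of_lt (inf_le_left.lt_of_ne fun e => hw' (e.ge hU).2)
    have k2 := k1.trans_le ((Submodule.finrank_add_le_finrank_add_finrank _ _).trans
      (Nat.add_le_add ea.le (span1 w)))
    rw [eb']; exact (Nat.add_le_add_left (Nat.lt_succ_iff.1 k2) _).trans (Nat.sub_add_cancel hab).le
  have db : ¬ (ig X.s A = A ↔ ig X.s B = B) → 2 * X.d0 ≤ X.d := fun k => X.DB ha fun h hh hh' => by
    by_contra e
    have e' : X.ε ((X.π X.s)⁻¹ * h * X.π X.s) ≠ 1 := by simpa [X.επ] using e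
    have m1 := an h hh e
    have m2 := ((mp_im X.toTx X.s B).mul (an _ hh' e')).mul (mp_ke X.toTx X.s A).inv
    rw [show X.π X.s * ((X.π X.s)⁻¹ * h * X.π X.s) * (X.π X.s)⁻¹ = h by group] at m2
    refine k ⟨fun e1 => ?_, fun e1 => ?_⟩
    · rw [e1] at m2; exact le_antisymm (im_le (m2.uq m1).le) (im_le (m2.uq m1).ge)
    · rw [e1] at m2; exact le_antisymm (ke_le (m2.inv.uq m1.inv).ge) (ke_le (m2.inv.uq m1.inv).le)
  have fin : Φ.q ^ a ≤ X.d0 ∧ Φ.q ^ (b - a) ≤ X.d0 → 2 * X.d0 ≤ X.d →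
      ∃ e, (Φ.q ^ e ≤ X.d ∧ n ≤ 2 * e) ∨ (2 * Φ.q ^ e ≤ X.d ∧ n ≤ 3 * e) := fun h1 h2 => by
    rcases le_total a (b - a) with k | k
    · exact ⟨b - a, Or.inr ⟨by omega, by omega⟩⟩
    · exact ⟨a, Or.inr ⟨by omega, by omega⟩⟩
  by_cases e1 : ig X.s A = A <;> by_cases e2 : ig X.s B = B
  · exact (X.sH ((hM _).2 ⟨fun v hv => e1 ▸ mv_ig _ hv, fun v hv => e2 ▸ mv_ig _ hv⟩)).elim
  · exact fin (t2 e2) (db fun k => e2 (k.1 e1))
  · exact fin (t1 e1) (db fun k => e1 (k.2 e2))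
  rcases le_total (2 * a) (b - a) with k | k
  · exact ⟨b - a, Or.inl ⟨(t1 e1).2.trans hd, by omega⟩⟩
  obtain ⟨w, hw, hw'⟩ := ex_nle (Ne.symm e1) (ea.trans ea'.symm)
  obtain ⟨v, hv, hv'⟩ := ex_nle e2 (eb'.trans eb.symm)
  obtain ⟨l, h1, h2⟩ := ex_fun B hv'
  refine ⟨a + a, Or.inl ⟨?_, by omega⟩⟩
  rw [pow_add]
  refine ((Nat.mul_le_mul (cA hu (Submodule.mem_span_singleton_self w) hw'
    (by rw [inf1 hw', ea']; rfl)) (cB hu (Y := ⊤) hv h1 (by rw [top_rank, eb']; omega))).trans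
    (ob2 X hMA hMB _ (mA hw) _ (mB h2) (fun y y' => ?_) fun y => ?_)).trans hd
  · exact ig_eq (tS_mem hu _ (Or.inr fun x hx => h2 x
      (((ig_mono _ c1).trans (ig_eq (hMB _ (mA hw y))).le) hx)))
  · exact ig_eq (tS_mem hu _ (Or.inl (c2 hw)))

end H8.PZ
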