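/-
Stabilizers of totally isotropic subspaces in the unitary case.
-/
import Cfsg.Agent.H8.PZ3

set_option autoImplicit false
set_option linter.unusedSectionVars false

namespace H8.PZ
open Matrix H22.SB Module

universe u
variable {F : Type} [Field F] [Fintype F] {n : ℕ} {Φ : Fm F} {G : Type u} [Group G] [Finite G]

theorem cc (v : Vn n F) : Φ.c ∘ Φ.c ∘ v = v := funext fun _ => Φ.c_c _
theorem B0 {v w : Vn n F} (h : Φ.B v w = 0) : Φ.B w v = 0 := by rw [← Φ.B_symm, h, map_zero]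
theorem B1 {v w : Vn n F} (h : Φ.B v w = 1) : Φ.B w v = 1 := by rw [← Φ.B_symm, h, map_one]
theorem dot_B (v w : Vn n F) : (Φ.c ∘ w) ⬝ᵥ v = Φ.B v w := by rw [dotProduct_comm]; rfl
theorem dot_B' (l v : Vn n F) : l ⬝ᵥ v = Φ.B v (Φ.c ∘ l) := by rw [← dot_B, cc]

theorem ex_tr0 (hu : Φ.u) : ∃ a : F, a + Φ.c a ≠ 0 := by
  classical
  by_contra! h
  have h2 := Φ.q2
  have hp : (Polynomial.X ^ Φ.q + Polynomial.X : Polynomial F).natDegree = Φ.q := by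
    rw [Polynomial.natDegree_add_eq_left_of_natDegree_lt] <;> simp; omega
  have h0 : (Polynomial.X ^ Φ.q + Polynomial.X : Polynomial F) = 0 :=
    Polynomial.eq_zero_of_natDegree_lt_card_of_eval_eq_zero' _ Finset.univ
      (fun a _ => by simpa [add_comm, ← Φ.cq] using h a)
      (by rw [hp, Finset.card_univ, Φ.cU hu]; nlinarith)
  rw [h0, Polynomial.natDegree_zero] at hp; omega

theorem ex_tr (hu : Φ.u) (y : Vn n F) : ∃ t : F, t + Φ.c t + Φ.B y y = 0 := by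
  obtain ⟨a, ha⟩ := ex_tr0 hu
  refine ⟨-Φ.B y y * a / (a + Φ.c a), ?_⟩
  rw [map_div₀, map_mul, map_neg, Φ.B_symm, map_add, Φ.c_c, add_comm (Φ.c a)]
  field_simp; ring

/-- the chosen solution of the trace equation -/
noncomputable def tr (hu : Φ.u) (y : Vn n F) : F := (ex_tr hu y).choose

/-- Eichler matrix -/
def eM (Φ : Fm F) (w y : Vn n F) (t : F) : Mat n F :=
  (1 + vecMulVec (y + t • w) (Φ.c ∘ w)) * (1 + vecMulVec (-w) (Φ.c ∘ y))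

theorem eM_mv {w : Vn n F} (hw : Φ.B w w = 0) (y : Vn n F) (t : F) (v : Vn n F) :
    eM Φ w y t *ᵥ v = v - Φ.B v y • w + Φ.B v w • (y + t • w) := by
  rw [eM, ← mulVec_mulVec, add_mulVec, add_mulVec, one_mulVec, one_mulVec, Φ.vmv_mulVec,
    Φ.vmv_mulVec, smul_neg, ← sub_eq_add_neg, Φ.B_sub_left, Φ.B_smul_left, hw, mul_zero, sub_zero]

theorem eM_det {w y : Vn n F} (hw : Φ.B w w = 0) (hy : Φ.B y w = 0) (t : F) :
    (eM Φ w y t).det = 1 := by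
  rw [eM, det_mul, det1, det1, dot_B, dot_B, Φ.B_add_left, Φ.B_smul_left, hw, hy, ← neg_one_smul F w,
    Φ.B_smul_left, B0 hy]
  simp

theorem eM_adj {w y : Vn n F} (hw : Φ.B w w = 0) (hy : Φ.B y w = 0) {t : F}
    (ht : t + Φ.c t + Φ.B y y = 0) : Φ.adj (eM Φ w y t) * eM Φ w y t = 1 :=
  mat_ext fun u => sub_eq_zero.1 (Φ.B_nd fun v => B0 (by
    rw [Φ.B_sub_right, ← mulVec_mulVec, ← Φ.B_mulVec, one_mulVec, eM_mv hw, eM_mv hw]
    simp only [Φ.B_add_left, Φ.B_add_right, Φ.B_sub_left, Φ.B_sub_right, Φ.B_smul_left,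
      Φ.B_smul_right, hw, hy, B0 hy, Φ.B_symm]
    linear_combination Φ.B v w * Φ.B w u * ht))

/-- Eichler transformation -/
noncomputable def eS (hu : Φ.u) {w y : Vn n F} (hw : Φ.B w w = 0) (hy : Φ.B y w = 0) : Φ.S (Fin n) :=
  Φ.mkS (eM Φ w y (tr hu y)) (eM_det hw hy _) fun _ => eM_adj hw hy (ex_tr hu y).choose_spec
theorem eS_mv (hu : Φ.u) {w y : Vn n F} (hw : Φ.B w w = 0) (hy : Φ.B y w = 0) (v : Vn n F) :
    mt (eS hu hw hy) *ᵥ v = v - Φ.B v y • w + Φ.B v w • (y + tr hu y • w) := eM_mv hw y _ v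

theorem perp_rank (A : Submodule F (Vn n F)) : finrank F A + finrank F (Φ.perp A) = n := by
  have h : Nat.card (Φ.perp A) = Nat.card (An A) := Nat.card_congr
    { toFun := fun v => ⟨Φ.c ∘ v.1, mem_An.2 fun w hw => by rw [dot_B]; exact B0 (v.2 w hw)⟩
      invFun := fun l => ⟨Φ.c ∘ l.1, fun w hw => B0 (by rw [← dot_B']; exact mem_An.1 l.2 w hw)⟩
      left_inv := fun v => Subtype.ext (cc _)
      right_inv := fun v => Subtype.ext (cc _) }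
  rw [card_sub, card_sub] at h
  rw [Nat.pow_right_injective Finite.one_lt_card h, An_rank]

theorem cardU (hu : Φ.u) (e : ℕ) : Nat.card F ^ e = Φ.q ^ (2 * e) := by
  rw [Nat.card_eq_fintype_card, Φ.cU hu, pow_mul]

theorem cE (hu : Φ.u) {Y A : Submodule F (Vn n F)} {w v : Vn n F} (hw : Φ.B w w = 0) (hv : v ∈ A)
    (h1 : Φ.B v w = 1) {e : ℕ} (he : e + finrank F A + 1 ≤ finrank F Y) :
    ∃ (hy : ∀ y : ↥(Y ⊓ An (F ∙ (Φ.c ∘ w)) ⊓ An (F ∙ (Φ.c ∘ v))), Φ.B y.1 w = 0),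
      Φ.q ^ (2 * e) ≤ Nat.card (Set.range fun y => ig (eS hu hw (hy y)) A) := by
  have hy : ∀ y : ↥(Y ⊓ An (F ∙ (Φ.c ∘ w)) ⊓ An (F ∙ (Φ.c ∘ v))), Φ.B y.1 w = 0 := fun y =>
    mem_An1.1 y.2.1.2
  have hy' : ∀ y : ↥(Y ⊓ An (F ∙ (Φ.c ∘ w)) ⊓ An (F ∙ (Φ.c ∘ v))), Φ.B y.1 v = 0 := fun y =>
    mem_An1.1 y.2.2
  refine ⟨hy, ?_⟩
  rw [← cardU hu]
  refine cntB (l := Φ.c ∘ w) _ (fun y => v + (y.1 + tr hu y.1 • w)) (fun y y' e => ?_)
    (fun y => ?_) (fun y => ⟨v, hv, ?_⟩) (Nat.le_of_succ_le_succ (he.trans ((hyp_rank Y _).trans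
      (Nat.succ_le_succ (hyp_rank _ _)))))
  · have e1 := add_left_cancel e
    have e2 := congrArg (Φ.B · v) e1
    simp only [Φ.B_add_left, Φ.B_smul_left, hy', B1 h1, zero_add, mul_one] at e2
    rw [e2] at e1
    exact Subtype.ext (add_right_cancel e1)
  · rw [dot_B, Φ.B_add_left, Φ.B_add_left, Φ.B_smul_left, h1, hy, hw]; simp
  · rw [mulVecLin_apply, eS_mv, B0 (hy' y), h1, zero_smul, sub_zero, one_smul]

theorem pu (ns : NS.{u}) : PU.{u} := by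
  intro F _ _ Φ G _ _ n X hu A hA hAB hi
  have hT : Φ.perp A ≠ ⊤ := fun e => by
    obtain ⟨w, hw, w0⟩ := (Submodule.ne_bot_iff _).1 hA
    exact w0 (Φ.B_nd fun v => B0 ((show v ∈ Φ.perp A from e ▸ trivial) w hw))
  have hM : ∀ m, m ∈ X.M ↔ ∀ v ∈ A, mt m *ᵥ v ∈ A := fun m =>
    (ns F Φ G n X A _ hA hAB hT hi m).trans (and_iff_left_of_imp fun h v hv w hw => by
      rw [← mv_inv' m w, mt_B hu]; exact hv _ (inv_of_maps h hw))
  have hMA : ∀ m ∈ X.M, ∀ v ∈ A, mt m *ᵥ v ∈ A := fun m => (hM m).1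
  obtain ⟨a, ea⟩ : ∃ a, finrank F A = a := ⟨_, rfl⟩
  obtain ⟨b, eb⟩ : ∃ b, finrank F (Φ.perp A) = b := ⟨_, rfl⟩
  have ea' : finrank F (ig X.s A) = a := (ig_rank _ _).trans ea
  have hab : a ≤ b := ea ▸ eb ▸ Submodule.finrank_mono hAB
  have hn : a + b = n := ea ▸ eb ▸ perp_rank A
  have a0 : a ≠ 0 := by rwa [← ea, Ne, Submodule.finrank_eq_zero]
  have n3 := X.u3 hu
  have hd := X.d0_le
  have hne : ig X.s A ≠ A := fun e => X.sH ((hM _).2 fun v hv => e ▸ mv_ig _ hv)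
  have iso : ∀ v ∈ ig X.s A, Φ.B v v = 0 := by
    rintro _ ⟨v, hv, rfl⟩; rw [mulVecLin_apply, mt_B hu]; exact hAB hv v hv
  by_cases c1 : ig X.s A ≤ Φ.perp A
  swap
  · obtain ⟨v, hv, hv'⟩ := SetLike.not_le_iff_exists.1 c1
    obtain ⟨w, hw, hw'⟩ : ∃ w ∈ A, Φ.B v w ≠ 0 := by by_contra! k; exact hv' k
    obtain ⟨hy, h⟩ := cE hu (Y := ⊤) (hAB hw w hw) ((ig X.s A).smul_mem (Φ.B v w)⁻¹ hv)
      (by rw [Φ.B_smul_left, inv_mul_cancel₀ hw']) (e := n - a - 1) (by rw [top_rank, ea']; omega)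
    refine ⟨_, (h.trans (ob1 X hMA _ fun y => (hM _).2 fun x hx => ?_)).trans hd, by omega⟩
    rw [eS_mv, hAB hx w hw, zero_smul, add_zero]; exact A.sub_mem hx (A.smul_mem _ hw)
  by_cases c2 : n ≤ 4 * a
  · obtain ⟨w, hw, hw'⟩ := ex_nle hne.symm (ea.trans ea'.symm)
    have hy : ∀ μ : An (F ∙ w), Φ.B (Φ.c ∘ (-μ.1)) w = 0 := fun μ => B0 (by
      rw [← dot_B', neg_dotProduct, mem_An1.1 μ.2, neg_zero])
    have h := cntA hw' (fun μ => eS hu (hAB hw w hw) (hy μ)) (fun μ x hx => by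
      rw [eS_mv, c1 hx w hw, zero_smul, add_zero, ← dot_B', neg_dotProduct, neg_smul,
        sub_neg_eq_add]) (e := a) (by rw [inf1 hw', ea']; rfl)
    rw [cardU hu] at h
    refine ⟨_, (h.trans (ob1 X hMA _ fun y => (hM _).2 fun x hx => ?_)).trans hd, by omega⟩
    rw [eS_mv, hAB hx w hw, zero_smul, add_zero]; exact A.sub_mem hx (A.smul_mem _ hw)
  obtain ⟨v, hv, hv'⟩ := ex_nle hne (ea'.trans ea.symm)
  obtain ⟨l, h1, h2⟩ := ex_fun A hv'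
  rw [dot_B' (Φ := Φ)] at h1
  obtain ⟨t, ht⟩ := ex_tr hu (Φ.c ∘ l)
  have k1 : Φ.B v (Φ.c ∘ l + t • v) = 1 := by
    rw [Φ.B_add_right, Φ.B_smul_right, h1, iso v hv, mul_zero, add_zero]
  have k2 : Φ.B (Φ.c ∘ l + t • v) (Φ.c ∘ l + t • v) = 0 := by
    rw [Φ.B_add_left, Φ.B_smul_left, k1, Φ.B_add_right, Φ.B_smul_right, B1 h1]
    linear_combination ht
  obtain ⟨hy, h⟩ := cE hu (Y := Φ.perp A) k2 hv k1 (e := b - a - 1) (by rw [eb, ea']; omega)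
  refine ⟨_, (h.trans (ob1 X hMA _ fun y => (hM _).2 fun x hx => ?_)).trans hd, by omega⟩
  rwa [eS_mv, B0 (y.2.1.1 x hx), Φ.B_add_right, Φ.B_smul_right, B0 (c1 hv x hx), ← dot_B', h2 x hx,
    mul_zero, add_zero, zero_smul, zero_smul, sub_zero, add_zero]

end H8.PZ
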