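import Cfsg.Agent.H9.RL0

/-! S3860: the chunk A5. -/

set_option autoImplicit false

namespace H8.RL
open Cfsg Subgroup H19 H17.GS H9.RL

universe u
section
variable {G : Type u} [Group G]

theorem two_le [Finite G] {A B : Subgroup G} (h : A < B) : 2 * #A ≤ #B := by
  obtain ⟨k, e⟩ := card_dvd h.le
  have := card_lt h
  rcases k with _ | _ | k <;> nlinarith [card_pos A]

theorem ox_nc {x t : G} (o : Ox x t) (e : t * x = x * t) : False := by
  have i := o.inv
  rw [e, mul_inv_cancel_right] at i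
  exact o.ne (orderOf_eq_one_iff.1 ((Nat.coprime_two_right.2 o.odd).eq_one_of_dvd
    (orderOf_dvd_of_pow_eq_one ((sq x).trans (eq_inv_iff_mul_eq_one.1 i)))))
end

theorem a5 : A5.{u} := fun {G B} _ _ _ _ {b L Q φ x u v} h f y hy t ht o => by
  obtain ⟨y, yL, rfl⟩ := hy
  obtain ⟨t, tL, rfl⟩ := ht
  obtain ⟨k, hk⟩ := h.pz.exists_card
  have c1 : t * y * t⁻¹ * y ∈ Z(L) := (f.ker _).1 (by rw [map_mul, map_mul, map_mul, map_inv, o.inv, inv_mul_cancel])
  have cc : Commute (t * y * t⁻¹ * y) y⁻¹ := (mem_cent.1 c1.2 _ (inv_mem yL)).symm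
  have re : t * y ^ 2 ^ k * t⁻¹ = (y ^ 2 ^ k)⁻¹ := by
    rw [← conj_pow, show t * y * t⁻¹ = t * y * t⁻¹ * y * y⁻¹ by group, cc.mul_pow,
      orderOf_dvd_iff_pow_eq_one.1 (hk ▸ orderOf_dvd_card' c1), one_mul, inv_pow]
  have cy : ∀ g ∈ C[y ^ 2 ^ k], φ g ∈ C[φ y] := fun g hg => cent1_le_cent1_of_mem_zpowers
    (mem_zpowers_pow_iff.2 ((Nat.coprime_two_left.2 o.odd).pow_left k))
    (mem_cent1.2 (by rw [← map_pow, ← map_mul, mem_cent1.1 hg, map_mul]))
  obtain ⟨P, hP⟩ := exists_syl 2 C[y ^ 2 ^ k]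
  obtain ⟨S, hS, PS⟩ := hP.pi.exists_syl le_top
  have cP := h.hy _ ⟨t, re⟩ (fun c => ox_nc o (mem_cent1.1 (cy t (mem_cent1.2 (mem_center_iff.1 c t))))) P hP
  have nL : L ⊴ ⊤ := normalIn_top (h := h.nm)
  have q : ¬ P ⊓ L ≤ Z(L) := fun q => by
    have s := h.ss.inf_normal nL
    have e := (hS.inf_normal nL).card_eq s
    have r := card_mul_relIndex PS
    rw [cP, h.sy S hS, pow_add, mul_comm, Nat.mul_left_inj (by positivity)] at r
    have r1 := relIndex_le_of_le_right (inf_le_left (b := L)) (relIndex_ne_zero' P S)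
    have r2 := card_inf_mul_relIndex P (S ⊓ L)
    have r3 := card_le ((inf_le_inf_left P (inf_le_right (a := S))).trans q)
    have l1 := two_le (lt_of_le_not_ge (le_inf (s.le_of_norm' inf_le_left h.pz (inf_le_right.trans (center_normal L).norm))
      (inf_le_right.trans (cent_le_cent1 h.xL))) fun c => h.c1 (by
        have := h.uv
        rw [mem_cent.1 (c ⟨⟨mem_sup_left h.vq, h.vL⟩, h.sq.le h.vq⟩).2 u h.uL, mul_inv_cancel_right] at this
        exact h.vv ▸ eq_inv_iff_mul_eq_one.1 this))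
    have l2 := two_le (lt_of_le_not_ge (inf_le_left (a := (Q ⊔ zpowers u) ⊓ L) (b := C[x])) fun c =>
      ox_nc h.ox (mem_cent1.1 (c ⟨mem_sup_right (mem_zpowers u), h.uL⟩).2))
    have := Nat.mul_le_mul r3 (r ▸ r1)
    have := card_pos Z(L)
    omega
  obtain ⟨d, hd, n⟩ := SetLike.not_le_iff_exists.1 q
  obtain ⟨z, hz, e⟩ := exists_orderOf_eq_prime Nat.prime_two (PiN.dvd_of_ne_bot (H := zpowers (φ d))
    (piG_zpowers.2 ((hP.pi.elt hd.1).dvd (orderOf_map_dvd φ d))) (zpowers_ne_bot.2 (mt (f.ker d).1 n)))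
  exact ⟨z, zpowers_le.2 (mem_map_of_mem φ hd.2) hz, (sq z).symm.trans (e ▸ pow_orderOf_eq_one z),
    mem_cent1.1 (zpowers_le.2 (cy d (hP.le hd.1)) hz), fun c => by simp [c] at e⟩

end H8.RL
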