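import Cfsg.Agent.H9.RL1

/-! S3860: the chunk UC. -/

set_option autoImplicit false

namespace H8.RL
open Cfsg Subgroup H19 H17.GS H9.RL

universe u
section
variable {G : Type u} [Group G] [Finite G] {a b : ℕ} {J : Subgroup G}

theorem cpz (h : St G a b) (hJ : Comp J ⊤) : H19.PG 2 Z(J) := (Oc_pi _ _).of_le (hJ.center_le_two h.oo)

theorem cex (lz : LZ.{u}) (h : St G a b) (hJ : Comp J ⊤) : ∃ i ∈ J, i ∉ C(J) ∧ i * i ∈ C(J) ∧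
    ∃ w ∈ J, w ∉ C(J) ∧ w * w ∈ C(J) ∧ PiE {2} w ∧ i * w * i⁻¹ = w⁻¹ := by
  obtain ⟨P, hP⟩ := exists_syl 2 (⊤ : Subgroup G)
  obtain ⟨t, ht, n⟩ := hJ.exists_noncentral hP
  have s := hJ.syl hP
  obtain ⟨i, iT, -, ni, ii⟩ := climb s.pi (lt_of_le_not_ge (inf_le_left (b := C(J))) fun c => n (c ht).2)
  obtain ⟨l, hl, jT, nw⟩ := lz hJ.qs (cpz h hJ) s iT fun c => ni ⟨iT, c⟩
  have wT := mul_mem (inv_mem iT) jT
  obtain ⟨w, wz, -, n2, ww⟩ := climb (s.pi.of_le (zpowers_le.2 wT))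
    (lt_of_le_not_ge (inf_le_left (b := C(J))) fun c => nw (c (mem_zpowers _)).2)
  refine ⟨i, iT.2, fun c => ni ⟨iT, c⟩, ii.2, w, (zpowers_le.2 wT wz).2, fun c => n2 ⟨wz, c⟩, ww.2,
    s.pi.elt (zpowers_le.2 wT wz), inv_zp (tinv ?_) wz⟩
  rw [show l * i * l⁻¹ * (l * i * l⁻¹) = l * (i * i) * l⁻¹ by group, mem_cent.1 ii.2 l hl, mul_inv_cancel_right]
end

theorem uc (f1 : F1.{u}) (lb : LB.{u}) (lz : LZ.{u}) : UC.{u} := fun {G} _ _ {a b L} h hL => by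
  obtain ⟨t, tL, nt, tt, w, wL, nw, ww, w2, iw⟩ := cex lz h hL
  obtain ⟨x, xL, o⟩ := lb hL.qs (cpz h hL) tL nt tt
  have cj : ∀ z ∈ C(L), t * z * t⁻¹ = z := fun z hz => by rw [mem_cent.1 hz t tL, mul_inv_cancel_right]
  have zi : ∀ z ∈ C(L), z * z = 1 → z ∈ center G := fun z hz e =>
    f1 h o o (e2_of_sq (e ▸ PiN.e_one)) (cent_le_cent1 xL hz) ((cj z hz).trans (eq_inv_iff_mul_eq_one.2 e)) (cj z hz)
  refine ⟨⟨h, hL.qs, NormalIn.normal ⟨le_top, fun g _ => mem_norm_iff_cj.2 (by_contra fun n => ?_)⟩, cpz h hL, zi⟩,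
    w, wL, ⟨⟨t, iw⟩, fun c => nw (mem_cent.2 fun y _ => mem_center_iff.1 c y), zi _ ww (eq_inv_iff_mul_eq_one.1
      ((cj _ ww).symm.trans (inv_zp iw (mul_mem (mem_zpowers w) (mem_zpowers w)))))⟩, nw⟩
  have hJ := hL.conj (norm_top (G := G) ▸ mem_top g)
  have c := hJ.cents hL n
  obtain ⟨i, iJ, -, -, v, vJ, nv, -, v2, iv⟩ := cex lz h hJ
  refine nv (mem_cent.2 fun y _ => mem_center_iff.1 (f1 h ⟨o.ne, o.odd, mul_inv_c o.inv (cent_le_cent1 xL (c iJ))⟩ o v2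
    (cent_le_cent1 xL (c vJ)) ?_ (cj v (c vJ))) y)
  rw [show t * i * v * (t * i)⁻¹ = t * (i * v * i⁻¹) * t⁻¹ by group, iv, cj _ (inv_mem (c vJ))]

end H8.RL
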