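import Mathlib
import Cfsg.Agent.S5560

/-! Normal sets of involutions whose products have order `1, 2` or a fixed prime `p ≥ 5`. -/

set_option autoImplicit false

namespace H8.RT

open Subgroup

universe u
variable {G : Type u} [Group G]

structure PT (p : ℕ) (D : Set G) : Prop where
  pp : p.Prime
  p5 : 5 ≤ p
  sq : ∀ d ∈ D, d * d = 1
  ne : ∀ d ∈ D, d ≠ 1
  cj : ∀ d ∈ D, ∀ g : G, g * d * g⁻¹ ∈ D
  pr : ∀ d ∈ D, ∀ e ∈ D, ¬ Commute d e → orderOf (d * e) = p

theorem comm_cj {a b : G} (g : G) : Commute (g * a * g⁻¹) (g * b * g⁻¹) ↔ Commute a b := by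
  constructor
  · intro h
    have := h.conj g⁻¹
    simpa [mul_assoc] using this
  · exact fun h => h.conj g

theorem cj_eq_iff {g a : G} : g * a * g⁻¹ = a ↔ Commute g a := by
  rw [mul_inv_eq_iff_eq_mul]; rfl

namespace PT

variable {p : ℕ} {D : Set G} (h : PT p D)
include h

theorem inv {d : G} (hd : d ∈ D) : d⁻¹ = d := inv_eq_of_mul_eq_one_right (h.sq d hd)

theorem cancel {d : G} (hd : d ∈ D) (a : G) : d * (d * a) = a := by
  rw [← mul_assoc, h.sq d hd, one_mul]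

theorem odd : Odd p := h.pp.odd_of_ne_two (by have := h.p5; omega)

theorem half : (p + 1) / 2 * 2 = p + 1 := Nat.div_mul_cancel (even_iff_two_dvd.1 h.odd.add_one)

theorem pow_p {d e : G} (hd : d ∈ D) (he : e ∈ D) (n : ¬ Commute d e) : (d * e) ^ p = 1 := by
  rw [← h.pr d hd e he n]; exact pow_orderOf_eq_one _

theorem inverts {d e : G} (hd : d ∈ D) (he : e ∈ D) : d * (d * e) * d⁻¹ = (d * e)⁻¹ := by
  rw [h.cancel hd, mul_inv_rev, h.inv he]

theorem inverts_zpow {d e : G} (hd : d ∈ D) (he : e ∈ D) (i : ℤ) :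
    d * (d * e) ^ i * d⁻¹ = (d * e) ^ (-i) := by
  rw [← conj_zpow, h.inverts hd he, inv_zpow']

theorem mid_eq {x y : G} (hx : x ∈ D) (hy : y ∈ D) (n : ¬ Commute x y) :
    x = y * (y * (x * y * x⁻¹)) ^ ((p + 1) / 2) := by
  have e1 : y * (x * y * x⁻¹) = (y * x) ^ 2 := by rw [h.inv hx, pow_two]; simp [mul_assoc]
  rw [e1, ← pow_mul, mul_comm 2, h.half, pow_succ, h.pow_p hy hx (fun c => n c.symm), one_mul,
    h.cancel hy]

theorem mid_uniq {x x' y : G} (hx : x ∈ D) (hx' : x' ∈ D) (hy : y ∈ D) (n : ¬ Commute x y)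
    (e : x * y * x⁻¹ = x' * y * x'⁻¹) : x = x' := by
  have n' : ¬ Commute x' y := fun c => n (cj_eq_iff.1 (e.trans (cj_eq_iff.2 c)))
  rw [h.mid_eq hx hy n, e, ← h.mid_eq hx' hy n']

theorem U1 {d f y : G} (hd : d ∈ D) (hf : f ∈ D) (hy : y ∈ D) (ne : d ≠ f)
    (c : Commute y (d * f)) : Commute y d := by
  by_contra n
  refine ne (h.mid_uniq hd hf hy (fun c => n c.symm) ?_)
  have e := cj_eq_iff.2 c.symm
  calc d * y * d⁻¹ = d * (d * f * y * (d * f)⁻¹) * d⁻¹ := by rw [e]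
    _ = (d * d) * f * y * f⁻¹ * (d * d)⁻¹ := by group
    _ = _ := by rw [h.sq d hd]; group

theorem U2 {d f y : G} (hd : d ∈ D) (hf : f ∈ D) (hy : y ∈ D) (ne : d ≠ f)
    (c : Commute y (d * f)) : Commute y f := by
  have := (h.U1 hd hf hy ne c).mul_right c
  rwa [h.cancel hd] at this

theorem nc_cj {x y : G} (hx : x ∈ D) (hy : y ∈ D) (n : ¬ Commute x y) :
    ¬ Commute (x * y * x⁻¹) y := by
  intro c
  have e : (x * y) ^ 4 = 1 := by
    have : (x * y) ^ 4 = (x * y * x⁻¹ * y) ^ 2 := by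
      rw [h.inv hx]; simp [pow_succ, mul_assoc]
    rw [this, c.mul_pow, pow_two, pow_two, h.sq _ (h.cj y hy x), h.sq y hy, one_mul]
  have := orderOf_dvd_of_pow_eq_one e
  rw [h.pr x hx y hy n] at this
  have := Nat.le_of_dvd (by norm_num) this
  have := h.p5
  omega

theorem comm_mid {w x y : G} (hx : x ∈ D) (hy : y ∈ D) (n : ¬ Commute x y) (c : Commute w y)
    (c' : Commute w (x * y * x⁻¹)) : Commute w x := by
  rw [h.mid_eq hx hy n]
  exact c.mul_right ((c.mul_right c').pow_right _)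

theorem line_mem {y z : G} (hy : y ∈ D) (hz : z ∈ D) (n : ¬ Commute y z) (i : ℤ) :
    y * (y * z) ^ i ∈ D := by
  set k : ℤ := i * ((p + 1) / 2 : ℕ)
  have e : ((y * z) ^ k)⁻¹ * y * ((y * z) ^ k)⁻¹⁻¹ = y * (y * z) ^ i := by
    have e1 : ((y * z) ^ k)⁻¹ = y * (y * z) ^ k * y⁻¹ := by rw [h.inverts_zpow hy hz, zpow_neg]
    have e2 : (y * z) ^ (k + k) = (y * z) ^ i := by
      have : k + k = i * p + i := by
        have := congrArg (Nat.cast : ℕ → ℤ) h.half
        push_cast at this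
        simp only [k]
        push_cast
        linear_combination i * this
      rw [this, zpow_add, mul_comm i, zpow_mul, zpow_natCast, h.pow_p hy hz n, one_zpow, one_mul]
    rw [inv_inv, ← e2, zpow_add]
    nth_rewrite 1 [e1]
    group
  rw [← e]
  exact h.cj y hy _

theorem exists_mid {y z : G} (hy : y ∈ D) (hz : z ∈ D) (n : ¬ Commute y z) :
    ∃ i : ℤ, y * (y * z) ^ i ∈ D ∧ (y * (y * z) ^ i) * y * (y * (y * z) ^ i)⁻¹ = z := by
  refine ⟨(((p + 1) / 2 : ℕ) : ℤ), h.line_mem hy hz n _, ?_⟩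
  set k : ℤ := (((p + 1) / 2 : ℕ) : ℤ)
  have e1 : ((y * z) ^ k)⁻¹ = y * (y * z) ^ k * y⁻¹ := by rw [h.inverts_zpow hy hz, zpow_neg]
  have e2 : (y * z) ^ (k + k) = y * z := by
    have : k + k = (p + 1 : ℕ) := by rw [← h.half]; simp only [k]; push_cast; ring
    rw [this, zpow_natCast, pow_succ, h.pow_p hy hz n, one_mul]
  calc _ = (y * (y * z) ^ k * y⁻¹) * (y * y) * ((y * z) ^ k)⁻¹ * y⁻¹ := by group
    _ = ((y * z) ^ (k + k))⁻¹ * y⁻¹ := by rw [← e1, h.sq y hy]; group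
    _ = z := by rw [e2, mul_inv_rev, h.inv hy, h.inv hz, mul_assoc, h.sq y hy, mul_one]

theorem exists_mid' {y z : G} (hy : y ∈ D) (hz : z ∈ D) (n : ¬ Commute y z) :
    ∃ m ∈ D, m * y * m⁻¹ = z :=
  let ⟨_, h1, h2⟩ := h.exists_mid hy hz n
  ⟨_, h1, h2⟩

/-- a power of `x * x'` commuting with an element not commuting with `x` is trivial -/
theorem dvd_of_comm {x x' b : G} (hx : x ∈ D) (hx' : x' ∈ D) (hb : b ∈ D) (n : ¬ Commute x x')
    (nb : ¬ Commute b x) {i : ℤ} (c : Commute b ((x * x') ^ i)) : (p : ℤ) ∣ i := by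
  rw [← h.pr x hx x' hx' n, orderOf_dvd_iff_zpow_eq_one]
  by_contra hne
  refine nb (h.U1 hx (h.line_mem hx hx' n i) hb (fun e => hne ?_) (by rwa [h.cancel hx]))
  simpa using e

theorem not_mem_center {x y : G} (hx : x ∈ D) (hy : y ∈ D) (n : ¬ Commute x y) :
    x * y ∉ center G := by
  intro hc
  have : Commute x (x * y) := mem_center_iff.1 hc x
  refine n (h.U2 hx hy hx (fun e => n (e ▸ Commute.refl _)) this)

theorem sub (H : Subgroup G) : PT p ((↑) ⁻¹' D : Set H) where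
  pp := h.pp
  p5 := h.p5
  sq d hd := Subtype.ext (h.sq d hd)
  ne d hd e := h.ne d hd (congrArg Subtype.val e)
  cj d hd g := h.cj d hd g
  pr d hd e he n := by
    rw [← orderOf_coe]
    exact h.pr d hd e he fun c => n (Subtype.ext c)

theorem mono {D' : Set G} (hs : D' ⊆ D) (hc : ∀ d ∈ D', ∀ g : G, g * d * g⁻¹ ∈ D') : PT p D' where
  pp := h.pp
  p5 := h.p5
  sq d hd := h.sq d (hs hd)
  ne d hd := h.ne d (hs hd)
  cj := hc
  pr d hd e he := h.pr d (hs hd) e (hs he)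

theorem nc_quo {N : Subgroup G} [N.Normal] (hN : ∀ x ∈ D, ∀ y ∈ D, ¬ Commute x y → x * y ∉ N)
    {x y : G} (hx : x ∈ D) (hy : y ∈ D) (n : ¬ Commute x y) :
    orderOf ((x : G ⧸ N) * y) = p ∧ ¬ Commute (x : G ⧸ N) y := by
  have := Fact.mk h.pp
  have o : orderOf ((x : G ⧸ N) * y) = p := by
    refine orderOf_eq_prime ?_ fun e => hN x hx y hy n ?_
    · rw [← QuotientGroup.mk_mul, ← QuotientGroup.mk_pow, h.pow_p hx hy n, QuotientGroup.mk_one]
    · rwa [← QuotientGroup.mk_mul, QuotientGroup.eq_one_iff] at e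
  refine ⟨o, fun c => ?_⟩
  have e : ((x : G ⧸ N) * y) ^ 2 = 1 := by
    rw [c.mul_pow, pow_two, pow_two, ← QuotientGroup.mk_mul, ← QuotientGroup.mk_mul, h.sq x hx, h.sq y hy]
    simp
  have := orderOf_dvd_of_pow_eq_one e
  rw [o] at this
  have := Nat.le_of_dvd (by norm_num) this
  have := h.p5
  omega

theorem quo {N : Subgroup G} [N.Normal] (hN : ∀ x ∈ D, ∀ y ∈ D, ¬ Commute x y → x * y ∉ N)
    (hp : ∀ x ∈ D, ∃ y ∈ D, ¬ Commute x y) : PT p (((↑) : G → G ⧸ N) '' D) where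
  pp := h.pp
  p5 := h.p5
  sq := by
    rintro _ ⟨d, hd, rfl⟩
    rw [← QuotientGroup.mk_mul, h.sq d hd, QuotientGroup.mk_one]
  ne := by
    rintro _ ⟨d, hd, rfl⟩ e
    obtain ⟨y, hy, n⟩ := hp d hd
    exact (h.nc_quo hN hd hy n).2 (e ▸ Commute.one_left _)
  cj := by
    rintro _ ⟨d, hd, rfl⟩ g
    obtain ⟨g, rfl⟩ := QuotientGroup.mk_surjective g
    exact ⟨_, h.cj d hd g, by simp⟩
  pr := by
    rintro _ ⟨d, hd, rfl⟩ _ ⟨e, he, rfl⟩ n
    exact (h.nc_quo hN hd he fun c => n (c.map (QuotientGroup.mk' N))).1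

/-- a set of pairwise non-commuting elements of `D` closed under conjugation by itself has
`p`-power size -/
theorem card_pow [Finite G] {X : Set G} (hs : X ⊆ D) (hc : ∀ x ∈ X, ∀ y ∈ X, x * y * x⁻¹ ∈ X)
    (hl : ∀ x ∈ X, ∀ y ∈ X, x ≠ y → ¬ Commute x y ∧ ∀ i : ℤ, x * (x * y) ^ i ∈ X)
    {x : G} (hx : x ∈ X) : ∃ a, X.ncard = p ^ a := by
  have := Fact.mk h.pp
  let W := closure X
  have hW : ∀ w ∈ W, ∀ y ∈ X, w * y * w⁻¹ ∈ X := by
    intro w hw
    induction hw using closure_induction_left with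
    | one => simp
    | mul_left a ha w _ ih => intro y hy; simpa [mul_assoc] using hc a ha _ (ih y hy)
    | inv_mul_cancel a ha w _ ih =>
      intro y hy
      rw [h.inv (hs ha)]
      simpa [mul_assoc] using hc a ha _ (ih y hy)
  let x0 : W := ⟨x, subset_closure hx⟩
  have hcl : ∀ a ∈ conjugatesOf x0, a.1 ∈ X := by
    intro a ha
    obtain ⟨c, rfl⟩ := isConj_iff.1 ha
    exact hW c c.2 x hx
  have key := Cfsg.Agent.S5560.result h.pp (by have := h.p5; omega) x0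
    (by
      rw [← orderOf_coe]
      exact orderOf_eq_prime (by rw [pow_two]; exact h.sq x (hs hx)) (h.ne x (hs hx)))
    (fun a ha b hb => by
      rw [← orderOf_coe, coe_mul]
      by_cases e : a.1 = b.1
      · exact ⟨0, by rw [e, h.sq _ (hs (hcl b hb))]; simp⟩
      · exact ⟨1, by
          rw [pow_one]
          exact h.pr _ (hs (hcl a ha)) _ (hs (hcl b hb)) (hl _ (hcl a ha) _ (hcl b hb) e).1⟩)
  let P := Cfsg.pCore p W
  have hP : IsPGroup p P := H28.isPGroup_pCore p W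
  letI : MulAction P W := MulAction.compHom W ((MulAut.conj (G := W)).comp P.subtype)
  have hsm : ∀ (g : P) (w : W), g • w = g.1 * w * g.1⁻¹ := fun _ _ => rfl
  obtain ⟨a, ha⟩ := hP.card_orbit x0
  refine ⟨a, ?_⟩
  rw [← ha, Nat.card_coe_set_eq, ← Set.ncard_image_of_injective _ Subtype.val_injective]
  congr 1
  ext y
  constructor
  · intro hy
    by_cases e : x = y
    · exact ⟨x0, MulAction.mem_orbit_self _, e⟩
    obtain ⟨n, hl'⟩ := hl x hx y hy e
    obtain ⟨i, -, hi⟩ := h.exists_mid (hs hx) (hs hy) n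
    let y0 : W := ⟨y, subset_closure hy⟩
    have hy0 : y0 ∈ conjugatesOf x0 :=
      isConj_iff.2 ⟨⟨_, subset_closure (hl' i)⟩, Subtype.ext hi⟩
    have hm := key x0 mem_conjugatesOf_self y0 hy0
    refine ⟨_, MulAction.mem_orbit x0 (⟨(x0 * y0) ^ (-i), zpow_mem hm _⟩ : P), ?_⟩
    rw [hsm]
    change (x * y) ^ (-i) * x * ((x * y) ^ (-i))⁻¹ = y
    refine Eq.trans ?_ hi
    rw [← h.inverts_zpow (hs hx) (hs hy)]
    group
  · rintro ⟨_, ⟨g, rfl⟩, rfl⟩
    exact hW _ g.1.2 x hx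

end PT

theorem eq_of_pow_add_one {p a k : ℕ} (hp : p.Prime) (h3 : 3 ≤ p ^ a) (h : p ^ a + 1 = 2 ^ k) :
    a = 1 := by
  have hk : 2 ≤ k := by
    by_contra hk
    interval_cases k <;> omega
  have h4 : 4 ∣ 2 ^ k := pow_dvd_pow 2 hk
  have hodd : Odd p := by
    refine hp.odd_of_ne_two ?_
    rintro rfl
    rcases a with _ | a
    · simp at h3
    · rw [pow_succ] at h; omega
  rcases Nat.even_or_odd' a with ⟨b, rfl | rfl⟩
  · exfalso
    obtain ⟨c, hc⟩ := (hodd.pow (n := b))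
    rw [mul_comm, pow_mul, hc] at h
    rw [← h] at h4
    have : (2 * c + 1) ^ 2 + 1 = 4 * (c * c + c) + 2 := by ring
    omega
  · have e : ((p : ℤ) + 1) * (∑ i ∈ Finset.range (2 * b + 1), (-(p : ℤ)) ^ i) = 2 ^ k := by
      have := mul_neg_geom_sum (-(p : ℤ)) (2 * b + 1)
      rw [sub_neg_eq_add, Odd.neg_pow ⟨b, rfl⟩, sub_neg_eq_add] at this
      rw [add_comm, this, add_comm]
      exact_mod_cast h
    have ho : Odd (∑ i ∈ Finset.range (2 * b + 1), (-(p : ℤ)) ^ i) := by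
      have hx : Odd (-(p : ℤ)) := Odd.neg (by exact_mod_cast hodd)
      clear e h h3
      induction b with
      | zero => simp
      | succ b ih =>
        rw [show 2 * (b + 1) + 1 = 2 * b + 1 + 1 + 1 by ring, Finset.sum_range_succ,
          Finset.sum_range_succ, add_assoc]
        exact ih.add_even (hx.pow.add_odd hx.pow)
    have hd : (∑ i ∈ Finset.range (2 * b + 1), (-(p : ℤ)) ^ i).natAbs ∣ 2 ^ k := by
      have := congrArg Int.natAbs e
      rw [Int.natAbs_mul, Int.natAbs_pow] at this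
      exact Dvd.intro_left _ this
    obtain ⟨j, -, hj⟩ := (Nat.dvd_prime_pow Nat.prime_two).1 hd
    have hj0 : j = 0 := by
      by_contra hj0
      have := Int.natAbs_odd.2 ho
      rw [hj] at this
      exact (Nat.not_even_iff_odd.2 this) (Nat.even_pow.2 ⟨even_two, hj0⟩)
    rw [hj0, pow_zero] at hj
    have := congrArg Int.natAbs e
    rw [Int.natAbs_mul, hj, mul_one, Int.natAbs_pow] at this
    have e2 : p + 1 = 2 ^ k := by
      have e3 : ((p : ℤ) + 1).natAbs = p + 1 := by omega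
      rw [e3] at this
      simpa using this
    have : p ^ (2 * b + 1) = p ^ 1 := by rw [pow_one]; omega
    exact Nat.pow_right_injective hp.two_le this

end H8.RT
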