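import Cfsg.Agent.H8.RT1

/-! The minimal counterexample to the commuting-triple property of `p`-transpositions. -/

set_option autoImplicit false

namespace H8.RT

open Subgroup

universe u
variable {G : Type u} [Group G]

def T2 (D : Set G) (d e f : G) : Prop :=
  d ∈ D ∧ e ∈ D ∧ f ∈ D ∧ Commute d e ∧ ¬ Commute f d ∧ ¬ Commute f e ∧
    ¬ Commute f (d * e * f * (d * e)⁻¹)

def Mv (g b c : G) : Prop := Commute (g * b * g⁻¹) c

theorem Mv.inv {g b c : G} (m : Mv g b c) : Mv g⁻¹ c b := by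
  have := (Commute.conj m g⁻¹).symm
  simpa [Mv, mul_assoc] using this

def blk (D : Set G) (b : G) : Set G := {y | y ∈ D ∧ Commute y b}

def X (D : Set G) (b c : G) : Set G := {x | x ∈ D ∧ Mv x b c}

namespace PT

variable {p : ℕ} {D : Set G} (h : PT p D)
include h

theorem tri {d e y : G} (hd : d ∈ D) (he : e ∈ D) (c : Commute d e) (hm : d * e ∈ D) (hy : y ∈ D)
    (cy : Commute y d) : Commute y e := by
  refine h.U1 he hm hy (fun q => h.ne d hd ?_) ?_
  · simpa using q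
  · rwa [c.eq, h.cancel he]

theorem T2_of {d e z : G} (hd : d ∈ D) (he : e ∈ D) (c : Commute d e) (hm : d * e ∈ D)
    (hz : z ∈ D) (n : ¬ Commute z d) : T2 D d e z := by
  refine ⟨hd, he, hz, c, n, fun q => n (h.tri he hd c.symm (c.eq ▸ hm) hz q), fun q => ?_⟩
  refine h.nc_cj hm hz (fun q' => n (h.U1 hd he hz ?_ q'.symm)) q.symm
  rintro rfl
  exact h.ne _ hm (h.sq d hd)

theorem X_symm {x b c : G} (hx : x ∈ X D b c) : x ∈ X D c b :=
  ⟨hx.1, by have := hx.2.inv; rwa [h.inv hx.1] at this⟩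

end PT

structure MC (p : ℕ) (D : Set G) : Prop extends PT p D where
  cls : ∀ d ∈ D, ∀ e ∈ D, ∃ g : G, g * d * g⁻¹ = e
  ex : ∃ d e f, T2 D d e f
  sb : ∀ d e f, T2 D d e f → closure {d, e, f} = ⊤
  qu : ∀ N : Subgroup G, N.Normal → (∀ x ∈ D, ∀ y ∈ D, ¬ Commute x y → x * y ∉ N) → N = ⊥

namespace MC

variable {p : ℕ} {D : Set G} (h : MC p D)
include h

theorem gen {d e f t : G} (T : T2 D d e f) (c1 : Commute t d) (c2 : Commute t e)
    (c3 : Commute t f) : t = 1 := by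
  have hz := h.qu (center G) inferInstance fun x hx y hy n => h.not_mem_center hx hy n
  rw [← mem_bot, ← hz, mem_center_iff]
  intro g
  have : closure {d, e, f} ≤ centralizer {t} := by
    rw [closure_le]
    rintro x (rfl | rfl | rfl)
    exacts [mem_centralizer_singleton_iff.2 c1.symm, mem_centralizer_singleton_iff.2 c2.symm,
      mem_centralizer_singleton_iff.2 c3.symm]
  rw [h.sb d e f T] at this
  exact mem_centralizer_singleton_iff.1 (this (mem_top g))

theorem T2_mul {d e f : G} (T : T2 D d e f) : d * e ∈ D := by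
  obtain ⟨hd, he, hf, c, n1, n2, n3⟩ := id T
  have hde : d ≠ e := by
    rintro rfl
    exact n3 (by rw [h.sq d hd]; simp)
  have hu : (d * e) * (d * e) = 1 := by
    rw [← pow_two, c.mul_pow, pow_two, pow_two, h.sq d hd, h.sq e he, one_mul]
  have hui : (d * e)⁻¹ = d * e := inv_eq_of_mul_eq_one_right hu
  set u := d * e with hud
  obtain ⟨m, hm, hmf⟩ := h.exists_mid' hf (h.cj f hf u) n3
  have nm : ¬ Commute m f := fun q => n3 (by rw [← hmf, cj_eq_iff.2 q])
  have hback : u * (m * f * m⁻¹) * u⁻¹ = f := by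
    rw [hmf]
    calc _ = (u * u) * f * (u * u)⁻¹ := by group
      _ = f := by rw [hu]; simp
  have e1 : m = u * m * u⁻¹ := by
    refine h.mid_uniq hm (h.cj m hm u) hf nm ?_
    have e2 : m * (u⁻¹ * f * u) * m⁻¹ = f := by
      have : u⁻¹ * f * u = m * f * m⁻¹ := by rw [hmf, hui]
      rw [this]
      calc _ = (m * m) * f * (m * m)⁻¹ := by group
        _ = f := by rw [h.sq m hm]; simp
    calc m * f * m⁻¹ = u * f * u⁻¹ := hmf
      _ = u * (m * (u⁻¹ * f * u) * m⁻¹) * u⁻¹ := by rw [e2]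
      _ = _ := by group
  have cm : Commute m u := (cj_eq_iff.1 e1.symm).symm
  have c1 := h.U1 hd he hm hde cm
  have c2 := h.U2 hd he hm hde cm
  have := h.gen T (t := u * m) (((Commute.refl d).mul_left c.symm).mul_left c1)
    ((c.mul_left (Commute.refl e)).mul_left c2) (cj_eq_iff.1 (Eq.trans (by group) hback))
  rw [mul_eq_one_iff_eq_inv, h.inv hm] at this
  exact this ▸ hm

theorem ex_tri {d : G} (hd : d ∈ D) :
    (∃ e ∈ D, Commute d e ∧ d * e ∈ D) ∧ ∃ f ∈ D, ¬ Commute d f := by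
  obtain ⟨d0, e0, f0, T⟩ := h.ex
  obtain ⟨g, rfl⟩ := h.cls d0 T.1 d hd
  refine ⟨⟨_, h.cj e0 T.2.1 g, (comm_cj g).2 T.2.2.2.1, ?_⟩, _, h.cj f0 T.2.2.1 g,
    fun c => T.2.2.2.2.1 ((comm_cj g).1 c).symm⟩
  simpa [mul_assoc] using h.cj _ (h.T2_mul T) g

theorem trans {y z w : G} (hy : y ∈ D) (hz : z ∈ D) (hw : w ∈ D) (c1 : Commute z y)
    (c2 : Commute y w) : Commute z w := by
  by_contra n
  obtain ⟨e, he, c, hm⟩ := (h.ex_tri hw).1
  exact h.ne y hy (h.gen (h.T2_of hw he c hm hz n) c2 (h.tri hw he c hm hy c2) c1.symm)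

theorem mv {g g' a b c : G} (ha : a ∈ D) (hb : b ∈ D) (hc : c ∈ D) (m : Mv g a b)
    (m' : Mv g' b c) : Mv (g' * g) a c := by
  refine h.trans (h.cj b hb g') (h.cj a ha _) hc ?_ m'
  have := Commute.conj m g'
  simpa [mul_assoc] using this

/-- the stabilizer of the block of `b` -/
def B (b : G) (hb : b ∈ D) : Subgroup G where
  carrier := {g | Mv g b b}
  one_mem' := by simp [Mv]
  mul_mem' m m' := h.mv hb hb hb m' m
  inv_mem' m := Mv.inv m

theorem mv_zpow {g b : G} (hb : b ∈ D) (m : Mv g b b) (i : ℤ) : Mv (g ^ i) b b :=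
  (h.B b hb).zpow_mem m i

theorem mul_mem {d e : G} (hd : d ∈ D) (he : e ∈ D) (c : Commute d e) (ne : d ≠ e) :
    d * e ∈ D := by
  by_contra hn
  let K : Subgroup G :=
    { carrier := {k | ∀ y ∈ D, Mv k y y}
      one_mem' := fun y _ => by simp [Mv]
      mul_mem' := fun m m' y hy => h.mv hy hy hy (m' y hy) (m y hy)
      inv_mem' := fun m y hy => (m y hy).inv }
  have hK : K = ⊥ := by
    refine h.qu K ⟨fun k hk g y hy => ?_⟩ fun x hx y hy n hk => ?_
    · have := Commute.conj (hk _ (h.cj y hy g⁻¹)) g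
      simpa [Mv, mul_assoc] using this
    · refine h.nc_cj hy hx (fun q => n q.symm) ?_
      have := Commute.conj (hk x hx) x⁻¹
      simpa [mul_assoc] using this
  have : d * e ∈ K := by
    intro y hy
    by_cases q : Commute y d
    · have q2 := h.trans hd hy he q c
      unfold Mv
      rw [cj_eq_iff.2 (q.mul_right q2).symm]
    · by_contra n
      exact hn (h.T2_mul ⟨hd, he, hy, c, q, fun q2 => q (h.trans he hy hd q2 c.symm),
        fun q2 => n q2.symm⟩)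
  rw [hK, mem_bot, mul_eq_one_iff_eq_inv, h.inv he] at this
  exact ne this

theorem card_blk [Finite G] {b : G} (hb : b ∈ D) :
    ∃ k, (blk D b).ncard + 1 = 2 ^ k ∧ 3 ≤ (blk D b).ncard := by
  let E : Subgroup G :=
    { carrier := insert 1 (blk D b)
      one_mem' := Or.inl rfl
      mul_mem' := by
        rintro x y (rfl | hx) (rfl | hy)
        · simp
        · rw [one_mul]; exact Or.inr hy
        · rw [mul_one]; exact Or.inr hx
        · by_cases e : x = y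
          · left; rw [e, h.sq y hy.1]
          · exact Or.inr ⟨h.mul_mem hx.1 hy.1 (h.trans hb hx.1 hy.1 hx.2 hy.2.symm) e,
              hx.2.mul_left hy.2⟩
      inv_mem' := by
        rintro x (rfl | hx)
        · simp
        · rw [h.inv hx.1]; exact Or.inr hx }
  have hE : IsPGroup 2 E := by
    rintro ⟨x, rfl | hx⟩
    · exact ⟨0, Subtype.ext (by simp)⟩
    · exact ⟨1, Subtype.ext (by simpa [pow_two] using h.sq x hx.1)⟩
  obtain ⟨k, hk⟩ := IsPGroup.iff_card.1 hE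
  refine ⟨k, ?_, ?_⟩
  · rw [← hk, ← Set.ncard_insert_of_notMem (fun q : 1 ∈ blk D b => h.ne 1 q.1 rfl)]
    rfl
  · obtain ⟨e, he, c, hm⟩ := (h.ex_tri hb).1
    have : ({b, e, b * e} : Set G).ncard = 3 := by
      refine Set.ncard_eq_three.2 ⟨_, _, _, ?_, ?_, ?_, rfl⟩
      · rintro rfl
        exact h.ne _ hm (h.sq b hb)
      · simpa using h.ne e he
      · simpa using h.ne b hb
    rw [← this]
    refine Set.ncard_le_ncard ?_
    rintro x (rfl | rfl | rfl)
    exacts [⟨hb, Commute.refl _⟩, ⟨he, c.symm⟩, ⟨hm, (Commute.refl b).mul_left c.symm⟩]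

theorem X_ncb {x b c : G} (hb : b ∈ D) (n : ¬ Commute b c) (hx : x ∈ X D b c) :
    ¬ Commute x b := fun q => n (by have := hx.2; rwa [Mv, cj_eq_iff.2 q] at this)

theorem card_X {b c : G} (hb : b ∈ D) (hc : c ∈ D) (n : ¬ Commute b c) :
    (X D b c).ncard = (blk D c).ncard := by
  refine Set.ncard_congr (fun x _ => x * b * x⁻¹) (fun x hx => ⟨h.cj b hb x, hx.2⟩)
    (fun x y hx hy e => h.mid_uniq hx.1 hy.1 hb (h.X_ncb hb n hx) e) fun y hy => ?_
  obtain ⟨m, hm, e⟩ := h.exists_mid' hb hy.1 fun q => n (h.trans hy.1 hb hc q hy.2)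
  exact ⟨m, ⟨hm, by rw [Mv, e]; exact hy.2⟩, e⟩

theorem X_fix {x y b c : G} (hb : b ∈ D) (hc : c ∈ D) (hx : x ∈ X D b c) (hy : y ∈ X D b c) :
    Mv (x * y) b b := h.mv hb hc hb hy.2 (h.X_symm hx).2

theorem X_nc {x y b c : G} (hb : b ∈ D) (hc : c ∈ D) (n : ¬ Commute b c) (hx : x ∈ X D b c)
    (hy : y ∈ X D b c) (ne : x ≠ y) : ¬ Commute x y := by
  intro q
  have hm := h.mul_mem hx.1 hy.1 q ne
  have c1 : Commute (x * y) b := by
    by_contra n1
    exact h.nc_cj hm hb n1 (h.X_fix hb hc hx hy)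
  exact h.X_ncb hb n hx (h.U1 hx.1 hy.1 hb ne c1.symm).symm

theorem X_line {x y b c : G} (hb : b ∈ D) (hc : c ∈ D) (n : ¬ Commute b c) (hx : x ∈ X D b c)
    (hy : y ∈ X D b c) (ne : x ≠ y) (i : ℤ) : x * (x * y) ^ i ∈ X D b c :=
  ⟨h.line_mem hx.1 hy.1 (h.X_nc hb hc n hx hy ne) i,
    h.mv hb hb hc (h.mv_zpow hb (h.X_fix hb hc hx hy) i) hx.2⟩

theorem X_cj {g x b c : G} (hb : b ∈ D) (hc : c ∈ D) (hx : x ∈ X D b c) (m1 : Mv g b b)
    (m2 : Mv g c c) : g * x * g⁻¹ ∈ X D b c :=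
  ⟨h.cj x hx.1 g, h.mv hb hb hc m1.inv (h.mv hb hc hc hx.2 m2)⟩

variable [Finite G]

theorem card_p {b c : G} (hb : b ∈ D) (hc : c ∈ D) (n : ¬ Commute b c) :
    (X D b c).ncard = p := by
  obtain ⟨k, hk, h3⟩ := h.card_blk hc
  rw [← h.card_X hb hc n] at hk h3
  obtain ⟨x, hx⟩ := Set.nonempty_of_ncard_ne_zero (s := X D b c) (by omega)
  obtain ⟨a, ha⟩ := h.card_pow (X := X D b c) (fun _ q => q.1)
    (fun x hx y hy => ⟨h.cj y hy.1 x, h.mv hb hc hc (by rw [h.inv hx.1]; exact hx.2)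
      (h.mv hc hb hc (h.X_symm hy).2 hx.2)⟩)
    (fun x hx y hy ne => ⟨h.X_nc hb hc n hx hy ne, h.X_line hb hc n hx hy ne⟩) hx
  rw [ha] at hk h3 ⊢
  rw [eq_of_pow_add_one h.pp h3 hk, pow_one]

theorem X_other {x b c : G} (hb : b ∈ D) (hc : c ∈ D) (n : ¬ Commute b c) :
    ∃ y ∈ X D b c, x ≠ y := by
  obtain ⟨y, hy, ne⟩ := Set.exists_ne_of_one_lt_ncard (s := X D b c)
    (by rw [h.card_p hb hc n]; exact h.pp.one_lt) x
  exact ⟨y, hy, ne.symm⟩

theorem XL {x y m b c : G} (hb : b ∈ D) (hc : c ∈ D) (n : ¬ Commute b c) (hx : x ∈ X D b c)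
    (hy : y ∈ X D b c) (ne : x ≠ y) (hm : m ∈ X D b c) : x * m ∈ zpowers (x * y) := by
  have : (fun s => x * s) '' (zpowers (x * y) : Set G) = X D b c := by
    refine Set.eq_of_subset_of_ncard_le ?_ (le_of_eq ?_)
    · rintro _ ⟨_, ⟨i, rfl⟩, rfl⟩
      exact h.X_line hb hc n hx hy ne i
    · rw [h.card_p hb hc n, Set.ncard_image_of_injective _ (mul_right_injective x),
        ← h.pr x hx.1 y hy.1 (h.X_nc hb hc n hx hy ne), ← Nat.card_zpowers]
      rfl
  rw [← this] at hm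
  obtain ⟨s, hs, rfl⟩ := hm
  rwa [h.cancel hx.1]

theorem comm_rot {r x y b c : G} (hb : b ∈ D) (hc : c ∈ D) (n : ¬ Commute b c)
    (hx : x ∈ X D b c) (hy : y ∈ X D b c) (ne : x ≠ y) (hr : r ^ p = 1) (m1 : Mv r b b)
    (m2 : Mv r c c) : Commute r (x * y) := by
  have := Fact.mk h.pp
  have hx' := h.X_cj hb hc hx m1 m2
  obtain ⟨k, hk⟩ : r * (x * y) * r⁻¹ ∈ zpowers (x * y) := by
    have := Subgroup.mul_mem _ (Subgroup.inv_mem _ (h.XL hb hc n hx hy ne hx'))
      (h.XL hb hc n hx hy ne (h.X_cj hb hc hy m1 m2))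
    rw [mul_inv_rev, h.inv hx'.1] at this
    simpa [mul_assoc] using this
  have ho := h.pr x hx.1 y hy.1 (h.X_nc hb hc n hx hy ne)
  set s := x * y
  have key : ∀ j : ℕ, r ^ j * s * (r ^ j)⁻¹ = s ^ (k ^ j) := by
    intro j
    induction j with
    | zero => simp
    | succ j ih =>
      calc _ = r * (r ^ j * s * (r ^ j)⁻¹) * r⁻¹ := by rw [pow_succ']; group
        _ = _ := by rw [ih, ← conj_zpow, ← hk, ← zpow_mul, pow_succ']
  have e := key p
  rw [hr, one_mul, inv_one, mul_one] at e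
  have e2 : s ^ (k ^ p) = s ^ k := by
    rw [zpow_eq_zpow_iff_modEq, ho, ← ZMod.intCast_eq_intCast_iff]
    push_cast
    exact ZMod.pow_card _
  exact cj_eq_iff.1 (hk.symm.trans (e.trans e2).symm)

theorem trans_blk {x y z b c : G} (hb : b ∈ D) (hc : c ∈ D) (n : ¬ Commute b c)
    (hx : x ∈ X D b c) (hy : y ∈ X D b c) (ne : x ≠ y) (hz : z ∈ D) (q : Commute z b) :
    ∃ i : ℤ, (x * y) ^ i * b * ((x * y) ^ i)⁻¹ = z := by
  have q1 : Commute (x * z * x⁻¹) c :=
    h.trans (h.cj b hb x) (h.cj z hz x) hc (q.conj x) hx.2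
  obtain ⟨m, hm, e⟩ := h.exists_mid' hb (h.cj z hz x)
    fun q2 => n (h.trans (h.cj z hz x) hb hc q2 q1)
  obtain ⟨i, hi⟩ := h.XL hb hc n hx hy ne (m := m) ⟨hm, by rw [Mv, e]; exact q1⟩
  refine ⟨i, ?_⟩
  simp only at hi
  rw [hi]
  calc _ = x * (m * b * m⁻¹) * x⁻¹ := by group
    _ = (x * x) * z * (x * x)⁻¹ := by rw [e]; group
    _ = z := by rw [h.sq x hx.1]; simp

theorem inv_of_fix {r x b c : G} (hb : b ∈ D) (hc : c ∈ D) (n : ¬ Commute b c)
    (hx : x ∈ X D b c) (hr : r ^ p = 1) (m1 : Mv r b b) (m2 : Mv r c c) :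
    x * r * x⁻¹ = r⁻¹ := by
  obtain ⟨y, hy, ne⟩ := h.X_other (x := x) hb hc n
  have cr := h.comm_rot hb hc n hx hy ne hr m1 m2
  obtain ⟨i, hi⟩ := h.trans_blk hb hc n hx hy ne (h.cj b hb r) m1
  have hs := h.pow_p hx.1 hy.1 (h.X_nc hb hc n hx hy ne)
  have hsc := h.X_fix hc hb (h.X_symm hx) (h.X_symm hy)
  obtain ⟨e, he, ce, hm⟩ := (h.ex_tri hb).1
  obtain ⟨j, hj⟩ := h.trans_blk hb hc n hx hy ne he ce.symm
  have hxi := h.inverts_zpow hx.1 hy.1 i
  set s := x * y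
  set t := (s ^ i)⁻¹ * r with ht
  have c1 : Commute t b := cj_eq_iff.1 (by
    calc _ = (s ^ i)⁻¹ * (r * b * r⁻¹) * s ^ i := by rw [ht]; group
      _ = b := by rw [← hi]; group)
  have c2 : Commute t s := (((Commute.refl s).zpow_left i).inv_left).mul_left cr
  have c3 : Commute t e := by
    rw [← hj]
    exact ((c2.zpow_right j).mul_right c1).mul_right (c2.zpow_right j).inv_right
  have htp : t ^ p = 1 := by
    rw [ht, (cr.symm.zpow_left i).inv_left.mul_pow, hr, mul_one, inv_pow, ← zpow_natCast,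
      ← zpow_mul, mul_comm, zpow_mul, zpow_natCast, hs, one_zpow, inv_one]
  have ha := h.cj c hc b
  have na : ¬ Commute c (b * c * b⁻¹) := fun q => h.nc_cj hb hc n q.symm
  have hba : b ∈ X D c (b * c * b⁻¹) := ⟨hb, Commute.refl _⟩
  have m3 : Mv t c c := h.mv hc hc hc m2 (h.mv_zpow hc hsc i).inv
  have m4 : Mv t (b * c * b⁻¹) (b * c * b⁻¹) := by
    have := Commute.conj m3 b
    unfold Mv
    convert this using 1
    calc _ = (t * b) * c * (t * b)⁻¹ := by group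
      _ = _ := by rw [c1.eq]; group
  obtain ⟨b2, hb2, ne2⟩ := h.X_other (x := b) hc ha na
  have c4 := h.comm_rot hc ha na hba hb2 ne2 htp m3 m4
  have c5 : Commute t b2 := by
    have := c1.mul_right c4
    rwa [h.cancel hb] at this
  have := h.gen (h.T2_of hb he ce hm hb2.1 fun q => h.X_nc hc ha na hba hb2 ne2 q.symm) c1 c3 c5
  rw [ht, inv_mul_eq_one] at this
  rw [← this, hxi, zpow_neg]

end MC

end H8.RT
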