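import Cfsg.Agent.H8.RT2

/-! The commuting-triple property of `p`-transpositions, `p ≥ 5`. -/

set_option autoImplicit false

namespace H8.RT

open Subgroup

universe u
variable {G : Type u} [Group G]

namespace MC

variable {p : ℕ} {D : Set G} (h : MC p D) [Finite G]
include h

theorem exists_free {x : G} (hx : x ∈ D) :
    ∃ y ∈ D, ¬ Commute y x ∧ ∀ z ∈ D, ¬ Mv (x * y) z z := by
  by_contra hn
  push Not at hn
  haveI : Nonempty G := ⟨1⟩
  let rep : G → G := fun y => Classical.epsilon fun z => z ∈ D ∧ Commute z y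
  have r1 : ∀ y ∈ D, rep y ∈ D ∧ Commute (rep y) y := fun y hy =>
    Classical.epsilon_spec (p := fun z => z ∈ D ∧ Commute z y) ⟨y, hy, Commute.refl y⟩
  have r2 : ∀ y ∈ D, ∀ z ∈ D, Commute y z → rep y = rep z := fun y hy z hz c => by
    have : (fun w => w ∈ D ∧ Commute w y) = fun w => w ∈ D ∧ Commute w z := by
      ext w
      exact ⟨fun q => ⟨q.1, h.trans hy q.1 hz q.2 c⟩, fun q => ⟨q.1, h.trans hz q.1 hy q.2 c.symm⟩⟩
    simp only [rep, this]
  have r3 : ∀ y ∈ D, rep (rep y) = rep y := fun y hy => r2 _ (r1 y hy).1 y hy (r1 y hy).2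
  have hn' : ∀ y ∈ D, ¬ Commute y x → ∃ z ∈ D, rep z = z ∧ Mv (x * y) z z := by
    intro y hy n
    obtain ⟨z, hz, m⟩ := hn y hy n
    obtain ⟨q1, q2⟩ := r1 z hz
    refine ⟨rep z, q1, r3 z hz, ?_⟩
    exact h.trans hz (h.cj _ q1 _) q1 (h.trans (h.cj z hz _) (h.cj _ q1 _) hz (q2.conj _) m) q2.symm
  choose! r hr1 hr2 hr3 using hn'
  let S : Set G := {y | y ∈ D ∧ ¬ Commute y x}
  have k0 : ∀ y ∈ S, Commute (x * (y * r y * y⁻¹) * x⁻¹) (r y) := fun y hy => by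
    simpa [Mv, mul_assoc] using hr3 y hy.1 hy.2
  have k1 : ∀ y ∈ S, ¬ Commute y (r y) := fun y hy c => by
    have q := k0 y hy
    rw [cj_eq_iff.2 c] at q
    have : Commute x (r y) := by
      by_contra n
      exact h.nc_cj hx (hr1 y hy.1 hy.2) n q
    exact hy.2 (h.trans (hr1 y hy.1 hy.2) hy.1 hx c this.symm)
  have k2 : ∀ y ∈ S, y * r y * y⁻¹ ∈ S := fun y hy => by
    have hry := hr1 y hy.1 hy.2
    refine ⟨h.cj _ hry y, fun c => ?_⟩
    have q := k0 y hy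
    rw [cj_eq_iff.2 c.symm] at q
    exact h.nc_cj hy.1 hry (k1 y hy) q
  have k3 : ∀ y ∈ S, rep (x * (y * r y * y⁻¹) * x⁻¹) = r y := fun y hy =>
    (r2 _ (h.cj _ (k2 y hy).1 x) _ (hr1 y hy.1 hy.2) (k0 y hy)).trans (hr2 y hy.1 hy.2)
  have inj : Set.InjOn (fun y => y * r y * y⁻¹) S := fun y hy z hz e => by
    have e' : y * r y * y⁻¹ = z * r z * z⁻¹ := e
    have : r y = r z := by rw [← k3 y hy, ← k3 z hz, e']
    exact h.mid_uniq hy.1 hz.1 (hr1 y hy.1 hy.2) (k1 y hy) (by rw [e', this])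
  have sur := ((Set.toFinite S).injOn_iff_bijOn_of_mapsTo k2).1 inj
  obtain ⟨f, hf, nf⟩ := (h.ex_tri hx).2
  obtain ⟨q1, q2⟩ := r1 f hf
  have nr : ¬ Commute x (rep f) := fun c => nf (h.trans q1 hx hf c q2)
  obtain ⟨y, hy, e⟩ := sur.surjOn (show x * rep f * x⁻¹ ∈ S from ⟨h.cj _ q1 x, fun c => nr (by
    have := (comm_cj x).1 (show Commute (x * rep f * x⁻¹) (x * x * x⁻¹) by simpa using c)
    exact this.symm)⟩)
  have e' : y * r y * y⁻¹ = x * rep f * x⁻¹ := e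
  have : r y = rep f := by
    rw [← k3 y hy, e', ← r3 f hf]
    congr 1
    calc _ = (x * x) * rep (rep f) * (x * x)⁻¹ := by group
      _ = _ := by rw [h.sq x hx, r3 f hf]; simp
  rw [this] at e'
  exact hy.2 ((h.mid_uniq hx hy.1 q1 nr e'.symm) ▸ Commute.refl _)

theorem fix_iff {b r g : G} (hb : b ∈ D) :
    (g : G ⧸ h.B b hb) ∈ MulAction.fixedPoints (zpowers r) (G ⧸ h.B b hb) ↔
      Mv r (g * b * g⁻¹) (g * b * g⁻¹) := by
  have key : ∀ s : G, s • (g : G ⧸ h.B b hb) = g ↔ Mv s (g * b * g⁻¹) (g * b * g⁻¹) := by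
    intro s
    rw [eq_comm, MulAction.Quotient.smul_coe, QuotientGroup.eq]
    change Mv _ b b ↔ _
    unfold Mv
    rw [← comm_cj g]
    simp [mul_assoc]
  constructor
  · exact fun q => (key r).1 (q ⟨r, mem_zpowers r⟩)
  · rintro m ⟨_, i, rfl⟩
    exact (key _).2 (h.mv_zpow (h.cj b hb g) m i)

theorem third {x y b c : G} (hb : b ∈ D) (hc : c ∈ D) (n : ¬ Commute b c) (hx : x ∈ X D b c)
    (hy : y ∈ X D b c) (ne : x ≠ y) :
    ∃ a ∈ D, ¬ Commute a b ∧ ¬ Commute a c ∧ Mv (x * y) a a := by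
  have := Fact.mk h.pp
  have hP : ∀ {u v : G}, u ∈ D → v ∈ D → ¬ Commute u v → IsPGroup p (zpowers (u * v)) :=
    fun hu hv q => IsPGroup.of_card (n := 1) (by rw [Nat.card_zpowers, h.pr _ hu _ hv q, pow_one])
  obtain ⟨z, hz, nz, hfree⟩ := h.exists_free hx.1
  have e0 := (hP hx.1 hz fun q => nz q.symm).card_modEq_card_fixedPoints (G ⧸ h.B b hb)
  have : MulAction.fixedPoints (zpowers (x * z)) (G ⧸ h.B b hb) = ∅ := by
    refine Set.eq_empty_of_forall_notMem fun q hq => ?_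
    obtain ⟨g, rfl⟩ := QuotientGroup.mk_surjective q
    exact hfree _ (h.cj b hb g) ((h.fix_iff hb).1 hq)
  rw [this] at e0
  have e1 := (hP hx.1 hy.1 (h.X_nc hb hc n hx hy ne)).card_modEq_card_fixedPoints (G ⧸ h.B b hb)
  have e2 := e1.symm.trans e0
  rw [Nat.card_coe_set_eq, Nat.card_coe_set_eq, Set.ncard_empty, Nat.modEq_zero_iff_dvd] at e2
  have h1 : ((1 : G) : G ⧸ h.B b hb) ∈ MulAction.fixedPoints (zpowers (x * y)) (G ⧸ h.B b hb) :=
    (h.fix_iff hb).2 (by simpa using h.X_fix hb hc hx hy)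
  have e3 := Nat.le_of_dvd ((Set.ncard_pos (Set.toFinite _)).2 ⟨_, h1⟩) e2
  obtain ⟨g0, rfl⟩ := h.cls b hb c hc
  obtain ⟨q, hq, hq'⟩ := Set.exists_mem_notMem_of_ncard_lt_ncard
    (s := {((1 : G) : G ⧸ h.B b hb), (g0 : G ⧸ h.B b hb)})
    (t := MulAction.fixedPoints (zpowers (x * y)) (G ⧸ h.B b hb))
    (lt_of_le_of_lt (Set.ncard_insert_le _ _) (by have := h.p5; simp; omega))
  obtain ⟨g, rfl⟩ := QuotientGroup.mk_surjective q
  refine ⟨_, h.cj b hb g, fun c1 => hq' (Or.inl ?_), fun c2 => hq' (Or.inr ?_),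
    (h.fix_iff hb).1 hq⟩
  · rw [eq_comm, QuotientGroup.eq]
    change Mv _ b b
    simpa [Mv] using c1
  · rw [Set.mem_singleton_iff, eq_comm, QuotientGroup.eq]
    change Mv _ b b
    have := c2.conj g0⁻¹
    simpa [Mv, mul_assoc] using this

theorem false : False := by
  obtain ⟨b, -, c, hb, -, hc, -, n, -⟩ := h.ex
  replace n : ¬ Commute b c := fun q => n q.symm
  obtain ⟨x, hx, -⟩ := h.X_other (x := 1) hb hc n
  obtain ⟨y, hy, ne⟩ := h.X_other (x := x) hb hc n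
  obtain ⟨a, ha, nab, nac, ma⟩ := h.third hb hc n hx hy ne
  have nxy := h.X_nc hb hc n hx hy ne
  have hr := h.pow_p hx.1 hy.1 nxy
  have mb := h.X_fix hb hc hx hy
  have mc := h.X_fix hc hb (h.X_symm hx) (h.X_symm hy)
  have nca : ¬ Commute c a := fun q => nac q.symm
  obtain ⟨y2, hy2, -⟩ := h.X_other (x := 1) hc ha nca
  obtain ⟨y3, hy3, -⟩ := h.X_other (x := 1) ha hb nab
  have i1 := h.inverts hx.1 hy.1
  have i2 := h.inv_of_fix hc ha nca hy2 hr mc ma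
  have i3 := h.inv_of_fix ha hb nab hy3 hr ma mb
  have mu : Mv (y3 * (y2 * x)) b b := h.mv hb ha hb (h.mv hb hc ha hx.2 hy2.2) hy3.2
  obtain ⟨i, hi⟩ := h.trans_blk hb hc n hx hy ne (h.cj b hb _) mu
  have tb := fun z hz q => h.trans_blk (z := z) hb hc n hx hy ne hz q
  have dv : ∀ j : ℤ, Commute b ((x * y) ^ j) → (p : ℤ) ∣ j := fun j q =>
    h.dvd_of_comm hx.1 hy.1 hb nxy (fun q => h.X_ncb hb n hx q.symm) q
  set r := x * y
  set v := (r ^ i)⁻¹ * (y3 * (y2 * x)) with hv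
  have v1 : v * b * v⁻¹ = b := by
    calc _ = (r ^ i)⁻¹ * (y3 * (y2 * x) * b * (y3 * (y2 * x))⁻¹) * r ^ i := by rw [hv]; group
      _ = b := by rw [← hi]; group
  have v2 : v * r * v⁻¹ = r⁻¹ := by
    calc _ = (r ^ i)⁻¹ * (y3 * (y2 * (x * r * x⁻¹) * y2⁻¹) * y3⁻¹) * r ^ i := by rw [hv]; group
      _ = (r ^ i)⁻¹ * (y3 * (y2 * r * y2⁻¹)⁻¹ * y3⁻¹) * r ^ i := by rw [i1]; group
      _ = r⁻¹ := by rw [i2, inv_inv, i3]; group
  let d : ℤ → G := fun j => r ^ j * b * (r ^ j)⁻¹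
  have d1 : ∀ j, d j ∈ D := fun j => h.cj b hb _
  have d2 : ∀ j, Commute (d j) b := fun j => h.mv_zpow hb mb j
  have d3 : ∀ j, v * d j * v⁻¹ = d (-j) := fun j => by
    calc _ = (v * r * v⁻¹) ^ j * (v * b * v⁻¹) * ((v * r * v⁻¹) ^ j)⁻¹ := by
          rw [conj_zpow]; simp only [d]; group
      _ = _ := by rw [v1, v2]; simp only [d]; group
  have d4 : ∀ j k, d j = d k → (p : ℤ) ∣ j - k := fun j k e => dv _ (cj_eq_iff.1 (by
    calc _ = (r ^ k)⁻¹ * d j * r ^ k := by simp only [d]; group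
      _ = b := by rw [e]; simp only [d]; group)).symm
  have d5 : ∀ j k, r ^ k * d j * (r ^ k)⁻¹ = d (k + j) := fun j k => by simp only [d]; group
  have pd : ∀ j : ℕ, 0 < j → j < 5 → ¬ (p : ℤ) ∣ j := fun j j0 j5 q => by
    have := Nat.le_of_dvd j0 (Int.natCast_dvd_natCast.1 q)
    have := h.p5
    omega
  have d6 : ∀ j, ¬ (p : ℤ) ∣ j - -j → d j * d (-j) = b := fun j hj => by
    have c := h.trans hb (d1 j) (d1 (-j)) (d2 j) (d2 (-j)).symm
    obtain ⟨m, hm⟩ := tb _ (h.mul_mem (d1 j) (d1 (-j)) c fun e => hj (d4 _ _ e))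
      ((d2 j).mul_left (d2 (-j)))
    have e : d (-m) = d m := by
      rw [← d3]
      change v * (r ^ m * b * (r ^ m)⁻¹) * v⁻¹ = r ^ m * b * (r ^ m)⁻¹
      rw [hm]
      calc _ = (v * d j * v⁻¹) * (v * d (-j) * v⁻¹) := by group
        _ = _ := by rw [d3, d3, neg_neg, c.eq]
    have q := d4 _ _ e.symm
    rw [show m - -m = 2 * m by ring] at q
    obtain ⟨k, rfl⟩ := ((Int.prime_iff_natAbs_prime.2 (by simpa using h.pp)).dvd_or_dvd q).resolve_left
      (pd 2 (by norm_num) (by norm_num))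
    rw [← hm, zpow_mul, zpow_natCast, hr]
    simp
  have d7 : ∀ j k, ¬ (p : ℤ) ∣ j - -j → d (k + j) * d (k + -j) = d k := fun j k hj => by
    rw [← d5, ← d5]
    calc _ = r ^ k * (d j * d (-j)) * (r ^ k)⁻¹ := by group
      _ = _ := by rw [d6 j hj]
  have e1 := d7 2 2 (pd 4 (by norm_num) (by norm_num))
  have e2 := d7 1 3 (pd 2 (by norm_num) (by norm_num))
  norm_num at e1 e2
  rw [← e1, h.cancel (d1 4)] at e2
  exact pd 3 (by norm_num) (by norm_num) (d4 _ _ e2.symm)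

end MC

theorem no_T2_aux (p n : ℕ) : ∀ (G : Type u) [Group G] [Finite G], Nat.card G = n →
    ∀ D : Set G, PT p D → ∀ d e f, ¬ T2 D d e f := by
  induction n using Nat.strong_induction_on with
  | _ n ih =>
  intro G _ _ hn D h d e f T
  have hcl : ∀ {x y : G}, x ∈ D → y ∈ D → ¬ Commute x y → IsConj x y := fun hx hy q => by
    obtain ⟨m, -, e⟩ := h.exists_mid' hx hy q
    exact isConj_iff.2 ⟨m, e⟩
  have hs : conjugatesOf f ⊆ D := fun x hx => by
    obtain ⟨g, rfl⟩ := isConj_iff.1 hx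
    exact h.cj f T.2.2.1 g
  have h' : PT p (conjugatesOf f) :=
    h.mono hs fun x hx g => IsConj.trans hx (isConj_iff.2 ⟨g, rfl⟩)
  have T' : T2 (conjugatesOf f) d e f := ⟨hcl T.2.2.1 T.1 T.2.2.2.2.1,
    hcl T.2.2.1 T.2.1 T.2.2.2.2.2.1, IsConj.refl f, T.2.2.2⟩
  refine MC.false (p := p) (D := conjugatesOf f)
    { h' with
      cls := fun x hx y hy => isConj_iff.1 (IsConj.trans (IsConj.symm hx) hy)
      ex := ⟨d, e, f, T'⟩
      sb := fun d e f T => ?_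
      qu := fun N hN hq => ?_ }
  · by_contra hne
    let H := closure {d, e, f}
    have lt : Nat.card H < n := by
      rw [← hn]
      exact lt_of_le_of_ne (card_le_card_group H) fun q => hne (eq_top_of_card_eq H q)
    obtain ⟨t1, t2, t3, t4, t5, t6, t7⟩ := T
    exact ih _ lt H rfl _ (h'.sub H) ⟨d, subset_closure (by simp)⟩ ⟨e, subset_closure (by simp)⟩
      ⟨f, subset_closure (by simp)⟩ ⟨t1, t2, t3, Subtype.ext t4, fun q => t5 (congrArg Subtype.val q),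
        fun q => t6 (congrArg Subtype.val q), fun q => t7 (congrArg Subtype.val q)⟩
  · by_contra hne
    have lt : Nat.card (G ⧸ N) < n := by
      rw [← hn, card_eq_card_quotient_mul_card_subgroup N]
      exact lt_mul_of_one_lt_right Nat.card_pos ((one_lt_card_iff_ne_bot N).2 hne)
    obtain ⟨t1, t2, t3, t4, t5, t6, t7⟩ := T'
    refine ih _ lt (G ⧸ N) rfl _ (h'.quo hq fun x hx => ?_) d e f ⟨⟨d, t1, rfl⟩, ⟨e, t2, rfl⟩,
      ⟨f, t3, rfl⟩, t4.map (QuotientGroup.mk' N), (h'.nc_quo hq t3 t1 t5).2,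
      (h'.nc_quo hq t3 t2 t6).2, (h'.nc_quo hq t3 (h'.cj f t3 _) t7).2⟩
    obtain ⟨g, rfl⟩ := isConj_iff.1 hx
    exact ⟨_, h'.cj d t1 g, fun q => t5 ((comm_cj g).1 q)⟩

theorem PT.C [Finite G] {p : ℕ} {D : Set G} (h : PT p D) {d e f : G} (hd : d ∈ D) (he : e ∈ D)
    (hf : f ∈ D) (c : Commute d e) (n1 : ¬ Commute f d) (n2 : ¬ Commute f e) :
    Commute f (d * e * f * (d * e)⁻¹) := by
  by_contra n3
  exact no_T2_aux p _ G rfl D h d e f ⟨hd, he, hf, c, n1, n2, n3⟩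

end H8.RT
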