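import Cfsg.Agent.H8.RT3
import Cfsg.Agent.H1.Wielandt

/-! Rank 3 classes of `p`-transpositions do not exist for `p ≥ 5` when `O₂ = 1`. -/

set_option autoImplicit false

namespace H8.RT

open Subgroup

universe u
variable {G : Type u} [Group G] [Finite G]

theorem mem_core {t : G} (ht : t * t = 1) (h : ∀ g : G, (t * (g * t * g⁻¹)) ^ 4 = 1) :
    t ∈ Cfsg.pCore 2 G := by
  by_contra hn
  obtain ⟨x, x1, xo, e⟩ := H1.exists_odd_inverted ht hn
  have e1 : t * (x * t * x⁻¹) = (x⁻¹) ^ 2 := by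
    rw [pow_two]
    nth_rewrite 2 [← e]
    rw [inv_eq_of_mul_eq_one_right ht]
    group
  have e2 := h x
  rw [e1, ← pow_mul, inv_pow, inv_eq_one] at e2
  have := Nat.Coprime.eq_one_of_dvd
    (Nat.Coprime.pow_right 3 (Nat.coprime_two_right.2 xo)) (orderOf_dvd_of_pow_eq_one e2)
  exact x1 (orderOf_eq_one_iff.1 this)

namespace PT

variable {p : ℕ} {D : Set G} (h : PT p D)
include h

theorem mem_core_of_trans
    (tr : ∀ y ∈ D, ∀ z ∈ D, ∀ w ∈ D, Commute z y → Commute y w → Commute z w) {d e : G}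
    (hd : d ∈ D) (he : e ∈ D) (c : Commute d e) : d * e ∈ Cfsg.pCore 2 G := by
  have k : ∀ d ∈ D, ∀ e ∈ D, Commute d e → ∀ f ∈ D, Commute f (d * e * f * (d * e)⁻¹) := by
    intro d hd e he c f hf
    by_cases q : Commute f d
    · rw [cj_eq_iff.2 (q.mul_right (tr d hd f hf e he q c)).symm]
    · exact h.C hd he hf c q fun q2 => q (tr e he f hf d hd q2 c.symm)
  have sq : ∀ d ∈ D, ∀ e ∈ D, Commute d e → d * e * (d * e) = 1 := fun d hd e he c => by
    rw [← pow_two, c.mul_pow, pow_two, pow_two, h.sq d hd, h.sq e he, one_mul]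
  refine mem_core (sq d hd e he c) fun g => ?_
  have hd' := h.cj d hd g
  have he' := h.cj e he g
  have c' := (comm_cj g).2 c
  rw [show g * (d * e) * g⁻¹ = g * d * g⁻¹ * (g * e * g⁻¹) by group]
  have k1 := k _ hd' _ he' c' d hd
  have k2 := k _ hd' _ he' c' e he
  have s := sq _ hd' _ he' c'
  set u := g * d * g⁻¹ * (g * e * g⁻¹)
  have ha := h.cj d hd u
  have hb := h.cj e he u
  have e1 : (d * e * u) ^ 2 = d * e * (u * d * u⁻¹ * (u * e * u⁻¹)) := by
    calc _ = d * e * (u * d * u⁻¹ * (u * e * u⁻¹)) * (u * u) := by rw [pow_two]; group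
      _ = _ := by rw [s, mul_one]
  have cc : Commute (d * e) (u * d * u⁻¹ * (u * e * u⁻¹)) :=
    (k1.mul_right (tr e he d hd _ hb c k2)).mul_left
      ((tr d hd e he _ ha c.symm k1).mul_right k2)
  rw [show 4 = 2 * 2 from rfl, pow_mul, e1, cc.mul_pow, pow_two, pow_two, sq d hd e he c,
    sq _ ha _ hb ((comm_cj u).2 c), one_mul]

theorem NB {e x y g : G} (he : e ∈ D) (hx : x ∈ D) (hy : y ∈ D) (hg : g ∈ D) (c1 : Commute e x)
    (c2 : Commute e y) (n : ¬ Commute x y) (ne : ¬ Commute g e) (c : Commute g x) :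
    Commute g y := by
  by_contra ng
  have dv : ∀ j : ℕ, 0 < j → j < 5 → ¬ Commute g ((y * x) ^ (j : ℤ)) := fun j j0 j5 q => by
    have := Nat.le_of_dvd j0
      (Int.natCast_dvd_natCast.1 (h.dvd_of_comm hy hx hg (fun q => n q.symm) ng q))
    have := h.p5
    omega
  have hi : ∀ i : ℤ, x * (y * x) ^ i * x⁻¹ = (y * x) ^ (-i) := fun i => by
    rw [← conj_zpow, zpow_neg, ← inv_zpow, mul_inv_rev, h.inv hx, h.inv hy, mul_assoc, mul_assoc,
      h.sq x hx, mul_one]
  have hD : ∀ i : ℤ, (y * x) ^ i * x ∈ D := fun i => by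
    have := h.line_mem hx hy n (-i)
    rw [show x * y = (y * x)⁻¹ by rw [mul_inv_rev, h.inv hx, h.inv hy], inv_zpow', neg_neg] at this
    have := h.cj _ this x
    have e : x * (x * (y * x) ^ i) * x⁻¹ = (y * x) ^ i * x := by rw [h.cancel hx, h.inv hx]
    rwa [e] at this
  set s := y * x
  have ce : ∀ i : ℤ, Commute e (s ^ i * x) := fun i =>
    ((c2.mul_right c1).zpow_right i).mul_right c1
  have nc : ∀ j : ℕ, 0 < j → j < 5 → ¬ Commute g (s ^ (j : ℤ) * x) := fun j j0 j5 q =>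
    dv j j0 j5 (by simpa using q.mul_right c.inv_right)
  have hc : ∀ i : ℤ, s ^ i * x * g * (s ^ i * x)⁻¹ = s ^ i * g * (s ^ i)⁻¹ := fun i => by
    calc _ = s ^ i * (x * g * x⁻¹) * (s ^ i)⁻¹ := by group
      _ = _ := by rw [cj_eq_iff.2 c.symm]
  have key : ∀ j : ℕ, 0 < j → j < 5 →
      Commute (e * g * e⁻¹) (s ^ (j : ℤ) * g * (s ^ (j : ℤ))⁻¹) := fun j j0 j5 => by
    have := (h.C he (hD j) hg (ce j) ne (nc j j0 j5)).conj e
    rw [← hc]
    convert this using 1
    calc _ = (e * e) * (s ^ (j : ℤ) * x * g * (s ^ (j : ℤ) * x)⁻¹) * (e * e)⁻¹ := by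
          rw [h.sq e he]; group
      _ = _ := by group
  have sw : s ^ (3 : ℤ) * x * (s ^ (1 : ℤ) * g * (s ^ (1 : ℤ))⁻¹) * (s ^ (3 : ℤ) * x)⁻¹ =
      s ^ (2 : ℤ) * g * (s ^ (2 : ℤ))⁻¹ := by
    calc _ = s ^ (3 : ℤ) * (x * s ^ (1 : ℤ) * x⁻¹) * (x * g * x⁻¹) * (x * s ^ (1 : ℤ) * x⁻¹)⁻¹ *
          (s ^ (3 : ℤ))⁻¹ := by group
      _ = _ := by rw [hi, cj_eq_iff.2 c.symm]; group
  have k1 := key 1 (by norm_num) (by norm_num)
  have k2 := key 2 (by norm_num) (by norm_num)
  have := h.comm_mid (w := e * g * e⁻¹) (hD 3) (h.cj g hg (s ^ (1 : ℤ))) (fun q => by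
    rw [cj_eq_iff.2 q] at sw
    refine dv 1 (by norm_num) (by norm_num) (cj_eq_iff.1 ?_).symm
    calc _ = (s ^ (1 : ℤ))⁻¹ * (s ^ (2 : ℤ) * g * (s ^ (2 : ℤ))⁻¹) * s ^ (1 : ℤ) := by
          push_cast; group
      _ = g := by rw [← sw]; group) k1 (by rw [sw]; exact k2)
  rw [← cj_eq_iff.2 (ce 3), comm_cj] at this
  exact nc 3 (by norm_num) (by norm_num) this

theorem trans_of_rank (hgen : closure D = ⊤) (cls : ∀ d ∈ D, ∀ e ∈ D, ∃ g : G, g * d * g⁻¹ = e)
    (r3 : ∀ x ∈ D, ∀ f ∈ D, ∀ g ∈ D, ¬ Commute x f → ¬ Commute x g →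
      ∃ c : G, Commute c x ∧ c * f * c⁻¹ = g) :
    ∀ y ∈ D, ∀ z ∈ D, ∀ w ∈ D, Commute z y → Commute y w → Commute z w := by
  intro e he x hx y hy c1 c2
  replace c1 := c1.symm
  by_contra n
  obtain ⟨g, hg, ne, nx⟩ : ∃ g ∈ D, ¬ Commute g e ∧ ¬ Commute g x := by
    by_contra hn
    push Not at hn
    let H := closure {g | g ∈ D ∧ ¬ Commute g e}
    have hH : H ≤ centralizer {x} :=
      (closure_le _).2 fun g hg => mem_centralizer_singleton_iff.2 (hn g hg.1 hg.2)
    have heH : e ∈ H := by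
      obtain ⟨k, hk⟩ := cls x hx e he
      have hf := h.cj y hy k
      have nf : ¬ Commute e (k * y * k⁻¹) := by rw [← hk, comm_cj]; exact n
      have m1 : k * y * k⁻¹ ∈ H := subset_closure ⟨hf, fun q => nf q.symm⟩
      have m2 : e * (k * y * k⁻¹) * e⁻¹ ∈ H := subset_closure ⟨h.cj _ hf e, fun q => nf (by
        have := (comm_cj e).1 (show Commute (e * (k * y * k⁻¹) * e⁻¹) (e * e * e⁻¹) by simpa using q)
        exact this.symm)⟩
      rw [h.mid_eq he hf nf]
      exact mul_mem m1 (pow_mem (mul_mem m1 m2) _)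
    have hN : closure D ≤ normalizer (H : Set G) := by
      refine (closure_le _).2 fun d hd => ?_
      by_cases q : Commute d e
      · have k : ∀ w ∈ H, d * w * d⁻¹ ∈ H := by
          intro w hw
          induction hw using closure_induction with
          | mem a ha =>
            exact subset_closure ⟨h.cj a ha.1 d, fun q2 => ha.2 (by
              rwa [← cj_eq_iff.2 q, comm_cj] at q2)⟩
          | one => simp
          | mul a b _ _ ia ib => simpa [mul_assoc] using mul_mem ia ib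
          | inv a _ ia => simpa [mul_assoc] using inv_mem ia
        refine mem_normalizer_iff.2 fun w => ⟨k w, fun hw => ?_⟩
        have := k _ hw
        rwa [show d * (d * w * d⁻¹) * d⁻¹ = (d * d) * w * (d * d)⁻¹ by group, h.sq d hd, one_mul,
          inv_one, mul_one] at this
      · exact le_normalizer (subset_closure ⟨hd, q⟩)
    obtain ⟨k, hk⟩ := cls e he y hy
    have : y ∈ H := by
      rw [← hk]
      exact (mem_normalizer_iff.1 (hN (hgen ▸ mem_top k)) e).1 heH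
    exact n (mem_centralizer_singleton_iff.1 (hH this)).symm
  obtain ⟨c, cx, hc⟩ := r3 x hx g hg y hy (fun q => nx q.symm) n
  let A : G → Set G := fun a => {w | w ∈ D ∧ Commute w x ∧ Commute w a}
  have sub : A g ⊆ A y := by
    rintro w ⟨hw, wx, wg⟩
    refine ⟨hw, wx, ?_⟩
    by_cases q : Commute w e
    · by_contra n2
      have := h.NB he hw hy hg q.symm c2 n2 ne wg.symm
      exact nx (h.NB he hy hx hg c2 c1 (fun q => n q.symm) ne this)
    · exact h.NB he hx hy hw c1 c2 n q wx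
  have card : (A y).ncard ≤ (A g).ncard := by
    refine Set.ncard_le_ncard_of_injOn (fun w => c⁻¹ * w * c⁻¹⁻¹) (fun w hw => ⟨h.cj w hw.1 _,
      ?_, ?_⟩) fun a _ b _ q => by simpa using q
    · rw [← cj_eq_iff.2 cx.inv_left, comm_cj]; exact hw.2.1
    · have := hw.2.2.conj c⁻¹
      rw [← hc] at this
      simpa [mul_assoc] using this
  have : e ∈ A g := Set.eq_of_subset_of_ncard_le sub card ▸ (⟨he, c1, c2⟩ : e ∈ A y)
  exact ne this.2.2.symm

end PT

end H8.RT
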