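/-
Standard subgroups of type `Sp₄(2ⁿ)`: the relations of `Sp₄(F[ω])`.
-/
import Cfsg.Agent.H27.W8

set_option autoImplicit false
set_option linter.unusedSectionVars false

namespace H8.S4
open Cfsg Subgroup QuadraticAlgebra H27.S4
open H28.CY hiding aa h2
open H19 hiding PG Gd
open H1.YG (Big h2 aa ng add0 sqadd ex_n four_le ex_sqrt sq_inj)

universe u
variable {F : Type} [Field F] [Big F] {G : Type u} [Group G] [Finite G] {ι : Γ F →* G} {t : G} {ρ e₁ e₂ : F} {β δ : F → G}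
  {r s k m : I} {ξ : I → E ρ → G}

theorem all_ind {P : I → Prop} (h6 : P 6) (h7 : P 7) (ha : ∀ r, P r → P (sa r)) (hb : ∀ r, P r → P (sb r)) (r : I) : P r := by
  by_cases h : Sh r
  exacts [Sh.ind h6 (fun r _ => ha r) (fun r _ => hb r) r h, Lg.ind h7 (fun r _ => ha r) (fun r _ => hb r) r h]

/-- the action of a word in the simple reflections -/
def wd (L : List Bool) (r : I) : I := L.foldr (fun b r => if b then sa r else sb r) r

theorem cm_ind {P : I → I → Prop} (h : ∀ p ∈ [((6 : I), (6 : I)), (5, 6), (7, 7), (4, 7), (6, 7), (7, 6)], P p.1 p.2)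
    (ha : ∀ r s, P r s → P (sa r) (sa s)) (hb : ∀ r s, P r s → P (sb r) (sb s)) (r s : I) (c : cm r s = true) : P r s := by
  have key : ∀ r s : I, cm r s = true → ∃ L ∈ [[], [true], [false], [true, false], [false, true], [true, false, true],
      [false, true, false], [true, false, true, false]], ∃ p ∈ [((6 : I), (6 : I)), (5, 6), (7, 7), (4, 7), (6, 7), (7, 6)],
      r = wd L p.1 ∧ s = wd L p.2 := by decide +kernel
  obtain ⟨L, -, p, hp, rfl, rfl⟩ := key r s c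
  clear c
  induction L with
  | nil => exact h p hp
  | cons b L ih => cases b; exacts [hb _ _ ih, ha _ _ ih]

/-- the relations of the full doubling which are immediate -/
structure Fb (ι : Γ F →* G) (t : G) (ρ : F) (ξ : I → E ρ → G) : Prop where
  em : ∀ r c, ξ r ⟨c, 0⟩ = ι (X r c)
  add : ∀ r x y, ξ r (x + y) = ξ r x * ξ r y
  tc : ∀ r x, t ⋆ ξ r x = ξ r (Star.star x)
  wa : ∀ r x, Na ι (ξ r x) = ξ (sa r) x
  wb : ∀ r x, Nb ι (ξ r x) = ξ (sb r) x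
  tor : ∀ r l m x, ι (hh l m) ⋆ ξ r x = ξ r (((l ^ H27.S4.ca r * m ^ cb r : Fˣ) : F) • x)
  cm : ∀ r s, H27.S4.cm r s = true → ∀ x y, ξ r x * ξ s y = ξ s y * ξ r x
  y4 : ∀ (u : F) x, ξ 4 ⟨u, 0⟩ ⋆ ξ 5 x = ξ 5 x * ξ 6 (u • x) * ξ 7 (u • x ^ 2)
  y5 : ∀ (a : F) u, ξ 5 ⟨a, 0⟩ ⋆ ξ 4 u = ξ 4 u * ξ 6 (a • u) * ξ 7 (a ^ 2 • u)

theorem ex_fb (H : Hyp ι t) (P : Pd ι t β δ ρ) : ∃ ξ, Fb ι t ρ ξ ∧ Gd ξ = G2 ι β δ := by
  have D := P.toDb
  have E' := P.dl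
  let q := (fr F).symm
  have q2 : ∀ c, q c ^ 2 = c := fun c => (fr F).apply_symm_apply c
  have q2' : ∀ c, q (c ^ 2) = c := fun c => (fr F).symm_apply_apply c
  let f : E ρ → G := fun x => ι (X 6 x.re) * β x.im
  let g : E ρ → G := fun x => ι (X 7 x.re) * δ (q x.im)
  let ξ : I → E ρ → G := fun r x => (![Na ι (Nb ι (Na ι (g x))), Nb ι (Na ι (Nb ι (f x))), Na ι (Nb ι (f x)), Nb ι (Na ι (g x)),
    Na ι (g x), Nb ι (f x), f x, g x] : Fin 8 → G) r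
  have c4 : ∀ c u, δ c * ι (X 4 u) = ι (X 4 u) * δ c := fun c u => by
    obtain ⟨u, rfl⟩ := ex_sqrt u
    exact cjc' (by simpa [X_zero] using E'.d4 c u)
  have c3 : ∀ c u, δ c * ι (X 3 u) = ι (X 3 u) * δ c := fun c u => by
    obtain ⟨u, rfl⟩ := ex_sqrt u
    exact mul_inv_eq_iff_eq_mul.1 (by simpa [X_zero] using E'.c3 c u)
  have na' : ∀ c, Na ι (β c) = β c := fun c => by simpa [X_zero] using D.na c
  have nb' : ∀ c, Nb ι (δ c) = δ c := fun c => by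
    rw [Nb_eq, nb_def, map_mul, map_mul, mcn, mcn, cjc (c4 ..).symm, cjc (c3 ..).symm, cjc (c4 ..).symm]
  have fa : ∀ x, Na ι (f x) = f x := fun x => by simp only [f, Na_mul, Na_X, sab, na']
  have gb : ∀ x, Nb ι (g x) = g x := fun x => by simp only [g, Nb_mul, Nb_X, sab, nb']
  have cs : ∀ r : I, r = 0 ∨ r = 1 ∨ r = 2 ∨ r = 3 ∨ r = 4 ∨ r = 5 ∨ r = 6 ∨ r = 7 := by decide
  have wa : ∀ r x, Na ι (ξ r x) = ξ (sa r) x := fun r x => by
    rcases cs r with rfl | rfl | rfl | rfl | rfl | rfl | rfl | rfl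
    exacts [Na_Na _, (nab _).trans (by rw [fa]; rfl), Na_Na _, rfl, Na_Na _, rfl, fa x, rfl]
  have wb : ∀ r x, Nb ι (ξ r x) = ξ (sb r) x := fun r x => by
    rcases cs r with rfl | rfl | rfl | rfl | rfl | rfl | rfl | rfl
    exacts [(nab _).symm.trans (by rw [gb]; rfl), Nb_Nb _, rfl, Nb_Nb _, rfl, Nb_Nb _, rfl, gb x]
  have e6 : ∀ x, ξ 6 x = ι (X 6 x.re) * β x.im := fun _ => rfl
  have e7 : ∀ x, ξ 7 x = ι (X 7 x.re) * δ (q x.im) := fun _ => rfl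
  have e5 : ∀ x, ξ 5 x = ι (X 5 x.re) * Nb ι (β x.im) := fun x => (Nb_mul ..).trans (by rw [Nb_X]; rfl)
  have e4 : ∀ x, ξ 4 x = ι (X 4 x.re) * Na ι (δ (q x.im)) := fun x => (Na_mul ..).trans (by rw [Na_X]; rfl)
  have ad : ∀ c d, β (c + d) = β c * β d := fun c d => by
    obtain ⟨c, rfl⟩ := ex_sqrt c
    obtain ⟨d, rfl⟩ := ex_sqrt d
    simp [D.mul, X_zero]
  have ad' : ∀ c d, δ (c + d) = δ c * δ d := fun c d => by simp [E'.mul, X_zero]
  have em : ∀ r c, ξ r ⟨c, 0⟩ = ι (X r c) := all_ind (fun c => by rw [e6, D.zero, mul_one])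
    (fun c => by rw [e7, map_zero, E'.zero, mul_one]) (fun r p c => by rw [← wa, p, Na_X]) fun r p c => by rw [← wb, p, Nb_X]
  have add : ∀ r x y, ξ r (x + y) = ξ r x * ξ r y := all_ind
    (fun x y => by rw [e6, e6, e6, re_add, im_add, ad, ← ixa, mul_assoc, mul_assoc, ← mul_assoc (β _), D.c6, mul_assoc])
    (fun x y => by rw [e7, e7, e7, re_add, im_add, map_add, ad', ← ixa, mul_assoc, mul_assoc, ← mul_assoc (δ _), E'.c7, mul_assoc])
    (fun r p x y => by rw [← wa, ← wa, ← wa, p, Na_mul]) fun r p x y => by rw [← wb, ← wb, ← wb, p, Nb_mul]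
  have c5 : ∀ c u, β c * ι (X 5 u) = ι (X 5 u) * β c := fun c u => cjc' (by simpa [X_zero] using D.b5 c u)
  have n6 : ∀ c u, Nb ι (β c) * ι (X 6 u) = ι (X 6 u) * Nb ι (β c) := fun c u => cjc' (by simpa [X_zero] using D.n6 c u)
  have n7 : ∀ c u, Na ι (δ c) * ι (X 7 u) = ι (X 7 u) * Na ι (δ c) := fun c u => by
    simpa only [Na_mul, Na_X, sab] using congrArg (Na ι) (c4 c u)
  have c67 : ∀ x y, ξ 6 x * ξ 7 y = ξ 7 y * ξ 6 x := fun x y =>
    Commute.mul_left (Commute.mul_right (ixc (by decide +kernel) ..) (E'.c6 ..).symm) (Commute.mul_right (D.c7 ..) (P.bd ..))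
  have cm' : ∀ r s, cm r s = true → ∀ x y, ξ r x * ξ s y = ξ s y * ξ r x := cm_ind (by
      simp only [List.mem_cons, List.not_mem_nil, or_false, forall_eq_or_imp, forall_eq]
      refine ⟨fun x y => by rw [← add, ← add, add_comm], fun x y => ?_, fun x y => by rw [← add, ← add, add_comm], fun x y => ?_,
        c67, fun x y => (c67 y x).symm⟩
      · rw [e5]
        exact Commute.mul_left (Commute.mul_right (ixc (by decide +kernel) ..) (c5 ..).symm) (Commute.mul_right (n6 ..) (P.b56 ..))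
      · rw [e4]
        exact Commute.mul_left (Commute.mul_right (ixc (by decide +kernel) ..) (c4 ..).symm) (Commute.mul_right (n7 ..) (P.dd ..)))
    (fun r s p x y => by simpa only [wa, Na_mul] using congrArg (Na ι) (p x y))
    fun r s p x y => by simpa only [wb, Nb_mul] using congrArg (Nb ι) (p x y)
  have sp : ∀ r (x : E ρ), ξ r x = ξ r ⟨x.re, 0⟩ * ξ r ⟨0, x.im⟩ := fun r x => by rw [← add]; congr 1; ext <;> simp
  have b6 : ∀ c, β c = ξ 6 ⟨0, c⟩ := fun c => by rw [e6, ix0, one_mul]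
  have d7 : ∀ c, δ c = ξ 7 ⟨0, c ^ 2⟩ := fun c => by rw [e7, ix0, one_mul, q2']
  have b5 : ∀ c, Nb ι (β c) = ξ 5 ⟨0, c⟩ := fun c => by rw [e5, ix0, one_mul]
  have d4 : ∀ c, Na ι (δ c) = ξ 4 ⟨0, c ^ 2⟩ := fun c => by rw [e4, ix0, one_mul, q2']
  have mv : ∀ {r s}, cm r s = true → ∀ x y z, ξ r x * (ξ s y * z) = ξ s y * (ξ r x * z) := fun h x y z => by
    rw [← mul_assoc, cm' _ _ h, mul_assoc]
  have ja : ∀ r x y z, ξ r x * (ξ r y * z) = ξ r (x + y) * z := fun r x y z => by rw [add, mul_assoc]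
  have gl : ∀ r x, ξ r x ∈ G2 ι β δ :=
    have n : ∀ x, ι x ∈ N(G2 ι β δ) := fun x => le_normalizer (LG2 x)
    all_ind (fun x => mul_mem (LG2 _) (βG2 _)) (fun x => mul_mem (LG2 _) (δG2 _))
      (fun r p c => wa r c ▸ conj_mem_of_norm (n _) (p _)) fun r p c => wb r c ▸ conj_mem_of_norm (n _) (p _)
  have gd : ∀ r x, ξ r x ∈ Gd ξ := fun r x => subset_closure ⟨r, x, rfl⟩
  refine ⟨ξ, ⟨em, add, all_ind (fun x => ?_) (fun x => ?_) (fun r p x => by simpa only [wa, Na_cn, H.Na_t] using congrArg (Na ι) (p x))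
      fun r p x => by simpa only [wb, Nb_cn, H.Nb_t] using congrArg (Nb ι) (p x), wa, wb,
    all_ind (fun l m x => ?_) (fun l m x => ?_)
      (fun r p l m x => by rw [← wa, ← wa, (cab r).1, (cab r).2.1, mul_comm, ← p, Na_cn, Na_h])
      fun r p l m x => by rw [← wb, ← wb, (cab r).2.2.1, (cab r).2.2.2, ← inv_zpow', ← p, Nb_cn, Nb_h, inv_inv],
    cm', fun u x => ?_, fun a u => ?_⟩, le_antisymm ((closure_le _).2 (by rintro _ ⟨r, x, rfl⟩; exact gl r x))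
      (sup_le (sup_le ?_ ((closure_le _).2 (by rintro _ ⟨c, rfl⟩; exact (b6 c).symm ▸ gd _ _)))
        ((closure_le _).2 (by rintro _ ⟨c, rfl⟩; exact (d7 c).symm ▸ gd _ _)))⟩
  · rw [e6, e6, cnm, H.tx, D.tb H, D.c6, ← mul_assoc, ixa, st_im, re_star, one_mul]
  · rw [e7, e7, cnm, H.tx, E'.td H, E'.c7, ← mul_assoc, ixa, st_im, re_star, one_mul, q2]
  · simp [e6, cnm, h6, D.hb, H27.S4.ca, cb]
  · simp [e7, cnm, h7, E'.hd, H27.S4.ca, cb, zpow_ofNat, q2']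
  · obtain ⟨u, rfl⟩ := ex_sqrt u
    have h1 := P.b45 u x.im
    have h3 := ι45 (ι := ι) (u ^ 2) x.re
    rw [b5, b6, d7] at h1
    simp only [← em] at h1 h3
    rw [sp 5 x, cnm, h3, cn, h1]
    simp only [mul_assoc, mv (r := 6) (s := 5) (by decide +kernel), mv (r := 7) (s := 5) (by decide +kernel),
      mv (r := 7) (s := 6) (by decide +kernel), ja, ← add]
    congr 2
    congr 1
    · congr 1; ext <;> simp [mul_comm]
    · congr 1; ext <;> simp [pow_two] <;> ring_nf <;> simp [show (2 : F) = 0 from h2]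
  · obtain ⟨c, hc⟩ := ex_sqrt u.im
    have h1 := P.d54 a c
    have h3 := ι54 (ι := ι) a u.re
    rw [d4, b6, d7, hc] at h1
    simp only [← em] at h1 h3
    rw [sp 4 u, cnm, h3, cn, h1]
    simp only [mul_assoc, mv (r := 6) (s := 4) (by decide +kernel), mv (r := 7) (s := 4) (by decide +kernel),
      mv (r := 7) (s := 6) (by decide +kernel), cm' 7 6 (by decide +kernel), ja, ← add]
    congr 2
    congr 1
    · congr 1; ext <;> simp
    · congr 1; ext <;> simp [mul_pow, hc]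
  · rintro _ ⟨x, rfl⟩
    exact (gen (H := (Gd ξ).comap ι) fun r c => mem_comap.2 (em r c ▸ gd _ _)).ge (mem_top x)

namespace Fb
variable (B : Fb ι t ρ ξ) (H : Hyp ι t)
include B
theorem zero (r : I) : ξ r 0 = 1 := (B.em r 0).trans (ix0 r)
theorem sq (r : I) (x : E ρ) : ξ r x * ξ r x = 1 := by rw [← B.add, ee, B.zero]
theorem inv (r : I) (x : E ρ) : (ξ r x)⁻¹ = ξ r x := inv_eq_of_mul_eq_one_right (B.sq r x)
theorem sp (r : I) (x : E ρ) : ξ r x = ξ r ⟨x.re, 0⟩ * ξ r ⟨0, x.im⟩ := by rw [← B.add]; congr 1; ext <;> simp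
theorem mv (h : H27.S4.cm r s = true) (x y : E ρ) (z : G) : ξ r x * (ξ s y * z) = ξ s y * (ξ r x * z) := by
  rw [← mul_assoc, B.cm _ _ h, mul_assoc]
theorem ja (r : I) (x y : E ρ) (z : G) : ξ r x * (ξ r y * z) = ξ r (x + y) * z := by rw [B.add, mul_assoc]
theorem cc (h : H27.S4.cm r s = true) (x y : E ρ) : ξ r x ⋆ ξ s y = ξ s y := cjc (B.cm _ _ h x y)
theorem y4' (u : F) (x : E ρ) : ξ 5 x ⋆ ξ 4 ⟨u, 0⟩ = ξ 4 ⟨u, 0⟩ * ξ 6 (u • x) * ξ 7 (u • x ^ 2) :=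
  (swp ((B.y4 u x).trans (mul_assoc ..)) (B.sq ..)
    (Commute.mul_right (B.cm 4 6 (by decide +kernel) ..) (B.cm 4 7 (by decide +kernel) ..))).trans (mul_assoc ..).symm
theorem y5' (a : F) (u : E ρ) : ξ 4 u ⋆ ξ 5 ⟨a, 0⟩ = ξ 5 ⟨a, 0⟩ * ξ 6 (a • u) * ξ 7 (a ^ 2 • u) :=
  (swp ((B.y5 a u).trans (mul_assoc ..)) (B.sq ..)
    (Commute.mul_right (B.cm 5 6 (by decide +kernel) ..) (B.cm 5 7 (by decide +kernel) ..))).trans (mul_assoc ..).symm
theorem t4 (l m : Fˣ) (x : E ρ) : ι (hh l m) ⋆ ξ 4 x = ξ 4 ((m : F) ^ 2 • x) := by simp [B.tor, H27.S4.ca, cb, zpow_ofNat]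
theorem t5 (l m : Fˣ) (x : E ρ) : ι (hh l m) ⋆ ξ 5 x = ξ 5 (((l : F) * (m : F)⁻¹) • x) := by simp [B.tor, H27.S4.ca, cb]
theorem t6 (l m : Fˣ) (x : E ρ) : ι (hh l m) ⋆ ξ 6 x = ξ 6 (((l : F) * m) • x) := by simp [B.tor, H27.S4.ca, cb]
theorem t7 (l m : Fˣ) (x : E ρ) : ι (hh l m) ⋆ ξ 7 x = ξ 7 ((l : F) ^ 2 • x) := by simp [B.tor, H27.S4.ca, cb, zpow_ofNat]
include H
theorem xt (r : I) (x : E ρ) : ξ r x ⋆ t = t * ξ r ⟨x.im, 0⟩ :=
  swp (y := t) (k := ξ r ⟨x.im, 0⟩) (by rw [B.tc, ← B.add]; congr 1; ext <;> simp [ng]) (B.sq ..) (by rw [B.em, H.cen])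
theorem inj {x : E ρ} (h : ξ r x = 1) : x = 0 := by
  have h1 := B.xt H r x
  rw [h, cn0, left_eq_mul, B.em] at h1
  have h2 := X_eq1 (H.inj (h1.trans (map_one ι).symm))
  rw [B.sp, h2, show (⟨0, 0⟩ : E ρ) = 0 from rfl, B.zero, mul_one, B.em] at h
  exact QuadraticAlgebra.ext (X_eq1 (H.inj (h.trans (map_one ι).symm))) h2

theorem one (c d : F) : ∃ v w : F, ξ 5 ⟨0, c⟩ ⋆ ξ 4 ⟨0, d⟩ = ξ 4 ⟨0, d⟩ * ξ 6 ⟨v, c * d⟩ * ξ 7 ⟨w, (1 + ρ) * c ^ 2 * d⟩ := by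
  obtain ⟨l, -, hl⟩ := exl (F := F)
  rw [← mul_div_cancel₀ d hl]
  generalize d / (l ^ 2 + 1) = d
  have k44 := B.cc (r := 4) (s := 4) (by decide +kernel)
  have k46 := B.cc (r := 4) (s := 6) (by decide +kernel)
  have k47 := B.cc (r := 4) (s := 7) (by decide +kernel)
  have k55 := B.cc (r := 5) (s := 5) (by decide +kernel)
  have k56 := B.cc (r := 5) (s := 6) (by decide +kernel)
  have k57 := B.cc (r := 5) (s := 7) (by decide +kernel)
  have k64 := B.cc (r := 6) (s := 4) (by decide +kernel)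
  have k65 := B.cc (r := 6) (s := 5) (by decide +kernel)
  have k66 := B.cc (r := 6) (s := 6) (by decide +kernel)
  have k67 := B.cc (r := 6) (s := 7) (by decide +kernel)
  have k74 := B.cc (r := 7) (s := 4) (by decide +kernel)
  have k75 := B.cc (r := 7) (s := 5) (by decide +kernel)
  have k76 := B.cc (r := 7) (s := 6) (by decide +kernel)
  have k77 := B.cc (r := 7) (s := 7) (by decide +kernel)
  have m64 := B.mv (r := 6) (s := 4) (by decide +kernel)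
  have m65 := B.mv (r := 6) (s := 5) (by decide +kernel)
  have m74 := B.mv (r := 7) (s := 4) (by decide +kernel)
  have m75 := B.mv (r := 7) (s := 5) (by decide +kernel)
  have m76 := B.mv (r := 7) (s := 6) (by decide +kernel)
  set y := ξ 5 ⟨0, c⟩ with hy
  set D := ξ 4 ⟨0, d⟩ with hD
  set y1 := D * ξ 6 ⟨0, c * d⟩ * ξ 7 ⟨0, (1 + ρ) * c ^ 2 * d⟩ with hy1
  have f : ∀ a, y ⋆ D ⋆ a = y1 ⋆ y ⋆ a → (y⁻¹ ⋆ y1)⁻¹ * D * a = a * ((y⁻¹ ⋆ y1)⁻¹ * D) := fun a h => cjc' (by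
    rw [mcn, ← icn y (D ⋆ a), h]; simp only [cn]; group)
  obtain ⟨v, w, k, hk, r⟩ := H.cU (g := (y⁻¹ ⋆ y1)⁻¹ * D) (f _ (by
      have h0 : ξ 4 ⟨d, 0⟩ * ξ 5 ⟨c, 0⟩ = ξ 5 ⟨c, 0⟩ * ξ 4 ⟨d, 0⟩ * (ξ 6 ⟨c * d, 0⟩ * ξ 7 ⟨c ^ 2 * d, 0⟩) := by
        simp only [B.em, ← map_mul, c45]
      simp only [hy, hD, hy1, mcn, cnm, B.xt H, B.y4', B.y5', k44, k46, k47, k55, k65, k66, k67, k75, k77]
      simp only [mul_assoc, mul_right_inj, m64, m65, m74, m75, m76, B.ja, ← B.add]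
      rw [← mul_assoc (ξ 4 _) (ξ 5 _), h0]
      simp only [mul_assoc, mul_right_inj, m76, B.ja, ← B.add]
      congr 1 <;> congr 1 <;> ext <;> simp [pow_two] <;> ring_nf <;> simp [show (2 : F) = 0 from h2]))
    (fun u => f _ (by simp only [hy, hD, hy1, ← B.em, mcn, cnm, B.y5', k55, k56, k57, k65, k75]))
    (fun u => f _ (by simp only [hy, hD, hy1, ← B.em, mcn, cnm, B.y4', k44, k46, k47, k64, k66, k67, k74, k76, k77]))
    (fun u => f _ (by simp only [hy, hD, hy1, ← B.em, mcn, k46, k56, k66, k76]))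
    fun u => f _ (by simp only [hy, hD, hy1, ← B.em, mcn, k47, k57, k67, k77])
  have hc : y ⋆ ι (hh l l) = ι (hh l l) := cjc (cjc' (by simp [hy, B.t5])).symm
  have r' : y ⋆ D = y1 * (ξ 6 ⟨v, 0⟩ * ξ 7 ⟨w, 0⟩) * y ⋆ k := by
    rw [inv_mul_eq_iff_eq_mul.1 r, ιZ, ← B.em, ← B.em, cnm, cnci, cnm, cnm, k56, k57, ← mul_assoc]
  have q := ht' (h := ι (hh l l)) r' (by rw [← hc, ← cnm, ← cnm, mem_cent.1 hk _ ⟨_, rfl⟩])
  rw [← cni, ← hc, ← cnn, ← cnm, hc, hD, B.inv, B.t4, ← B.add] at q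
  refine ⟨(l ^ 2 + 1) * v, (l ^ 2 + 1) * w, (congrArg (fun x => y ⋆ ξ 4 x) (by ext <;> simp; ring)).trans (q.trans ?_)⟩
  simp only [hy1, hD, mul_inv_rev, B.inv, cnm, B.t4, B.t6, B.t7]
  simp only [mul_assoc, m64, m74, m76, B.ja, ← B.add, B.cm 6 4 (by decide +kernel), B.cm 7 4 (by decide +kernel),
    B.cm 7 6 (by decide +kernel)]
  congr 1
  · congr 1; ext <;> simp; ring
  congr 1 <;> congr 1 <;> ext <;> simp <;> ring

theorem two : ∃ e₁ e₂ : F, ∀ x u, ξ 5 x ⋆ ξ 4 u = ξ 4 u * ξ 6 (x * u + ⟨e₁ * x.im * u.im, 0⟩) * ξ 7 (x ^ 2 * u + ⟨e₂ * x.im ^ 2 * u.im, 0⟩) := by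
  obtain ⟨v, w, p⟩ := B.one H 1 1
  have A : ∀ c d : F, ξ 5 ⟨0, c⟩ ⋆ ξ 4 ⟨0, d⟩ = ξ 4 ⟨0, d⟩ * ξ 6 ⟨v * c * d, c * d⟩ * ξ 7 ⟨w * c ^ 2 * d, (1 + ρ) * c ^ 2 * d⟩ := fun c d => by
    have z : ∀ r, ξ r ⟨0, 0⟩ = 1 := B.zero
    by_cases c0 : c = 0
    · simp [c0, z, cn0]
    by_cases d0 : d = 0
    · simp [d0, z, cn1]
    obtain ⟨m, hm⟩ := sqU d0
    have := congrArg (ι (hh (Units.mk0 c c0 * m) m) ⋆ ·) p
    simp only [cnn (ι (hh _ _)), cnm, B.t4, B.t5, B.t6, B.t7, smul_mk, smul_eq_mul, Units.val_mul, Units.val_mk0] at this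
    rw [show c * m * (m : F)⁻¹ = c by simp, mul_assoc c m, ← pow_two, mul_pow, hm] at this
    convert this using 4 <;> ring
  refine ⟨v + ρ, w + ρ, fun x u => ?_⟩
  rw [B.sp 5 x, mcn, B.sp 4 u, cnm, B.y4', A]
  simp only [mul_assoc, B.mv (r := 6) (s := 4) (by decide +kernel), B.mv (r := 7) (s := 4) (by decide +kernel),
    B.mv (r := 7) (s := 6) (by decide +kernel), B.ja, ← B.add, cnm, B.y5, B.cc (r := 5) (s := 6) (by decide +kernel),
    B.cc (r := 5) (s := 7) (by decide +kernel)]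
  congr 1
  congr 1 <;> congr 1 <;> ext <;> simp [pow_two] <;> ring_nf <;> simp [show (2 : F) = 0 from h2]

theorem three (x u : E ρ) : ξ 5 x ⋆ ξ 4 u = ξ 4 u * ξ 6 (x * u) * ξ 7 (x ^ 2 * u) := by
  obtain ⟨e₁, e₂, p⟩ := B.two H
  suffices e₁ = 0 ∧ e₂ = 0 by simpa [this.1, this.2, show (⟨0, 0⟩ : E ρ) = 0 from rfl] using p x u
  obtain ⟨b, hb⟩ : ∃ b : E ρ → E ρ → E ρ, ∀ x u, b x u = x * u + ⟨e₁ * x.im * u.im, 0⟩ := ⟨_, fun _ _ => rfl⟩
  obtain ⟨n, hn⟩ : ∃ n : E ρ → E ρ → E ρ, ∀ x u, n x u = x ^ 2 * u + ⟨e₂ * x.im ^ 2 * u.im, 0⟩ := ⟨_, fun _ _ => rfl⟩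
  simp only [← hb, ← hn] at p
  have C1 : ∀ r s k m, Tri r s k m → ∀ u x, ξ r u ⋆ ξ s x = ξ s x * ξ k (b x u) * ξ m (n x u) := Tri.ind
    (fun u x => (swp ((p x u).trans (mul_assoc ..)) (B.sq ..)
      (Commute.mul_right (B.cm 5 6 (by decide +kernel) ..) (B.cm 5 7 (by decide +kernel) ..))).trans (mul_assoc ..).symm)
    (fun r s k m _ p u x => by simpa only [B.wa, Na_mul, Na_cn] using congrArg (Na ι) (p u x))
    fun r s k m _ p u x => by simpa only [B.wb, Nb_mul, Nb_cn] using congrArg (Nb ι) (p u x)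
  have b1 : ∀ x, b x 1 = x := fun x => by rw [hb]; ext <;> simp
  have b1' : ∀ x, b 1 x = x := fun x => by rw [hb]; ext <;> simp
  have n1' : ∀ x, n 1 x = x := fun x => by rw [hn]; ext <;> simp
  have m15 := B.mv (r := 1) (s := 5) (by decide +kernel)
  have m35 := B.mv (r := 3) (s := 5) (by decide +kernel)
  have m31 := B.mv (r := 3) (s := 1) (by decide +kernel)
  -- the key step
  have K : ∀ (g : G) y w, g * ξ 0 1 = ξ 0 1 * g → g ⋆ ξ 5 1 = ξ 6 y * ξ 7 w → w = 0 := fun g y w hg e => by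
    have h1 : (ξ 0 1 ⋆ ξ 5 1 * ξ 5 1) * (ξ 0 1 ⋆ ξ 5 1 * ξ 5 1) = 1 := by
      simp only [C1 0 5 1 3 (by decide), mul_assoc, m15, m35, m31, B.cm 3 5 (by decide +kernel), B.cm 1 5 (by decide +kernel), B.ja,
        ← B.add, add_assoc, ee, B.zero, mul_one, one_mul]
    have h3 := congrArg (g ⋆ ·) h1
    simp only [cnm, cnn g, cjc hg, e, cn1, C1 0 6 2 4 (by decide), b1] at h3
    generalize ha : ξ 0 1 ⋆ ξ 7 w * ξ 7 w = a
    have a4 : ∀ z, ξ 4 z * a = a * ξ 4 z := fun z => ha ▸ Commute.mul_right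
      (by rw [← cjc (B.cm 0 4 (by decide +kernel) 1 z), Commute, SemiconjBy, ← cnm, ← cnm, B.cm 4 7 (by decide +kernel)])
      (B.cm 4 7 (by decide +kernel) ..)
    have h4 : ξ 2 y ⋆ a = a⁻¹ := by
      have e1 : ξ 6 y * ξ 2 y * ξ 4 (n y 1) * ξ 0 1 ⋆ ξ 7 w * (ξ 6 y * ξ 7 w) = ξ 6 y ⋆ (ξ 4 (n y 1) * (ξ 2 y * a)) := by
        rw [B.cm 6 7 (by decide +kernel), ← ha, B.mv (r := 4) (s := 2) (by decide +kernel)]; simp only [cn, B.inv, mul_assoc]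
      rw [e1, ← cnm, ← cn1 (ξ 6 y), cn, cn, mul_left_inj, mul_right_inj, mul_assoc, mul_assoc (ξ 2 y), ← mul_assoc a, ← a4,
        mul_assoc, B.mv (r := 2) (s := 4) (by decide +kernel), ← mul_assoc, B.sq, one_mul] at h3
      rw [cn, B.inv, eq_inv_iff_mul_eq_one, ← h3]; simp only [mul_assoc]
    have h5 : ∀ m : Fˣ, ξ 2 ((m : F) • y) ⋆ a = a⁻¹ := fun m => by
      have e0 : ι (hh 1 m) ⋆ ξ 0 1 = ξ 0 1 := by simp [B.tor, H27.S4.ca, cb]
      have e2 : ι (hh 1 m) ⋆ ξ 2 y = ξ 2 ((m : F) • y) := by simp [B.tor, H27.S4.ca, cb]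
      have ea : ι (hh 1 m) ⋆ a = a := by rw [← ha, cnm, cnn, e0, B.t7]; simp
      rw [← e2, ← ea, ← cnn, h4, cni]
    obtain ⟨l, hl, -⟩ := exl (F := F)
    have h6 := h5 (Units.mk0 _ hl)
    rw [Units.val_mk0, add_smul, one_smul, B.add, mcn, h4, cni, h5, inv_inv] at h6
    -- `a` is an involution
    have h7 : ξ 7 w ⋆ (ξ 0 1 ⋆ ξ 7 w) = ξ 0 1 ⋆ ξ 7 w := by
      rw [← ha, mul_inv_rev, ← cni, B.inv] at h6
      exact cjc h6.symm
    have h8 : ξ 7 w ⋆ (ξ 0 1 ⋆ ξ 7 w) ⋆ ξ 5 1 = (ξ 0 1 ⋆ ξ 7 w) ⋆ ξ 5 1 := by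
      rw [cnn, h7, B.cc (r := 7) (s := 5) (by decide +kernel)]
    have h9 : (ξ 0 1 ⋆ ξ 7 w) ⋆ ξ 5 1 = ξ 0 1 ⋆ ξ 7 w ⋆ ξ 0 1 ⋆ ξ 5 1 := by
      nth_rw 3 [← B.inv 0 1]; simp only [cn]; group
    have k75 := B.cc (r := 7) (s := 5) (by decide +kernel)
    have k73 := B.cc (r := 7) (s := 3) (by decide +kernel)
    have h10 : ∃ z, (ξ 0 1 ⋆ ξ 7 w) ⋆ ξ 5 1 = ξ 5 (1 + w) * (ξ 1 w * ξ 3 z) := ⟨_, by
      rw [h9, C1 0 5 1 3 (by decide), cnm (ξ 7 w), cnm (ξ 7 w), k75, k73, C1 7 1 5 3 (by decide), b1, b1']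
      simp only [mul_assoc, m15, B.ja, ← B.add]
      rw [cnm, cnm, C1 0 5 1 3 (by decide), B.cc (r := 0) (s := 1) (by decide +kernel), B.cc (r := 0) (s := 3) (by decide +kernel), b1]
      simp only [mul_assoc, m31, B.ja, ← B.add]
      rw [add_right_comm 1 w 1, ee, zero_add]⟩
    obtain ⟨z, h10⟩ := h10
    rw [h10, cnm, cnm, k75, k73, C1 7 1 5 3 (by decide), mul_right_inj, mul_left_inj, mul_assoc, mul_eq_left] at h8
    have h11 := congrArg (ι (hh l 1) ⋆ ·) h8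
    simp only [cnm, cn1, B.t5, show ∀ x, ι (hh l 1) ⋆ ξ 3 x = ξ 3 x by simp [B.tor, H27.S4.ca, cb]] at h11
    rw [← h8, mul_left_inj, ← mul_inv_eq_one, B.inv, ← B.add] at h11
    have h12 := B.inj H h11
    rw [hb, QuadraticAlgebra.ext_iff] at h12
    simp only [Units.val_one, inv_one, mul_one, re_add, re_smul, re_mul, im_add, im_smul, im_mul, smul_eq_mul, re_zero, im_zero] at h12
    have i0 : w.im = 0 := pow_eq_zero_iff two_ne_zero |>.1 ((mul_eq_zero.1 (show (l + 1) * w.im ^ 2 = 0 by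
      linear_combination h12.2 - (l + 1) * w.re * w.im * (h2 : (2 : F) = 0))).resolve_left hl)
    have r0 : w.re = 0 := pow_eq_zero_iff two_ne_zero |>.1 ((mul_eq_zero.1 (show (l + 1) * w.re ^ 2 = 0 by
      rw [i0] at h12; linear_combination h12.1)).resolve_left hl)
    exact QuadraticAlgebra.ext r0 i0
  obtain ⟨g, hg⟩ : ∃ g : F, g ^ 2 + g + ρ + e₁ ≠ 0 := by
    by_contra! h
    obtain ⟨w, w0, w1, -⟩ := w1 (F := F)
    exact mul_ne_zero w0 w1 (by linear_combination h w - h 0)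
  generalize hN : g ^ 2 + g + ρ + e₁ = N at hg
  have := K (ξ 3 ⟨(g + 1) / N, 1 / N⟩ * ξ 4 ⟨g, 1⟩) ⟨g, 1⟩ (n ⟨g, 1⟩ ⟨(g + 1) / N, 1 / N⟩ + ⟨g, 1⟩)
    (Commute.mul_left (B.cm 3 0 (by decide +kernel) ..) (B.cm 4 0 (by decide +kernel) ..)) (by
      rw [mcn, C1 4 5 6 7 (by decide), cnm, cnm, C1 3 6 5 7 (by decide), B.cc (r := 3) (s := 5) (by decide +kernel),
        B.cc (r := 3) (s := 7) (by decide +kernel), b1', n1', show b ⟨g, 1⟩ ⟨(g + 1) / N, 1 / N⟩ = 1 by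
          rw [hb]; ext
          · simp only [re_add, re_mul, re_one]; field_simp; linear_combination hN
          · simp only [im_add, im_mul, im_one]; field_simp; linear_combination (g + 1) * (h2 : (2 : F) = 0)]
      simp only [mul_assoc, B.mv (r := 6) (s := 5) (by decide +kernel), B.ja, ← B.add, ee, B.zero, one_mul])
  rw [hn, QuadraticAlgebra.ext_iff] at this
  simp only [pow_two, re_add, re_mul, im_add, im_mul, re_zero, im_zero] at this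
  obtain ⟨a1, a2⟩ := this
  field_simp at a1 a2
  have k1 : e₁ = 0 := by linear_combination a2 + hN - (2 * g ^ 2 + 3 * g + 1 + ρ) * (h2 : (2 : F) = 0)
  exact ⟨k1, by linear_combination a1 + g * hN - g * k1 - (g ^ 3 + g ^ 2 + 2 * g * ρ + ρ) * (h2 : (2 : F) = 0)⟩

theorem fd : Fd ι t ρ ξ := by
  have C1 : ∀ r s k m, Tri r s k m → ∀ u x, ξ r u * ξ s x = ξ s x * ξ r u * (ξ k (x * u) * ξ m (x ^ 2 * u)) := Tri.ind
    (fun u x => by
      rw [mul_inv_eq_iff_eq_mul.1 (B.three H x u)]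
      simp only [mul_assoc, B.mv (r := 7) (s := 5) (by decide +kernel), B.mv (r := 6) (s := 5) (by decide +kernel),
        B.mv (r := 7) (s := 6) (by decide +kernel), B.ja, ← B.add, ee, B.zero, mul_one])
    (fun r s k m _ p u x => by simpa only [B.wa, Na_mul] using congrArg (Na ι) (p u x))
    fun r s k m _ p u x => by simpa only [B.wb, Nb_mul] using congrArg (Nb ι) (p u x)
  exact ⟨H.inj, H.cen, B.em, B.add, B.tc, B.wa, B.wb, B.tor, C1, B.cm⟩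

end Fb

/-- the relations of `Sp₄(F[ω])` -/
theorem dd : DD.{u} := fun _ _ H _ _ _ P => let ⟨ξ, B, e⟩ := ex_fb H P; ⟨ξ, B.fd H, e⟩

end H8.S4
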