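import Cfsg.Agent.H20.CF7
import Cfsg.Agent.H1.PSolv

/-! Faithful characters of `p`-solvable groups with a TI Sylow `p`-subgroup. -/

set_option autoImplicit false
open Cfsg Subgroup

namespace H8
open H20 H19
open scoped ComplexConjugate Classical

universe u
variable {Γ : Type u} [Group Γ] [Finite Γ] {K P Q L : Subgroup Γ} {θ χ : Γ → ℂ} {p : ℕ}

/-- a minimal `P`-invariant subgroup not centralised by `P` -/
structure MinNC (P Q : Subgroup Γ) : Prop where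
  nrm : P ≤ N(Q)
  cop : (#Q).Coprime #P
  nc : ¬ P ≤ C(Q)
  min : ∀ R, R < Q → P ≤ N(R) → P ≤ C(R)
  sol : Sol Q

theorem exists_minNC (hP : PG p P) (hn : P ≤ N(K)) (hc : (#K).Coprime #P) (h : ¬ P ≤ C(K)) :
    ∃ Q, Q ≤ K ∧ MinNC P Q := by
  obtain ⟨Q, ⟨h1, h2, h3⟩, hm⟩ := exists_minimal_of_wellFoundedLT
    (fun Q : Subgroup Γ => Q ≤ K ∧ P ≤ N(Q) ∧ ¬ P ≤ C(Q)) ⟨K, le_rfl, hn, h⟩
  have hcq : (#Q).Coprime #P := Nat.Coprime.coprime_dvd_left (card_dvd_of_le h1) hc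
  have hmin : ∀ R, R < Q → P ≤ N(R) → P ≤ C(R) := fun R hR hRn => by
    by_contra e
    exact hR.not_ge (hm ⟨hR.le.trans h1, hRn, e⟩ hR.le)
  refine ⟨Q, h1, h2, hcq, h3, hmin, ?_⟩
  by_contra hs
  apply h3
  rw [← le_centralizer_iff]
  refine le_of_exists_syl fun q _ _ => ?_
  obtain ⟨S, hS, hSn⟩ := inv_syl_exists q h2 hcq (Or.inl hP.sol)
  refine ⟨S, hS, le_centralizer_iff.1 (hmin S (lt_of_le_of_ne hS.le fun e => hs ?_) hSn)⟩
  rw [← e]; exact PiN.sol (p := q) hS.pi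

namespace MinNC
variable (h : MinNC P Q)
include h

theorem ne_bot : Q ≠ ⊥ := fun e => h.nc (by rw [e]; simp)

theorem comm : ⁅Q, P⁆ = Q := by
  by_contra e
  have := h.min _ (lt_of_le_of_ne (commg_le_left h.nrm) e) (commg_normr Q P)
  exact h.nc (cents_of_commg_le_cent h.nrm h.cop (le_centralizer_iff.1 this))

theorem der : ⁅Q, Q⁆ ≤ Q ⊓ C(P) :=
  le_inf (der_le Q) (le_centralizer_iff.1 (h.min _ (sol_der_lt h.sol h.ne_bot) (norms_der h.nrm)))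

theorem central : Q ⊓ C(P) ≤ C(Q) := by
  have hn : Q ≤ N(Q ⊓ C(P)) := norms_of_der_le h.der inf_le_left
  have h1 : ⁅⁅P, Q ⊓ C(P)⁆, Q⁆ = ⊥ := by
    rw [commg_eq_bot.2 (le_centralizer_iff.1 inf_le_right), commutator_bot_left]
  have h2 : ⁅⁅Q ⊓ C(P), Q⁆, P⁆ = ⊥ :=
    commg_eq_bot.2 ((commg_le_left hn).trans inf_le_right)
  have := three_subgroup h1 h2
  rw [h.comm] at this
  exact le_centralizer_iff.1 (commg_eq_bot.1 this)

variable (hF : ∀ u ∈ P, u ≠ 1 → Q ⊓ C[u] ≤ C(P))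
include hF

theorem fix {u x : Γ} (hu : u ∈ P) (hu1 : u ≠ 1) (hx : x ∈ Q)
    (e : x⁻¹ * (u * x * u⁻¹) ∈ C(P)) : x ∈ C(P) := by
  set c := x⁻¹ * (u * x * u⁻¹) with hc
  have hcQ : c ∈ Q := Q.mul_mem (Q.inv_mem hx) (conj_mem_of_norm (h.nrm hu) hx)
  have hcu : u * c = c * u := mem_cent.1 e u hu
  have key : ∀ k : ℕ, u ^ k * x * (u ^ k)⁻¹ = x * c ^ k := by
    intro k
    induction k with
    | zero => simp
    | succ k ih =>
      have h1 : u * c ^ k * u⁻¹ = c ^ k := by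
        rw [(Commute.pow_right hcu k).eq]; group
      calc u ^ (k + 1) * x * (u ^ (k + 1))⁻¹ = u * (u ^ k * x * (u ^ k)⁻¹) * u⁻¹ := by group
        _ = (u * x * u⁻¹) * (u * c ^ k * u⁻¹) := by rw [ih]; group
        _ = x * c ^ (k + 1) := by
          rw [h1, pow_succ' c, ← mul_assoc x, show x * c = u * x * u⁻¹ by rw [hc]; group]
  have h1 : c ^ #P = 1 := by
    have := key #P
    have h0 : u ^ #P = 1 := by
      have := pow_card_eq_one' (G := P) (x := ⟨u, hu⟩)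
      exact congrArg Subtype.val this
    rw [h0] at this
    simpa using this.symm
  have h2 : c ^ #Q = 1 := congrArg Subtype.val (pow_card_eq_one' (G := Q) (x := ⟨c, hcQ⟩))
  have h3 : c = 1 := by
    have := Nat.dvd_gcd (orderOf_dvd_of_pow_eq_one h2) (orderOf_dvd_of_pow_eq_one h1)
    rw [h.cop.gcd_eq_one, Nat.dvd_one] at this
    exact orderOf_eq_one_iff.1 this
  refine hF u hu hu1 ⟨hx, mem_cent1.2 ?_⟩
  have : u * x * u⁻¹ = x := by
    rw [show u * x * u⁻¹ = x * c by rw [hc]; group, h3, mul_one]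
  calc x * u = (u * x * u⁻¹) * u := by rw [this]
    _ = u * x := by group

theorem lt_relIndex : #P < (Q ⊓ C(P)).relIndex Q := by
  obtain ⟨x, hx, hxc⟩ : ∃ x ∈ Q, x ∉ C(P) := by
    by_contra e
    push Not at e
    exact h.nc (le_centralizer_iff.1 e)
  let f : Option P → Q ⧸ (Q ⊓ C(P)).subgroupOf Q := fun o => match o with
    | none => ((1 : Q) : Q ⧸ (Q ⊓ C(P)).subgroupOf Q)
    | some u => ((⟨u * x * (u : Γ)⁻¹, conj_mem_of_norm (h.nrm u.2) hx⟩ : Q) : Q ⧸ _)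
  have hnc : ∀ u ∈ P, u * x * u⁻¹ ∉ C(P) := fun u hu e => hxc (by
    have := conj_mem_of_norm' (norms_cent (le_normalizer (H := P)) hu) e
    simpa [mul_assoc] using this)
  have hf : Function.Injective f := by
    rintro (_ | u) (_ | v) e
    · rfl
    · have := QuotientGroup.eq.1 e
      rw [mem_subgroupOf] at this
      exact absurd (by simpa using this.2) (hnc v v.2)
    · have := QuotientGroup.eq.1 e.symm
      rw [mem_subgroupOf] at this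
      exact absurd (by simpa using this.2) (hnc u u.2)
    · have := QuotientGroup.eq.1 e
      rw [mem_subgroupOf] at this
      by_contra hne
      have huv : (v : Γ) * (u : Γ)⁻¹ ≠ 1 := fun e' => hne (by
        rw [mul_inv_eq_one] at e'; rw [Subtype.ext e'])
      refine hnc u u.2 (h.fix hF (P.mul_mem v.2 (P.inv_mem u.2)) huv
        (conj_mem_of_norm (h.nrm u.2) hx) ?_)
      have h2 : ((u : Γ) * x * (u : Γ)⁻¹)⁻¹ * ((v : Γ) * x * (v : Γ)⁻¹) ∈ C(P) := this.2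
      convert h2 using 1
      group
  have := Nat.card_le_card_of_injective f hf
  rw [Finite.card_option] at this
  exact this

theorem surj {u y : Γ} (hu : u ∈ P) (hu1 : u ≠ 1) (hy : y ∈ Q) :
    ∃ x ∈ Q, ∃ c ∈ Q ⊓ C(P), y = x⁻¹ * (u * x * u⁻¹) * c := by
  have hm : ∀ x : Q, (x : Γ)⁻¹ * (u * x * u⁻¹) ∈ Q := fun x =>
    Q.mul_mem (Q.inv_mem x.2) (conj_mem_of_norm (h.nrm hu) x.2)
  have hab : ∀ a ∈ Q, ∀ b ∈ Q, a * b * a⁻¹ * b⁻¹ ∈ C(P) := fun a ha b hb =>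
    (h.der (commutator_mem_commutator ha hb)).2
  let f : Q ⧸ (Q ⊓ C(P)).subgroupOf Q → Q ⧸ (Q ⊓ C(P)).subgroupOf Q := fun a =>
    ((⟨_, hm a.out⟩ : Q) : Q ⧸ _)
  have hf : Function.Injective f := by
    intro a b e
    have := QuotientGroup.eq.1 e
    rw [mem_subgroupOf] at this
    rw [← a.out_eq, ← b.out_eq]
    refine QuotientGroup.eq.2 ?_
    rw [mem_subgroupOf]
    set s : Γ := Subtype.val (a.out : Q) with hs
    set t : Γ := Subtype.val (b.out : Q) with ht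
    have h2 : (s⁻¹ * (u * s * u⁻¹))⁻¹ * (t⁻¹ * (u * t * u⁻¹)) ∈ C(P) := this.2
    have hsQ : s ∈ Q := a.out.2
    have htQ : t ∈ Q := b.out.2
    change s⁻¹ * t ∈ _
    have hst : s⁻¹ * t ∈ Q := Q.mul_mem (Q.inv_mem hsQ) htQ
    refine ⟨hst, h.fix hF hu hu1 hst ?_⟩
    have husQ : u * s * u⁻¹ ∈ Q := conj_mem_of_norm (h.nrm hu) hsQ
    have h3 := hab (t⁻¹ * s) (Q.mul_mem (Q.inv_mem htQ) hsQ) (u * s * u⁻¹)⁻¹ (Q.inv_mem husQ)
    have h4 := hab (u * s * u⁻¹)⁻¹ (Q.inv_mem husQ) (s * t⁻¹ * s * t⁻¹ * s⁻¹ * t)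
      (Q.mul_mem (Q.mul_mem (Q.mul_mem (Q.mul_mem (Q.mul_mem hsQ (Q.inv_mem htQ)) hsQ)
        (Q.inv_mem htQ)) (Q.inv_mem hsQ)) htQ)
    have h5 := hab t⁻¹ (Q.inv_mem htQ) s hsQ
    have hz := h.central ⟨(der_le Q) (commutator_mem_commutator (Q.inv_mem htQ) hsQ), h5⟩
    have hz' := mem_cent.1 hz _ (Q.inv_mem husQ)
    have e1 : (s⁻¹ * t)⁻¹ * (u * (s⁻¹ * t) * u⁻¹) =
        (t⁻¹ * s * (u * s * u⁻¹)⁻¹ * (t⁻¹ * s)⁻¹ * (u * s * u⁻¹)⁻¹⁻¹) *
          ((u * s * u⁻¹)⁻¹ * (t⁻¹ * s * t⁻¹⁻¹ * s⁻¹)) * ((u * s * u⁻¹) *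
          ((s⁻¹ * (u * s * u⁻¹))⁻¹ * (t⁻¹ * (u * t * u⁻¹)))) := by group
    rw [commutatorElement_def] at hz'
    rw [e1, hz']
    have e2 : t⁻¹ * s * (u * s * u⁻¹)⁻¹ * (t⁻¹ * s)⁻¹ * (u * s * u⁻¹)⁻¹⁻¹ *
        (t⁻¹ * s * t⁻¹⁻¹ * s⁻¹ * (u * s * u⁻¹)⁻¹) * (u * s * u⁻¹ *
          ((s⁻¹ * (u * s * u⁻¹))⁻¹ * (t⁻¹ * (u * t * u⁻¹)))) =
        t⁻¹ * s * (u * s * u⁻¹)⁻¹ * (t⁻¹ * s)⁻¹ * (u * s * u⁻¹)⁻¹⁻¹ *
        (t⁻¹ * s * t⁻¹⁻¹ * s⁻¹) * ((s⁻¹ * (u * s * u⁻¹))⁻¹ * (t⁻¹ * (u * t * u⁻¹))) := by group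
    rw [e2]
    exact mul_mem (mul_mem h3 h5) h2
  obtain ⟨a, ha⟩ := (Finite.injective_iff_surjective.1 hf) ((⟨y, hy⟩ : Q) : Q ⧸ _)
  have := QuotientGroup.eq.1 ha
  rw [mem_subgroupOf] at this
  exact ⟨a.out, a.out.2, _, this, by simp only [coe_mul, coe_inv]; group⟩

theorem inertia_lin (hθ : Lin Q θ) (h1 : θ ≠ triv Q) : inertia P θ = ⊥ := by
  rw [eq_bot_iff]
  intro u hu
  by_contra hu1
  apply h1
  have hC : ∀ c ∈ Q ⊓ C(P), θ c = 1 := by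
    intro c hc
    let ψ : Q →* ℂ :=
      { toFun := fun x => ∏ v ∈ fin (P : Set Γ), θ (v * x * v⁻¹)
        map_one' := by simp [hθ.one]
        map_mul' := fun x y => by
          rw [← Finset.prod_mul_distrib]
          refine Finset.prod_congr rfl fun v hv => ?_
          have hv' := h.nrm (mem_fin.1 hv)
          rw [← hθ.map_mul (conj_mem_of_norm hv' x.2) (conj_mem_of_norm hv' y.2)]
          congr 1; simp only [coe_mul]; group }
    have hk : Q ≤ ψ.ker.map Q.subtype := by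
      conv_lhs => rw [← h.comm]
      rw [commutator_le]
      intro a ha w hw
      have hwa : w * a⁻¹ * w⁻¹ ∈ Q := conj_mem_of_norm (h.nrm hw) (Q.inv_mem ha)
      refine ⟨⟨a, ha⟩ * ⟨_, hwa⟩, ?_, by simp [commutatorElement_def, mul_assoc]⟩
      have e : ψ ⟨_, hwa⟩ = ψ ⟨a, ha⟩⁻¹ := by
        have := sum_sub_mul_right (M := Additive ℂ) hw
          (fun v => Additive.ofMul (θ (v * a⁻¹ * v⁻¹)))
        rw [← ofMul_prod, ← ofMul_prod] at this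
        have := Additive.ofMul.injective this
        change ∏ v ∈ fin (P : Set Γ), θ (v * (w * a⁻¹ * w⁻¹) * v⁻¹) =
          ∏ v ∈ fin (P : Set Γ), θ (v * a⁻¹ * v⁻¹)
        rw [← this]
        refine Finset.prod_congr rfl fun v _ => ?_
        congr 1; group
      change ψ _ = 1
      rw [map_mul, e, ← map_mul, mul_inv_cancel, map_one]
    obtain ⟨c', hc', rfl⟩ := hk hc.1
    have h2 : θ c' ^ #P = 1 := by
      have : ψ c' = 1 := hc'
      rw [← this, ← card_fin_sub, ← Finset.prod_const]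
      refine Finset.prod_congr rfl fun v hv => ?_
      have e : v * (c' : Γ) = c' * v := mem_cent.1 hc.2 v (mem_fin.1 hv)
      rw [e]; simp
    have h3 : θ c' ^ #Q = 1 := by
      rw [← hθ.map_pow c'.2, ← coe_pow, pow_card_eq_one', coe_one, hθ.one]
    have := Nat.dvd_gcd (orderOf_dvd_of_pow_eq_one h3) (orderOf_dvd_of_pow_eq_one h2)
    rw [h.cop.gcd_eq_one, Nat.dvd_one] at this
    exact orderOf_eq_one_iff.1 this
  refine CF_ext (chr_cf hθ.chr) (triv_mem_CF Q) fun y hy => ?_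
  obtain ⟨x, hx, c, hc, rfl⟩ := h.surj hF hu.1 hu1 hy
  have hux := conj_mem_of_norm (h.nrm hu.1) hx
  rw [triv_of_mem hy, hθ.map_mul (Q.mul_mem (Q.inv_mem hx) hux) hc.1, hC c hc, mul_one,
    hθ.map_mul (Q.inv_mem hx) hux]
  have : θ (u * x * u⁻¹) = θ x := congrFun hu.2 x
  rw [this, mul_comm, hθ.mul_inv hx]

omit hF in
theorem relIndex_le (hθ : θ ∈ Irr Q) (h1 : ¬ Lin Q θ) : (Q ⊓ C(P)).relIndex Q ≤ deg θ ^ 2 := by
  have hn := norm_cker (irr_cinv hθ)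
  let R : Subgroup Γ :=
    { carrier := {x | x ∈ Q ∧ ∀ y ∈ Q, x * y * x⁻¹ * y⁻¹ ∈ cker θ}
      one_mem' := ⟨Q.one_mem, fun y _ => by simp⟩
      mul_mem' := fun {a b} ha hb => ⟨Q.mul_mem ha.1 hb.1, fun y hy => by
        have := mul_mem (conj_mem_of_norm (hn ha.1) (hb.2 y hy)) (ha.2 y hy)
        convert this using 1; group⟩
      inv_mem' := fun {a} ha => ⟨Q.inv_mem ha.1, fun y hy => by
        have := conj_mem_of_norm' (hn ha.1) (inv_mem (ha.2 y hy))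
        convert this using 1; group⟩ }
  have hRn : P ≤ N(R) := fun u hu => mem_norm_of_cj_le (by
    rintro _ ⟨x, hx, rfl⟩
    refine ⟨conj_mem_of_norm (h.nrm hu) hx.1, fun y hy => ?_⟩
    have hy' := conj_mem_of_norm' (h.nrm hu) hy
    have h2 := mem_cent.1 (h.der (commutator_mem_commutator hx.1 hy')).2 u hu
    have h3 := hx.2 _ hy'
    rw [commutatorElement_def] at h2
    have e : (MulAut.conj u) x * y * ((MulAut.conj u) x)⁻¹ * y⁻¹ =
        u * (x * (u⁻¹ * y * u) * x⁻¹ * (u⁻¹ * y * u)⁻¹) * u⁻¹ := by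
      simp only [MulAut.conj_apply]; group
    change (MulAut.conj u) x * y * ((MulAut.conj u) x)⁻¹ * y⁻¹ ∈ _
    rw [e, h2]; simpa using h3)
  have hlt : R < Q := lt_of_le_of_ne (fun _ hx => hx.1) fun e => h1 ((irr_lin_iff hθ).2 (by
    rw [commutator_le]
    intro a ha b hb
    rw [← e] at ha
    exact ha.2 b hb))
  have hRC := le_centralizer_iff.1 (h.min R hlt hRn)
  have h0 : ∀ x ∈ Q, x ∉ Q ⊓ C(P) → ‖θ x‖ ^ 2 = 0 := by
    intro x hx hxc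
    obtain ⟨y, hy, hz⟩ : ∃ y ∈ Q, x * y * x⁻¹ * y⁻¹ ∉ cker θ := by
      by_contra e
      push Not at e
      exact hxc ⟨hx, hRC ⟨hx, e⟩⟩
    have hzC := h.der (commutator_mem_commutator hx hy)
    rw [commutatorElement_def] at hzC
    have h2 := irr_central hθ hzC.1 (fun c hc => by
      rw [mem_cent.1 (h.central hzC) c hc]; simp) (y * x * y⁻¹)
    rw [show x * y * x⁻¹ * y⁻¹ * (y * x * y⁻¹) = x by group, (irr_cinv hθ).conj hy] at h2
    by_contra e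
    have e' : θ x ≠ 0 := fun e0 => e (by simp [e0])
    apply hz
    rw [chr_mem_cker (irr_chr hθ) hzC.1]
    have h3 := irr_one_ne hθ
    field_simp at h2
    exact h2.symm
  have h2 := irr_nrm hθ
  rw [nrm_eq, ← sum_sub_of_le inf_le_left _ h0] at h2
  have h3 : ∑ x ∈ fin ((Q ⊓ C(P) : Subgroup Γ) : Set Γ), ‖θ x‖ ^ 2 ≤
      ∑ _x ∈ fin ((Q ⊓ C(P) : Subgroup Γ) : Set Γ), (deg θ : ℝ) ^ 2 :=
    Finset.sum_le_sum fun x _ => pow_le_pow_left₀ (norm_nonneg _) (chr_norm_le (irr_chr hθ) x) 2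
  rw [sum_sub_const, nsmul_eq_mul] at h3
  have h4 := cardR_mul_relIndex (inf_le_left : Q ⊓ C(P) ≤ Q)
  have h5 := cardR_pos Q
  have h6 := cardR_pos (Q ⊓ C(P))
  have h7 : (#Q : ℝ) ≤ #(Q ⊓ C(P)) * (deg θ : ℝ) ^ 2 := by
    field_simp at h2; linarith
  rw [← h4] at h7
  exact_mod_cast le_of_mul_le_mul_left h7 h6

theorem deg_bound (hχ : χ ∈ Chr (Q ⊔ P)) (hk : ¬ Q ≤ cker χ) : #P < deg χ ^ 2 := by
  have hQ : Q ⊴ Q ⊔ P := ⟨le_sup_left, sup_le le_normalizer h.nrm⟩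
  obtain ⟨ψ, hψ, h1, h2⟩ : ∃ ψ ∈ Irr (Q ⊔ P), dot (Q ⊔ P) χ ψ ≠ 0 ∧ ¬ Q ≤ cker ψ := by
    by_contra e
    push Not at e
    apply hk
    rw [eq_sum_irr (chr_cf hχ)]
    refine le_cker_sum fun ψ hψ => ?_
    by_cases h0 : dot (Q ⊔ P) χ ψ = 0
    · rw [h0, zero_smul]; intro x _ y; rfl
    · exact (e ψ hψ h0).trans (cker_le_smul _ _)
  obtain ⟨θ, hθ, h3⟩ := irr_exists_below hψ hQ.le
  have h4 : θ ≠ triv Q := fun e => h3 (by rw [e]; exact irr_dot_triv_normal hψ hQ h2)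
  have h5 := (Nat.le_of_dvd (irr_deg_pos hψ) (clifford_dvd hQ hψ hθ h3)).trans
    (deg_le_of_dot hχ hψ h1)
  have hP : 1 < #P := ne_bot_iff_one_lt_card.1 fun e => h.nc (by rw [e]; exact bot_le)
  by_cases hl : Lin Q θ
  · have h6 : #P ≤ (inertia (Q ⊔ P) θ).relIndex (Q ⊔ P) := by
      refine le_trans ?_ (relIndex_le_of_le_right (le_sup_right : P ≤ Q ⊔ P)
        (Subgroup.FiniteIndex.index_ne_zero))
      rw [← inf_relIndex_right, ← inertia_of_le le_sup_right, h.inertia_lin hF hl h4,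
        relIndex_bot_left]
    rw [hl.deg, mul_one] at h5
    nlinarith
  · have h6 := (h.lt_relIndex hF).trans_le (h.relIndex_le hθ hl)
    have h7 : 0 < (inertia (Q ⊔ P) θ).relIndex (Q ⊔ P) :=
      Nat.pos_of_ne_zero Subgroup.FiniteIndex.index_ne_zero
    have h8 : deg θ ≤ deg χ := le_trans (Nat.le_mul_of_pos_left _ h7) h5
    exact h6.trans_le (Nat.pow_le_pow_left h8 2)

end MinNC

end H8
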