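/-
Unbalancing triples: models of the twisted exceptional groups.
-/
import Cfsg.Agent.H27.UA0

set_option autoImplicit false
set_option linter.unusedSectionVars false
set_option maxRecDepth 100000

namespace H8.UA

open Matrix H14 H14.RootSys H14.St H14.PreSt H14.St.Tw H11 Function H27.ID H27.BL Cfsg H11.AS H27.LB H22.KG Cfsg.Lie H14.Good
open H27.UA

theorem strong {Γ : Type*} [Group Γ] [Finite Γ] {l : ℕ} [hl : Fact l.Prime] {β : MulAut Γ} {s : Γ} (h : Cr l β s) :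
    ∃ N : Subgroup Γ, s ∈ N ∧ (∀ x ∈ N, β x = x ∧ ∃ m, ¬ l ∣ m ∧ x ^ m = 1) ∧
      ∀ γ : MulAut Γ, (∀ y, β (γ y) = γ (β y)) → ∀ x ∈ N, γ x ∈ N := by
  obtain ⟨N, a1, a2, a3⟩ := h
  refine ⟨(pPrimeCore l (H22.Fx β)).map (H22.Fx β).subtype, ⟨⟨s, (a2 s a1).1⟩, H1.le_pPrimeCore (N := N.subgroupOf _)
    ⟨fun x hx g => a3 g g.2 x hx⟩ (cop_of fun x hx => (a2 x hx).2.imp fun m c => ⟨c.1, Subtype.ext c.2⟩) a1, rfl⟩,
    fun x hx => ⟨Subgroup.map_subtype_le _ hx, _, hl.1.coprime_iff_not_dvd.1 (H1.pPrimeCoreOf_coprime (H22.Fx β)).symm,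
      congrArg Subtype.val (pow_card_eq_one' (x := (⟨x, hx⟩ : (pPrimeCore l (H22.Fx β)).map (H22.Fx β).subtype)))⟩,
    fun γ c x hx => ?_⟩
  have e : (H22.Fx β).map γ.toMonoidHom = H22.Fx β := Subgroup.ext fun y => ⟨by
    rintro ⟨y, hy, rfl⟩; exact (c y).trans (congrArg γ hy), fun hy => ⟨γ.symm y, γ.injective ((c _).symm.trans (by
      simpa using (show β y = y from hy))), by simp⟩⟩
  have := H1.map_pPrimeCoreOf_of_injective (p := l) (f := γ.toMonoidHom) γ.injective (H22.Fx β)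
  rw [e] at this
  exact this.le ⟨x, hx, rfl⟩

section Gen
variable {ι κ : Type*} [Fintype κ] [DecidableEq κ] [Fintype ι] [DecidableEq ι] {R : RootSys ι κ}
  {C : Chev R} {K G Γ : Type*} [Field K] [Group G] [Group Γ] {S : St C K G} {Φ : S.Fr} {p l : ℕ} [IsAlgClosed K]
  [hp : Fact p.Prime] [CharP K p] [hl : Fact l.Prime] {e : Γ →* G}
  {T : S.Tw} {c : ι → ℤ} {ex : ι → ℕ} (hT : ∀ s t, T.f s t = c s * t ^ p ^ ex s)
include hT

theorem gr_tw' [Finite Γ] {F0 G0 : Type*} [Field F0] [Fintype F0] [CharP F0 p] [Group G0] [Finite G0] {S0 : St C F0 G0} {μ : G0 →* G} {γ : F0 →+* K} {f : ℕ}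
    (Y : Sys S0 S p μ γ f) (h1 : ∀ g, T.σ^[l] g = g) (hπ : T.π ≠ 1) {T0 : S0.Tw} (h2 : ∀ x, μ (T0.σ x) = T.σ (μ x))
    (h3 : Sw Φ Set.univ p) (h4 : Φ.σ = En T ^ 1 * En (Y.alg.tw 1) ^ f) (he : Em p Φ e) (h5 : ∀ u ∈ Φ.fix, ∀ a ∈ e.range, u * a * u⁻¹ ∈ e.range)
    (h6 : ∀ δ : MulAut G0, orderOf δ = l → (∀ x c, δ ≠ MulAut.conj x * Y.ad.df c 1) → H22.LB l δ) (β : MulAut Γ)
    (a : G) (k : ℕ) (a2 : β ^ l = 1) (a3 : ¬ l ∣ k) (a4 : In β e a (Y.alg.tw (f * k)).σ) (s : Γ) (a5 : Cr l β s) : s = 1 := by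
  have b0 := (En_comm Y.alg hT).pow_right f
  rw [pow_one, ← En_tw] at h4
  rw [← En_tw] at b0
  have b1 : ∀ g, Φ.σ g = T.σ ((Y.alg.tw f).σ g) := fun g => by rw [h4]; rfl
  have b2 : ∀ g, Φ.σ ((Y.alg.tw f).σ g) = (Y.alg.tw f).σ (Φ.σ g) := fun g => by
    rw [b1, b1]; exact DFunLike.congr_fun b0.eq _
  have b3 : ∀ g, Φ.σ^[l] g = (Y.alg.tw f).σ^[l] g := fun g => by
    rw [h4, En_pow]
    refine (congrFun (Monoid.End.coe_pow _ _ l) g).symm.trans (congrArg (fun x : Monoid.End G => x g) ?_)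
    rw [b0.mul_pow, show En T ^ l = 1 from MonoidHom.ext fun g => (En_pow ..).symm.trans (h1 g), one_mul]
  obtain ⟨β, x, c0, c4, c5⟩ := h3.lang Y.ad'.center he (Y.alg.fr Y.pos)
    (fun y => (b3 _).symm.trans (iterate_fixed (he.fix y) l)) a2 a3 (a := a) (fun y => by rw [a4, Alg.tw_mul]; rfl) a5
  obtain ⟨N, c1, c2, c3⟩ := strong c0
  replace c4 : ∀ y, x⁻¹ * e (β y) * x = (Y.alg.tw f).σ (x⁻¹ * e y * x) := c4
  replace c5 : (Y.alg.tw f).σ^[l] x = x := c5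
  have d0 : ∀ y, Φ.σ (e y) = e y := he.fix
  have d1 : Φ.σ ((Y.alg.tw f).σ x * x⁻¹) = (Y.alg.tw f).σ x * x⁻¹ := h3.eq_of Y.ad'.center he fun y => by
    obtain ⟨y, rfl⟩ := β.surjective y
    have d : (Y.alg.tw f).σ x * x⁻¹ * e (β y) * ((Y.alg.tw f).σ x * x⁻¹)⁻¹ = (Y.alg.tw f).σ (e y) := by
      rw [show ∀ a b : G, a * x⁻¹ * b * (a * x⁻¹)⁻¹ = a * (x⁻¹ * b * x) * a⁻¹ from fun _ _ => by group, c4]; simp [mul_assoc]
    rw [← d0 (β y), ← map_inv, ← map_mul, ← map_mul, d0, d, b2, d0]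
  have d2 : x⁻¹ * Φ.σ x ∈ (Y.alg.tw f).fix := by
    rw [map_mul, map_inv, mul_inv_eq_iff_eq_mul] at d1
    rw [Tw.mem_fix, map_mul, map_inv, ← b2, d1]; group
  obtain ⟨α, d3⟩ := exists_aut Y.inj (Y.conj_mem d2)
  let δ : MulAut G0 := α * MulEquiv.ofBijective T0.σ (Finite.injective_iff_bijective.1 fun a b c => Y.inj (by
    have := congrArg (fun z => T.σ^[l - 1] (μ z)) c
    simpa only [h2, ← iterate_succ_apply, Nat.succ_eq_add_one, Nat.sub_add_cancel hl.1.pos, h1] using this))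
  have d4 : ∀ g, μ (δ g) = x⁻¹ * Φ.σ x * T.σ (μ g) * (x⁻¹ * Φ.σ x)⁻¹ := fun g => (d3 _).trans (by rw [← h2]; rfl)
  have d5 : ∀ g, μ (δ g) = x⁻¹ * Φ.σ (x * μ g * x⁻¹) * x := fun g => by simp [d4, b1 (μ g), Y.fix, mul_assoc]
  have d6 : ∀ n g, μ ((δ ^ n) g) = x⁻¹ * Φ.σ^[n] (x * μ g * x⁻¹) * x := fun n g => by
    induction n with
    | zero => simp [mul_assoc]
    | succ n ih => rw [pow_succ', MulAut.mul_apply, d5, ih, iterate_succ_apply']; simp [mul_assoc]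
  have d7 : ∀ y d, δ ≠ MulAut.conj y * Y.ad.df d 1 := fun y d c => by
    obtain ⟨g, hg⟩ := Y.lift_dec y d (φ := 1) (m := f) fun t => (Y.pow_f t).symm
    refine hπ (Y.lift_π (g := g⁻¹ * (x⁻¹ * Φ.σ x)) fun z => ?_)
    have := hg z
    rw [Y.ad.df_one, mul_one, ← c, d4, Y.fix] at this
    rw [_root_.mul_inv_rev, mul_assoc g⁻¹, mul_assoc g⁻¹, ← mul_assoc (_ * T.σ _), this]; simp [mul_assoc]
  let M : Subgroup (MulAut G0) :=
    { carrier := {θ | ∃ n ∈ N, ∀ g, μ (θ g) = x⁻¹ * e n * x * μ g * (x⁻¹ * e n * x)⁻¹}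
      one_mem' := ⟨1, one_mem _, by simp⟩
      mul_mem' := fun ⟨n, a, b⟩ ⟨n', a', b'⟩ => ⟨_, mul_mem a a', fun g => by simp [b, b', mul_assoc]⟩
      inv_mem' := fun {θ} ⟨n, a, b⟩ => ⟨_, inv_mem a, fun g => by
        obtain ⟨g, rfl⟩ := θ.surjective g
        simp [b, mul_assoc]⟩ }
  have d8 := h6 δ (orderOf_eq_prime (MulEquiv.ext fun g => Y.inj (by
      simp [d6, b3, c5, iterate_fixed (Y.fix g) l, mul_assoc])) (by simpa [Y.ad.df_one] using d7 1 1)) d7 M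
    (fun θ ⟨n, a, b⟩ => MulEquiv.ext fun g => Y.inj (by simp [b, d5, d0, mul_assoc])) (fun k hk θ ⟨n, a, b⟩ => by
      obtain ⟨u, hu⟩ := exists_aut he.inj (h5 (x * μ k * x⁻¹) (by
        rw [Fr.mem_fix, ← mul_left_inj x, ← mul_right_inj x⁻¹, ← mul_assoc, ← d5, hk]; group))
      have r : ∀ y, x⁻¹ * e (u y) * x = μ k * (x⁻¹ * e y * x) * (μ k)⁻¹ := fun y => by rw [hu]; group
      exact ⟨_, c3 u (fun y => he.inj (mul_left_cancel (mul_right_cancel ((c4 (u y)).trans (by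
        rw [r, map_mul, map_mul, map_inv, Y.fix, ← c4, ← r]))))) n a, fun g => by
        rw [r]; simp [b, mul_assoc]⟩) (cop_of fun θ ⟨n, a, b⟩ => (c2 n a).2.imp fun m c => ⟨c.1, MulEquiv.ext fun g => Y.inj (by
          have : ∀ m, μ ((θ ^ m) g) = x⁻¹ * e (n ^ m) * x * μ g * (x⁻¹ * e (n ^ m) * x)⁻¹ := fun m => by
            induction m with
            | zero => simp
            | succ m ih => simp [pow_succ', b, ih, mul_assoc]
          simp [this, c.2])⟩)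
  obtain ⟨θ, d9⟩ := exists_aut Y.inj (Y.conj_mem (u := x⁻¹ * e s * x) ((c4 s).symm.trans (by rw [(c2 s c1).1]; rfl)))
  obtain rfl : θ = 1 := d8.le ⟨s, c1, d9⟩
  have := Y.ad'.center.le (mem_center_of_commute Y.alg.sep Y.alg.top Y.alg.hmul (g := x⁻¹ * e s * x) fun r => by
    rw [Y.x_one]; exact mul_inv_eq_iff_eq_mul.1 (d9 _).symm)
  simpa [mul_assoc, inv_mul_eq_one, he.inj.eq_iff' (map_one e)] using this

end Gen

section Gen2
variable {ι κ : Type} [Fintype κ] [DecidableEq κ] [Fintype ι] [DecidableEq ι] {R : RootSys ι κ}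
  {C : Chev R} {K G Γ : Type} [Field K] [Group G] [Group Γ] {S : St C K G} {Φ : S.Fr} {p : ℕ} [IsAlgClosed K]
  [hp : Fact p.Prime] [CharP K p] {e : Γ →* G}

theorem mo (h : Sw Φ Set.univ p) (hR : R.Conn) (hZ : Subgroup.center G = ⊥) (he : Em p Φ e) : Mo Φ p e (MonoidHom.id Γ) :=
  ⟨h, hR, he, surjective_id, ((MonoidHom.ker_eq_bot_iff (MonoidHom.id Γ)).2 injective_id).trans (eq_bot_iff.2 fun z hz => he.inj ((hZ.le
    (h.mem_center fun u hu => by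
      obtain ⟨y, rfl⟩ := h.le_of_pel (fun u hu => he.mem u (L_le_fix hu)) hu
      exact (show Commute z y from (Subgroup.mem_center_iff.1 hz y).symm).map e)).trans (map_one e).symm)).symm⟩

theorem iq {β : MulAut Γ} {a : G} {σ : G → G} (h : In β e a σ) : Iq (MonoidHom.id Γ) e β a σ := fun y => ⟨β y, rfl, h y⟩

theorem fld2 (f2 : F2) (A : S.Alg p) {T : S.Tw} {c : ι → ℤ} {ex : ι → ℕ} (hT : ∀ s t, T.f s t = c s * t ^ p ^ ex s)
    (hC : COk C.toPreChev) (hZ : Subgroup.center G = ⊥) (hp2 : p ≠ 2) {f : ℕ} (h1 : ∀ g, T.σ^[3] g = (A.tw 0).σ g)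
    (h2 : 0 + 3 * f ≠ 0) (h3 : Sw Φ Set.univ p) (h4 : Φ.σ = En T ^ 1 * En (A.tw 1) ^ f) (he : Em p Φ e) (n : ℕ) (β : MulAut Γ)
    (a : G) (k : ℕ) (a1 : 0 + 3 * f = 2 * n) (a2 : β ^ 2 = 1) (a3 : ¬ 2 ∣ k) (a4 : In β e a (A.tw (n * k)).σ) (s : Γ)
    (a5 : Cr 2 β s) : s = 1 := by
  obtain ⟨f0, rfl⟩ : ∃ f0, f = f0 * 2 := ⟨f / 2, by omega⟩
  obtain rfl : n = 0 * 2 + 3 * f0 := by omega
  obtain ⟨F, c1, c2, c3, -⟩ := exists_pw A hT hC three_ne_zero h1 2 f0 (by omega)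
  refine f2 _ _ R C K G Γ S p Φ F e β a (3 * k) hp2 h3 c1 hZ he (fun g => ?_) a2 (by omega)
    (fun y => by rw [a4, A.tw_mul, iterate_mul, funext c3]) s a5
  rw [c2, h4]
  refine (congrFun (Monoid.End.coe_pow _ _ 2) g).symm.trans (congrArg (fun x : Monoid.End G => x g) ?_)
  rw [((En_comm A hT).pow_pow 2 f0).mul_pow, ← pow_mul, ← pow_mul, show 2 * 2 = 1 + 3 from rfl, pow_add,
    show En T ^ 3 = En (A.tw 0) from MonoidHom.ext fun g => (En_pow ..).symm.trans (h1 g), En_tw, pow_zero, mul_one]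

variable {F G0 : Type} [Field F] [Group G0] {S0 : St C F G0} [Fintype F] [CharP F p] {μ : G0 →* G} {γ : F →+* K} {N : ℕ}

theorem in_ld' [Finite Γ] [Finite G0] (Y : Sys S0 S p μ γ N) {T : S0.Tw} {e : Γ →* G0} {ψ : κ → F →* F} (h : LD T e ψ)
    (hall : ∀ θ ∈ S0.Stab e, ∃ c φ, h.Rs θ c φ) (θ : MulAut Γ) : ∃ a j, In θ (μ.comp e) a (Y.alg.tw j).σ := by
  obtain ⟨g, hg⟩ := h.emb.exists_stab h.ad.hmul θ
  obtain ⟨c, φ, a1⟩ := hall _ hg
  obtain ⟨j, hj⟩ := exists_frob (r := p) φ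
  obtain ⟨b, hb⟩ := Y.lift_dec (e g)⁻¹ c hj
  refine ⟨b, j, fun y => Eq.trans (congrArg μ ?_) (hb (e y))⟩
  rw [mul_assoc, Y.ad.df_mul, one_mul, show (c * fun j => _) = c by ext; simp, MulAut.mul_apply, ← a1]
  simp [mul_assoc]

end Gen2

variable {F : Type} [Field F] [Fintype F] {p : ℕ} [hp : Fact p.Prime] [CharP F p] {D : ChevalleyDatum} (X : Good D)
  {g : GrD} (hg : g.Ok D) (hf : g.Fits (AlgebraicClosure F))

theorem mod_tw (hk : ∀ s : Fin D.nroots, g.ex s = p ^ 0) {m f : ℕ} (hm : m ≠ 0)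
    (h1 : ∀ x, (gt X hg hf).σ^[m] x = ((alg_good (p := p) X).tw 0).σ x) (hF : Fintype.card F = p ^ (0 + m * f)) {φ : F →+* F}
    (hφ : ∀ t, φ t = t ^ p ^ f) {hs : Surjective φ} {hf0 : g.Fits F} {Γ : Type} [Group Γ] [Finite Γ] {e : Γ →* D.group F}
    {ψ : Fin D.rank → F →* F} (h : LD (X.tw hg hf0 φ hs) e ψ) (hall : ∀ θ ∈ (X.SG F).Stab e, ∃ c φ, h.Rs θ c φ)
    (hd : ∀ s, X.R.d s = 1) : M2 p Γ ∧ ((∀ Φ : (X.SG (AlgebraicClosure F)).Fr,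
      Sw Φ Set.univ p → Φ.σ = En (gt X hg hf) ^ 1 * En ((alg_good (p := p) X).tw 1) ^ f → Em p Φ ((X.mapG (algebraMap F _)).comp e) →
      (∀ u ∈ Φ.fix, ∀ a ∈ ((X.mapG (algebraMap F _)).comp e).range, u * a * u⁻¹ ∈ ((X.mapG (algebraMap F _)).comp e).range) →
      ∀ n β a k, 0 + m * f = 2 * n → β ^ 2 = 1 → ¬ 2 ∣ k → In β ((X.mapG (algebraMap F (AlgebraicClosure F))).comp e) a
        ((alg_good (p := p) X).tw (n * k)).σ → ∀ s, Cr 2 β s → s = 1) → M1 p Γ) := by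
  have Y := sys_good X (alg_good (F := F) X) (algebraMap F _) hF
  have a0 : ∀ s t, (gt X hg hf).f s t = g.gam s * t ^ p ^ (0 : Fin D.nroots → ℕ) s := fun s t => hk s ▸ rfl
  obtain ⟨Φ, b1, b2, b3, b4⟩ := exists_pw Y.alg a0 (cok_good X) hm h1 1 f ((mul_one 0).symm ▸ Y.pos.ne')
  rw [mul_one] at b3
  have a1 : ∀ x, Φ.σ (X.mapG (algebraMap F _) x) = X.mapG (algebraMap F _) ((X.tw hg hf0 φ hs).σ x) :=
    DFunLike.congr_fun (hom_ext (X.SG_top F) (α := Φ.σ.comp (X.mapG _)) (β := (X.mapG _).comp (X.tw hg hf0 φ hs).σ) fun s t => by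
      rw [b2, pow_one, ← En_tw]
      change (gt X hg hf).σ ((Y.alg.tw f).σ (X.mapG _ _)) = X.mapG _ ((X.tw hg hf0 φ hs).σ _)
      rw [Tw.σ_x _ s, X.mapG_x, X.mapG_x, Alg.tw_x, Tw.σ_x]
      refine congrArg _ ((a0 ..).trans ?_)
      change _ = algebraMap _ _ (φ _)
      rw [map_mul, map_intCast, map_mul, map_intCast, hφ, hk, map_pow, map_pow, pow_right_comm]; rfl)
  have he : Em p Φ ((X.mapG (algebraMap F _)).comp e) := em_of Y.alg Y.inj Y.ex (σ := (X.tw hg hf0 φ hs).σ) a1 hF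
    (fun s t => (b3 _).trans (Alg.tw_x ..)) h.emb.inj h.emb.mem fun g hg _ _ => h.emb.lift hg
  have M := mo b1 X.conn Y.ad'.center he
  haveI : Fact (Nat.Prime 2) := ⟨Nat.prime_two⟩
  refine ⟨⟨_, _, _, _, _, _, _, _, _, _, _, _, _, _, _, inferInstance, inferInstance, Φ, _, _, M, Y.ad.nt, .inr hd,
    ⟨f, fun s => ((b4 rfl).2 s).trans rfl⟩, fun β _ => have ⟨a, j, c⟩ := in_ld' Y h hall β
      ⟨a, _, j, un_tw Y.alg j, .inr hd, iq c⟩⟩, fun c => ⟨_, _, _, _, _, _, _, _, _, _, _, _, _, _, _, inferInstance,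
    inferInstance, Φ, _, _, M, fun β d1 d2 => (dich_of Y.alg (e := (X.mapG (algebraMap F _)).comp e) (fun y => Y.fix _) (in_ld Y h hall) (c Φ b1 b2 he ?_) β d1 d2).imp_left
      (.imp fun _ => iq)⟩⟩
  rintro u hu _ ⟨y, rfl⟩
  obtain ⟨z, hz⟩ := Y.conj_mem (u := u) ((b3 u).symm.trans (iterate_fixed hu m)) _ ⟨e y, rfl⟩
  obtain ⟨w, rfl⟩ := h.emb.lift (g := z) (Y.inj ((a1 z).symm.trans (hz ▸ mul_mem (mul_mem hu (he.fix y)) (inv_mem hu))))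
  exact ⟨w, hz⟩

theorem e6 (hp2 : p ≠ 2) {q : ℕ} (hq : IsPrimePow q) (hK : Fintype.card F = q ^ 2) :
    M2 p (twistedE6 F q) ∧ M1 p (twistedE6 F q) := by
  obtain ⟨φ, a1, hφ⟩ := E6.exists_hom hq hK
  have hT := (E6.isTw (h2 := a1) hφ).emb
  have a2 := allE6 hφ hT hq.one_lt (Nat.card_eq_fintype_card.trans hK)
  obtain ⟨f, rfl, hF⟩ := exists_pf (p := p) hK two_ne_zero
  have a3 := gt_pow (F := F) (p := p) goodE6 okgrE6 (GrD.fits_zero rfl rfl _) rfl (m := 2) (by decide +kernel)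
  refine (mod_tw goodE6 okgrE6 (GrD.fits_zero rfl rfl _) (fun _ => GrD.ex_eq_one rfl _) two_ne_zero a3 hF hφ _ a2
    chkE6.d.1).imp_right fun c => c fun Φ b1 b2 b3 b5 n β a k b4 => ?_
  obtain rfl : f = n := by omega
  have hf : 0 < f := Nat.pos_of_ne_zero (by rintro rfl; exact Fintype.one_lt_card.ne' hF)
  obtain ⟨γ, -⟩ := (alg_good (F := F) (p := p) goodE6).exists_fld hf
  have := Fintype.ofFinite (GaloisField p f)
  have Y := sys_good goodE6 (alg_good (F := F) goodE6) γ (Nat.card_eq_fintype_card.symm.trans (GaloisField.card p f hf.ne'))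
  haveI : Fact (Nat.Prime 2) := ⟨Nat.prime_two⟩
  refine gr_tw' (T := gt goodE6 okgrE6 (GrD.fits_zero rfl rfl _)) (c := fun s => grE6.gam s) (ex := 0) (fun s t => ?_) Y
    (fun g => (a3 g).trans (Alg.tw_mul _ 0 0 g)) ?_ (gt_map goodE6 okgrE6 (GrD.fits_zero rfl rfl _) _ γ) b1 b2 b3 b5
    (fun δ d1 d2 => (resE6 hp2.symm d1 d2).1 (H22.dvd_card_Fx d1 (H27.LB.dvd_card Y.ad (.inl rfl)))) β a k
  · exact (goodE6.tw_f' okgrE6 rfl rfl _ _ s t).trans (by simp)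
  · exact (by decide +kernel : okgrE6.pi ≠ 1)

theorem d4 {q : ℕ} (hq : IsPrimePow q) (hK : Fintype.card F = q ^ 3) :
    M2 p (twistedD4 F q) ∧ (F2 → p ≠ 2 → M1 p (twistedD4 F q)) := by
  obtain ⟨φ, a1, hφ⟩ := D4.exists_hom hq hK
  have hT := (D4.isTw (h3 := a1) hφ).emb
  have a2 := allD4 hφ hT hq.one_lt (Nat.card_eq_fintype_card.trans hK)
  obtain ⟨f, rfl, hF⟩ := exists_pf (p := p) hK three_ne_zero
  have a3 := gt_pow (F := F) (p := p) goodD4 okgrD4 (GrD.fits_zero rfl rfl _) rfl (m := 3) (by decide +kernel)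
  refine (mod_tw goodD4 okgrD4 (GrD.fits_zero rfl rfl _) (fun _ => GrD.ex_eq_one rfl _) three_ne_zero a3 hF hφ _ a2
    chkD4.d.1).imp_right fun c f2 hp2 => c fun Φ b1 b2 b3 _ => ?_
  refine fld2 f2 (alg_good goodD4) (T := gt goodD4 okgrD4 (GrD.fits_zero rfl rfl _)) (c := fun s => grD4.gam s) (ex := 0)
    (fun s t => ?_) (cok_good goodD4) (goodD4.center_eq_bot _) hp2 a3 (fun e => ?_) b1 b2 b3
  · exact (goodD4.tw_f' okgrD4 rfl rfl _ _ s t).trans (by simp)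
  · rw [e] at hF; exact Fintype.one_lt_card.ne' hF

theorem t1 (f2 : F2) : T1 := fun _ _ _ _ _ _ h _ hq => ⟨fun a => (e6 h hq a).2, fun a => (d4 hq a).2 f2 h⟩
theorem t2 : T2 := fun _ _ _ _ _ _ h _ hq => ⟨fun a => (e6 h hq a).1, fun a => (d4 hq a).1⟩

end H8.UA
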