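/-
S3101, chunks `LB` (local balance in `A8`, `A9`, `PSp4(3)`) and `FI` (the filters by the 2-part of the order).
-/
import Cfsg.Agent.H17.XI
import Cfsg.Agent.H1.Frattini
import Cfsg.Agent.H11.OmegaBridge
import Cfsg.Agent.S2119
import Cfsg.Agent.S0814
import Cfsg.Agent.S0480
import Cfsg.Agent.S0280
import Cfsg.Agent.S0245

set_option autoImplicit false
set_option linter.unusedSectionVars false

open Cfsg Subgroup H18 H17.GS
open H19 hiding eq_bot_mono
open H17.X Equiv Equiv.Perm
namespace H8.XO
universe u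

theorem oi {L : Type} [Group L] (h : Nat.card (MulAut L) = 2 * Nat.card L) : Oi.{u} L := by
  rintro Y _ _ N hN ⟨e⟩ hC ho
  have inj : Function.Injective (MulAut.conjNormal : Y →* MulAut N) := (injective_iff_map_eq_one _).2 fun y hy =>
    mem_bot.1 (hC.le (mem_cent.2 fun n hn => by
      have := congrArg (fun f : MulAut N => (f ⟨n, hn⟩ : Y)) hy
      exact (mul_inv_eq_iff_eq_mul.1 this).symm))
  have := card_dvd_of_injective _ inj
  rw [Nat.card_congr (MulAut.congr e).toEquiv, h, ← Nat.card_congr e.toEquiv, ← N.index_mul_card] at this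
  exact index_eq_one.1 ((Nat.coprime_self _).1 (ho.coprime_two_right.coprime_dvd_right
    (Nat.dvd_of_mul_dvd_mul_right Nat.card_pos this)))

section perm
variable {Ω : Type} [Fintype Ω] [DecidableEq Ω] {b x : Perm Ω} {i j u : Ω}

theorem fix_pow (ho : Odd (orderOf x)) (k : ℕ) (h : (x ^ 2 ^ k) u = u) : x u = u := by
  have : x ∈ zpowers (x ^ 2 ^ k) := mem_zpowers_pow_iff.2 (by
    rw [Nat.gcd_comm]; exact ho.coprime_two_right.pow_right k)
  exact (zpowers_le (H := MulAction.stabilizer (Perm Ω) u)).2 h this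

theorem cj_swap (x : Perm Ω) (a b c d : Ω) :
    x * (swap a b * swap c d) * x⁻¹ = swap (x a) (x b) * swap (x c) (x d) := by
  rw [swap_apply_apply, swap_apply_apply]; group

theorem swap_comm4 {a b c d : Ω} (h1 : a ≠ c) (h2 : a ≠ d) (h3 : b ≠ c) (h4 : b ≠ d) : Commute (swap a b) (swap c d) := by
  rw [Commute, SemiconjBy, mul_swap_eq_swap_mul, swap_apply_of_ne_of_ne h1.symm h3.symm,
    swap_apply_of_ne_of_ne h2.symm h4.symm]

theorem sw2 {a b c d : Ω} (h : Commute (swap a b) (swap c d)) : swap a b * swap c d * (swap a b * swap c d) = 1 := by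
  rw [← pow_two, h.mul_pow, pow_two, pow_two, swap_mul_self, swap_mul_self, one_mul]

theorem v4 {a b c d : Ω} (ab : a ≠ b) (ac : a ≠ c) (ad : a ≠ d) (bc : b ≠ c) (bd : b ≠ d) (cd : c ≠ d) :
    Commute (swap a b * swap c d) (swap b c * swap a d) := by
  refine mul_inv_eq_iff_eq_mul.1 ?_
  rw [cj_swap, (swap_comm4 ab.symm bd ac.symm cd).eq]
  simp [swap_apply_of_ne_of_ne, ab, ac, ad, bc, bd, cd, ac.symm, ad.symm, bc.symm, bd.symm]

theorem tau_b (hb : b * b = 1) (i : Ω) : Commute (swap i (b i)) b := by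
  rw [Commute, SemiconjBy, mul_swap_eq_swap_mul b, ← Perm.mul_apply, hb, swap_comm]; rfl

theorem tau_tau (hb : b * b = 1) (i j : Ω) : Commute (swap i (b i)) (swap j (b j)) := by
  have e : ∀ i, b (b i) = i := fun i => by rw [← Perm.mul_apply, hb]; rfl
  by_cases h1 : i = j
  · rw [h1]
  by_cases h2 : i = b j
  · rw [h2, e, swap_comm]
  exact swap_comm4 h1 h2 (fun k => h2 (by rw [← k, e])) fun k => h1 (b.injective k)

theorem fix_b {c d : Ω} (hc : b c = c) (hd : b d = d) : Commute (swap c d) b := by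
  rw [Commute, SemiconjBy, mul_swap_eq_swap_mul b, hc, hd]

theorem four_dvd (hb : b * b = 1) (hs : sign b = 1) : 4 ∣ b.support.card := by
  have := cycleType_of_pow_prime_eq_one (σ := b) (p := 2) (by rw [pow_two, hb])
  rw [sign_of_cycleType, neg_one_pow_eq_one_iff_even (by decide)] at hs
  rw [← sum_cycleType]
  rw [this] at hs ⊢
  simp only [Multiset.sum_replicate, Multiset.card_replicate, smul_eq_mul, Nat.even_iff] at hs ⊢
  omega

/-- the core of an involution centralizer in a small alternating group -/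
theorem core_perm (hn : 8 ≤ Fintype.card Ω) (hn' : Fintype.card Ω ≤ 9) (hb : b * b = 1) (h1 : b ≠ 1) (hs : sign b = 1)
    (ho : Odd (orderOf x)) (hx : Commute x b)
    (H : ∀ t : Perm Ω, sign t = 1 → Commute t b → t * t = 1 → Commute (x * t * x⁻¹) t → x * t * x⁻¹ = t) : x = 1 := by
  have e : ∀ i, b (b i) = i := fun i => by rw [← Perm.mul_apply, hb]; rfl
  have xb : ∀ i, x (b i) = b (x i) := fun i => by rw [← Perm.mul_apply, hx.eq]; rfl
  have h4 := four_dvd hb hs
  have h0 : 0 < b.support.card := by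
    rw [Finset.card_pos, Finset.nonempty_iff_ne_empty]; exact fun k => h1 (support_eq_empty_iff.1 k)
  have fx : ∀ i, b i ≠ i → x i = i := fun i hi => by
    obtain ⟨j, hj, k⟩ := Finset.exists_mem_notMem_of_card_lt_card (s := {i, b i}) (t := b.support)
      (Finset.card_le_two.trans_lt (by omega))
    simp only [Finset.mem_insert, Finset.mem_singleton, not_or] at k
    rw [mem_support] at hj
    have k3 : b j ≠ i := fun e' => k.2 (by rw [← e', e])
    have k4 : b j ≠ b i := fun e' => k.1 (b.injective e')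
    have := H (swap i (b i) * swap j (b j)) (by simp [sign_swap, hi.symm, hj.symm]) ((tau_b hb i).mul_left (tau_b hb j))
      (sw2 (tau_tau hb i j)) (by
        rw [cj_swap, xb, xb]
        exact ((tau_tau hb _ _).mul_right (tau_tau hb _ _)).mul_left ((tau_tau hb _ _).mul_right (tau_tau hb _ _)))
    have m : ∀ a, (swap i (b i) * swap j (b j)) a ≠ a → x a = i ∨ x a = b i ∨ x a = j ∨ x a = b j := fun a ha => by
      by_contra! hc
      refine ha (x.injective ?_)
      rw [← Perm.mul_apply, mul_inv_eq_iff_eq_mul.1 this, Perm.mul_apply, Perm.mul_apply,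
        swap_apply_of_ne_of_ne hc.2.2.1 hc.2.2.2, swap_apply_of_ne_of_ne hc.1 hc.2.1]
    have m1 := m i (by rw [Perm.mul_apply, swap_apply_of_ne_of_ne (Ne.symm k.1) k3.symm, swap_apply_left]; exact hi)
    have m2 := m j (by rw [Perm.mul_apply, swap_apply_left, swap_apply_of_ne_of_ne k3 k4]; exact hj)
    refine fix_pow ho 2 ?_
    change x (x (x (x i))) = i
    have inj := x.injective
    rcases m1 with m1 | m1 | m1 | m1 <;> rcases m2 with m2 | m2 | m2 | m2 <;> grind
  by_contra hx1
  obtain ⟨u, hu⟩ : ∃ u, x u ≠ u := by by_contra! hc; exact hx1 (Equiv.ext hc)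
  have nx : ∀ {u}, x u ≠ u → x (x u) ≠ x u := fun h k => h (x.injective k)
  have n2 : ∀ {u}, x u ≠ u → x (x u) ≠ u := fun h k => h (fix_pow ho 1 k)
  have bf : ∀ {u}, x u ≠ u → b u = u := fun h => by_contra fun k => h (fx _ k)
  by_cases h3 : x (x (x u)) = u
  · have sub : ∀ s : Finset Ω, (∀ a ∈ s, x a ≠ a) → s.card + b.support.card ≤ Fintype.card Ω := fun s hs => by
      rw [← Finset.card_union_of_disjoint (Finset.disjoint_left.2 fun a ha k => mem_support.1 k (bf (hs a ha)))]
      exact Finset.card_le_univ _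
    have c3 : ∀ {u}, x u ≠ u → ({u, x u, x (x u)} : Finset Ω).card = 3 := fun h =>
      Finset.card_eq_three.2 ⟨_, _, _, h.symm, (n2 h).symm, (nx h).symm, rfl⟩
    have m3 : ∀ {u}, x u ≠ u → ∀ a ∈ ({u, x u, x (x u)} : Finset Ω), x a ≠ a := fun h => by simp [h, nx h, nx (nx h)]
    have s1 := sub _ (m3 hu)
    rw [c3 hu] at s1
    obtain ⟨w, -, hw⟩ := Finset.exists_mem_notMem_of_card_lt_card (s := {u, x u, x (x u)} ∪ b.support) (t := .univ)
      ((Finset.card_union_le _ _).trans_lt (by rw [c3 hu, Finset.card_univ]; omega))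
    simp only [Finset.mem_union, Finset.mem_insert, Finset.mem_singleton, mem_support, not_or, not_not] at hw
    have xw : x w = w := by
      by_contra k
      have := sub ({u, x u, x (x u)} ∪ {w, x w, x (x w)}) fun a ha => (Finset.mem_union.1 ha).elim (m3 hu a) (m3 k a)
      rw [Finset.card_union_of_disjoint, c3 hu, c3 k] at this
      · omega
      · have inj := x.injective
        simp only [Finset.disjoint_insert_right, Finset.disjoint_singleton_right, Finset.mem_insert,
          Finset.mem_singleton, not_or]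
        grind
    have a1 := hu.symm
    have a2 := (n2 hu).symm
    have a3 := (nx hu).symm
    obtain ⟨⟨a4, a5, a6⟩, a7⟩ := hw
    have c := swap_comm4 a2 (Ne.symm a4) a3 (Ne.symm a5)
    have := H (swap u (x u) * swap (x (x u)) w) (by simp [sign_swap, a1, Ne.symm a6])
      ((fix_b (bf hu) (bf (nx hu))).mul_left (fix_b (bf (nx (nx hu))) a7))
      (sw2 c) (by
        rw [cj_swap, h3, xw]
        exact (v4 a1 a2 (Ne.symm a4) a3 (Ne.symm a5) (Ne.symm a6)).symm)
    have := congrArg (· u) this
    simp only [cj_swap, h3, xw, Perm.mul_apply, swap_apply_left, swap_apply_of_ne_of_ne a5 a6,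
      swap_apply_of_ne_of_ne a2 (Ne.symm a4)] at this
    exact a5 this
  · obtain ⟨i, hi⟩ := Finset.card_pos.1 h0
    rw [mem_support] at hi
    have inj := x.injective
    have f0 := bf hu
    have f1 := bf (nx hu)
    have f2 := bf (nx (nx hu))
    have f3 := bf (nx (nx (nx hu)))
    have c : ∀ {a a'}, b a = a → b a' = a' → Commute (swap a a') (swap i (b i)) := fun h h' =>
      swap_comm4 (by grind) (by grind) (by grind) (by grind)
    have := H (swap u (x (x u)) * swap i (b i)) (by simp [sign_swap, (n2 hu).symm, hi.symm])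
      ((fix_b f0 f2).mul_left (tau_b hb i))
      (sw2 (c f0 f2)) (by
        rw [cj_swap, xb, fx i hi]
        exact ((swap_comm4 hu (nx hu).symm h3 (nx (nx hu))).mul_right (c f1 f3)).mul_left
          ((c f0 f2).symm.mul_right (Commute.refl _)))
    rw [cj_swap, xb, fx i hi, mul_left_inj] at this
    have := congrArg (· u) this
    simp only [swap_apply_left, swap_apply_of_ne_of_ne hu.symm (Ne.symm h3)] at this
    exact n2 hu this.symm

theorem core_alt (hn : 8 ≤ Fintype.card Ω) (hn' : Fintype.card Ω ≤ 9) (b : alternatingGroup Ω) (hb : orderOf b = 2) :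
    O(C[b]) = ⊥ := eq_bot_iff.2 fun x hx => by
  have o := og_iff.1 (O_og C[b])
  refine Subtype.ext (core_perm hn hn' (congrArg Subtype.val (mul_self_of_ord2 hb))
    (fun e => ne_one_of_ord2 hb (Subtype.ext e)) b.2
    (by rw [orderOf_coe]; exact o.of_dvd_nat (orderOf_dvd_card' hx))
    (congrArg Subtype.val (mem_cent1.1 (Oc_le _ _ hx))) fun t hs hc ht k => ?_)
  have m : x * (⟨t, hs⟩ * x⁻¹ * (⟨t, hs⟩ : alternatingGroup Ω)⁻¹) ∈ O(C[b]) :=
    mul_mem hx (conj_mem_of_norm (Oc_norm _ _ (mem_cent1.2 (Subtype.ext hc))) (inv_mem hx))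
  have h1 := o.of_dvd_nat (orderOf_dvd_card' m)
  have ti : t⁻¹ = t := inv_eq_of_mul_eq_one_right ht
  have e : (x * (⟨t, hs⟩ * x⁻¹ * (⟨t, hs⟩ : alternatingGroup Ω)⁻¹) : alternatingGroup Ω).1 = x.1 * t * x.1⁻¹ * t := by
    simp [ti, mul_assoc]
  rw [← orderOf_coe, e] at h1
  have h2 : orderOf (x.1 * t * x.1⁻¹ * t) ∣ 2 := orderOf_dvd_of_pow_eq_one (by
    rw [k.mul_pow, conj_pow, pow_two, ht]; simp)
  exact (eq_inv_of_mul_eq_one_left (orderOf_eq_one_iff.1 ((Nat.coprime_self _).1
    (h1.coprime_two_right.coprime_dvd_right h2)))).trans ti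

theorem d16 {n : ℕ} (h : n ∣ 16) (k : n % 5 = 1) : n = 1 ∨ n = 16 := by
  have := Nat.le_of_dvd (by decide) h
  interval_cases n <;> omega

theorem no5 (hn : 8 ≤ Fintype.card Ω) (hn' : Fintype.card Ω ≤ 9) (A : Subgroup (alternatingGroup Ω))
    (x : alternatingGroup Ω) (hA : Abelem 2 A) (h16 : #A = 16) (hx : x ∈ N(A)) : orderOf x ≠ 5 := fun h5 => by
  haveI : Fact (Nat.Prime 5) := ⟨by decide⟩
  have h5' : orderOf x.1 = 5 := by rw [orderOf_coe, h5]
  have cy : x.1.IsCycle := isCycle_of_prime_order' (by rw [h5']; decide) (by omega)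
  have cs : x.1.support.card = 5 := cy.orderOf.symm.trans h5'
  have md : ∀ B : Subgroup (alternatingGroup Ω), x ∈ N(B) → #B ≡ #(B ⊓ C[x]) [MOD 5] := fun B h => by
    rw [← cent_zpowers]
    exact H1.card_modEq_card_inf_centralizer (IsPGroup.of_card (n := 1) (by rw [Nat.card_zpowers, h5, pow_one]))
      (zpowers_le.2 h)
  have dv : ∀ B ≤ A, #B % 5 = 1 → B = ⊥ ∨ B = A := fun B h k => by
    exact (d16 (h16 ▸ card_dvd h) k).imp card_eq_one.1 fun e => eq_of_le_of_card_eq h (e.trans h16.symm)
  have sm : ∀ s : Finset Ω, s.card ≤ 5 → ¬ ∀ a ∈ A, a.1.support ⊆ s := fun s hs h => by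
    have d := (card_dvd (fun a ha => (alternatingGroup.mem_range_ofSubtype_iff s a).2 (h a ha))).trans
      ((card_range_dvd _).trans (card_subgroup_dvd_card _))
    rw [h16, Nat.card_perm, Nat.card_eq_fintype_card, Fintype.card_coe] at d
    exact absurd (d.trans (Nat.factorial_dvd_factorial hs)) (by decide)
  rcases dv (A ⊓ C[x]) inf_le_left (by have := md A hx; rw [h16] at this; exact this.symm) with e | e
  · refine sm _ cs.le fun a ha u hu => by_contra fun k => ?_
    rw [notMem_support] at k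
    have n : x ∈ N(MulAction.stabilizer (alternatingGroup Ω) u) := le_normalizer k
    rcases dv (A ⊓ MulAction.stabilizer (alternatingGroup Ω) u) inf_le_left (by
      have := md _ (norms_inf (zpowers_le.2 hx) (zpowers_le.2 n) (mem_zpowers x))
      rwa [inf_right_comm, e, bot_inf_eq, card_bot] at this) with e | e
    · have := Nat.card_le_card_of_injective (fun a : A => a.1.1 u) fun a a' (k : a.1.1 u = a'.1.1 u) =>
        Subtype.ext (inv_mul_eq_one.1 (mem_bot.1 (e.le (mem_inf.2 ⟨mul_mem (inv_mem a.2) a'.2, by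
          change a.1.1⁻¹ (a'.1.1 u) = u
          rw [← k]; simp⟩))))
      rw [h16, Nat.card_eq_fintype_card] at this
      omega
    · exact mem_support.1 hu (e.ge ha).2
  · refine sm x.1.supportᶜ (by rw [Finset.card_compl]; omega) fun a ha u hu => Finset.mem_compl.2 fun k => ?_
    have c : Commute a.1 x.1 := congrArg Subtype.val (mem_cent1.1 (e.ge ha).2)
    rw [mem_support] at hu k
    obtain ⟨m, hm⟩ := cy.exists_pow_eq k (y := a.1 u) fun e => k (a.1.injective (by
      rw [← Perm.mul_apply, c.eq]; exact e))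
    refine hu (hm ▸ fix_pow (x := x.1 ^ m) (Odd.of_dvd_nat (by rw [h5']; decide) (orderOf_pow_dvd m)) 1 ?_)
    change (x.1 ^ m) ((x.1 ^ m) u) = u
    rw [hm, ← Perm.mul_apply, ← (c.pow_right m).eq, Perm.mul_apply, hm, ← Perm.mul_apply, ← Subgroup.coe_mul, sq_one hA ha]
    rfl
end perm

theorem lb : LB.{u} := ⟨fun n hn => ⟨oi (by
    haveI : Nontrivial (Fin n) := Fin.nontrivial_iff_two_le.2 (by omega)
    rw [two_mul_nat_card_alternatingGroup]
    exact (Nat.card_eq_of_bijective _ (Cfsg.Agent.S2119.result n (by omega) (by omega))).symm),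
  core_alt (by simp; omega) (by simp; omega), no5 (by simp; omega) (by simp; omega)⟩,
  fun F _ _ h => haveI : Fact (Nat.Prime 3) := ⟨Nat.prime_three⟩
    oi (by simpa using Cfsg.Agent.S0814.result 3 1 le_rfl h 2 le_rfl (by simp))⟩

theorem mat_comm {ι F : Type*} [Fintype ι] [Subsingleton ι] [Field F] (A B : Matrix ι ι F) : A * B = B * A := by
  ext i j
  rw [Matrix.mul_apply, Matrix.mul_apply, Fintype.sum_subsingleton _ i, Fintype.sum_subsingleton _ i,
    Subsingleton.elim j i, mul_comm]

theorem quo_comm {G H : Type*} [Group G] [Group H] (e : G ≃* H ⧸ center H) (h : ∀ a b : H, a * b = b * a) :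
    IsMulCommutative G := ⟨⟨fun a b => e.injective (by
  rw [map_mul, map_mul]
  induction e a using QuotientGroup.induction_on
  induction e b using QuotientGroup.induction_on
  rw [← QuotientGroup.mk_mul, h]; rfl)⟩⟩

theorem fi : FI.{u} := by
  intro G _ _ _ na h9 h10 h
  rcases h with ⟨D, hD⟩ | ⟨n, ⟨e⟩⟩
  · rcases Cfsg.Agent.S0480.result (by by_contra! hc; exact na ⟨⟨hc⟩⟩) hD with
      ⟨n, ⟨e⟩⟩ | ⟨F, _, _, n, hF, ⟨e⟩⟩ | ⟨m, ⟨e⟩⟩ | h | h
    · have := Cfsg.Agent.S0245.result (F := ZMod 2) (q := 2) (by simp) n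
      rw [← Nat.card_congr e.toEquiv] at this
      rw [this] at h9 h10
      have h4 : n < 4 := by
        by_contra hc
        exact h10 (Dvd.dvd.mul_right (pow_dvd_pow _ (by nlinarith)) _)
      have h3 : n = 3 := by interval_cases n <;> simp [Finset.prod_range_succ] at h9 ⊢
      subst h3
      haveI := e.symm.isSimpleGroup
      refine .inr (.inr (.inl ⟨ZMod 2, inferInstance, inferInstance, by simp, ⟨e.trans (H11.quotCenterEquivOfBot
        ((IsSimpleGroup.eq_bot_or_eq_top_of_normal _ inferInstance).resolve_right fun k => na ⟨⟨fun a b => e.injective ?_⟩⟩)).symm⟩⟩))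
      rw [map_mul, map_mul]
      exact mem_center_iff.1 (k.ge (mem_top _)) _
    · by_cases h2 : 2 ≤ n
      · have := Cfsg.Agent.S0280.result (q := 2) hF n h2
        rw [← Nat.card_congr e.toEquiv] at this
        by_cases h5 : 5 ≤ n
        · refine (h10 (Nat.Coprime.dvd_of_dvd_mul_left (by decide : Nat.Coprime (2 ^ 10) (2 + 1))
            (Nat.Coprime.dvd_of_dvd_mul_left ((by decide : Nat.Coprime (2 ^ 10) (2 + 1)).coprime_dvd_right
              (Nat.gcd_dvd_right n _)) (this ▸ Dvd.dvd.mul_right (pow_dvd_pow _ ?_) _)))).elim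
          exact (Nat.le_div_iff_mul_le two_pos).2 ((by decide : 10 * 2 ≤ 5 * 4).trans
            (Nat.mul_le_mul h5 (by omega : 4 ≤ n - 1)))
        · have := this ▸ (h9.mul_left _).mul_left _
          have h5 : n < 5 := by omega
          interval_cases n <;> exact absurd this (by decide)
      · haveI : Subsingleton (Fin n) := Fin.subsingleton_iff_le_one.2 (by omega)
        exact (na (quo_comm e fun a b => Subtype.ext (Subtype.ext (mat_comm _ _)))).elim
    · rcases m with _ | m
      · haveI : Subsingleton (Unit ⊕ Fin 0 ⊕ Fin 0) := ⟨by decide⟩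
        exact (na (quo_comm e fun a b => Subtype.ext (Subtype.ext (Units.ext (mat_comm _ _))))).elim
      have := H11.card_pomegaOdd (F := ZMod 3) (by decide) (m := m + 1) (by omega)
      rw [← Nat.card_congr e.toEquiv, ZMod.card] at this
      by_cases h3 : 3 ≤ m
      · refine (h10 (Nat.dvd_of_mul_dvd_mul_left two_pos (this ▸ Dvd.dvd.mul_left (Dvd.dvd.trans ?_
          (Finset.prod_dvd_prod_of_subset _ _ _ (Finset.range_subset_range.2 (by omega : 4 ≤ m + 1)))) _))).elim
        decide
      have := this ▸ Nat.mul_dvd_mul_left 2 h9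
      have h3 : m < 3 := by omega
      interval_cases m
      · exact absurd this (by decide)
      · exact absurd this (by decide)
      · exact .inr (.inr (.inr ⟨ZMod 3, inferInstance, inferInstance, by simp, ⟨e⟩⟩))
    · exact (h10 (by rw [h.2]; decide)).elim
    · exact (h10 (by rw [h.2]; decide)).elim
  · by_cases h2 : 2 ≤ n
    · haveI : Nontrivial (Fin n) := Fin.nontrivial_iff_two_le.2 h2
      have := two_mul_nat_card_alternatingGroup (α := Fin n)
      rw [← Nat.card_congr e.toEquiv, Nat.card_perm, Nat.card_eq_fintype_card (α := Fin n), Fintype.card_fin] at this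
      have h14 : n < 14 := by
        by_contra hc
        exact h10 (Nat.dvd_of_mul_dvd_mul_left two_pos (this ▸ Dvd.dvd.trans (by decide)
          (Nat.factorial_dvd_factorial (not_lt.1 hc))))
      have h12 : 12 ≤ n := by
        by_contra hc
        exact absurd ((this ▸ Nat.mul_dvd_mul_left 2 h9).trans (Nat.factorial_dvd_factorial (by omega : n ≤ 11)))
          (by decide)
      interval_cases n
      exacts [.inl ⟨e⟩, .inr (.inl ⟨e⟩)]
    · haveI : Subsingleton (Fin n) := Fin.subsingleton_iff_le_one.2 (by omega)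
      exact (na ⟨⟨fun a b => e.injective (Subtype.ext (Subsingleton.elim _ _))⟩⟩).elim

end H8.XO
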